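import Cfsg.Agent.Rq.UT

/-! Definitions for the rank 3 actions of symplectic groups (S2195). -/

set_option autoImplicit false
open MulAction Module

namespace CF.Rs
open CF.Rq (R3 Sp Tw Oc Cj Btr Gf R4 In Pw Fl)

variable {F V : Type*} [Field F] [AddCommGroup V] [Module F V]

/-- non-degenerate alternating space of dimension at least 6 in odd characteristic -/
structure Sy (B : V →ₗ[F] V →ₗ[F] F) : Prop where
  odd : (2 : F) ≠ 0
  alt : ∀ x, B x x = 0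
  nd : ∀ x, (∀ y, B x y = 0) → x = 0
  fd : FiniteDimensional F V
  dim : 6 ≤ finrank F V

/-- the good case: some square is not one, and `Γ` generates the field -/
structure Nd (Γ : Subgroup Fˣ) : Prop where
  ex : ∃ γ ∈ Γ, γ ^ 2 ≠ 1
  cl : ∀ A : AddSubgroup F, (∀ γ ∈ Γ, ∀ a ∈ A, (γ : F) * a ∈ A) → ∀ r, ∀ a ∈ A, r * a ∈ A

/-- the symplectic group -/
def SP (B : V →ₗ[F] V →ₗ[F] F) : Subgroup (V ≃ₗ[F] V) where
  carrier := {g | ∀ x y, B (g x) (g y) = B x y}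
  mul_mem' {a b} ha hb x y := by rw [LinearEquiv.mul_apply, LinearEquiv.mul_apply, ha, hb]
  one_mem' _ _ := rfl
  inv_mem' {a} ha x y := by rw [← ha]; simp

/-- the symplectic group as a type -/
abbrev GG (B : V →ₗ[F] V →ₗ[F] F) : Type _ := ↥(SP B)

/-- `v ↦ B y v • x` -/
def E (B : V →ₗ[F] V →ₗ[F] F) (x y : V) : V →ₗ[F] V := (B y).smulRight x

/-- `v ↦ B y v • x + B x v • y` -/
def Pm (B : V →ₗ[F] V →ₗ[F] F) (x y : V) : V →ₗ[F] V := E B x y + E B y x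

/-- `1 + a x² + b (x y) + d y² ∈ K` -/
def I2 (B : V →ₗ[F] V →ₗ[F] F) (K : Subgroup (V ≃ₗ[F] V)) (x y : V) (a b d : F) : Prop :=
  In K (a • E B x x + b • Pm B x y + d • E B y y)

/-- `K` contains all transvections with centre `x` -/
def Full (B : V →ₗ[F] V →ₗ[F] F) (K : Subgroup (V ≃ₗ[F] V)) (x : V) : Prop :=
  x ≠ 0 ∧ ∀ c : F, In K (c • E B x x)

/-- `K` contains a transvection -/
def Tv (B : V →ₗ[F] V →ₗ[F] F) (K : Subgroup (V ≃ₗ[F] V)) : Prop :=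
  ∃ (x : V) (c : F), x ≠ 0 ∧ c ≠ 0 ∧ In K (c • E B x x)

/-- all points are full, or there is an invariant subspace -/
def Fin2 (B : V →ₗ[F] V →ₗ[F] F) (K : Subgroup (V ≃ₗ[F] V)) : Prop :=
  (∀ x, x ≠ 0 → Full B K x) ∨
    ∃ Y : Submodule F V, Y ≠ ⊥ ∧ Y ≠ ⊤ ∧ ∀ k ∈ K, ∀ v ∈ Y, k v ∈ Y

/-- basis of a totally isotropic line -/
structure Ti2 (B : V →ₗ[F] V →ₗ[F] F) (x y : V) : Prop where
  xy : B x y = 0
  li : ∀ a b : F, a • x + b • y = 0 → a = 0 ∧ b = 0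

/-- basis of a totally isotropic plane -/
structure Ti3 (B : V →ₗ[F] V →ₗ[F] F) (x y z : V) : Prop where
  xy : B x y = 0
  xz : B x z = 0
  yz : B y z = 0
  li : ∀ a b c : F, a • x + b • y + c • z = 0 → a = 0 ∧ b = 0 ∧ c = 0

/-- every flag (point, line) has a frame with torus `Γ × Γ` induced by `K` -/
def FR (B : V →ₗ[F] V →ₗ[F] F) (K : Subgroup (V ≃ₗ[F] V)) (Γ : Subgroup Fˣ) : Prop :=
  ∀ x y, Ti2 B x y → ∃ a : F, ∀ α ∈ Γ, ∀ β ∈ Γ,
    ∃ g ∈ K, g x = (α : F) • x ∧ g (y + a • x) = (β : F) • (y + a • x)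

/-- the two lines are in one orbit -/
def Eql (K : Subgroup (V ≃ₗ[F] V)) (x y x' y' : V) : Prop :=
  ∃ k ∈ K, ∀ v, k v ∈ Submodule.span F {x', y'} ↔ v ∈ Submodule.span F {x, y}

/-- at most three orbits on totally isotropic lines -/
def ThreeL (B : V →ₗ[F] V →ₗ[F] F) (K : Subgroup (V ≃ₗ[F] V)) : Prop :=
  ∀ x y : Fin 4 → V, (∀ i, Ti2 B (x i) (y i)) → ∃ i j, i ≠ j ∧ Eql K (x i) (y i) (x j) (y j)

/-- every totally isotropic line carries an elation -/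
def HU (B : V →ₗ[F] V →ₗ[F] F) (K : Subgroup (V ≃ₗ[F] V)) : Prop :=
  ∀ x y, Ti2 B x y → ∃ a b c d : F, a * d - b * c ≠ 0 ∧ ∃ u ∈ K, ∃ t : F, t ≠ 0 ∧
    u (a • x + b • y) = a • x + b • y ∧ u (c • x + d • y) = c • x + d • y + t • (a • x + b • y)

/-- `K` contains the involution with `-1`-space the hyperbolic line spanned by `x, f` -/
def Rf (B : V →ₗ[F] V →ₗ[F] F) (K : Subgroup (V ≃ₗ[F] V)) (x f : V) : Prop :=
  B x f = 1 ∧ ∃ d ∈ K, ∀ v, d v = v - (2 * B v f) • x - (2 * B x v) • f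

/-- orthogonal complement -/
def Pp (B : V →ₗ[F] V →ₗ[F] F) (Y : Submodule F V) : Submodule F V where
  carrier := {v | ∀ y ∈ Y, B y v = 0}
  add_mem' {a b} ha hb y hy := by rw [map_add, ha y hy, hb y hy, add_zero]
  zero_mem' y _ := map_zero _
  smul_mem' c v hv y hy := by rw [map_smul, hv y hy, smul_zero]

/-- stabiliser of a subspace -/
def St (B : V →ₗ[F] V →ₗ[F] F) (Y : Submodule F V) : Subgroup (GG B) where
  carrier := {g | ∀ v, g.1 v ∈ Y ↔ v ∈ Y}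
  mul_mem' {a b} ha hb v := (ha (b.1 v)).trans (hb v)
  one_mem' _ := Iff.rfl
  inv_mem' {a} ha v := by
    rw [← ha]
    have : a.1 ((a⁻¹).1 v) = v := by
      rw [← LinearEquiv.mul_apply, ← Subgroup.coe_mul, mul_inv_cancel]; rfl
    rw [this]

/-- the point stabiliser as a group of linear maps -/
def Kw (B : V →ₗ[F] V →ₗ[F] F) {Ω : Type*} [MulAction (GG B) Ω] (ω : Ω) :
    Subgroup (V ≃ₗ[F] V) := (stabilizer (GG B) ω).map (SP B).subtype

/-- a symplectic basis `e 0, …, e (2k-1)` with antidiagonal Gram matrix -/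
structure Fb (B : V →ₗ[F] V →ₗ[F] F) (k : ℕ) (e : ℕ → V) : Prop where
  gram : ∀ i < 2 * k, ∀ j < 2 * k,
    B (e i) (e j) = if i + j + 1 = 2 * k then (if i < j then 1 else -1) else 0
  span : Submodule.span F (e '' Set.Iio (2 * k)) = ⊤
  dim : finrank F V = 2 * k

/-- the `i`-th coordinate -/
def co (B : V →ₗ[F] V →ₗ[F] F) (k : ℕ) (e : ℕ → V) (i : ℕ) : V →ₗ[F] F :=
  if i < k then -B (e (2 * k - 1 - i)) else B (e (2 * k - 1 - i))

/-- maps inducing the identity on all factors of the flag -/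
def Uu (B : V →ₗ[F] V →ₗ[F] F) (k : ℕ) (e : ℕ → V) : Subgroup (GG B) where
  carrier := {g | ∀ j < 2 * k, ∀ v ∈ Fl F e (j + 1),
    g.1 v - v ∈ Fl F e j ∧ g⁻¹.1 v - v ∈ Fl F e j}
  mul_mem' {a b} ha hb j hj v hv := by
    have mono : Fl F e j ≤ Fl F e (j + 1) := Rq.Fl.mono (Nat.le_succ j)
    constructor
    · have h1 := (hb j hj v hv).1
      have h2 : b.1 v ∈ Fl F e (j + 1) := by
        simpa using Submodule.add_mem _ (mono h1) hv
      have h3 := Submodule.add_mem _ (ha j hj _ h2).1 h1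
      simpa using h3
    · have h1 := (ha j hj v hv).2
      have h2 : a⁻¹.1 v ∈ Fl F e (j + 1) := by
        simpa using Submodule.add_mem _ (mono h1) hv
      have h3 := Submodule.add_mem _ (hb j hj _ h2).2 h1
      rw [mul_inv_rev]
      simpa using h3
  one_mem' j _ v _ := by simp
  inv_mem' {a} ha j hj v hv := by
    rw [inv_inv]; exact ⟨(ha j hj v hv).2, (ha j hj v hv).1⟩

/-- diagonal maps -/
def Tt (B : V →ₗ[F] V →ₗ[F] F) (k : ℕ) (e : ℕ → V) : Subgroup (GG B) where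
  carrier := {g | ∀ j < 2 * k, ∃ c : Fˣ, g.1 (e j) = (c : F) • e j}
  mul_mem' {a b} ha hb j hj := by
    obtain ⟨c, hc⟩ := ha j hj
    obtain ⟨d, hd⟩ := hb j hj
    exact ⟨d * c, by simp [hc, hd, smul_smul]⟩
  one_mem' j _ := ⟨1, by simp⟩
  inv_mem' {a} ha j hj := by
    obtain ⟨c, hc⟩ := ha j hj
    refine ⟨c⁻¹, a.1.injective ?_⟩
    rw [map_smul, hc, smul_smul, ← LinearEquiv.mul_apply, ← Subgroup.coe_mul, mul_inv_cancel]
    simp

/-- monomial maps -/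
def Nn (B : V →ₗ[F] V →ₗ[F] F) (k : ℕ) (e : ℕ → V) : Subgroup (GG B) where
  carrier := {g | ∀ j < 2 * k, (∃ i < 2 * k, ∃ c : Fˣ, g.1 (e j) = (c : F) • e i) ∧
    ∃ i < 2 * k, ∃ c : Fˣ, g⁻¹.1 (e j) = (c : F) • e i}
  mul_mem' {a b} ha hb j hj := by
    constructor
    · obtain ⟨i, hi, c, hc⟩ := (hb j hj).1
      obtain ⟨l, hl, d, hd⟩ := (ha i hi).1
      exact ⟨l, hl, c * d, by simp [hc, hd, smul_smul]⟩
    · obtain ⟨i, hi, c, hc⟩ := (ha j hj).2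
      obtain ⟨l, hl, d, hd⟩ := (hb i hi).2
      refine ⟨l, hl, c * d, ?_⟩
      rw [mul_inv_rev, Subgroup.coe_mul, LinearEquiv.mul_apply, hc, map_smul, hd, smul_smul]
      rfl
  one_mem' j hj := ⟨⟨j, hj, 1, by simp⟩, j, hj, 1, by simp⟩
  inv_mem' {a} ha j hj := by
    rw [inv_inv]; exact ⟨(ha j hj).2, (ha j hj).1⟩

/-- `t` is the diagonal map with entries `τ i` on the first half -/
def Dg (B : V →ₗ[F] V →ₗ[F] F) (k : ℕ) (e : ℕ → V) (t : GG B) (τ : ℕ → Fˣ) : Prop :=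
  ∀ i < k, t.1 (e i) = (τ i : F) • e i ∧
    t.1 (e (2 * k - 1 - i)) = (τ i : F)⁻¹ • e (2 * k - 1 - i)

/-- the diagonal map with entries `τ` keeps the `U`-orbit of `ω` -/
def Aw (B : V →ₗ[F] V →ₗ[F] F) (k : ℕ) (e : ℕ → V) {Ω : Type*} [MulAction (GG B) Ω] (ω : Ω)
    (τ : ℕ → Fˣ) : Prop :=
  ∃ t : GG B, Dg B k e t τ ∧ Tw (Uu B k e) ω t

/-- `γ` at place `i`, one elsewhere -/
def d1 (i : ℕ) (γ : Fˣ) : ℕ → Fˣ := fun j => if j = i then γ else 1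

/-- a unipotent element of the stabiliser has a non-zero entry at the simple root `i` -/
def Gd (B : V →ₗ[F] V →ₗ[F] F) (k : ℕ) (e : ℕ → V) {Ω : Type*} [MulAction (GG B) Ω] (i : ℕ)
    (ω : Ω) : Prop :=
  ∃ u ∈ Uu B k e, u • ω = ω ∧ co B k e i (u.1 (e (i + 1))) ≠ 0

/-- the panel of type `i` at `ω` contains a good chamber -/
def Pn (B : V →ₗ[F] V →ₗ[F] F) (k : ℕ) (e : ℕ → V) {Ω : Type*} [MulAction (GG B) Ω] (i : ℕ)
    (ω : Ω) : Prop :=
  ∃ g : GG B, (∀ j ≤ k, j ≠ i + 1 → g ∈ St B (Fl F e j)) ∧ Gd B k e i (g • ω)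

/-- the torus part of the stabiliser is diagonal -/
def Tf (B : V →ₗ[F] V →ₗ[F] F) (k : ℕ) (e : ℕ → V) {Ω : Type*} [MulAction (GG B) Ω]
    (ω : Ω) : Prop :=
  ∀ t ∈ Tt B k e, Tw (Uu B k e) ω t → t • ω = ω

/-- all tori are scalar on the first three basis vectors -/
def Cs (B : V →ₗ[F] V →ₗ[F] F) (k : ℕ) (e : ℕ → V) (Ω : Type*) [MulAction (GG B) Ω] : Prop :=
  ∀ (ω : Ω) (τ : ℕ → Fˣ), Aw B k e ω τ → τ 0 = τ 1 ∧ τ 1 = τ 2

/-- `-1` acts trivially -/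
def Ng (B : V →ₗ[F] V →ₗ[F] F) (Ω : Type*) [MulAction (GG B) Ω] : Prop :=
  ∀ g : GG B, (∀ v, g.1 v = -v) → ∀ ω : Ω, g • ω = ω

end CF.Rs
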