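import Cfsg.Agent.Rs.A

/-! More definitions for the rank 3 actions of symplectic groups (S2195). -/

set_option autoImplicit false
open MulAction Module

namespace CF.Rs
open CF.Rq (R3 Sp Tw Oc Cj Btr Gf R4 In Pw Fl)

variable {F V : Type*} [Field F] [AddCommGroup V] [Module F V]

/-- the eigenvalue of a diagonal map on `e i` -/
def ev (k : ℕ) (τ : ℕ → Fˣ) (i : ℕ) : F :=
  if i < k then (τ i : F) else (τ (2 * k - 1 - i) : F)⁻¹

/-- `1 + ψ ∈ K`, and `ψ` has its range in `N` -/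
def AN (K : Subgroup (V ≃ₗ[F] V)) (N : Submodule F V) (ψ : V →ₗ[F] V) : Prop :=
  In K ψ ∧ ∀ v, ψ v ∈ N

/-- some element of `H` acts on `N` as `v ↦ v + B u v • c` -/
def Ho (B : V →ₗ[F] V →ₗ[F] F) (H : Subgroup (V ≃ₗ[F] V)) (N : Submodule F V) (c u : V) : Prop :=
  ∃ g ∈ H, ∀ v ∈ N, g v = v + B u v • c

/-- the stabiliser of the members `Fl j`, `j ≤ k`, `S j`, of the flag -/
def Pa (B : V →ₗ[F] V →ₗ[F] F) (k : ℕ) (e : ℕ → V) (S : ℕ → Prop) : Subgroup (GG B) where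
  carrier := {g | ∀ j ≤ k, S j → g ∈ St B (Fl F e j)}
  mul_mem' ha hb j hj hS := (St B _).mul_mem (ha j hj hS) (hb j hj hS)
  one_mem' _ _ _ := (St B _).one_mem
  inv_mem' ha j hj hS := (St B _).inv_mem (ha j hj hS)

/-- the part of the point stabiliser fixing the upper part of the flag -/
def Hw (B : V →ₗ[F] V →ₗ[F] F) (k : ℕ) (e : ℕ → V) {Ω : Type*} [MulAction (GG B) Ω] (ω : Ω) :
    Subgroup (V ≃ₗ[F] V) := (stabilizer (GG B) ω ⊓ Pa B k e (3 ≤ ·)).map (SP B).subtype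

/-- some full vector is perpendicular to neither `x` nor `y` -/
def Rl (B : V →ₗ[F] V →ₗ[F] F) (K : Subgroup (V ≃ₗ[F] V)) (x y : V) : Prop :=
  ∃ z, Full B K z ∧ B x z ≠ 0 ∧ B y z ≠ 0

/-- no non-zero vector is perpendicular to all full vectors -/
def Spn (B : V →ₗ[F] V →ₗ[F] F) (K : Subgroup (V ≃ₗ[F] V)) : Prop :=
  ∀ v, v ≠ 0 → ∃ z, Full B K z ∧ B v z ≠ 0

/-- the block of `g` on `e i, e (i + 1)` -/
def bk (B : V →ₗ[F] V →ₗ[F] F) (k : ℕ) (e : ℕ → V) (i : ℕ) (g : GG B) :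
    Matrix (Fin 2) (Fin 2) F :=
  !![co B k e i (g.1 (e i)), co B k e i (g.1 (e (i + 1)));
    co B k e (i + 1) (g.1 (e i)), co B k e (i + 1) (g.1 (e (i + 1)))]

/-- the torus at `ω` separates all places -/
def Sep (B : V →ₗ[F] V →ₗ[F] F) (k : ℕ) (e : ℕ → V) {Ω : Type*} [MulAction (GG B) Ω]
    (ω : Ω) : Prop :=
  ∀ a < k, ∀ c < k, a ≠ c → ∃ τ, Aw B k e ω τ ∧ τ a ≠ τ c

/-- the only involution in a point stabiliser is `-1` -/
def Ui (B : V →ₗ[F] V →ₗ[F] F) (Ω : Type*) [MulAction (GG B) Ω] : Prop :=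
  ∀ (ω : Ω) (s : GG B), s • ω = ω → s * s = 1 → s = 1 ∨ ∀ v, s.1 v = -v

/-- `g` lies in the unipotent radical of the stabiliser of the line through `x, y` -/
structure Ql (B : V →ₗ[F] V →ₗ[F] F) (x y : V) (g : GG B) : Prop where
  fx : g.1 x = x
  fy : g.1 y = y
  pp : ∀ w, B x w = 0 → B y w = 0 → g.1 w - w ∈ Submodule.span F {x, y}

end CF.Rs
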