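import Cfsg.Agent.Rs.A2
import Cfsg.Agent.Rq.F

/-! Facts on finite fields of odd order. -/

set_option autoImplicit false
open MulAction Module

namespace CF.Rs
open CF.Rq (R3 Sp Tw Oc Cj Btr Gf R4 In Pw Fl)

variable {F : Type*} [Field F] [Fintype F]

namespace AR

theorem odd_card (h2 : (2 : F) ≠ 0) : Fintype.card F % 2 = 1 :=
  FiniteField.odd_card_of_char_ne_two fun e => h2 (by
    have := ringChar.spec F 2
    rw [e] at this
    exact_mod_cast this.2 dvd_rfl)

theorem gen : ∃ g : Fˣ, orderOf g + 1 = Fintype.card F := by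
  obtain ⟨g, hg⟩ := IsCyclic.exists_ofOrder_eq_natCard (α := Fˣ)
  have := Fintype.one_lt_card (α := F)
  exact ⟨g, by rw [hg, Nat.card_units, Nat.card_eq_fintype_card]; omega⟩

theorem cl_pow (h2 : (2 : F) ≠ 0) {p : ℕ} (hp : p.Prime) (h5 : p ≤ 5) (A : AddSubgroup F)
    (hA : ∀ γ ∈ Pw F p, ∀ a ∈ A, (γ : F) * a ∈ A) (r : F) : r ∈ Rq.Ff.mlt A := by
  let f : Option (Pw F p) → Rq.Ff.mlt A := fun o => o.elim 0 fun γ => ⟨γ.1, hA γ γ.2⟩
  have hf : Function.Injective f := by
    rintro (_ | a) (_ | b) e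
    · rfl
    · exact absurd (congrArg Subtype.val e).symm b.1.ne_zero
    · exact absurd (congrArg Subtype.val e) a.1.ne_zero
    · exact congrArg some (Subtype.ext (Units.ext (congrArg Subtype.val e)))
  have h1 := Nat.card_le_card_of_injective f hf
  have h0 : 0 < Nat.card (Pw F p) := Nat.card_pos
  have h3 : Nat.card (Pw F p) * (Fintype.card F - 1).gcd p = Fintype.card F - 1 := by
    rw [Pw, IsCyclic.card_powMonoidHom_range, Nat.card_units, Nat.card_eq_fintype_card,
      Nat.div_mul_cancel (Nat.gcd_dvd_left _ _)]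
  rw [Finite.card_option] at h1
  obtain ⟨m, e⟩ := Rq.Ff.card_pow (Rq.Ff.mlt A)
  have o := odd_card h2
  have q1 := Fintype.one_lt_card (α := F)
  obtain _ | _ | m := m
  · rw [pow_zero] at e; omega
  · have : (Rq.Ff.mlt A : Set F) = Set.univ := Set.eq_of_subset_of_ncard_le (Set.subset_univ _) (by
      rw [Set.ncard_univ, Nat.card_eq_fintype_card, e, pow_one]; rfl)
    exact this.ge trivial
  exfalso
  have g5 := (Nat.gcd_le_right (Fintype.card F - 1) hp.pos).trans h5
  generalize Nat.card (Rq.Ff.mlt A) = s at h1 e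
  generalize Nat.card (Pw F p) = c at h1 h0 h3
  have l := Nat.pow_le_pow_right (show 0 < s by omega) (show 2 ≤ m + 1 + 1 by omega)
  have l2 : Fintype.card F - 1 ≤ (s - 1) * 5 := h3 ▸ Nat.mul_le_mul (by omega) g5
  have s4 : s ≤ 4 := by
    by_contra! k
    have : 5 * s ≤ s ^ 2 := by nlinarith
    omega
  have s3 : s = 3 := by
    have : s % 2 = 1 := by
      rw [e] at o
      exact Nat.odd_iff.1 (Nat.Odd.of_mul_right (pow_succ s _ ▸ Nat.odd_iff.2 o))
    omega
  subst s3
  have q9 : Fintype.card F = 9 := by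
    obtain _ | m := m
    · exact e
    · have := Nat.pow_le_pow_right (show 0 < 3 by omega) (show 3 ≤ m + 1 + 1 + 1 by omega)
      omega
  rw [q9] at h3
  have := hp.two_le
  interval_cases p <;> simp at h3 <;> first | omega | exact absurd hp (by decide)

end AR
open AR

theorem nd_top (h2 : (2 : F) ≠ 0) (h3 : Fintype.card F ≠ 3) : Nd (⊤ : Subgroup Fˣ) := by
  obtain ⟨g, hg⟩ := gen (F := F)
  have := odd_card h2
  have := Fintype.one_lt_card (α := F)
  refine ⟨⟨g, trivial, pow_ne_one_of_lt_orderOf (by decide) (by omega)⟩, fun A hA r a ha => ?_⟩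
  by_cases r0 : r = 0
  · rw [r0, zero_mul]; exact zero_mem _
  · exact hA (Units.mk0 r r0) trivial a ha

theorem nd_pow (h2 : (2 : F) ≠ 0) (h3 : Fintype.card F ≠ 3) {p : ℕ} (hp : p.Prime) (h5 : p ≤ 5) :
    Nd (Pw F p) ∨ ((Fintype.card F).Prime ∧ (-1 : Fˣ) ∈ Pw F p) := by
  by_cases h : ∃ γ ∈ Pw F p, γ ^ 2 ≠ 1
  · exact .inl ⟨h, cl_pow h2 hp h5⟩
  push Not at h
  obtain ⟨g, hg⟩ := gen (F := F)
  have o := odd_card h2
  have q1 := Fintype.one_lt_card (α := F)
  have e := h _ ⟨g, rfl⟩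
  have d : orderOf g ∣ p * 2 := orderOf_dvd_of_pow_eq_one (by rw [pow_mul]; exact e)
  have := hp.two_le
  have l := Nat.le_of_dvd (by omega) d
  have e2 : orderOf g = p * 2 ∧ (p * 2 + 1).Prime := by
    generalize orderOf g = c at hg d l
    have h4 : c % 2 = 0 ∧ c ≠ 2 ∧ c ≠ 0 := by omega
    clear hg
    interval_cases p <;> interval_cases c <;> first | omega | decide | exact absurd hp (by decide)
  refine .inr ⟨by rw [← hg, e2.1]; exact e2.2, g, ?_⟩
  refine Units.ext ((sq_eq_one_iff.1 ((Units.val_pow_eq_pow_val _ 2).symm.trans (congrArg Units.val e))).resolve_left fun k => ?_)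
  exact pow_ne_one_of_lt_orderOf (show p ≠ 0 by omega) (by omega) (Units.ext k)

theorem f3_three (h3 : Fintype.card F = 3) : (3 : F) = 0 := by
  exact_mod_cast h3 ▸ FiniteField.cast_card_eq_zero F

theorem f3_cases (h3 : Fintype.card F = 3) (x : F) : x = 0 ∨ x = 1 ∨ x = -1 := by
  have := FiniteField.pow_card x
  rw [h3] at this
  have : x * ((x - 1) * (x + 1)) = 0 := by linear_combination this
  simpa [sub_eq_zero, add_eq_zero_iff_eq_neg] using this

theorem f3_unit (h3 : Fintype.card F = 3) (x : Fˣ) : x = 1 ∨ x = -1 :=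
  ((f3_cases h3 (x : F)).resolve_left x.ne_zero).imp Units.ext Units.ext

theorem f3_char (h3 : Fintype.card F = 3) : ringChar F = 3 :=
  CharP.ringChar_of_prime_eq_zero Nat.prime_three (by exact_mod_cast f3_three h3)

theorem two_ne_of_odd (hq : Odd (Fintype.card F)) : (2 : F) ≠ 0 := fun e => by
  obtain ⟨k, hk⟩ := hq
  have := FiniteField.cast_card_eq_zero F
  rw [hk] at this
  push_cast at this
  rw [e, zero_mul, zero_add] at this
  exact one_ne_zero this

theorem neg_one_ne (h2 : (2 : F) ≠ 0) : (-1 : Fˣ) ≠ 1 := fun e => h2 (by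
  have := congrArg Units.val e
  simp only [Units.val_neg, Units.val_one] at this
  linear_combination -this)

theorem ex_unit_char : ∃ ι : Fˣ →* ℂˣ, Function.Injective ι := by
  have : NeZero (Nat.card Fˣ) := ⟨Nat.card_pos.ne'⟩
  obtain ⟨ζ, hζ⟩ := HasEnoughRootsOfUnity.exists_primitiveRoot ℂ (Nat.card Fˣ)
  have h := hζ.isUnit_unit (NeZero.ne _)
  let e : Fˣ ≃* Subgroup.zpowers (hζ.isUnit (NeZero.ne _)).unit :=
    mulEquivOfCyclicCardEq (by rw [Nat.card_zpowers, ← h.eq_orderOf])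
  exact ⟨(Subgroup.subtype _).comp e.toMonoidHom, Subtype.val_injective.comp e.injective⟩

theorem nat_surj (hp : (Fintype.card F).Prime) (x : F) : ∃ n : ℕ, (n : F) = x := by
  have := Fact.mk hp
  obtain ⟨y, rfl⟩ := (ZMod.ringEquivOfPrime F hp rfl).surjective x
  exact ⟨y.val, by rw [← map_natCast (ZMod.ringEquivOfPrime F hp rfl), ZMod.natCast_zmod_val]⟩

end CF.Rs
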