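import Cfsg.Agent.Rs.L1
import Cfsg.Agent.Rq.L2

/-! Symplectic linear algebra. -/

set_option autoImplicit false
set_option linter.unusedSectionVars false
open MulAction Module

namespace CF.Rs
open CF.Rq (R3 Sp Tw Oc Cj Btr Gf R4 In Pw Fl)

variable {F V : Type*} [Field F] [Fintype F] [AddCommGroup V] [Module F V]
  {B : V →ₗ[F] V →ₗ[F] F} {K : Subgroup (V ≃ₗ[F] V)}

theorem Sy.nondeg (h : Sy B) : LinearMap.BilinForm.Nondegenerate B :=
  ⟨h.nd, fun x k => h.nd x fun y => h.refl (k y)⟩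

theorem Sy.wp (h : Sy B) : Geom.IsWittPair (RingHom.id F) B fun _ => 0 :=
  Geom.isWittPair_alt B h.nondeg h.alt

theorem Sy.finV (h : Sy B) : Finite V := have := h.fd; Module.finite_of_finite F

theorem Sy.finG (h : Sy B) : Finite (GG B) :=
  have := h.finV
  Finite.of_injective (fun g : GG B => (g.1 : V → V)) fun _ _ e => Subtype.ext (DFunLike.coe_injective e)

theorem Sy.rep (h : Sy B) (φ : V →ₗ[F] F) : ∃ y, ∀ v, φ v = B y v :=
  have := h.fd
  let ⟨y, e⟩ := Geom.exists_repr_dual h.wp.surj B h.nd φ; ⟨y, fun _ => e ▸ rfl⟩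

theorem Sy.dual (h : Sy B) {ι : Type} [Fintype ι] [DecidableEq ι] (z : ι → V)
    (li : LinearIndependent F z) : ∃ f : ι → V, ∀ i j, B (z i) (f j) = if i = j then 1 else 0 := by
  have ex : ∀ j, ∃ f, ∀ i, B (z i) f = if i = j then 1 else 0 := fun j => by
    obtain ⟨φ, e⟩ := LinearMap.exists_extend (Finsupp.lapply j ∘ₗ li.repr)
    obtain ⟨y, k⟩ := h.rep φ
    refine ⟨-y, fun i => ?_⟩
    have := LinearMap.congr_fun e ⟨z i, Submodule.subset_span ⟨i, rfl⟩⟩
    rw [map_neg, ← h.skew, ← k]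
    simpa [li.repr_eq_single i ⟨z i, Submodule.subset_span ⟨i, rfl⟩⟩ rfl, Finsupp.single_apply] using this
  choose f k using ex
  exact ⟨f, fun i j => k j i⟩

theorem Sy.partner (h : Sy B) {x : V} (h0 : x ≠ 0) : ∃ f, B x f = 1 := by
  obtain ⟨f, hf⟩ := not_forall.1 (mt (h.nd x) h0)
  exact ⟨(B x f)⁻¹ • f, by simp [hf]⟩

theorem Ti2.li' {x y : V} (t : Ti2 B x y) : LinearIndependent F ![x, y] := LinearIndependent.pair_iff.2 t.li

theorem Ti3.li' {x y z : V} (t : Ti3 B x y z) : LinearIndependent F ![x, y, z] :=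
  Fintype.linearIndependent_iff.2 fun g e i => by
    obtain ⟨a, b, c⟩ := t.li (g 0) (g 1) (g 2) (by simpa [Fin.sum_univ_three] using e)
    fin_cases i <;> assumption

theorem Ti2.dual (h : Sy B) {x y : V} (t : Ti2 B x y) : ∃ f, B x f = 0 ∧ B y f = 1 :=
  let ⟨f, a⟩ := h.dual _ t.li'; ⟨f 1, a 0 1, a 1 1⟩

theorem Ti3.dual (h : Sy B) {x y z : V} (t : Ti3 B x y z) :
    ∃ f, B x f = 0 ∧ B y f = 0 ∧ B z f = 1 :=
  let ⟨f, a⟩ := h.dual _ t.li'; ⟨f 2, a 0 2, a 1 2, a 2 2⟩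

theorem mem_Pp {Y : Submodule F V} {v : V} : v ∈ Pp B Y ↔ ∀ y ∈ Y, B y v = 0 := Iff.rfl

theorem L2.mem_span {S : Set V} {v : V} : v ∈ Pp B (Submodule.span F S) ↔ ∀ y ∈ S, B y v = 0 :=
  ⟨fun k y m => k y (Submodule.subset_span m), fun k _ m =>
    (Submodule.span_le (p := LinearMap.ker (B.flip v))).2 k m⟩

theorem Sy.finrank_Pp (h : Sy B) (Y : Submodule F V) :
    finrank F (Pp B Y) + finrank F Y = finrank F V :=
  have := h.fd
  (add_comm _ _).trans (h.wp.finrank_perp Y)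

theorem Sy.Pp_Pp (h : Sy B) (Y : Submodule F V) : Pp B (Pp B Y) = Y :=
  have := h.fd
  h.wp.perp_perp Y

/-- a new vector orthogonal to a small subspace -/
theorem Sy.new (h : Sy B) (Y : Submodule F V) (k : 2 * finrank F Y < finrank F V) :
    ∃ z, z ∉ Y ∧ ∀ y ∈ Y, B y z = 0 := by
  have := h.fd
  by_contra! c
  have := Submodule.finrank_mono (show Pp B Y ≤ Y from fun z m => by_contra fun t =>
    let ⟨y, a, b⟩ := c z t; b (m y a))
  have := h.finrank_Pp Y
  omega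

theorem Sy.ext1 (h : Sy B) {x : V} (h0 : x ≠ 0) : ∃ y, Ti2 B x y := by
  obtain ⟨z, a, c⟩ := h.new (F ∙ x) (by rw [finrank_span_singleton h0]; exact lt_of_lt_of_le (by decide) h.dim)
  refine ⟨z, c x (Submodule.mem_span_singleton_self x), fun s t e => ?_⟩
  obtain rfl : t = 0 := by_contra fun k => a (Submodule.mem_span_singleton.2 ⟨-(t⁻¹ * s), by
    rw [neg_smul, mul_smul, eq_neg_of_add_eq_zero_left e]; simp [k]⟩)
  simpa [h0] using e

theorem Ti2.ext (h : Sy B) {x y : V} (t : Ti2 B x y) : ∃ z, Ti3 B x y z := by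
  obtain ⟨z, a, c⟩ := h.new (Submodule.span F (Set.range ![x, y]))
    (by rw [finrank_span_eq_card t.li']; exact lt_of_lt_of_le (by decide) h.dim)
  have mx : x ∈ Submodule.span F (Set.range ![x, y]) := Submodule.subset_span ⟨0, rfl⟩
  have my : y ∈ Submodule.span F (Set.range ![x, y]) := Submodule.subset_span ⟨1, rfl⟩
  refine ⟨z, t.xy, c x mx, c y my, fun r s u e => ?_⟩
  obtain rfl : u = 0 := by_contra fun k => a ((Submodule.smul_mem_iff _ k).1
    (eq_neg_of_add_eq_zero_right e ▸ neg_mem (add_mem (Submodule.smul_mem _ r mx) (Submodule.smul_mem _ s my))))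
  simpa using t.li r s (by simpa using e)

theorem Sy.ex_perp (h : Sy B) (x f : V) : ∃ y z, B y z = 1 ∧ B x y = 0 ∧ B f y = 0 ∧
    B x z = 0 ∧ B f z = 0 := by
  have := h.fd
  have a := h.finrank_Pp (Submodule.span F (Set.range ![x, f]))
  have b : finrank F (Submodule.span F (Set.range ![x, f])) ≤ 2 := finrank_range_le_card _
  have d := h.dim
  obtain ⟨z, m, k⟩ := SetLike.not_le_iff_exists.1 fun l : Pp B (Submodule.span F (Set.range ![x, f])) ≤
      Pp B (Pp B (Submodule.span F (Set.range ![x, f]))) => by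
    have := Submodule.finrank_mono (l.trans (h.Pp_Pp _).le)
    omega
  obtain ⟨y, m', k'⟩ : ∃ y ∈ Pp B (Submodule.span F (Set.range ![x, f])), B y z ≠ 0 := by
    simpa [mem_Pp (v := z)] using k
  have m1 := L2.mem_span.1 m
  have m2 := L2.mem_span.1 m'
  exact ⟨y, (B y z)⁻¹ • z, by simp [k'], m2 x ⟨0, rfl⟩, m2 f ⟨1, rfl⟩, by simp [m1 x ⟨0, rfl⟩],
    by simp [m1 f ⟨1, rfl⟩]⟩

theorem L2.ex {ψ : V →ₗ[F] V} (z : ∀ v, ψ (ψ v) = 0) (k : ∀ v w, B (v + ψ v) (w + ψ w) = B v w) :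
    ∃ g : GG B, ∀ v, g.1 v = v + ψ v :=
  ⟨⟨LinearEquiv.ofLinearMap (1 + ψ) (1 - ψ) (LinearMap.ext fun v => by simp [z])
    (LinearMap.ext fun v => by simp [z]), k⟩, fun _ => rfl⟩

theorem Sy.exists_i2 (h : Sy B) {x y : V} (t : B x y = 0) (a b d : F) :
    ∃ g : GG B, ∀ v, g.1 v = v + (a • E B x x + b • Pm B x y + d • E B y y) v :=
  L2.ex (L1.z h t a b d a b d) fun v w => by
    rw [m2_apply, m2_apply]
    simp only [map_add, map_smul, LinearMap.add_apply, LinearMap.smul_apply, smul_eq_mul, h.alt, t,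
      h.refl t, h.skew x v, h.skew y v]
    ring

theorem Sy.exists_tv (h : Sy B) (x : V) (c : F) :
    ∃ g : GG B, ∀ v, g.1 v = v + (c • E B x x) v := by
  simpa using h.exists_i2 (h.alt x) c 0 0

theorem Sy.witt (h : Sy B) {ι : Type} [Fintype ι] (z z' : ι → V) (li : LinearIndependent F z)
    (li' : LinearIndependent F z') (hg : ∀ i j, B (z' i) (z' j) = B (z i) (z j)) :
    ∃ g : GG B, ∀ i, g.1 (z i) = z' i :=
  have := h.fd
  let ⟨g, a, _, b⟩ := h.wp.frame z z' li li' hg fun _ => rfl; ⟨⟨g, a⟩, b⟩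

theorem Sy.tr (h : Sy B) {x y : V} (x0 : x ≠ 0) (y0 : y ≠ 0) : ∃ g : GG B, g.1 x = y :=
  let ⟨g, k⟩ := h.witt (fun _ : Unit => x) (fun _ => y) (linearIndependent_unique_iff.2 x0)
    (linearIndependent_unique_iff.2 y0) (fun _ _ => by rw [h.alt, h.alt]); ⟨g, k ()⟩

theorem Sy.neg (_h : Sy B) : ∃ g : GG B, ∀ v, g.1 v = -v :=
  ⟨⟨LinearEquiv.neg F, fun x y => by simp⟩, fun _ => rfl⟩

theorem Sy.sg (h : Sy B) {x : V} (x0 : x ≠ 0) {g : GG B} (gx : g.1 x = x)
    (hg : ∀ w, B x w = 0 → g.1 w - w ∈ Submodule.span F {x}) : ∃ (y : V) (c : F), B x y = 0 ∧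
      ∀ w, g.1 w = w + (c • E B x x + (1 : F) • Pm B x y + (0 : F) • E B y y) w := by
  obtain ⟨f, hf⟩ := h.partner x0
  obtain ⟨y, hy⟩ : ∃ y, g.1 f = f + y := ⟨g.1 f - f, by simp⟩
  have xy : B x y = 0 := by simpa [gx, hy, hf] using g.map x f
  refine ⟨y, -B y f, xy, fun w => ?_⟩
  have w0 : B x (w - B x w • f) = 0 := by simp [hf]
  obtain ⟨a, ha⟩ := Submodule.mem_span_singleton.1 (hg _ w0)
  have e := eq_add_of_sub_eq' ha.symm
  have k := g.map (w - B x w • f) f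
  rw [e, hy] at k
  rw [map_sub, map_smul, hy, sub_eq_iff_eq_add] at e
  simp only [map_add, map_sub, map_smul, LinearMap.add_apply, LinearMap.sub_apply, LinearMap.smul_apply,
    smul_eq_mul, hf, xy, h.alt, h.skew y w, h.skew y f] at k
  rw [e, m2_apply, show a = B y w - B x w * B y f by linear_combination k]
  module

theorem AN.i2 (h : Sy B) (hK : K ≤ SP B) {x y : V} (t : Ti2 B x y) {ψ : V →ₗ[F] V}
    (h1 : AN K (Submodule.span F {x, y}) ψ) :
    ∃ a b d : F, ψ = a • E B x x + b • Pm B x y + d • E B y y := by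
  have ti : Submodule.span F {x, y} ≤ Pp B (Submodule.span F {x, y}) := Submodule.span_le.2 fun v m =>
    L2.mem_span.2 fun w m' => by
      rcases m with rfl | rfl <;> rcases m' with rfl | rfl <;> simp [h.alt, t.xy, h.refl t.xy]
  obtain ⟨f2, a1, a2⟩ := t.dual h
  obtain ⟨f1, b2, b1⟩ := (t.symm h).dual h
  obtain ⟨a, b, e1⟩ := Submodule.mem_span_pair.1 (h1.2 f1)
  obtain ⟨c, d, e2⟩ := Submodule.mem_span_pair.1 (h1.2 f2)
  obtain rfl : b = c := by simpa [← e1, ← e2, a1, a2, b1, b2] using h1.skew h hK ti f1 f2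
  refine ⟨a, b, d, LinearMap.ext fun v => ?_⟩
  have := h1.kill h hK ti (v := v - B x v • f1 - B y v • f2) (L2.mem_span.2 fun w m => by
    rcases m with rfl | rfl <;> simp [a1, a2, b1, b2])
  rw [map_sub, map_sub, map_smul, map_smul, ← e1, ← e2, sub_sub, sub_eq_zero] at this
  rw [this, m2_apply]
  module

end CF.Rs
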