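import Cfsg.Agent.Rs.TA
import Cfsg.Agent.Rs.L2

/-! Rank 3 actions of symplectic groups: root elements in the point stabiliser. -/

set_option autoImplicit false
set_option linter.unusedSectionVars false
open MulAction Module

namespace CF.Rs
open CF.Rq (R3 Sp Tw Oc Cj Btr Gf R4 In Pw Fl)

variable {F V : Type*} [Field F] [Fintype F] [AddCommGroup V] [Module F V]
  {B : V →ₗ[F] V →ₗ[F] F} {k : ℕ} {e : ℕ → V} {Ω : Type*} [MulAction (GG B) Ω]

theorem BB.d0 (b : Fb B k e) (k0 : 0 < k) {t : GG B} {γ : Fˣ} (ht : Dg B k e t (d1 0 γ)) {w : V} (hw : B (e 0) w = 0) :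
    t.1 w = w + (((γ : F) - 1) * co B k e 0 w) • e 0 := b.eq_of fun i hi => by
  rw [ht.co_eq b hi, map_add, map_smul, b.co_e hi (by omega), ev]
  rcases eq_or_ne i 0 with rfl | i0
  · simp [k0, d1]; ring
  rcases eq_or_ne i (2 * k - 1 - 0) with rfl | i1
  · rw [co_hi k0, hw, if_neg i0]; simp
  · simp [d1, i0, show 2 * k - 1 - i ≠ 0 by omega]

theorem Fb.bb (h : Sy B) (b : Fb B k e) {ω : Ω} {γ : Fˣ} (hγ : γ ≠ 1)
    (av : ∀ i < k, Aw B k e ω (d1 i γ)) (hω : Gd B k e 0 ω) (tf : Tf B k e ω) :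
    ∃ (y : V) (c : F), y ∈ Submodule.span F {e 1, e (2 * k - 2)} ∧ B (e 1) y ≠ 0 ∧
      Ti2 B (e 0) y ∧ I2 B (Kw B ω) (e 0) y c 1 0 := by
  have k3 := b.k3 h
  have g1 : (γ : F) - 1 ≠ 0 := sub_ne_zero.2 (by simpa using hγ)
  have e0 := b.ne (i := 0) (by omega)
  obtain ⟨c, hc, c1, c2, c3⟩ := b.cen h (by omega) hω
  obtain ⟨t, ht, t1⟩ := (av 0 (by omega)).fix tf
  have c0 := (b.U_zero h hc).1
  have ti : Dg B k e t⁻¹ (d1 0 γ⁻¹) := ht.inv.congr fun i _ => by by_cases l : i = 0 <;> simp [d1, l]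
  have co0 := b.co_e (i := 0) (j := 0) (by omega) (by omega)
  have vw : ∀ w, B (e 0) w = 0 → (c⁻¹ * (t * c * t⁻¹)).1 w =
      w + (((γ : F) - 1) * (co B k e 0 (c.1 w) - co B k e 0 w)) • e 0 := fun w hw => by
    refine c.1.injective ?_
    rw [GG.mul_apply, GG.inv_apply, GG.mul_apply, GG.mul_apply, BB.d0 b (by omega) ti hw, map_add, map_smul, c0,
      BB.d0 b (by omega) ht (by rw [map_add, map_smul, h.alt, ← c0, GG.map, hw]; simp), map_add, map_add, map_smul,
      map_smul, co0, c0]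
    match_scalars
    · rfl
    · simp; field_simp; ring
  obtain ⟨y, a, y0, hy⟩ := h.sg e0 (g := c⁻¹ * (t * c * t⁻¹)) (by rw [vw _ (h.alt _), c0]; simp) fun w hw => by
    rw [vw w hw, add_sub_cancel_left]; exact Submodule.smul_mem _ _ (Submodule.mem_span_singleton_self _)
  have by' : ∀ w, B (e 0) w = 0 → B y w = ((γ : F) - 1) * (co B k e 0 (c.1 w) - co B k e 0 w) := fun w hw => by
    have := (hy w).symm.trans (vw w hw)
    rw [m2_apply, hw] at this
    simpa [e0] using this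
  have y1 : B (e 1) y ≠ 0 := fun l => by
    have := by' (e 1) (b.B0 (by omega) (by omega) (by omega))
    rw [h.refl l, b.co_e (by omega) (by omega), if_neg (by omega), sub_zero] at this
    exact mul_ne_zero g1 c2 this.symm
  have ym : ∀ j < 2 * k, 2 ≤ j → j + 3 ≤ 2 * k → B (e j) y = 0 := fun j hj l l' => h.refl (by
    obtain ⟨s, hs, s1⟩ := (av (min j (2 * k - 1 - j)) (by omega)).fix tf
    have z : ∀ i < 2, ev k (d1 (min j (2 * k - 1 - j)) γ) i = 1 := fun i hi => by
      rw [ev_lo _ (by omega), d1, if_neg (by omega), Units.val_one]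
    rw [by' _ (b.B0 (by omega) hj (by omega)), b.co_e (by omega) hj, if_neg (by omega),
      hs.comm b (c3 s _ hs s1 (by rw [z 0 two_pos, z (0 + 1) one_lt_two])) (by omega) hj, sub_zero, mul_zero]
    rw [z 0 two_pos, ev, d1, d1]
    split_ifs <;> first | omega | simpa [eq_comm] using hγ)
  have e1 := b.B0 (i := 1) (j := 0) (by omega) (by omega) (by omega)
  have y2 : B (e 1) (y - co B k e 0 y • e 0) ≠ 0 := by simpa [e1] using y1
  refine ⟨y - co B k e 0 y • e 0, a + 2 * co B k e 0 y, Submodule.mem_span_pair.2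
    ⟨co B k e 1 y, co B k e (2 * k - 2) y, b.eq_of fun i hi => ?_⟩, y2, ⟨by simp [y0, h.alt], fun p q l => ?_⟩,
    _, mem_Kw.2 (show (c⁻¹ * (t * c * t⁻¹)) • ω = ω by
      rw [mul_smul, mul_smul, mul_smul, inv_smul_eq_iff.2 t1.symm, c1, t1, inv_smul_eq_iff.2 c1.symm]), fun w => ?_⟩
  · simp (disch := omega) only [map_add, map_sub, map_smul, b.co_e hi, smul_eq_mul]
    split_ifs with l1 l2 l3 l4 l5 l6 l7 <;> try omega
    · simp [l1]
    · simp [l5]
    · simp [l7]
    · rcases eq_or_ne i (2 * k - 1 - 0) with rfl | l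
      · rw [co_hi (show 0 < k by omega), y0]; simp
      · rw [co_eq_zero.2 (ym (2 * k - 1 - i) (by omega) (by omega) (by omega))]; simp
  · have := congrArg (B (e 1)) l
    rw [map_add, map_smul, map_smul, e1, map_zero] at this
    obtain rfl : q = 0 := (smul_eq_zero.1 (by rwa [smul_zero, zero_add] at this)).resolve_right y2
    simpa [e0] using l
  · rw [hy, m2_apply, m2_apply]
    simp only [map_sub, map_smul, LinearMap.sub_apply, LinearMap.smul_apply, smul_eq_mul]
    module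

end CF.Rs
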