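import Cfsg.Agent.Rs.UT1

/-! Basic facts on the symplectic frame: the torus and the blocks. -/

set_option autoImplicit false
set_option linter.unusedSectionVars false
open MulAction Module

namespace CF.Rs
open CF.Rq (R3 Sp Tw Oc Cj Btr Gf R4 In Pw Fl)

variable {F V : Type*} [Field F] [Fintype F] [AddCommGroup V] [Module F V]
  {B : V →ₗ[F] V →ₗ[F] F} {k : ℕ} {e : ℕ → V}

theorem UT.pow_eig {t : GG B} {v : V} {c : F} (hc : t.1 v = c • v) (m : ℕ) :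
    (t ^ m).1 v = c ^ m • v := by
  induction m with
  | zero => simp
  | succ m ih => rw [pow_succ, GG.mul_apply, hc, map_smul, ih, smul_smul, pow_succ']

theorem UT.inv_eig {t : GG B} {v : V} {c : F} (c0 : c ≠ 0) (hc : t.1 v = c • v) :
    t⁻¹.1 v = c⁻¹ • v := by
  apply t.1.injective
  rw [GG.inv_apply, map_smul, hc, smul_smul, inv_mul_cancel₀ c0, one_smul]

theorem Fb.T_pow (b : Fb B k e) {t : GG B} (ht : t ∈ Tt B k e) :
    t ^ (Fintype.card F - 1) = 1 := by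
  refine b.ext' fun i hi => ?_
  obtain ⟨c, hc⟩ := ht i hi
  rw [UT.pow_eig hc, FiniteField.pow_card_sub_one_eq_one _ c.ne_zero]
  simp

theorem ev_ne (τ : ℕ → Fˣ) (i : ℕ) : ev k τ i ≠ 0 := by
  unfold ev; split_ifs <;> simp

theorem ev_lo (τ : ℕ → Fˣ) {i : ℕ} (hi : i < k) : ev k τ i = τ i := if_pos hi

theorem ev_ge (τ : ℕ → Fˣ) {i : ℕ} (hi : k ≤ i) : ev k τ i = (τ (2 * k - 1 - i) : F)⁻¹ :=
  if_neg (not_lt.2 hi)

theorem ev_hi (τ : ℕ → Fˣ) {i : ℕ} (hi : i < k) : ev k τ (2 * k - 1 - i) = (τ i : F)⁻¹ := by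
  rw [ev_ge τ (by omega), show 2 * k - 1 - (2 * k - 1 - i) = i by omega]

theorem Dg.on_e {t : GG B} {τ : ℕ → Fˣ} (ht : Dg B k e t τ) {i : ℕ} (hi : i < 2 * k) :
    t.1 (e i) = ev k τ i • e i := by
  by_cases h1 : i < k
  · rw [ev_lo τ h1, (ht i h1).1]
  · have h2 := (ht (2 * k - 1 - i) (by omega)).2
    rw [show 2 * k - 1 - (2 * k - 1 - i) = i by omega] at h2
    rw [ev_ge τ (by omega), h2]

theorem Dg.of_ev {t : GG B} {τ : ℕ → Fˣ} (ht : ∀ i < 2 * k, t.1 (e i) = ev k τ i • e i) :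
    Dg B k e t τ := fun i hi =>
  ⟨by rw [ht i (by omega), ev_lo τ hi], by rw [ht _ (by omega), ev_hi τ hi]⟩

theorem Dg.mem {t : GG B} {τ : ℕ → Fˣ} (ht : Dg B k e t τ) : t ∈ Tt B k e :=
  fun j hj => ⟨Units.mk0 _ (ev_ne τ j), ht.on_e hj⟩

theorem Dg.one : Dg B k e 1 1 := fun i _ => by simp

theorem Dg.mul {t t' : GG B} {τ τ' : ℕ → Fˣ} (ht : Dg B k e t τ) (ht' : Dg B k e t' τ') :
    Dg B k e (t * t') (τ * τ') := fun i hi =>
  ⟨by simp [(ht i hi).1, (ht' i hi).1, smul_smul, mul_comm],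
    by rw [GG.mul_apply, (ht' i hi).2, map_smul, (ht i hi).2, smul_smul]; simp⟩

theorem Dg.inv {t : GG B} {τ : ℕ → Fˣ} (ht : Dg B k e t τ) : Dg B k e t⁻¹ τ⁻¹ := fun i hi =>
  ⟨by rw [UT.inv_eig (τ i).ne_zero (ht i hi).1]; simp,
    by rw [UT.inv_eig (by simp) (ht i hi).2]; simp⟩

theorem Dg.pow {t : GG B} {τ : ℕ → Fˣ} (ht : Dg B k e t τ) (m : ℕ) :
    Dg B k e (t ^ m) (τ ^ m) := by
  induction m with
  | zero => simpa using Dg.one
  | succ m ih => rw [pow_succ, pow_succ]; exact ih.mul ht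

theorem Dg.congr {t : GG B} {τ τ' : ℕ → Fˣ} (ht : Dg B k e t τ) (hτ : ∀ i < k, τ i = τ' i) :
    Dg B k e t τ' := fun i hi => hτ i hi ▸ ht i hi

theorem ev_congr {τ τ' : ℕ → Fˣ} (hτ : ∀ i < k, τ i = τ' i) {i : ℕ} (hi : i < 2 * k) :
    ev k τ i = ev k τ' i := by
  unfold ev; split_ifs with h1
  · rw [hτ i h1]
  · rw [hτ _ (by omega)]

theorem Dg.eq (b : Fb B k e) {t t' : GG B} {τ τ' : ℕ → Fˣ} (ht : Dg B k e t τ)
    (ht' : Dg B k e t' τ') (hτ : ∀ i < k, τ i = τ' i) : t = t' :=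
  b.ext' fun j hj => by rw [ht.on_e hj, ht'.on_e hj, ev_congr hτ hj]

theorem Dg.uniq (b : Fb B k e) {t : GG B} {τ τ' : ℕ → Fˣ} (ht : Dg B k e t τ)
    (ht' : Dg B k e t τ') {i : ℕ} (hi : i < k) : τ i = τ' i :=
  Units.ext (smul_left_injective F (b.ne (i := i) (by omega)) ((ht i hi).1.symm.trans (ht' i hi).1))

theorem Fb.iso (b : Fb B k e) {g : V ≃ₗ[F] V}
    (hg : ∀ i < 2 * k, ∀ j < 2 * k, B (g (e i)) (g (e j)) = B (e i) (e j)) : g ∈ SP B := by
  have h1 : B.compl₁₂ (g : V →ₗ[F] V) (g : V →ₗ[F] V) = B :=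
    b.ext fun i hi => b.ext fun j hj => hg i hi j hj
  exact fun x y => LinearMap.congr_fun (LinearMap.congr_fun h1 x) y

theorem Fb.exists_dg (_h : Sy B) (b : Fb B k e) (τ : ℕ → Fˣ) : ∃ t : GG B, Dg B k e t τ := by
  classical
  obtain ⟨c, hc⟩ := b.basis
  let g : V ≃ₗ[F] V := c.equiv (c.unitsSMul fun i => Units.mk0 (ev k τ i) (ev_ne τ i))
    (Equiv.refl _)
  have hg : ∀ i < 2 * k, g (e i) = ev k τ i • e i := fun i hi => by
    have := hc ⟨i, hi⟩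
    simp only at this
    rw [← this, Basis.equiv_apply, Equiv.refl_apply, Basis.unitsSMul_apply]
    rfl
  refine ⟨⟨g, b.iso fun i hi j hj => ?_⟩, Dg.of_ev hg⟩
  rw [hg i hi, hg j hj]
  simp only [map_smul, LinearMap.smul_apply, smul_eq_mul]
  by_cases h3 : i + j + 1 = 2 * k
  · have h4 : ev k τ j * ev k τ i = 1 := by
      by_cases h5 : i < k
      · rw [show j = 2 * k - 1 - i by omega, ev_hi τ h5, ev_lo τ h5]; simp
      · rw [show i = 2 * k - 1 - j by omega, ev_hi τ (by omega), ev_lo τ (by omega)]; simp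
    rw [← mul_assoc, h4, one_mul]
  · simp [b.B0 hi hj h3]

theorem Fb.T_dg (b : Fb B k e) {t : GG B} (ht : t ∈ Tt B k e) : ∃ τ, Dg B k e t τ := by
  choose! c hc using ht
  refine ⟨c, fun i hi => ⟨hc i (by omega), ?_⟩⟩
  have h1 := GG.map t (e i) (e (2 * k - 1 - i))
  rw [hc i (by omega), hc _ (by omega)] at h1
  simp only [map_smul, LinearMap.smul_apply, smul_eq_mul, b.B1 hi, mul_one] at h1
  rw [hc _ (by omega), eq_inv_of_mul_eq_one_left h1]

theorem Fb.ex_tc (b : Fb B k e) : ∃ c : ℕ → (Tt B k e →* Fˣ),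
    ∀ (t : Tt B k e) (τ : ℕ → Fˣ), Dg B k e t.1 τ → ∀ i < k, c i t = τ i := by
  choose σ hσ using fun t : Tt B k e => b.T_dg t.2
  refine ⟨fun i => if hi : i < k then MonoidHom.mk' (fun t => σ t i) fun s t =>
    (hσ (s * t)).uniq b ((hσ s).mul (hσ t)) hi else 1, fun t τ ht i hi => ?_⟩
  simp only [dif_pos hi]
  exact (hσ t).uniq b ht hi

theorem Dg.co_eq (b : Fb B k e) {t : GG B} {τ : ℕ → Fˣ} (ht : Dg B k e t τ) {i : ℕ}
    (hi : i < 2 * k) (v : V) : co B k e i (t.1 v) = ev k τ i * co B k e i v := by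
  have : co B k e i ∘ₗ (t.1 : V →ₗ[F] V) = ev k τ i • co B k e i := b.ext fun j hj => by
    simp only [LinearMap.comp_apply, LinearEquiv.coe_coe, ht.on_e hj, map_smul,
      LinearMap.smul_apply, b.co_e hi hj, smul_eq_mul]
    split_ifs with h1
    · rw [h1]
    · simp
  exact LinearMap.congr_fun this v

theorem Dg.conj (b : Fb B k e) {t : GG B} {τ : ℕ → Fˣ} (ht : Dg B k e t τ) (g : GG B) {i j : ℕ}
    (hi : i < 2 * k) (hj : j < 2 * k) : co B k e i ((t * g * t⁻¹).1 (e j)) =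
      ev k τ i / ev k τ j * co B k e i (g.1 (e j)) := by
  rw [GG.mul_apply, GG.mul_apply, UT.inv_eig (ev_ne τ j) (ht.on_e hj), ht.co_eq b hi, map_smul,
    map_smul, smul_eq_mul]
  ring

theorem Dg.comm (b : Fb B k e) {t g : GG B} {τ : ℕ → Fˣ} (ht : Dg B k e t τ)
    (hc : t * g = g * t) {i j : ℕ} (hi : i < 2 * k) (hj : j < 2 * k)
    (hij : ev k τ i ≠ ev k τ j) : co B k e i (g.1 (e j)) = 0 := by
  have h1 := ht.co_eq b hi (g.1 (e j))
  rw [← GG.mul_apply, hc, GG.mul_apply, ht.on_e hj, map_smul, map_smul, smul_eq_mul] at h1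
  exact (mul_eq_zero.1 (by linear_combination -h1)).resolve_left (sub_ne_zero.2 hij)

theorem Fb.co_ne (b : Fb B k e) {g : GG B} {j : ℕ} (hj : j < 2 * k) (h1 : g ∈ St B (Fl F e j))
    (h2 : g ∈ St B (Fl F e (j + 1))) : co B k e j (g.1 (e j)) ≠ 0 := fun h0 => by
  have h3 := b.Fl_succ hj (St.map h2 (Rq.Fl.mem j.lt_succ_self))
  rw [h0, zero_smul, sub_zero] at h3
  exact b.e_not hj ((h1 _).1 h3)

theorem Fb.bd' (h : Sy B) (b : Fb B k e) {g : GG B} (hg : ∀ j ≤ k, g ∈ St B (Fl F e j)) :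
    ∃ u ∈ Uu B k e, ∃ t τ, Dg B k e t τ ∧ g = u * t ∧ ∀ i < k, co B k e i (g.1 (e i)) = τ i := by
  have h0 : ∀ i < k, co B k e i (g.1 (e i)) ≠ 0 := fun i hi =>
    b.co_ne (by omega) (hg i hi.le) (hg _ hi)
  let τ : ℕ → Fˣ := fun i => if hi : i < k then Units.mk0 _ (h0 i hi) else 1
  have hτ : ∀ i < k, co B k e i (g.1 (e i)) = τ i := fun i hi => by simp [τ, hi]
  obtain ⟨t, ht⟩ := b.exists_dg h τ
  refine ⟨g * t⁻¹, b.mem_Uu_half h fun j hj => ?_, t, τ, ht, by group, hτ⟩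
  have h3 := Submodule.smul_mem _ (τ j : F)⁻¹
    (b.Fl_succ (by omega) (St.map (hg _ hj) (Rq.Fl.mem j.lt_succ_self)))
  rw [hτ j hj, smul_sub, smul_smul, inv_mul_cancel₀ (τ j).ne_zero, one_smul] at h3
  rwa [GG.mul_apply, UT.inv_eig (τ j).ne_zero (ht j hj).1, map_smul]

theorem Fb.bd (h : Sy B) (b : Fb B k e) {g : GG B} (hg : ∀ j ≤ k, g ∈ St B (Fl F e j)) :
    ∃ u ∈ Uu B k e, ∃ t ∈ Tt B k e, g = u * t :=
  let ⟨u, hu, t, _, ht, e1, _⟩ := b.bd' h hg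
  ⟨u, hu, t, ht.mem, e1⟩

theorem Fb.pow_mem (h : Sy B) (b : Fb B k e) {g : GG B} (hg : ∀ j ≤ k, g ∈ St B (Fl F e j)) :
    g ^ (Fintype.card F - 1) ∈ Uu B k e := by
  refine b.mem_Uu_half h fun j hj => ?_
  have h1 := b.Fl_succ (by omega) (St.map (hg _ hj) (Rq.Fl.mem j.lt_succ_self))
  have c0 := b.co_ne (by omega) (hg j hj.le) (hg _ hj)
  set c := co B k e j (g.1 (e j))
  have h2 : ∀ m : ℕ, (g ^ m).1 (e j) - c ^ m • e j ∈ Fl F e j := by
    intro m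
    induction m with
    | zero => simp
    | succ m ih =>
      have h3 := Submodule.add_mem _ (St.map (hg j hj.le) ih) (Submodule.smul_mem _ (c ^ m) h1)
      convert h3 using 1
      rw [pow_succ', GG.mul_apply, map_sub, map_smul, pow_succ, smul_sub, smul_smul]
      abel
  simpa [FiniteField.pow_card_sub_one_eq_one _ c0] using h2 (Fintype.card F - 1)

theorem Fb.Fl_succ2 (b : Fb B k e) {i : ℕ} (hi : i + 2 ≤ 2 * k) {v : V}
    (hv : v ∈ Fl F e (i + 2)) :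
    v - (co B k e i v • e i + co B k e (i + 1) v • e (i + 1)) ∈ Fl F e i := by
  have h1 := b.Fl_succ (j := i) (by omega) (b.Fl_succ (j := i + 1) (by omega) hv)
  rw [map_sub, map_smul, b.co_e (by omega) (by omega), if_neg (by omega), smul_zero,
    sub_zero] at h1
  convert h1 using 1
  abel

theorem Fb.co_blk (b : Fb B k e) {i : ℕ} (hi : i + 2 ≤ 2 * k) {g : GG B}
    (h1 : g ∈ St B (Fl F e i)) {v : V} (hv : v ∈ Fl F e (i + 2)) {j : ℕ} (hij : i ≤ j)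
    (hj : j < 2 * k) : co B k e j (g.1 v) = co B k e j (g.1 (e i)) * co B k e i v +
      co B k e j (g.1 (e (i + 1))) * co B k e (i + 1) v := by
  have h2 := b.co_Fl hij hj (St.map h1 (b.Fl_succ2 hi hv))
  simp only [map_sub, map_add, map_smul, smul_eq_mul] at h2
  linear_combination h2

theorem Fb.bk_mul (b : Fb B k e) {i : ℕ} (hi : i + 2 ≤ 2 * k) {g g' : GG B}
    (h1 : g ∈ St B (Fl F e i)) (h2 : g' ∈ St B (Fl F e (i + 2))) :
    bk B k e i (g * g') = bk B k e i g * bk B k e i g' := by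
  have a0 : g'.1 (e i) ∈ Fl F e (i + 2) := St.map h2 (Rq.Fl.mem (by omega))
  have a1 : g'.1 (e (i + 1)) ∈ Fl F e (i + 2) := St.map h2 (Rq.Fl.mem (by omega))
  simp only [bk, GG.mul_apply, Matrix.mul_fin_two]
  rw [b.co_blk hi h1 a0 le_rfl (by omega), b.co_blk hi h1 a1 le_rfl (by omega),
    b.co_blk hi h1 a0 (j := i + 1) (by omega) (by omega),
    b.co_blk hi h1 a1 (j := i + 1) (by omega) (by omega)]

theorem Dg.bk_eq (b : Fb B k e) {i : ℕ} (hi : i + 2 ≤ 2 * k) {t : GG B} {τ : ℕ → Fˣ}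
    (ht : Dg B k e t τ) : bk B k e i t = !![ev k τ i, 0; 0, ev k τ (i + 1)] := by
  have h0 : i < 2 * k := by omega
  have h1 : i + 1 < 2 * k := by omega
  simp [bk, ht.co_eq b h0, ht.co_eq b h1, b.co_e h0 h0, b.co_e h0 h1, b.co_e h1 h0, b.co_e h1 h1]

theorem Fb.bk_one (b : Fb B k e) {i : ℕ} (hi : i + 2 ≤ 2 * k) : bk B k e i 1 = 1 := by
  rw [Dg.one.bk_eq b hi, Matrix.one_fin_two]
  simp [ev]

theorem Fb.bk_U (b : Fb B k e) {i : ℕ} (hi : i + 2 ≤ 2 * k) {u : GG B} (hu : u ∈ Uu B k e) :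
    bk B k e i u = !![1, co B k e i (u.1 (e (i + 1))); 0, 1] := by
  rw [bk, b.U_tri hu (by omega) le_rfl, b.U_tri hu (by omega) le_rfl,
    b.U_tri hu (i := i + 1) (j := i) (by omega) (by omega)]
  simp

theorem Fb.bk_pow (b : Fb B k e) {i : ℕ} (hi : i + 2 ≤ 2 * k) {g : GG B}
    (h1 : g ∈ St B (Fl F e i)) (h2 : g ∈ St B (Fl F e (i + 2))) (m : ℕ) :
    bk B k e i (g ^ m) = bk B k e i g ^ m := by
  induction m with
  | zero => simpa using b.bk_one hi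
  | succ m ih => rw [pow_succ, b.bk_mul hi (Subgroup.pow_mem _ h1 m) h2, ih, pow_succ]

theorem Fb.bk_det (h : Sy B) (b : Fb B k e) {i : ℕ} (hi : i + 1 = k) {g : GG B}
    (hg : g ∈ St B (Fl F e i)) : (bk B k e i g).det = 1 := by
  have h2 := b.St_rev (j := i + 2) (by omega) hg
  have a0 : g.1 (e i) ∈ Fl F e (i + 2) := St.map h2 (Rq.Fl.mem (by omega))
  have a1 : g.1 (e (i + 1)) ∈ Fl F e (i + 2) := St.map h2 (Rq.Fl.mem (by omega))
  have h3 := b.B_Fl (by omega) (b.Fl_succ2 (by omega) a0) a1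
  have h4 : B (e i) (e (i + 1)) = 1 := by
    have := b.B1 (i := i) (by omega)
    rwa [show 2 * k - 1 - i = i + 1 by omega] at this
  have h5 : ∀ v, B (e i) v = co B k e (i + 1) v := fun v => by
    rw [← co_hi (k := k) (by omega), show 2 * k - 1 - i = i + 1 by omega]
  have h6 : ∀ v, B (e (i + 1)) v = -co B k e i v := fun v => by
    rw [co_lo (by omega), show 2 * k - 1 - i = i + 1 by omega, neg_neg]
  simp only [map_sub, map_add, map_smul, LinearMap.sub_apply, LinearMap.add_apply,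
    LinearMap.smul_apply, smul_eq_mul, GG.map, h4] at h3
  rw [h5, h6] at h3
  rw [bk, Matrix.det_fin_two_of]
  linear_combination -h3

theorem Fb.Pa_St (b : Fb B k e) {i : ℕ} (hi : i < k) {g : GG B} (hg : g ∈ Pa B k e (· ≠ i + 1)) :
    g ∈ St B (Fl F e i) ∧ g ∈ St B (Fl F e (i + 2)) := by
  have h1 : g ∈ St B (Fl F e i) := hg i hi.le (by simp)
  refine ⟨h1, ?_⟩
  by_cases h2 : i + 2 ≤ k
  · exact hg _ h2 (by simp)
  · exact b.St_rev (by omega) h1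

end CF.Rs
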