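import Cfsg.Agent.Rs.L2
import Cfsg.Agent.Rs.UT
import Cfsg.Agent.Rq.P1

/-! The Bruhat decomposition of the symplectic group. -/

set_option autoImplicit false
open MulAction Module

namespace CF.Rs
open CF.Rq (R3 Sp Tw Oc Cj Btr Gf R4 In Pw Fl)

variable {F V : Type*} [Field F] [Fintype F] [AddCommGroup V] [Module F V]
  {B : V →ₗ[F] V →ₗ[F] F} {k : ℕ} {e : ℕ → V}

namespace BR

omit [Fintype F] in
theorem g0 (b : Fb B k e) {i j : ℕ} (hi : i < 2 * k) (hj : j < 2 * k) (h : i + j + 1 ≠ 2 * k) :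
    B (e i) (e j) = 0 := by rw [b.gram i hi j hj, if_neg h]

omit [Fintype F] in
theorem g1 (b : Fb B k e) {i j : ℕ} (hi : i < 2 * k) (hj : j < 2 * k) (h : i + j + 1 = 2 * k) :
    B (e i) (e j) ≠ 0 := by
  rw [b.gram i hi j hj, if_pos h]; split_ifs <;> simp

theorem sg1 (h : Sy B) (b : Fb B k e) {v : V} {r : ℕ} (hr : r < 2 * k) (h1 : co B k e r v = 1)
    (h0 : ∀ i, r < i → i < 2 * k → B (e (2 * k - 1 - i)) v = 0) :
    ∃ S ∈ Uu B k e, S.1 (e r) = v ∧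
      ∀ j < 2 * k, j ≠ r → (j + r + 1 = 2 * k ∨ B (e j) v = 0) → S.1 (e j) = e j := by
  have hm : v - e r ∈ Fl F e r := by
    simpa [h1] using b.Fl_succ hr ((b.mem_Fl hr).2 fun i x y => co_eq_zero.2 (h0 i x y))
  have hs : 2 * k - 1 - r < 2 * k := by omega
  have e0 : B (e (2 * k - 1 - r)) (v - e r) = 0 := co_eq_zero.1 (by rw [map_sub, h1, b.co_e hr hr]; simp)
  have e1 := g1 b hs hr (by omega)
  generalize hx : e (2 * k - 1 - r) = x at e0 e1
  obtain ⟨S, hS⟩ := h.exists_i2 e0 (-B (v - e r) (e r) / B x (e r) ^ 2) (B x (e r))⁻¹ 0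
  have kk : ∀ j < 2 * k, j ≠ r → S.1 (e j) = e j + ((B x (e r))⁻¹ * B (v - e r) (e j)) • x := fun j hj hjr => by
    have : B x (e j) = 0 := hx ▸ g0 b hs hj (by omega)
    rw [hS, m2_apply]; simp [this]
  have kr : S.1 (e r) = v := by
    rw [hS, m2_apply, inv_mul_cancel₀ e1,
      show -B (v - e r) (e r) / B x (e r) ^ 2 * B x (e r) + (B x (e r))⁻¹ * B (v - e r) (e r) = 0 by field_simp; ring]
    simp
  have k0 : ∀ j < 2 * k, j ≠ r → (j + r + 1 = 2 * k ∨ B (e j) v = 0) → S.1 (e j) = e j := fun j hj hjr k' => by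
    have : B (v - e r) (e j) = 0 := by
      by_cases z : j + r + 1 = 2 * k
      · rw [show j = 2 * k - 1 - r by omega, hx]; exact h.refl e0
      · rw [map_sub, LinearMap.sub_apply, h.refl (k'.resolve_left z), g0 b hr hj (by omega), sub_zero]
    rw [kk j hj hjr, this]; simp
  refine ⟨S, (b.mem_Uu h).2 fun j hj => ?_, kr, k0⟩
  by_cases hjr : j = r
  · rw [hjr, kr]; exact hm
  by_cases k1 : 2 * k - 1 - r < j
  · rw [kk j hj hjr, add_sub_cancel_left]
    exact Submodule.smul_mem _ _ (hx ▸ Rq.Fl.mem k1)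
  · rw [k0 j hj hjr, sub_self]
    · exact zero_mem _
    · by_cases z : j + r + 1 = 2 * k
      · exact .inl z
      · have := h0 (2 * k - 1 - j) (by omega) (by omega)
        rw [show 2 * k - 1 - (2 * k - 1 - j) = j by omega] at this
        exact .inr this

theorem sg (h : Sy B) (b : Fb B k e) {v : V} {r : ℕ} (hr : r < 2 * k)
    (h1 : B (e (2 * k - 1 - r)) v ≠ 0) (h0 : ∀ i, r < i → i < 2 * k → B (e (2 * k - 1 - i)) v = 0) :
    ∃ S ∈ Uu B k e, (∃ a : Fˣ, v = (a : F) • S.1 (e r)) ∧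
      ∀ j < 2 * k, j ≠ r → (j + r + 1 = 2 * k ∨ B (e j) v = 0) → S.1 (e j) = e j := by
  have h2 : co B k e r v ≠ 0 := fun z => h1 (co_eq_zero.1 z)
  obtain ⟨S, a, c, d⟩ := sg1 h b (v := (co B k e r v)⁻¹ • v) hr
    (by simp [h2]) fun i x y => by simp [h0 i x y]
  exact ⟨S, a, ⟨Units.mk0 _ h2, by simp [c, h2]⟩, fun j x y z => d j x y (z.imp_right fun k => by
    simp [k])⟩

theorem last (b : Fb B k e) {v : V} (hv : v ≠ 0) :
    ∃ r < 2 * k, B (e (2 * k - 1 - r)) v ≠ 0 ∧ ∀ i, r < i → i < 2 * k → B (e (2 * k - 1 - i)) v = 0 := by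
  classical
  obtain ⟨r, hr, m⟩ := Finset.exists_max_image
    ((Finset.range (2 * k)).filter fun i => B (e (2 * k - 1 - i)) v ≠ 0) id (by
      by_contra! m
      refine hv ((b.sum v).trans (Finset.sum_eq_zero fun i hi => ?_))
      rw [co_eq_zero.2 (not_not.1 (Finset.filter_eq_empty_iff.1 m hi)), zero_smul])
  simp only [Finset.mem_filter, Finset.mem_range, id] at hr m
  exact ⟨r, hr.1, hr.2, fun i x y => by_contra fun z => absurd (m i ⟨y, z⟩) (by omega)⟩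

variable (k e) in
/-- monomial on the outer `m` pairs -/
def Dn (m : ℕ) (g : GG B) : Prop :=
  ∀ j < 2 * k, (j < m ∨ 2 * k ≤ j + m) → ∃ i < 2 * k, ∃ c : Fˣ, g.1 (e j) = (c : F) • e i

omit [Fintype F] in
theorem val {g : GG B} {x y z : V} {c : Fˣ} (k : g.1 x = (c : F) • y) (k0 : B x z = 0) :
    B y (g.1 z) = 0 := by
  have := g.2 x z
  simpa [k, k0] using this

theorem step (h : Sy B) (b : Fb B k e) {m : ℕ} (hm : m < k) {g : GG B}
    (hg : Dn k e m g) : ∃ u ∈ Uu B k e, ∃ u' ∈ Uu B k e, Dn k e (m + 1) (u * g * u') := by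
  have hm' : m < 2 * k := by omega
  obtain ⟨r, hr, h1, h0⟩ := last b (v := g.1 (e m)) (by simpa using b.ne hm')
  obtain ⟨S, hS, ⟨a, ha⟩, kk⟩ := sg h b hr h1 h0
  have d1 : ∀ j < 2 * k, (j < m ∨ 2 * k ≤ j + m) →
      ∃ i < 2 * k, i ≠ r ∧ ∃ c : Fˣ, (S⁻¹ * g).1 (e j) = (c : F) • e i := fun j hj x => by
    obtain ⟨i, hi, c, hc⟩ := hg j hj x
    obtain ⟨i', hi', c', hc'⟩ := hg (2 * k - 1 - j) (by omega) (by omega)
    have e1 := g.2 (e (2 * k - 1 - j)) (e j)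
    rw [hc, hc'] at e1
    have e2 : i' + i + 1 = 2 * k := by_contra fun z => g1 b (i := 2 * k - 1 - j) (by omega) hj (by omega) (by
      rw [← e1]; simp [g0 b hi' hi z])
    have e3 : i ≠ r := fun z => h1 (by
      rw [show 2 * k - 1 - r = i' by omega]
      exact val hc' (g0 b (by omega) hm' (by omega)))
    refine ⟨i, hi, e3, c, ?_⟩
    rw [GG.mul_apply, hc, map_smul]
    conv_lhs => rw [← kk i hi e3 (.inr (val hc (g0 b hj hm' (by omega)))), GG.apply_inv]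
  have d2 : (S⁻¹ * g).1 (e m) = (a : F) • e r := by
    rw [GG.mul_apply, ha, map_smul, GG.apply_inv]
  generalize hg' : S⁻¹ * g = g' at d1 d2
  have z : ∀ x, B x (g'⁻¹.1 (e (2 * k - 1 - r))) = B (g'.1 x) (e (2 * k - 1 - r)) := fun x => by
    rw [← g'.2, GG.inv_apply]
  have d3 : ∀ j < 2 * k, (j < m ∨ 2 * k ≤ j + m) → B (e j) (g'⁻¹.1 (e (2 * k - 1 - r))) = 0 := fun j hj x => by
    obtain ⟨i, hi, e3, c, hc⟩ := d1 j hj x
    rw [z, hc]
    simp [g0 b hi (j := 2 * k - 1 - r) (by omega) (by omega)]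
  obtain ⟨T, hT, ⟨c, hc⟩, k'⟩ := sg h b (v := g'⁻¹.1 (e (2 * k - 1 - r))) (r := 2 * k - 1 - m) (by omega) (by
      rw [show 2 * k - 1 - (2 * k - 1 - m) = m by omega, z, d2]
      simp [g1 b hr (j := 2 * k - 1 - r) (by omega) (by omega)])
    fun i x y => d3 _ (by omega) (by omega)
  refine ⟨S⁻¹, inv_mem hS, T, hT, fun j hj x => ?_⟩
  rw [hg', GG.mul_apply]
  by_cases y : j = 2 * k - 1 - m
  · refine ⟨2 * k - 1 - r, by omega, c⁻¹, ?_⟩
    rw [← GG.inv_apply g' (e (2 * k - 1 - r)), hc, map_smul, smul_smul, y]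
    simp
  by_cases y' : j = m
  · rw [k' j hj y (.inl (by omega)), y']
    exact ⟨r, hr, a, d2⟩
  · obtain ⟨i, hi, -, w⟩ := d1 j hj (by omega)
    rw [k' j hj y (.inr (d3 j hj (by omega)))]
    exact ⟨i, hi, w⟩

theorem all (h : Sy B) (b : Fb B k e) (g : GG B) (m : ℕ) (hm : m ≤ k) :
    ∃ u ∈ Uu B k e, ∃ u' ∈ Uu B k e, Dn k e m (u * g * u') := by
  induction m with
  | zero => exact ⟨1, one_mem _, 1, one_mem _, fun j hj x => by omega⟩
  | succ m ih =>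
    obtain ⟨u, hu, u', hu', a⟩ := ih (by omega)
    obtain ⟨s, hs, s', hs', k'⟩ := step h b (by omega) a
    exact ⟨s * u, mul_mem hs hu, u' * s', mul_mem hu' hs', by simpa [mul_assoc] using k'⟩

end BR

theorem Fb.sp (h : Sy B) (b : Fb B k e) : Sp (Uu B k e) (Tt B k e) (Nn B k e) where
  comm s hs t ht := b.ext' fun i hi => by
    obtain ⟨c, hc⟩ := hs i hi
    obtain ⟨d, hd⟩ := ht i hi
    simp [hc, hd, smul_smul, mul_comm]
  nU t ht u hu := (b.mem_Uu h).2 fun j hj => by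
    obtain ⟨c, hc⟩ := inv_mem ht j hj
    have := (h.T_St ht hj.le _).2 (hu j hj _ (hc ▸ Submodule.smul_mem _ (c : F) (Rq.Fl.mem j.lt_succ_self))).1
    rwa [map_sub, GG.inv_apply] at this
  nT g hg t ht j hj := by
    obtain ⟨i, hi, c, hc⟩ := (hg j hj).1
    obtain ⟨d, hd⟩ := ht i hi
    refine ⟨d, ?_⟩
    rw [GG.mul_apply, GG.mul_apply, hc, map_smul, hd, smul_comm, ← hc, map_smul, GG.apply_inv]
  br g := by
    obtain ⟨u, hu, u', hu', a⟩ := BR.all h b g k le_rfl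
    exact ⟨u⁻¹, inv_mem hu, _, (b.mem_Nn h).2 fun j hj => a j hj (by omega), u'⁻¹, inv_mem hu', by group⟩

end CF.Rs
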