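import Cfsg.Agent.Rs.UT
import Cfsg.Agent.Rs.L2

/-! Witt's theorem on flags, monomial maps. -/

set_option autoImplicit false
set_option linter.unusedSectionVars false
open MulAction Module

namespace CF.Rs
open CF.Rq (R3 Sp Tw Oc Cj Btr Gf R4 In Pw Fl)

variable {F V : Type*} [Field F] [Fintype F] [AddCommGroup V] [Module F V]
  {B : V →ₗ[F] V →ₗ[F] F} {k : ℕ} {e : ℕ → V}

theorem Fb.wt (h : Sy B) (b : Fb B k e) (r : ℕ) (hr : r ≤ k) (z : ℕ → V)
    (li : LinearIndependent F fun i : Fin r => z i) (ti : ∀ i < r, ∀ j < r, B (z i) (z j) = 0) :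
    ∃ g : GG B, ∀ i < r, g.1 (e i) = z i := by
  obtain ⟨g, hg⟩ := h.witt (fun i : Fin r => e i) _ (b.li (by omega)) li fun i j => by
    rw [ti _ i.2 _ j.2, b.B0] <;> omega
  exact ⟨g, fun i hi => hg ⟨i, hi⟩⟩

theorem Fb.wt2 (h : Sy B) (b : Fb B k e) {x y : V} (t : Ti2 B x y) :
    ∃ g : GG B, g.1 (e 0) = x ∧ g.1 (e 1) = y := by
  have := b.k3 h
  obtain ⟨g, hg⟩ := b.wt h 2 (by omega) (fun i => if i = 0 then x else y)
    (Fintype.linearIndependent_iff.2 fun c hc => by
      have := t.li (c 0) (c 1) (by simpa [Fin.sum_univ_two] using hc)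
      exact Fin.forall_fin_two.2 this)
    fun i hi j hj => by split_ifs <;> simp [h.alt, t.xy, h.refl t.xy]
  exact ⟨g, hg 0 (by omega), hg 1 (by omega)⟩

theorem Fb.wt3 (h : Sy B) (b : Fb B k e) {x y z : V} (t : Ti3 B x y z) :
    ∃ g : GG B, g.1 (e 0) = x ∧ g.1 (e 1) = y ∧ g.1 (e 2) = z := by
  obtain ⟨g, hg⟩ := b.wt h 3 (b.k3 h) (fun i => if i = 0 then x else if i = 1 then y else z)
    (Fintype.linearIndependent_iff.2 fun c hc => by
      obtain ⟨h0, h1, h2⟩ := t.li (c 0) (c 1) (c 2) (by simpa [Fin.sum_univ_three] using hc)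
      intro i
      fin_cases i
      exacts [h0, h1, h2])
    fun i hi j hj => by
      split_ifs <;> simp [h.alt, t.xy, h.refl t.xy, t.xz, h.refl t.xz, t.yz, h.refl t.yz]
  exact ⟨g, hg 0 (by omega), hg 1 (by omega), hg 2 (by omega)⟩

theorem WT.li_of {z : ℕ → V} {r : ℕ} (h : ∀ i < r, z i ∉ Fl F z i) :
    LinearIndependent F fun i : Fin r => z i := by
  induction r with
  | zero => exact linearIndependent_empty_type
  | succ r ih =>
    have e1 : (fun i : Fin (r + 1) => z i) = Fin.snoc (fun i : Fin r => z i) (z r) := by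
      ext i
      refine Fin.lastCases ?_ (fun j => ?_) i <;> simp
    rw [e1, linearIndependent_finSnoc]
    refine ⟨ih fun i hi => h i (by omega), fun h1 => h r r.lt_succ_self ?_⟩
    refine Submodule.span_mono ?_ h1
    rintro _ ⟨i, rfl⟩
    exact ⟨i, i.2, rfl⟩

theorem WT.Fl_le {z : ℕ → V} {j : ℕ} {Y : Submodule F V} (h : ∀ i < j, z i ∈ Y) :
    Fl F z j ≤ Y := Submodule.span_le.2 (by rintro _ ⟨i, hi, rfl⟩; exact h i hi)

theorem Fb.wtP (h : Sy B) (b : Fb B k e) {i : ℕ} (hi : i < k) {v : V} (h1 : v ∈ Fl F e (i + 2))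
    (h2 : v ∉ Fl F e i) : ∃ g ∈ Pa B k e (· ≠ i + 1), g.1 (e i) = v := by
  obtain ⟨w, w1, w2⟩ : ∃ w ∈ Fl F e (i + 2), w ∉ Fl F e i ⊔ Submodule.span F {v} := by
    have := h.fd
    by_contra hn
    push Not at hn
    have h3 := Submodule.finrank_mono (show Fl F e (i + 2) ≤ _ from hn)
    have h4 := Submodule.finrank_add_le_finrank_add_finrank (Fl F e i) (Submodule.span F {v})
    have h5 := finrank_span_le_card (R := F) ({v} : Set V)
    rw [b.finrank_Fl (by omega)] at h3 h4
    simp only [Set.toFinset_singleton, Finset.card_singleton] at h5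
    omega
  let z : ℕ → V := fun j => if j = i then v else if j = i + 1 then w else e j
  have hz : ∀ j, i + 2 ≤ j → ∀ l < j, z l ∈ Fl F e j := fun j hj l hl => by
    simp only [z]
    split_ifs
    exacts [Rq.Fl.mono hj h1, Rq.Fl.mono hj w1, Rq.Fl.mem hl]
  have hz0 : ∀ j ≤ i, ∀ l < j, z l ∈ Fl F e j := fun j hj l hl => by
    simp only [z, if_neg (show l ≠ i by omega), if_neg (show l ≠ i + 1 by omega)]
    exact Rq.Fl.mem hl
  obtain ⟨g, hg⟩ := b.wt h k le_rfl z (WT.li_of fun j hj h3 => by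
      rcases lt_trichotomy j i with h4 | rfl | h4
      · have h5 := WT.Fl_le (hz0 j h4.le) h3
        simp only [z, if_neg (show j ≠ i by omega), if_neg (show j ≠ i + 1 by omega)] at h5
        exact b.e_not (by omega) h5
      · exact h2 (by simpa [z] using WT.Fl_le (hz0 j le_rfl) h3)
      by_cases h5 : j = i + 1
      · subst h5
        have h7 := WT.Fl_le (Y := Fl F e i ⊔ Submodule.span F {v}) (fun l hl => by
          by_cases h6 : l = i
          · simpa [z, h6] using Submodule.mem_sup_right (Submodule.mem_span_singleton_self v)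
          · exact Submodule.mem_sup_left (hz0 i le_rfl l (by omega))) h3
        exact w2 (by simpa [z] using h7)
      · have h6 := WT.Fl_le (hz j (by omega)) h3
        simp only [z, if_neg (show j ≠ i by omega), if_neg h5] at h6
        exact b.e_not (by omega) h6)
    fun l hl m hm => by
      by_cases h3 : i + 2 ≤ k
      · exact b.B_Fl (by omega) (hz k h3 l hl) (hz k h3 m hm)
      by_cases h4 : l = i
      · by_cases h5 : m = i
        · rw [h4, h5, h.alt]
        · exact b.B_Fl (by omega) (hz (i + 2) le_rfl l (by omega)) (hz0 i le_rfl m (by omega))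
      · exact b.B_Fl (by omega) (hz0 i le_rfl l (by omega)) (hz (i + 2) le_rfl m (by omega))
  refine ⟨g, fun j hj hS => h.mem_St_Fl fun l hl => ?_, by simpa [z] using hg i hi⟩
  rw [hg l (by omega)]
  by_cases h3 : j ≤ i
  · exact hz0 j h3 l hl
  · exact hz j (by simp only at hS; omega) l hl

theorem Fb.wtK (h : Sy B) (b : Fb B k e) {z y : V} (hz : z ∈ Fl F e 3) (hy : y ∈ Fl F e 3)
    (z0 : z ≠ 0) (yz : y ∉ Submodule.span F {z}) :
    ∃ g ∈ Pa B k e (3 ≤ ·), g.1 (e 0) = z ∧ g.1 (e 1) = y := by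
  have k3 := b.k3 h
  obtain ⟨w, w1, w2⟩ : ∃ w ∈ Fl F e 3, w ∉ Submodule.span F {z, y} := by
    classical
    have := h.fd
    by_contra hn
    push Not at hn
    have h3 := Submodule.finrank_mono (show Fl F e 3 ≤ _ from hn)
    have h5 := finrank_span_le_card (R := F) ({z, y} : Set V)
    have h6 := Finset.card_le_two (a := z) (b := y)
    rw [b.finrank_Fl (by omega)] at h3
    simp only [Set.toFinset_insert, Set.toFinset_singleton] at h5
    omega
  let x : ℕ → V := fun j => if j = 0 then z else if j = 1 then y else if j = 2 then w else e j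
  have hx : ∀ j, 3 ≤ j → ∀ l < j, x l ∈ Fl F e j := fun j hj l hl => by
    simp only [x]
    split_ifs
    exacts [Rq.Fl.mono hj hz, Rq.Fl.mono hj hy, Rq.Fl.mono hj w1, Rq.Fl.mem hl]
  obtain ⟨g, hg⟩ := b.wt h k le_rfl x (WT.li_of fun j hj h3 => by
      by_cases h4 : 3 ≤ j
      · have h6 := WT.Fl_le (hx j h4) h3
        simp only [x, if_neg (show j ≠ 0 by omega), if_neg (show j ≠ 1 by omega),
          if_neg (show j ≠ 2 by omega)] at h6
        exact b.e_not (by omega) h6
      obtain rfl | rfl | rfl : j = 0 ∨ j = 1 ∨ j = 2 := by omega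
      · exact z0 (by simpa [x, Rq.Fl.zero] using h3)
      · exact yz (by simpa [x, Fl_one] using h3)
      · exact w2 (by simpa [x, Fl_two] using h3))
    fun l hl m hm => b.B_Fl (by omega) (hx k k3 l hl) (hx k k3 m hm)
  refine ⟨g, fun j hj hS => h.mem_St_Fl fun l hl => ?_, hg 0 (by omega), hg 1 (by omega)⟩
  rw [hg l (by omega)]
  exact hx j hS l hl

theorem Fb.mon (h : Sy B) (b : Fb B k e) (π : ℕ → ℕ) (h1 : ∀ i < 2 * k, π i < 2 * k)
    (h2 : ∀ i < 2 * k, π (π i) = i) (h3 : ∀ i < 2 * k, π (2 * k - 1 - i) = 2 * k - 1 - π i) :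
    ∃ g ∈ Nn B k e, ∀ i < 2 * k, ∃ c : Fˣ, g.1 (e i) = (c : F) • e (π i) := by
  have inj : ∀ i < 2 * k, ∀ l < 2 * k, π i = π l → i = l := fun i a l c t => by
    rw [← h2 i a, t, h2 l c]
  let c : ℕ → Fˣ := fun i => if k ≤ i ∧ π i < k then -1 else 1
  obtain ⟨f, hf⟩ := b.basis
  have li : LinearIndependent F fun i : Fin (2 * k) => e (π i) := by
    simpa only [Function.comp_def, hf] using f.linearIndependent.comp
      (fun i : Fin (2 * k) => ⟨π i, h1 i i.2⟩) fun i j t => Fin.ext (inj i i.2 j j.2 (congrArg Fin.val t))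
  obtain ⟨g, hg⟩ := h.witt (fun i : Fin (2 * k) => e i) (fun i => c i • e (π i)) (b.li le_rfl)
    (li.units_smul fun i => c i) fun i l => by
      have a1 := h1 i i.2
      have a2 := h1 l l.2
      have a3 := h3 i i.2
      have a4 := i.2
      have a5 := l.2
      simp only [Units.smul_def, map_smul, LinearMap.smul_apply, smul_eq_mul]
      rw [b.gram _ a1 _ a2, b.gram _ i.2 _ l.2]
      by_cases t : (i : ℕ) + l + 1 = 2 * k
      · have a6 : π l = 2 * k - 1 - π i := by rw [← a3]; congr 1; omega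
        rw [if_pos t, if_pos (by omega)]
        simp only [c]
        split_ifs <;> first | omega | simp
      · rw [if_neg t, if_neg fun t' => t (by
          have := inj l l.2 (2 * k - 1 - i) (by omega) (by omega); omega)]
        simp
  have : ∀ i < 2 * k, ∃ c : Fˣ, g.1 (e i) = (c : F) • e (π i) := fun i hi => ⟨c i, hg ⟨i, hi⟩⟩
  exact ⟨g, (b.mem_Nn h).2 fun i hi => ⟨_, h1 i hi, this i hi⟩, this⟩

theorem WT.cj {n t : GG B} {τ : ℕ → Fˣ} (ht : Dg B k e t τ) {i a : ℕ} (ha : a < 2 * k) {c : Fˣ}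
    (hn : n.1 (e i) = (c : F) • e a) : (n⁻¹ * t * n).1 (e i) = ev k τ a • e i := by
  rw [GG.mul_apply, GG.mul_apply, hn, map_smul, ht.on_e ha, smul_comm, ← hn, map_smul,
    GG.apply_inv]

theorem WT.nb (b : Fb B k e) {i j a a' : ℕ} (hi : i < 2 * k) (hj : j < 2 * k) (ha : a < 2 * k)
    (ha' : a' < 2 * k) {n : GG B} {c d : Fˣ} (h1 : n.1 (e i) = (c : F) • e a)
    (h2 : n.1 (e j) = (d : F) • e a') : a + a' + 1 = 2 * k ↔ i + j + 1 = 2 * k := by
  have h3 := GG.map n (e i) (e j)
  rw [h1, h2] at h3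
  simp only [map_smul, LinearMap.smul_apply, smul_eq_mul, b.gram a ha a' ha', b.gram i hi j hj]
    at h3
  by_cases s : a + a' + 1 = 2 * k <;> by_cases t : i + j + 1 = 2 * k <;>
    simp only [s, t, if_true, if_false] at h3 ⊢
  · split_ifs at h3 <;> simp at h3
  · split_ifs at h3 <;> simp at h3

theorem WT.inj (b : Fb B k e) {i j a : ℕ} (hi : i < 2 * k) (hj : j < 2 * k) {n : GG B} {c d : Fˣ}
    (h1 : n.1 (e i) = (c : F) • e a) (h2 : n.1 (e j) = (d : F) • e a) : i = j := by
  by_contra h3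
  have h4 : (d : F) • e i = (c : F) • e j :=
    n.1.injective (by rw [map_smul, map_smul, h1, h2, smul_comm])
  simpa [b.co_e hi hi, b.co_e hi hj, h3] using congrArg (co B k e i) h4

theorem Fb.nperm (b : Fb B k e) {n : GG B} (hn : n ∈ Nn B k e) : ∃ (π : ℕ → ℕ) (s : ℕ → ℤ),
    (∀ i < k, π i < k ∧ (s i = 1 ∨ s i = -1)) ∧ (∀ i < k, ∀ j < k, π i = π j → i = j) ∧
    (∀ j < k, ∃ i < k, π i = j) ∧
    ∀ t τ, Dg B k e t τ → Dg B k e (n⁻¹ * t * n) fun i => τ (π i) ^ s i := by
  choose! σ hσ c hc using fun j hj => (hn j hj).1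
  have rev : ∀ i < 2 * k, σ (2 * k - 1 - i) = 2 * k - 1 - σ i := fun i hi => by
    have := (WT.nb b hi (by omega) (hσ i hi) (hσ (2 * k - 1 - i) (by omega)) (hc i hi)
      (hc _ (by omega))).2 (by omega)
    omega
  have inj : ∀ i < 2 * k, ∀ j < 2 * k, σ i = σ j → i = j := fun i hi j hj t =>
    WT.inj b hi hj (hc i hi) (t ▸ hc j hj)
  let π : ℕ → ℕ := fun i => if σ i < k then σ i else 2 * k - 1 - σ i
  have h1 : ∀ i < k, π i < k := fun i hi => by
    have := hσ i (by omega)
    simp only [π]; split_ifs <;> omega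
  have h2 : ∀ i < k, ∀ j < k, π i = π j → i = j := fun i hi j hj t => by
    have a1 := hσ i (by omega)
    have a2 := hσ j (by omega)
    have a3 := rev j (by omega)
    have a4 := inj i (by omega) j (by omega)
    have a5 := inj i (by omega) (2 * k - 1 - j) (by omega)
    simp only [π] at t
    split_ifs at t <;> omega
  refine ⟨π, fun i => if σ i < k then 1 else -1, fun i hi => ⟨h1 i hi, by dsimp only; split_ifs <;> simp⟩, h2,
    fun j hj => ?_, fun t τ ht i hi => ?_⟩
  · obtain ⟨i, hi⟩ := Finite.injective_iff_surjective.1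
      (show Function.Injective fun i : Fin k => (⟨π i, h1 i i.2⟩ : Fin k) from
        fun i j t => Fin.ext (h2 i i.2 j j.2 (congrArg Fin.val t))) ⟨j, hj⟩
    exact ⟨i, i.2, congrArg Fin.val hi⟩
  · have a1 := hσ i (by omega)
    rw [WT.cj ht a1 (hc i (by omega)), WT.cj ht (hσ _ (by omega)) (hc _ (by omega)),
      rev i (by omega)]
    simp only [π]
    split_ifs with s
    · rw [ev_lo τ s, ev_hi τ s]; simp
    · rw [ev_ge τ (by omega), ev_lo τ (by omega)]; simp

theorem Fb.nswap (h : Sy B) (b : Fb B k e) {a c : ℕ} (ha : a < k) (hc : c < k) :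
    ∃ n ∈ Nn B k e, ∀ t τ, Dg B k e t τ →
      Dg B k e (n⁻¹ * t * n) fun i => τ (Equiv.swap a c i) := by
  have sw : ∀ i < k, Equiv.swap a c i < k := fun i hi => by
    rw [Equiv.swap_apply_def]; split_ifs <;> omega
  obtain ⟨n, hn, s⟩ := b.mon h
    (fun i => if i < k then Equiv.swap a c i else 2 * k - 1 - Equiv.swap a c (2 * k - 1 - i))
    (fun i hi => by
      split_ifs with t
      · have := sw i t; omega
      · omega)
    (fun i hi => by
      by_cases t : i < k
      · simp [t, sw i t]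
      · have := sw (2 * k - 1 - i) (by omega)
        rw [if_neg t, if_neg (by omega), show 2 * k - 1 - (2 * k - 1 - Equiv.swap a c (2 * k - 1 - i))
          = Equiv.swap a c (2 * k - 1 - i) by omega, Equiv.swap_apply_self]
        omega)
    fun i hi => by
      by_cases t : i < k
      · rw [if_neg (by omega), if_pos t, show 2 * k - 1 - (2 * k - 1 - i) = i by omega]
      · have := sw (2 * k - 1 - i) (by omega)
        rw [if_pos (by omega), if_neg t]
        omega
  refine ⟨n, hn, fun t τ ht i hi => ?_⟩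
  obtain ⟨d, hd⟩ := s i (by omega)
  obtain ⟨d', hd'⟩ := s (2 * k - 1 - i) (by omega)
  have := sw i hi
  rw [if_pos hi] at hd
  rw [if_neg (by omega), show 2 * k - 1 - (2 * k - 1 - i) = i by omega] at hd'
  rw [WT.cj ht (by omega) hd, WT.cj ht (by omega) hd', ev_lo τ this, ev_hi τ this]
  exact ⟨rfl, rfl⟩

theorem Fb.nflip (h : Sy B) (b : Fb B k e) {a : ℕ} (ha : a < k) :
    ∃ n ∈ Nn B k e, ∀ t τ, Dg B k e t τ →
      Dg B k e (n⁻¹ * t * n) fun i => if i = a then (τ i)⁻¹ else τ i := by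
  obtain ⟨n, hn, s⟩ := b.mon h
    (fun i => if i = a then 2 * k - 1 - a else if i = 2 * k - 1 - a then a else i)
    (fun i hi => by split_ifs <;> omega) (fun i hi => by split_ifs <;> omega)
    fun i hi => by split_ifs <;> omega
  refine ⟨n, hn, fun t τ ht i hi => ?_⟩
  obtain ⟨d, hd⟩ := s i (by omega)
  obtain ⟨d', hd'⟩ := s (2 * k - 1 - i) (by omega)
  by_cases r : i = a
  · subst r
    rw [if_pos rfl] at hd
    rw [if_neg (by omega), if_pos rfl] at hd'
    rw [WT.cj ht (by omega) hd, WT.cj ht (by omega) hd', ev_lo τ hi, ev_hi τ hi]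
    simp
  · rw [if_neg r, if_neg (by omega)] at hd
    rw [if_neg (by omega), if_neg (by omega)] at hd'
    rw [WT.cj ht (by omega) hd, WT.cj ht (by omega) hd', ev_lo τ hi, ev_hi τ hi]
    simp [r]

end CF.Rs
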