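import Cfsg.Agent.Rs.TA
import Cfsg.Agent.Rs.WT
import Cfsg.Agent.Rs.AR

/-! The torus part of a point stabiliser for `q = 3` and a transitive Borel subgroup. -/

set_option autoImplicit false
set_option linter.unusedSectionVars false
open MulAction Module

namespace CF.Rs
open CF.Rq (R3 Sp Tw Oc Cj Btr Gf R4 In Pw Fl)

variable {F V : Type*} [Field F] [Fintype F] [AddCommGroup V] [Module F V]
  {B : V →ₗ[F] V →ₗ[F] F} {k : ℕ} {e : ℕ → V} {Ω : Type*} [MulAction (GG B) Ω]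

theorem BT.sw (h : Sy B) (b : Fb B k e) (bt : Btr Ω (Uu B k e) (Tt B k e)) {ω : Ω} {τ : ℕ → Fˣ}
    (h1 : Aw B k e ω τ) {a c : ℕ} (ha : a < k) (hc : c < k) :
    Aw B k e ω fun i => τ (Equiv.swap a c i) := by
  obtain ⟨n, -, hn⟩ := b.nswap h ha hc
  obtain ⟨t, ht⟩ := b.exists_dg h τ
  exact b.btr_conj h bt h1 ht (hn t τ ht)

theorem Fb.bt3 (h : Sy B) (b : Fb B k e) (h3 : Fintype.card F = 3)
    (bt : Btr Ω (Uu B k e) (Tt B k e)) (ng : Ng B Ω) :
    (∀ i < k, ∀ ω : Ω, Aw B k e ω (d1 i (-1))) ∨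
      (4 ≤ k ∧ ∀ a < k, ∀ c < k, ∀ ω : Ω, Aw B k e ω (d1 a (-1) * d1 c (-1))) ∨ Cs B k e Ω := by
  have k3 := b.k3 h
  by_cases cs : Cs B k e Ω
  · exact Or.inr (Or.inr cs)
  obtain ⟨ω, τ, a, c, ha, hc, h1, h2⟩ : ∃ (ω : Ω) (τ : ℕ → Fˣ) (a c : ℕ), a < k ∧ c < k ∧
      Aw B k e ω τ ∧ τ a ≠ τ c := by
    by_contra hn
    push Not at hn
    exact cs fun ω τ t => ⟨hn ω τ 0 1 (by omega) (by omega) t, hn ω τ 1 2 (by omega) (by omega) t⟩
  have ac : a ≠ c := fun t => h2 (t ▸ rfl)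
  have h4 : Aw B k e ω (d1 a (-1) * d1 c (-1)) := by
    refine (h1.mul h b (BT.sw h b bt h1 ha hc)).congr fun i _ => ?_
    have h5 : τ a * τ c = -1 := by
      rcases f3_unit h3 (τ a) with s | s <;> rcases f3_unit h3 (τ c) with t | t <;> simp_all
    simp only [Pi.mul_apply, d1, Equiv.swap_apply_def]
    split_ifs with s t t
    · omega
    · rw [s, h5, mul_one]
    · rw [t, mul_comm, h5, one_mul]
    · rcases f3_unit h3 (τ i) with s | s <;> simp [s]
  have mv : ∀ {a c a' : ℕ}, a < k → a' < k → a ≠ c → a' ≠ c →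
      Aw B k e ω (d1 a (-1) * d1 c (-1)) → Aw B k e ω (d1 a' (-1) * d1 c (-1)) := by
    intro a c a' ha ha' s t h5
    refine (BT.sw h b bt h5 ha ha').congr fun i _ => ?_
    simp only [Pi.mul_apply, d1, Equiv.swap_apply_def]
    split_ifs <;> first | omega | rfl
  have h5 : ∀ a' < k, ∀ c' < k, ∀ ω' : Ω, Aw B k e ω' (d1 a' (-1) * d1 c' (-1)) := by
    intro a' ha' c' hc' ω'
    refine b.btr_aw h bt (ω := ω) ?_ ω'
    by_cases s : a' = c'
    · refine (Aw.one ω).congr fun i _ => ?_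
      simp only [Pi.mul_apply, d1, s]
      split_ifs <;> simp
    by_cases t : a' = c
    · subst t
      exact mul_comm (d1 c' (-1 : Fˣ)) _ ▸ mv ha hc' ac (Ne.symm s) h4
    · have h6 := mv ha ha' ac t h4
      rw [mul_comm] at h6 ⊢
      exact mv hc hc' (Ne.symm t) (Ne.symm s) h6
  by_cases k4 : 4 ≤ k
  · exact Or.inr (Or.inl ⟨k4, h5⟩)
  obtain rfl : k = 3 := by omega
  obtain ⟨z, hz⟩ := h.neg
  have h6 : ∀ ω' : Ω, Aw B 3 e ω' fun _ => -1 := fun ω' =>
    Aw.of_fix (t := z) (fun i _ => by simp [hz]) (ng z hz ω')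
  refine Or.inl fun i hi ω' => ?_
  obtain rfl | rfl | rfl : i = 0 ∨ i = 1 ∨ i = 2 := by omega
  · exact ((h6 ω').mul h b (h5 1 (by omega) 2 (by omega) ω')).congr fun j hj => by
      interval_cases j <;> simp [d1]
  · exact ((h6 ω').mul h b (h5 0 (by omega) 2 (by omega) ω')).congr fun j hj => by
      interval_cases j <;> simp [d1]
  · exact ((h6 ω').mul h b (h5 0 (by omega) 1 (by omega) ω')).congr fun j hj => by
      interval_cases j <;> simp [d1]

end CF.Rs
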