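import Cfsg.Agent.Rs.L2
import Cfsg.Agent.Rs.AR

/-! Symplectic groups over prime fields: components of full points. -/

set_option autoImplicit false
open MulAction Module

namespace CF.Rs
open CF.Rq (R3 Sp Tw Oc Cj Btr Gf R4 In Pw Fl)

variable {F V : Type*} [Field F] [Fintype F] [AddCommGroup V] [Module F V]
  {B : V →ₗ[F] V →ₗ[F] F} {K : Subgroup (V ≃ₗ[F] V)}

namespace CO1

theorem sym (h : Sy B) {x y : V} (k : B x y ≠ 0) : B y x ≠ 0 := fun z => k (h.refl z)

theorem add (h : Sy B) (hK : K ≤ SP B) {x y : V} (hx : Full B K x) (hy : Full B K y) (hxy : B x y ≠ 0) (a : F) :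
    Full B K (x + a • y) := by
  simpa using Full.np h hK hx hy hxy (a := 1) (c := a) (.inl one_ne_zero)

theorem add1 (h : Sy B) (hK : K ≤ SP B) {x y : V} (hx : Full B K x) (hy : Full B K y) (hxy : B x y ≠ 0) :
    Full B K (x + y) := by simpa using add h hK hx hy hxy 1

theorem key (h : Sy B) (hK : K ≤ SP B) {x y z w : V} (hz : Full B K z) (hw : Full B K w) (xz : B x z ≠ 0)
    (yz : B y z ≠ 0) (s : B x z + B y z = 0) (xw : B x w ≠ 0) (yw : B y w = 0) (zw : B z w ≠ 0) :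
    ∃ u, Full B K u ∧ B x u ≠ 0 ∧ B y u ≠ 0 ∧ B x u + B y u ≠ 0 := by
  obtain ⟨a, a0, ha⟩ : ∃ a : F, a ≠ 0 ∧ B x z + a * B x w ≠ 0 := by
    by_contra! k
    have e1 := k 1 one_ne_zero
    have e2 := k (-1) (by simp)
    exact xz ((mul_eq_zero.1 (show 2 * B x z = 0 by linear_combination e1 + e2)).resolve_left h.odd)
  refine ⟨_, add h hK hz hw zw a, by simpa using ha, by simpa [yw] using yz, fun k => mul_ne_zero a0 xw ?_⟩
  simp only [map_add, map_smul, smul_eq_mul, yw] at k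
  linear_combination k - s

theorem key2 (h : Sy B) (hK : K ≤ SP B) {x y z w : V} (hx : Full B K x) (xy : B x y = 0) (hz : Full B K z)
    (hw : Full B K w) (xz : B x z ≠ 0) (yz : B y z ≠ 0) (s : B x z + B y z = 0) (xw : B x w ≠ 0) (yw : B y w = 0) :
    ∃ u, Full B K u ∧ B x u ≠ 0 ∧ B y u ≠ 0 ∧ B x u + B y u ≠ 0 := by
  by_cases zw : B z w = 0
  · exact key h hK (add1 h hK hz hx (sym h xz)) hw (by simpa [h.alt] using xz) (by simpa [h.refl xy] using yz)
      (by simpa [h.alt, h.refl xy] using s) xw yw (by simpa [zw] using xw)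
  · exact key h hK hz hw xz yz s xw yw zw

end CO1

open CO1

theorem Tv.full (h : Sy B) (hp : (Fintype.card F).Prime) (tv : Tv B K) : ∃ z, Full B K z := by
  obtain ⟨x, c, x0, c0, hi⟩ := tv
  refine ⟨x, x0, fun d => ?_⟩
  obtain ⟨n, hn⟩ := nat_surj hp (d / c)
  have : ∀ m : ℕ, I2 B K x x (m * c) 0 0 := fun m => by
    induction m with
    | zero => exact (I2.zero x x).congr (by simp) rfl rfl
    | succ m ih => exact (ih.add h (h.alt x) (I2.fst.2 hi)).congr (by push_cast; ring) (by simp) (by simp)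
  exact I2.fst.1 ((this n).congr (by rw [hn, div_mul_cancel₀ _ c0]) rfl rfl)

theorem spn_or (h : Sy B) (hK : K ≤ SP B) {z : V} (hz : Full B K z) : Spn B K ∨
    ∃ Y : Submodule F V, Y ≠ ⊥ ∧ Y ≠ ⊤ ∧ ∀ k ∈ K, ∀ v ∈ Y, k v ∈ Y := by
  let Y : Submodule F V :=
    { carrier := {v | ∀ z, Full B K z → B v z = 0}
      add_mem' := fun ha hb z hz => by simp [ha z hz, hb z hz]
      zero_mem' := fun z _ => by simp
      smul_mem' := fun c v hv z hz => by simp [hv z hz] }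
  by_cases k : Y = ⊥
  · refine .inl fun v v0 => ?_
    by_contra! a
    exact v0 ((Submodule.eq_bot_iff Y).1 k v a)
  · refine .inr ⟨Y, k, fun a => ?_, fun g hg v hv w hw => ?_⟩
    · obtain ⟨f, hf⟩ := h.partner hz.1
      have := h.refl ((a ▸ Submodule.mem_top : f ∈ Y) z hz)
      rw [hf] at this
      exact one_ne_zero this
    · rw [← hv _ (hw.map hK (inv_mem hg)), ← hK hg v]
      simp

omit [Fintype F] in
theorem Rl.symm {x y : V} (r : Rl B K x y) : Rl B K y x := r.imp fun _ k => ⟨k.1, k.2.2, k.2.1⟩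

theorem Rl.add (h : Sy B) (hK : K ≤ SP B) (sp : Spn B K) {x y : V} (hx : Full B K x)
    (hy : Full B K y) (r : Rl B K x y) (h0 : x + y ≠ 0) : Full B K (x + y) := by
  by_cases xy : B x y = 0
  swap
  · exact add1 h hK hx hy xy
  obtain ⟨u, hu, xu, yu, s⟩ : ∃ u, Full B K u ∧ B x u ≠ 0 ∧ B y u ≠ 0 ∧ B x u + B y u ≠ 0 := by
    obtain ⟨z, hz, xz, yz⟩ := r
    by_cases s : B x z + B y z = 0
    swap
    · exact ⟨z, hz, xz, yz, s⟩
    obtain ⟨w, hw, a⟩ := sp _ h0
    rw [map_add, LinearMap.add_apply] at a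
    by_cases yw : B y w = 0
    · exact key2 h hK hx xy hz hw xz yz s (by simpa [yw] using a) yw
    by_cases xw : B x w = 0
    · obtain ⟨u, k⟩ := key2 h hK hy (h.refl xy) hz hw yz xz (by rwa [add_comm]) yw xw
      exact ⟨u, k.1, k.2.2.1, k.2.1, by rw [add_comm]; exact k.2.2.2⟩
    · exact ⟨w, hw, xw, yw, a⟩
  have f1 := add1 h hK (add1 h hK hx hu xu) hy (by simpa [xy] using sym h yu)
  have f2 := CO1.add h hK f1 hu (by simpa [h.alt] using s) (-1)
  convert f2 using 1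
  module

theorem Rl.of_ne (h : Sy B) (hK : K ≤ SP B) {x y : V} (hx : Full B K x) (hy : Full B K y)
    (hxy : B x y ≠ 0) : Rl B K x y :=
  ⟨x + y, add1 h hK hx hy hxy, by simpa [h.alt] using hxy, by simpa [h.alt] using sym h hxy⟩

theorem Rl.trans (h : Sy B) (hK : K ≤ SP B) (sp : Spn B K) {x y z : V} (hy : Full B K y)
    (r : Rl B K x y) (r' : Rl B K y z) : Rl B K x z := by
  obtain ⟨u, hu, xu, yu⟩ := r
  obtain ⟨w, hw, yw, zw⟩ := r'
  by_cases xw : B x w = 0
  swap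
  · exact ⟨w, hw, xw, zw⟩
  by_cases zu : B z u = 0
  swap
  · exact ⟨u, hu, xu, zu⟩
  have a : B x (u + w) ≠ 0 := by simpa [xw] using xu
  exact ⟨u + w, Rl.add h hK sp hu hw ⟨y, hy, sym h yu, sym h yw⟩ fun k => a (by rw [k, map_zero]), a,
    by simpa [zu] using zw⟩

theorem Rl.sub (h : Sy B) (hK : K ≤ SP B) (sp : Spn B K) {x : V} (hx : Full B K x) :
    ∃ Y : Submodule F V, ∀ v, v ∈ Y ↔ v = 0 ∨ (Full B K v ∧ Rl B K x v) := by
  refine ⟨{ carrier := {v | v = 0 ∨ (Full B K v ∧ Rl B K x v)}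
            add_mem' := ?_
            zero_mem' := .inl rfl
            smul_mem' := ?_ }, fun _ => Iff.rfl⟩
  · rintro u v (rfl | ⟨hu, ru⟩) hv
    · rwa [zero_add]
    rcases hv with rfl | ⟨hv, rv⟩
    · rw [add_zero]; exact .inr ⟨hu, ru⟩
    by_cases k : u + v = 0
    · exact .inl k
    refine .inr ⟨Rl.add h hK sp hu hv (ru.symm.trans h hK sp hx rv) k, ?_⟩
    obtain ⟨w, hw, a⟩ := sp _ k
    by_cases uw : B u w = 0
    · exact rv.trans h hK sp hv ⟨w, hw, by simpa [uw] using a, a⟩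
    · exact ru.trans h hK sp hu ⟨w, hw, uw, a⟩
  · rintro c v (rfl | ⟨hv, w, hw, a, b⟩)
    · exact .inl (smul_zero c)
    by_cases c0 : c = 0
    · exact .inl (by rw [c0, zero_smul])
    · exact .inr ⟨hv.smul c0, w, hw, a, by simp [c0, b]⟩

theorem Rl.all (h : Sy B) (hK : K ≤ SP B) (sp : Spn B K) {x : V} (hx : Full B K x)
    (hr : ∀ y, Full B K y → Rl B K x y) (v : V) (h0 : v ≠ 0) : Full B K v := by
  obtain ⟨Y, hY⟩ := Rl.sub h hK sp hx
  have : Pp B Y = ⊥ := (Submodule.eq_bot_iff _).2 fun u hu => by_contra fun u0 => by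
    obtain ⟨z, hz, a⟩ := sp u u0
    exact a (h.refl (mem_Pp.1 hu z ((hY z).2 (.inr ⟨hz, hr z hz⟩))))
  have m : v ∈ Y := by
    rw [← h.Pp_Pp Y, this]
    exact mem_Pp.2 fun y hy => by rw [(Submodule.mem_bot F).1 hy]; simp
  exact (((hY v).1 m).resolve_left h0).1

end CF.Rs
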