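import Cfsg.Agent.Rs.CO1

/-! Symplectic groups over prime fields: there is only one component of full points. -/

set_option autoImplicit false
set_option linter.unusedSectionVars false
open MulAction Module

namespace CF.Rs
open CF.Rq (R3 Sp Tw Oc Cj Btr Gf R4 In Pw Fl)
open Submodule (span)

variable {F V : Type*} [Field F] [Fintype F] [AddCommGroup V] [Module F V]
  {B : V →ₗ[F] V →ₗ[F] F} {K : Subgroup (V ≃ₗ[F] V)} {u v w x y z : V} {L L' : Submodule F V}

namespace CO2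
open CO1

variable (B K) in
/-- `w` is perpendicular to the class of `v` -/
def Pc (v w : V) : Prop := ∀ y, Full B K y → Rl B K v y → B w y = 0

theorem Pc.add (h1 : Pc B K v w) (h2 : Pc B K v u) : Pc B K v (w + u) := fun y hy r => by
  simp [h1 y hy r, h2 y hy r]

theorem Pc.smul (h1 : Pc B K v w) (c : F) : Pc B K v (c • w) := fun y hy r => by simp [h1 y hy r]

variable (K) in
/-- equivalent subspaces -/
def Eq' (L L' : Submodule F V) : Prop := ∃ k ∈ K, ∀ v, k v ∈ L' ↔ v ∈ L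

theorem Eq'.symm (e : Eq' K L L') : Eq' K L' L :=
  let ⟨k, hk, a⟩ := e; ⟨k⁻¹, inv_mem hk, fun v => by rw [← a]; simp⟩

variable (B K)
def P1 (L : Submodule F V) : Prop := ∀ v ∈ L, v ≠ 0 → Full B K v
def P2 (L : Submodule F V) : Prop := ∃ u ∈ L, ∃ v ∈ L, Full B K u ∧ Full B K v ∧ ∀ c : F, v ≠ c • u
def P3 (L : Submodule F V) : Prop := ∃ u ∈ L, Full B K u
def P4 (L : Submodule F V) : Prop := ∀ v ∈ L, ∃ s s', Full B K s ∧ Full B K s' ∧ v = s + s'
variable {B K}

theorem P2.p3 (p : P2 B K L) : P3 B K L := let ⟨u, a, _, _, b, _⟩ := p; ⟨u, a, b⟩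

theorem ml (x y : V) : x ∈ span F {x, y} := Submodule.subset_span (by simp)
theorem mr (x y : V) : y ∈ span F {x, y} := Submodule.subset_span (by simp)

theorem nsm (t : Ti2 B x y) (c : F) : y ≠ c • x := fun e =>
  one_ne_zero (t.li (-c) 1 (by rw [e]; module)).2

theorem P1.p2 (p : P1 B K (span F {x, y})) (t : Ti2 B x y) : P2 B K (span F {x, y}) :=
  ⟨x, ml x y, y, mr x y, p x (ml x y) t.ne.1, p y (mr x y) t.ne.2, nsm t⟩

section
variable (hK : K ≤ SP B) (e : Eq' K L L')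
include hK e

theorem P1.tr (p : P1 B K L') : P1 B K L := fun v hv v0 => by
  obtain ⟨k, hk, a⟩ := e
  simpa using (p _ ((a v).2 hv) (by simpa using v0)).map hK (inv_mem hk)

theorem P2.tr (p : P2 B K L) : P2 B K L' := by
  obtain ⟨k, hk, a⟩ := e
  obtain ⟨u, hu, v, hv, fu, fv, n⟩ := p
  exact ⟨_, (a u).2 hu, _, (a v).2 hv, fu.map hK hk, fv.map hK hk, fun c b =>
    n c (k.injective (by rw [b, map_smul]))⟩

theorem P3.tr (p : P3 B K L) : P3 B K L' := by
  obtain ⟨k, hk, a⟩ := e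
  obtain ⟨u, hu, fu⟩ := p
  exact ⟨_, (a u).2 hu, fu.map hK hk⟩

theorem P4.tr (p : P4 B K L') : P4 B K L := fun v hv => by
  obtain ⟨k, hk, a⟩ := e
  obtain ⟨s, s', f, f', b⟩ := p _ ((a v).2 hv)
  exact ⟨_, _, f.map hK (inv_mem hk), f'.map hK (inv_mem hk), by rw [← map_add, ← b]; simp⟩
end

/-- three invariant predicates separating four lines -/
theorem four (tl : ThreeL B K) {a0 b0 a1 b1 a2 b2 a3 b3 : V} (t0 : Ti2 B a0 b0) (t1 : Ti2 B a1 b1) (t2 : Ti2 B a2 b2)
    (t3 : Ti2 B a3 b3) {Q R S : Submodule F V → Prop} (q : ∀ {L L'}, Eq' K L L' → Q L → Q L')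
    (r : ∀ {L L'}, Eq' K L L' → R L → R L') (s : ∀ {L L'}, Eq' K L L' → S L → S L')
    (q0 : Q (span F {a0, b0})) (q1 : ¬ Q (span F {a1, b1})) (q2 : ¬ Q (span F {a2, b2})) (q3 : ¬ Q (span F {a3, b3}))
    (r1 : R (span F {a1, b1})) (r2 : ¬ R (span F {a2, b2})) (r3 : ¬ R (span F {a3, b3}))
    (s2 : S (span F {a2, b2})) (s3 : ¬ S (span F {a3, b3})) : False := by
  obtain ⟨i, j, n, e⟩ := tl ![a0, a1, a2, a3] ![b0, b1, b2, b3] fun i => by fin_cases i <;> assumption
  have e' : Eq' K _ _ := e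
  fin_cases i <;> fin_cases j <;> first
    | exact n rfl
    | exact q1 (q e' q0) | exact q2 (q e' q0) | exact q3 (q e' q0)
    | exact q1 (q e'.symm q0) | exact q2 (q e'.symm q0) | exact q3 (q e'.symm q0)
    | exact r2 (r e' r1) | exact r3 (r e' r1) | exact r2 (r e'.symm r1) | exact r3 (r e'.symm r1)
    | exact s3 (s e' s2) | exact s3 (s e'.symm s2)

theorem ti2 {f : V} (xy : B x y = 0) (a : B x f ≠ 0) (b : B y f = 0) (y0 : y ≠ 0) : Ti2 B x y :=
  ⟨xy, fun c d e => by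
    have := congrArg (B · f) e
    have c0 : c = 0 := by simpa [a, b] using this
    exact ⟨c0, by simpa [c0, y0] using e⟩⟩

section
variable (h : Sy B) (hK : K ≤ SP B) (sp : Spn B K)
include h hK sp

theorem pc_of (hw : Full B K w) (n : ¬ Rl B K v w) : Pc B K v w := fun y hy r => by_contra fun a =>
  n (r.trans h hK sp hy (Rl.of_ne h hK hw hy a).symm)

theorem Pc.cls (p : Pc B K v w) (hu : Full B K u) (r : Rl B K v u) : Pc B K u w := fun y hy a =>
  p y hy (r.trans h hK sp hu a)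

theorem partner (hv : Full B K v) (c : F) (c0 : c ≠ 0) : ∃ y, Full B K y ∧ Rl B K v y ∧ B v y = c := by
  obtain ⟨y, hy, a⟩ := sp v hv.1
  have f := hy.smul (div_ne_zero c0 a)
  have e : B v ((c / B v y) • y) = c := by simp [a]
  exact ⟨_, f, Rl.of_ne h hK hv f (by rwa [e]), e⟩

theorem rl_self (hv : Full B K v) : Rl B K v v := let ⟨y, a, b⟩ := sp v hv.1; ⟨y, a, b, b⟩

/-- a summand of `v + w` lies in the class of `v` -/
theorem summand (hv : Full B K v) (p : Pc B K v w) (e : v + w = x + y) : Rl B K x v ∨ Rl B K y v := by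
  obtain ⟨f, hf, r, a⟩ := partner h hK sp hv 1 one_ne_zero
  have := congrArg (B · f) e
  simp only [map_add, LinearMap.add_apply, p f hf r, a] at this
  by_cases k : B x f = 0
  · exact .inr ⟨f, hf, fun b => by simp [k, b] at this, a ▸ one_ne_zero⟩
  · exact .inl ⟨f, hf, k, a ▸ one_ne_zero⟩

theorem rl_add (hv : Full B K v) (p : Pc B K v w) : Rl B K (v + w) v :=
  (summand h hK sp hv p (add_zero _).symm).resolve_right fun ⟨_, _, a, _⟩ => a (by simp)

theorem not_full (hu : Full B K u) (hv : Full B K v) (n : ¬ Rl B K u v) (p : Pc B K u w) (p' : Pc B K v w) :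
    ¬ Full B K (u + v + w) := fun f => by
  have a := rl_add h hK sp hu ((pc_of h hK sp hv n).add p)
  have b := rl_add h hK sp hv ((pc_of h hK sp hu fun r => n r.symm).add p')
  rw [← add_assoc] at a b
  rw [add_comm v] at b
  exact n (a.symm.trans h hK sp f b)

theorem comb (hx : Full B K x) (hy : Full B K y) (r : Rl B K x y) (a b : F) (n : a • x + b • y ≠ 0) :
    Full B K (a • x + b • y) ∧ Rl B K x (a • x + b • y) := by
  obtain ⟨Y, hY⟩ := Rl.sub h hK sp hx
  exact ((hY _).1 (Y.add_mem (Y.smul_mem a ((hY x).2 (.inr ⟨hx, rl_self h hK sp hx⟩)))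
    (Y.smul_mem b ((hY y).2 (.inr ⟨hy, r⟩))))).resolve_left n

theorem nrl {u' v' : V} (n : ¬ Rl B K u v) (hu : Full B K u') (hv : Full B K v') (r : Rl B K u u') (r' : Rl B K v v') :
    ¬ Rl B K u' v' := fun a => n ((r.trans h hK sp hu a).trans h hK sp hv r'.symm)

end

theorem hyp (h : Sy B) (c : B x y ≠ 0) {a b : F} (n : a ≠ 0 ∨ b ≠ 0) : a • x + b • y ≠ 0 := fun e => by
  have e1 := congrArg (B x) e
  have e2 := congrArg (B · y) e
  simp [h.alt, c] at e1 e2
  tauto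

end CO2

open CO1 CO2 in
theorem co_fin (h : Sy B) (hK : K ≤ SP B) (hp : (Fintype.card F).Prime) (tv : Tv B K)
    (tl : ThreeL B K) : Fin2 B K := by
  obtain ⟨z, hz⟩ := tv.full h hp
  refine (spn_or h hK hz).elim (fun sp => .inl ?_) .inr
  by_contra na
  have ex : ∀ x, Full B K x → ∃ y, Full B K y ∧ ¬ Rl B K x y := fun x hx => by
    by_contra! k
    exact na (Rl.all h hK sp hx k)
  obtain ⟨x1, f1, hA⟩ : ∃ x1, Full B K x1 ∧ ((∃ x', Full B K x' ∧ Rl B K x1 x' ∧ Ti2 B x1 x') ∨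
      ∀ x x', Full B K x → Full B K x' → Rl B K x x' → ¬ Ti2 B x x') := by
    by_cases k : ∃ x x', Full B K x ∧ Full B K x' ∧ Rl B K x x' ∧ Ti2 B x x'
    · obtain ⟨x, x', a, b⟩ := k
      exact ⟨x, a, .inl ⟨x', b⟩⟩
    · exact ⟨z, hz, .inr fun x x' a b c d => k ⟨x, x', a, b, c, d⟩⟩
  obtain ⟨x2, f2, n12⟩ := ex x1 f1
  obtain ⟨y1, g1, r1, e1⟩ := partner h hK sp f1 1 one_ne_zero
  obtain ⟨y2, g2, r2, e2⟩ := partner h hK sp f2 (-1) (by simp)
  have p12 := pc_of h hK sp f2 n12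
  have p21 := pc_of h hK sp f1 fun r => n12 r.symm
  have q12 := pc_of h hK sp g2 (nrl h hK sp n12 f1 g2 (rl_self h hK sp f1) r2)
  have z1 : B x1 x2 = 0 := p21 x2 f2 (rl_self h hK sp f2)
  have z2 : B x2 y1 = 0 := p12 y1 g1 r1
  have z3 : B x1 y2 = 0 := p21 y2 g2 r2
  have z4 : B y2 y1 = 0 := q12 y1 g1 r1
  have e1' : B x1 y1 ≠ 0 := e1 ▸ one_ne_zero
  have e2' : B x2 y2 ≠ 0 := by simp [e2]
  have t12 : Ti2 B x1 x2 := ti2 z1 e1' z2 f2.1
  have tw : ∀ w, B w x1 = 0 → B w x2 = 0 → B w y1 = 0 → Ti2 B (x1 + x2) (y1 + y2 + w) := fun w a b c =>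
    ti2 (f := y1) (by simp [e1, e2, z2, z3, h.refl a, h.refl b]) (by simp [e1, z2]) (by simp [h.alt, z4, c]) fun k => by
      have := congrArg (B x1) k
      simp [e1, z3, h.refl a] at this
  have sp2 : ∀ {w} (a b : F), a • (x1 + x2) + b • (y1 + y2 + w) = a • x1 + b • y1 + (a • x2 + b • y2) + b • w :=
    fun a b => by module
  have n3 : ∀ w, Pc B K x1 w → Pc B K x2 w → ¬ P3 B K (span F {x1 + x2, y1 + y2 + w}) := fun w a b ⟨u, hu, fu⟩ => by
    obtain ⟨c, d, rfl⟩ := Submodule.mem_span_pair.1 hu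
    have n : c ≠ 0 ∨ d ≠ 0 := by
      by_contra! k
      exact fu.1 (by simp [k.1, k.2])
    obtain ⟨a1, a2⟩ := comb h hK sp f1 g1 r1 c d (hyp h e1' n)
    obtain ⟨b1, b2⟩ := comb h hK sp f2 g2 r2 c d (hyp h e2' n)
    exact not_full h hK sp a1 b1 (nrl h hK sp n12 a1 b1 a2 b2) ((a.cls h hK sp a1 a2).smul d)
      ((b.cls h hK sp b1 b2).smul d) (sp2 c d ▸ fu)
  have p0 : ∀ v, Pc B K v 0 := fun v y _ _ => by simp
  have n2 : ∀ w, (∀ a b : F, b ≠ 0 → ¬ Full B K (a • x1 + b • w)) → ¬ P2 B K (span F {x1, w}) :=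
    fun w k ⟨u, hu, v, hv, fu, fv, n⟩ => by
      obtain ⟨a, b, rfl⟩ := Submodule.mem_span_pair.1 hu
      obtain ⟨c, d, rfl⟩ := Submodule.mem_span_pair.1 hv
      obtain rfl : b = 0 := by_contra fun a => k _ _ a fu
      obtain rfl : d = 0 := by_contra fun a => k _ _ a fv
      have a0 : a ≠ 0 := fun e => fu.1 (by simp [e])
      exact n (c / a) (by simp [smul_smul, a0])
  have p2 : P2 B K (span F {x1, x2}) := ⟨x1, ml _ _, x2, mr _ _, f1, f2, nsm t12⟩
  have p3 : ∀ w, P3 B K (span F {x1, w}) := fun w => ⟨x1, ml _ _, f1⟩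
  have t3 := tw 0 (by simp) (by simp) (by simp)
  have m3 := n3 0 (p0 _) (p0 _)
  rcases hA with ⟨x', f', r', t'⟩ | hB
  · have t2 : Ti2 B x1 (x' + x2) := ⟨by simp [t'.xy, z1], fun a b e => by
      have := congrArg (B · y2) e
      have b0 : b = 0 := by simpa [z3, e2, h.refl (q12 x' f' r')] using this
      exact ⟨by simpa [b0, f1.1] using e, b0⟩⟩
    have m2 := n2 (x' + x2) fun a b b0 k => by
      obtain ⟨a1, a2⟩ := comb h hK sp f1 f' r' a b fun e => b0 (t'.li a b e).2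
      refine not_full h hK sp a1 (f2.smul b0) (nrl h hK sp n12 a1 (f2.smul b0) a2 ?_) (p0 _) (p0 _)
        (by convert k using 1; module)
      simpa using (comb h hK sp f2 g2 r2 b 0 (hyp h e2' (.inl b0))).2
    refine four tl t' t12 t2 t3 (fun e => P1.tr hK e.symm) (fun e => P2.tr hK e) (fun e => P3.tr hK e)
      (fun v hv v0 => ?_) (fun p => ?_) (fun p => m2 (p.p2 t2)) (fun p => m3 (p.p2 t3).p3) p2 m2
      (fun p => m3 p.p3) (p3 _) m3
    · obtain ⟨a, b, rfl⟩ := Submodule.mem_span_pair.1 hv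
      exact (comb h hK sp f1 f' r' a b v0).1
    · refine not_full h hK sp f1 f2 n12 (p0 _) (p0 _) ?_
      rw [add_zero]
      exact p _ (add_mem (ml _ _) (mr _ _)) fun e => one_ne_zero (t12.li 1 1 (by simpa using e)).1
  · have cl : ∀ {x y w f}, Full B K x → Full B K y → Rl B K x y → B x y ≠ 0 → B f x = 0 → B f y = 0 → Full B K w →
        Rl B K x w → B f w = 0 := fun {x y w f} fx fy r c a b fw rw => by
      by_contra k
      obtain ⟨Y, hY⟩ := Rl.sub h hK sp fx
      have mx := (hY x).2 (.inr ⟨fx, rl_self h hK sp fx⟩)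
      have := (hY _).1 (Y.sub_mem (Y.sub_mem ((hY w).2 (.inr ⟨fw, rw⟩)) (Y.smul_mem (B w y / B x y) mx))
        (Y.smul_mem (B x w / B x y) ((hY y).2 (.inr ⟨fy, r⟩))))
      have n0 : w - (B w y / B x y) • x - (B x w / B x y) • y ≠ 0 := fun e => k (by
        simpa [a, b] using congrArg (B f) e)
      obtain ⟨c1, c2⟩ := this.resolve_left n0
      exact hB _ _ fx c1 c2 (ti2 (by simp [h.alt, c]) c (by simp [h.alt, c]) n0)
    obtain ⟨f, hf, f0⟩ : ∃ f ∈ Pp B (span F (Set.range ![x1, y1, x2, y2])), f ≠ 0 := by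
      refine Submodule.exists_mem_ne_zero_of_ne_bot fun e => ?_
      have a := h.finrank_Pp (span F (Set.range ![x1, y1, x2, y2]))
      have b := finrank_range_le_card (R := F) ![x1, y1, x2, y2]
      have := h.dim
      rw [e, finrank_bot] at a
      simp only [Set.finrank, Fintype.card_fin] at b
      omega
    have pf : ∀ i, B f (![x1, y1, x2, y2] i) = 0 := fun i => h.refl (mem_Pp.1 hf _ (Submodule.subset_span ⟨i, rfl⟩))
    obtain ⟨x3, f3, a3⟩ := sp f f0
    have n13 : ¬ Rl B K x1 x3 := fun r => a3 (cl f1 g1 r1 e1' (pf 0) (pf 1) f3 r)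
    have n23 : ¬ Rl B K x2 x3 := fun r => a3 (cl f2 g2 r2 e2' (pf 2) (pf 3) f3 r)
    have p13 := pc_of h hK sp f3 n13
    have p23 := pc_of h hK sp f3 n23
    have s1 := rl_self h hK sp f1
    have s2 := rl_self h hK sp f2
    have t2 : Ti2 B x1 (x2 + x3) := ti2 (by simp [z1, h.refl (p13 x1 f1 s1)]) e1' (by simp [z2, p13 y1 g1 r1])
      fun e => by simpa [e2, p23 y2 g2 r2] using congrArg (B · y2) e
    have m2 := n2 (x2 + x3) fun a b b0 k => by
      have c2 : Rl B K x2 (b • x2) := by simpa using (comb h hK sp f2 g2 r2 b 0 (hyp h e2' (.inl b0))).2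
      have c3 : Rl B K x3 (b • x3) := by
        obtain ⟨y, hy, a⟩ := sp x3 f3.1
        exact ⟨y, hy, a, by simp [a, b0]⟩
      exact not_full h hK sp (f2.smul b0) (f3.smul b0) (nrl h hK sp n23 (f2.smul b0) (f3.smul b0) c2 c3)
        ((p21.cls h hK sp (f2.smul b0) c2).smul a)
        (((pc_of h hK sp f1 fun r => n13 r.symm).cls h hK sp (f3.smul b0) c3).smul a) (by convert k using 1; module)
    have m4 := n3 x3 p13 p23
    refine four tl t12 t2 t3 (tw x3 (p13 x1 f1 s1) (p23 x2 f2 s2) (p13 y1 g1 r1)) (fun e => P2.tr hK e)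
      (fun e => P3.tr hK e) (fun e => P4.tr hK e.symm) p2 m2 (fun p => m3 p.p3) (fun p => m4 p.p3) (p3 _) m3 m4
      (fun v hv => ?_) fun p => ?_
    · obtain ⟨a, b, rfl⟩ := Submodule.mem_span_pair.1 hv
      by_cases n : a ≠ 0 ∨ b ≠ 0
      · exact ⟨_, _, (comb h hK sp f1 g1 r1 a b (hyp h e1' n)).1, (comb h hK sp f2 g2 r2 a b (hyp h e2' n)).1,
          by module⟩
      · push Not at n
        exact ⟨x1, _, f1, f1.smul (a := -1) (by simp), by simp [n.1, n.2]⟩
    · obtain ⟨s, s', fs, fs', e⟩ := p _ (mr _ _)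
      have m12 := nrl h hK sp n12 g1 g2 r1 r2
      have m13 := nrl h hK sp n13 g1 f3 r1 (rl_self h hK sp f3)
      have m23 := nrl h hK sp n23 g2 f3 r2 (rl_self h hK sp f3)
      have a1 := summand h hK sp g1 ((pc_of h hK sp g2 m12).add (pc_of h hK sp f3 m13)) (add_assoc y1 y2 x3 ▸ e)
      have a2 := summand h hK sp g2 ((pc_of h hK sp g1 fun r => m12 r.symm).add (pc_of h hK sp f3 m23))
        (e ▸ by abel : _ = s + s')
      have a3 := summand h hK sp f3 ((pc_of h hK sp g1 fun r => m13 r.symm).add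
        (pc_of h hK sp g2 fun r => m23 r.symm)) (e ▸ by abel : _ = s + s')
      have k : ∀ {s u v}, Full B K s → ¬ Rl B K u v → Rl B K s u → Rl B K s v → False := fun a b c d =>
        b (c.symm.trans h hK sp a d)
      rcases a1 with a1 | a1 <;> rcases a2 with a2 | a2 <;> rcases a3 with a3 | a3 <;> first
        | exact k fs m12 a1 a2 | exact k fs' m12 a1 a2 | exact k fs m13 a1 a3 | exact k fs' m13 a1 a3
        | exact k fs m23 a2 a3 | exact k fs' m23 a2 a3

end CF.Rs
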