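import Cfsg.Agent.Rs.TA
import Cfsg.Agent.Rs.WT

/-! Rank 3 actions of symplectic groups: exponents of the torus quotients. -/

set_option autoImplicit false
set_option linter.unusedSectionVars false
open MulAction Module

namespace CF.Rs
open CF.Rq (R3 Sp Tw Oc Cj Btr Gf R4 In Pw Fl)

variable {F V : Type*} [Field F] [Fintype F] [AddCommGroup V] [Module F V]
  {B : V →ₗ[F] V →ₗ[F] F} {k : ℕ} {e : ℕ → V} {Ω : Type*} [MulAction (GG B) Ω]

namespace EX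

theorem sep {A : Type*} [CommGroup A] [Finite A] (H : Subgroup A) {a : A} (ha : a ∉ H) :
    ∃ χ : A →* ℂˣ, (∀ x ∈ H, χ x = 1) ∧ χ a ≠ 1 := by
  obtain ⟨φ, hφ⟩ := CommGroup.exists_apply_ne_one_of_hasEnoughRootsOfUnity (A ⧸ H) ℂ
    (mt (QuotientGroup.eq_one_iff a).1 ha)
  exact ⟨φ.comp (QuotientGroup.mk' _), fun x hx => by simp [(QuotientGroup.eq_one_iff x).2 hx], hφ⟩

variable (h : Sy B) (b : Fb B k e) {c : ℕ → (Tt B k e →* Fˣ)}
  (hc : ∀ (t : Tt B k e) (τ : ℕ → Fˣ), Dg B k e t.1 τ → ∀ i < k, c i t = τ i)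
include h b hc

theorem sur (τ : ℕ → Fˣ) : ∃ t : Tt B k e, ∀ i < k, c i t = τ i :=
  let ⟨t, ht⟩ := b.exists_dg h τ; ⟨⟨t, ht.mem⟩, hc _ τ ht⟩

omit h in
theorem aw {ω : Ω} {t : Tt B k e} (ht : Tw (Uu B k e) ω t.1) : Aw B k e ω fun i => c i t :=
  let ⟨τ, a⟩ := b.T_dg t.2; Aw.congr ⟨t, a, ht⟩ fun i hi => (hc t τ a i hi).symm

theorem cj {l m : Tt B k e →* ℂˣ} (hl : Cj (Tt B k e) (Nn B k e) l m) : ∃ (π : ℕ → ℕ) (s : ℕ → ℤ),
    (∀ i < k, s i = 1 ∨ s i = -1) ∧ (∀ i < k, ∀ j < k, π i = π j → i = j) ∧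
      ∀ t, ∃ t', (∀ i < k, π i < k ∧ c i t' = c (π i) t ^ s i) ∧ m t = l t' := by
  obtain ⟨n, hn, a⟩ := hl
  obtain ⟨π, s, p1, p2, -, p3⟩ := b.nperm hn
  refine ⟨π, s, fun i hi => (p1 i hi).2, p2, fun t => ⟨⟨_, (b.sp h).nT n hn t t.2⟩, fun i hi => ⟨(p1 i hi).1, ?_⟩,
    a _ t rfl⟩⟩
  obtain ⟨τ, ht⟩ := b.T_dg t.2
  rw [hc _ _ (p3 t τ ht) i hi, hc t τ ht _ (p1 i hi).1]

end EX

open EX in
theorem Fb.ex2 (h : Sy B) (b : Fb B k e) (r : R3 (GG B) Ω) (bt : Btr Ω (Uu B k e) (Tt B k e))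
    (ω : Ω) : ∀ t ∈ Tt B k e, Tw (Uu B k e) ω (t ^ 2) := by
  have := h.finG
  have k3 := b.k3 h
  obtain ⟨c, hc⟩ := b.ex_tc
  have sw : ∀ i < k, ∀ j < k, ∀ g, Aw B k e ω (d1 i g) → Aw B k e ω (d1 j g) := fun i hi j hj g a => by
    obtain ⟨n, -, hn⟩ := b.nswap h hi hj
    obtain ⟨t, ht⟩ := b.exists_dg h (d1 i g)
    exact (b.btr_conj h bt a ht (hn t _ ht)).congr fun x _ => by
      simp [d1, Equiv.swap_apply_eq_iff]
  have sq : ∀ τ, Aw B k e ω τ → ∀ i < k, Aw B k e ω (d1 0 (τ i ^ 2)) := fun τ a i hi => by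
    obtain ⟨n, -, hn⟩ := b.nflip h hi
    obtain ⟨t, ht⟩ := b.exists_dg h τ
    refine sw i hi 0 (by omega) _ ((a.mul h b ((b.btr_conj h bt a ht (hn t _ ht)).inv h b)).congr fun x _ => ?_)
    by_cases l : x = i <;> simp [d1, l, pow_two]
  have key : ∀ g : Fˣ, Aw B k e ω (d1 0 (g ^ 2)) := fun g => by_contra fun ng => by
    obtain ⟨ψ, p1, p2⟩ := sep (A := Fˣ) ⟨⟨⟨{x | Aw B k e ω (d1 0 x)}, fun {x y} a a' => (Aw.mul h b a a').congr
      fun i _ => by by_cases l : i = 0 <;> simp [d1, l]⟩, (Aw.one ω).congr fun i _ => by simp [d1]⟩,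
      fun {x} a => (Aw.inv h b a).congr fun i _ => by by_cases l : i = 0 <;> simp [d1, l]⟩ ng
    obtain ⟨l, hl⟩ : ∃ l : ℕ → (Tt B k e →* ℂˣ), ∀ m t, l m t = ∏ i ∈ Finset.range m, ψ (c i t ^ 2) :=
      ⟨fun m => ∏ i ∈ Finset.range m, ψ.comp (c i ^ 2), fun m t => by simp⟩
    have v : ∀ m ≤ k, ∀ j < m, ∀ t, (∀ i < k, c i t = d1 j g i) → l m t ≠ 1 := fun m hm j hj t ht => by
      rw [hl, Finset.prod_eq_single_of_mem j (Finset.mem_range.2 hj) fun i hi n => by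
        rw [ht i ((Finset.mem_range.1 hi).trans_le hm), d1, if_neg n, one_pow, map_one], ht j (by omega), d1, if_pos rfl]
      exact p2
    have oc : ∀ m, 0 < m → m ≤ k → Oc Ω (Uu B k e) (Tt B k e) (l m) := fun m m0 hm => ⟨fun a =>
      let ⟨t, ht⟩ := sur h b hc (d1 0 g); v m hm 0 m0 t ht (a ▸ rfl), ω, fun t ht => (hl m t).trans
        (Finset.prod_eq_one fun i hi => p1 _ (sq _ (aw b hc ht) i ((Finset.mem_range.1 hi).trans_le hm)))⟩
    have nc : ∀ m ≤ k, ∀ m' ≤ k, Cj (Tt B k e) (Nn B k e) (l m) (l m') → ∃ π : ℕ → ℕ, ∀ j < m', ∃ i < m, π i = j :=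
      fun m hm m' hm' a => by
        obtain ⟨π, s, -, -, a⟩ := cj h b hc a
        refine ⟨π, fun j hj => by_contra fun n => ?_⟩
        obtain ⟨t, ht⟩ := sur h b hc (d1 j g)
        obtain ⟨t', a1, a2⟩ := a t
        refine v m' hm' j hj t ht (a2.trans ((hl _ _).trans (Finset.prod_eq_one fun i hi => ?_)))
        have hi := Finset.mem_range.1 hi
        rw [(a1 i (by omega)).2, ht _ (a1 i (by omega)).1, d1, if_neg fun l => n ⟨i, hi, l⟩]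
        simp
    rcases r.three (b.sp h) (oc 1 one_pos (by omega)) (oc 2 two_pos (by omega)) (oc 3 three_pos k3) with a | a | a <;>
      obtain ⟨π, a⟩ := nc _ (by omega) _ (by omega) a <;> obtain ⟨i, hi, a0⟩ := a 0 (by omega) <;>
      obtain ⟨j, hj, a1⟩ := a 1 (by omega)
    · interval_cases i; interval_cases j; omega
    · interval_cases i; interval_cases j; omega
    · obtain ⟨x, hx, a2⟩ := a 2 (by omega)
      interval_cases i <;> interval_cases j <;> interval_cases x <;> omega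
  intro t ht
  obtain ⟨τ, a⟩ := b.T_dg ht
  exact (Aw.prod h b fun i hi => sw 0 (by omega) i hi _ (key (τ i))).tw b (a.pow 2)

open EX in
theorem Fb.wl (h : Sy B) (b : Fb B k e) (r : R3 (GG B) Ω) (nb : ¬ Btr Ω (Uu B k e) (Tt B k e))
    {p : ℕ} (hp : p.Prime) (h7 : 7 ≤ p) (hm : ∀ ω : Ω, ∀ t ∈ Tt B k e, Tw (Uu B k e) ω (t ^ p))
    (ω : Ω) (α β : Fˣ) : ∃ τ, Aw B k e ω τ ∧ τ 0 = α ∧ τ 1 = β := by_contra fun ng => by
  have := h.finG
  have k3 := b.k3 h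
  obtain ⟨c, hc⟩ := b.ex_tc
  obtain ⟨χ, p1, p2⟩ := sep (((b.sp h).R ω).map ((c 0).prod (c 1))) (a := (α, β)) fun ⟨t, ht, a⟩ =>
    ng ⟨_, aw b hc ht, congrArg Prod.fst a, congrArg Prod.snd a⟩
  obtain ⟨l, hl⟩ : ∃ l : Tt B k e →* ℂˣ, ∀ t, l t = χ (c 0 t, c 1 t) := ⟨χ.comp ((c 0).prod (c 1)), fun _ => rfl⟩
  have tr : ∀ t : Tt B k e, Tw (Uu B k e) ω t.1 → l t = 1 := fun t ht => (hl t).trans (p1 _ ⟨t, ht, rfl⟩)
  obtain ⟨j, hj, g, t, ht, n1⟩ : ∃ j < 2, ∃ g t, (∀ i < k, c i t = d1 j g i) ∧ l t ≠ 1 := by_contra fun n => p2 (by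
    obtain ⟨t, ht⟩ := sur h b hc (d1 0 α)
    obtain ⟨t', ht'⟩ := sur h b hc (d1 1 β)
    have a := (hl t).symm.trans (by_contra fun a => n ⟨0, two_pos, α, t, ht, a⟩)
    have a' := (hl t').symm.trans (by_contra fun a => n ⟨1, one_lt_two, β, t', ht', a⟩)
    rw [ht 0 (by omega), ht 1 (by omega)] at a
    rw [ht' 0 (by omega), ht' 1 (by omega)] at a'
    simpa [d1, ← map_mul] using congrArg₂ (· * ·) a a')
  have := Fact.mk hp
  have o : orderOf (l t) = p := orderOf_eq_prime_iff.2 ⟨by rw [← map_pow]; exact tr _ (hm ω t t.2), n1⟩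
  have oc : Oc Ω (Uu B k e) (Tt B k e) l := ⟨fun a => n1 (a ▸ rfl), ω, tr⟩
  have := Finset.card_le_card_of_injOn (s := Finset.range 6) (t := {1, χ (g, 1), χ (g⁻¹, 1), χ (1, g), χ (1, g⁻¹)})
    (l t ^ ·) (fun m hm' => ?_) fun x hx y hy => pow_injOn_Iio_orderOf (by
      have := Finset.mem_range.1 hx; simp only [Set.mem_Iio]; omega) (by
      have := Finset.mem_range.1 hy; simp only [Set.mem_Iio]; omega)
  · exact absurd (this.trans Finset.card_le_five) (by simp)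
  have m6 := Finset.mem_range.1 hm'
  obtain rfl | m0 := eq_or_ne m 0
  · simp
  obtain ⟨π, s, s1, s2, a⟩ := cj h b hc (by_contra fun a => nb (r.btr (b.sp h) oc (oc.pow (k := m) fun a =>
    pow_ne_one_of_lt_orderOf m0 (by omega) (congrArg (· t) a)) a))
  obtain ⟨t', a1, a2⟩ := a t
  have n : π 0 ≠ π 1 := fun l => absurd (s2 0 (by omega) 1 (by omega) l) (by omega)
  change (l ^ m) t ∈ _
  rw [a2, hl, (a1 0 (by omega)).2, (a1 1 (by omega)).2, ht _ (a1 0 (by omega)).1, ht _ (a1 1 (by omega)).1, d1, d1]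
  rcases s1 0 (by omega) with x | x <;> rcases s1 1 (by omega) with y | y <;> split_ifs <;>
    first | omega | simp [x, y, ← Prod.one_eq_mk]

end CF.Rs
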