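import Cfsg.Agent.Rs.WT
import Cfsg.Agent.Rs.BR

/-! Rank 3 actions of symplectic groups: the double cosets of the line stabiliser are symmetric. -/

set_option autoImplicit false
open MulAction Module

namespace CF.Rs
open CF.Rq (R3 Sp Tw Oc Cj Btr Gf R4 In Pw Fl)

variable {F V : Type*} [Field F] [Fintype F] [AddCommGroup V] [Module F V]
  {B : V →ₗ[F] V →ₗ[F] F} {k : ℕ} {e : ℕ → V}

namespace GF

/-- `g` maps the `i`-th point of the frame to the `j`-th -/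
def R (e : ℕ → V) (g : GG B) (i j : ℕ) : Prop := ∃ c : Fˣ, g.1 (e i) = (c : F) • e j

variable {g g' : GG B} {i j l : ℕ}

omit [Fintype F] in
theorem R.mul (a : R e g j l) (b : R e g' i j) : R e (g * g') i l :=
  let ⟨c, p⟩ := a; let ⟨d, r⟩ := b; ⟨d * c, by simp [p, r, smul_smul]⟩

theorem R.inv (a : R e g i j) : R e g⁻¹ j i :=
  let ⟨c, p⟩ := a; ⟨c⁻¹, g.1.injective (by rw [GG.inv_apply, map_smul, p, smul_smul]; simp)⟩

theorem R.mem (h : Sy B) (a : R e g 0 i) (b : R e g 1 j) (hi : i < 2) (hj : j < 2) : g ∈ St B (Fl F e 2) :=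
  h.mem_St_Fl fun l hl => by
    obtain rfl | rfl : l = 0 ∨ l = 1 := by omega
    exacts [let ⟨c, p⟩ := a; p.symm ▸ Submodule.smul_mem _ _ (Rq.Fl.mem hi),
      let ⟨c, p⟩ := b; p.symm ▸ Submodule.smul_mem _ _ (Rq.Fl.mem hj)]

/-- swap two points of the frame -/
theorem sw (h : Sy B) (b : Fb B k e) (hi : i < 2 * k) (hj : j < 2 * k) :
    ∃ g : GG B, R e g i j ∧ R e g j i ∧
      ∀ l < 2 * k, l ≠ i → l ≠ j → l + i + 1 ≠ 2 * k → l + j + 1 ≠ 2 * k → R e g l l := by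
  obtain ⟨g, -, s⟩ := b.mon h (fun l => if l = i then j else if l = j then i else if l = 2 * k - 1 - i then
    2 * k - 1 - j else if l = 2 * k - 1 - j then 2 * k - 1 - i else l) (fun l _ => by split_ifs <;> omega)
    (fun l _ => by split_ifs <;> omega) fun l _ => by split_ifs <;> omega
  refine ⟨g, by simpa [R] using s i hi, ?_, fun l a _ _ _ _ => ?_⟩
  · have := s j hj
    split_ifs at this with t
    exacts [t ▸ this, this, absurd rfl ‹_›, absurd rfl ‹_›, absurd rfl ‹_›]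
  have := s l a
  rwa [if_neg, if_neg, if_neg, if_neg] at this <;> omega

/-- the images of the first two points under a monomial map -/
theorem two (h : Sy B) (b : Fb B k e) (m : g ∈ Nn B k e) :
    ∃ i < 2 * k, ∃ j < 2 * k, R e g 0 i ∧ R e g 1 j ∧ i ≠ j ∧ i + j + 1 ≠ 2 * k := by
  have := b.k3 h
  obtain ⟨i, hi, a⟩ := (m 0 (by omega)).1
  obtain ⟨j, hj, c⟩ := (m 1 (by omega)).1
  refine ⟨i, hi, j, hj, a, c, ?_, fun s => ?_⟩
  · rintro rfl
    obtain ⟨d, p⟩ := (R.inv c).mul a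
    have := congrArg (co B k e 0) p
    rw [inv_mul_cancel, map_smul, b.co_e (by omega) (by omega : 1 < 2 * k), show (1 : GG B).1 (e 0) = e 0 from rfl,
      b.co_e (by omega) (by omega)] at this
    simp at this
  · obtain ⟨d, r⟩ := c
    obtain ⟨c, p⟩ := a
    have := GG.map g (e 0) (e 1)
    rw [p, r, b.gram 0 (by omega) 1 (by omega), if_neg (by omega)] at this
    simp only [map_smul, LinearMap.smul_apply, b.gram i hi j hj, if_pos s, smul_eq_mul] at this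
    split_ifs at this <;> simp at this

theorem gfN (h : Sy B) (b : Fb B k e) (m : g ∈ Nn B k e) :
    ∃ p ∈ St B (Fl F e 2), ∃ p' ∈ St B (Fl F e 2), g⁻¹ = p * g * p' := by
  have := b.k3 h
  obtain ⟨i, hi, j, hj, a, c, z4, z2⟩ := two h b m
  have key : ∀ s t, s < 2 * k → t < 2 * k → s + t + 1 ≠ 2 * k → s ≠ t → s ≠ 1 → s + 2 ≠ 2 * k → t ≠ 0 →
      t + 1 ≠ 2 * k → ∃ ρ : GG B, R e ρ 0 s ∧ R e ρ 1 t ∧ R e ρ s 0 ∧ R e ρ t 1 := fun s t _ _ _ _ _ _ _ _ => by
    obtain ⟨ρ, a1, a2, a3⟩ := sw h b (i := 0) (j := s) (by omega) (by omega)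
    obtain ⟨τ, b1, b2, b3⟩ := sw h b (i := 1) (j := t) (by omega) (by omega)
    exact ⟨ρ * τ, a1.mul (by apply b3 <;> omega), R.mul (by apply a3 <;> omega) b1, a2.mul (by apply b3 <;> omega),
      R.mul (by apply a3 <;> omega) b2⟩
  suffices ∃ ρ, ρ * g ∈ St B (Fl F e 2) ∧ g⁻¹ * ρ ∈ St B (Fl F e 2) from
    let ⟨ρ, p, r⟩ := this; ⟨_, inv_mem p, _, r, by group⟩
  by_cases t : i = 1 ∨ i + 2 = 2 * k ∨ j = 0 ∨ j + 1 = 2 * k
  · obtain ⟨ρ, p1, p2, p3, p4⟩ := key j i hj hi (by omega) (by omega) (by omega) (by omega) (by omega) (by omega)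
    exact ⟨ρ, (p4.mul a).mem h (p3.mul c) (by decide) (by decide),
      ((R.inv c).mul p1).mem h ((R.inv a).mul p2) (by decide) (by decide)⟩
  · obtain ⟨ρ, p1, p2, p3, p4⟩ := key i j hi hj (by omega) (by omega) (by omega) (by omega) (by omega) (by omega)
    exact ⟨ρ, (p3.mul a).mem h (p4.mul c) (by decide) (by decide),
      ((R.inv a).mul p1).mem h ((R.inv c).mul p2) (by decide) (by decide)⟩

end GF

theorem Fb.gf (h : Sy B) (b : Fb B k e) : Gf (St B (Fl F e 2)) := fun g => by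
  have := b.k3 h
  obtain ⟨u, a, m, c, u', d, rfl⟩ := (b.sp h).br g
  obtain ⟨p, r, p', t, s⟩ := GF.gfN h b c
  have l : Uu B k e ≤ St B (Fl F e 2) := fun _ hu => h.U_St hu (by omega)
  exact ⟨u'⁻¹ * p * u⁻¹, mul_mem (mul_mem (inv_mem (l d)) r) (inv_mem (l a)), u'⁻¹ * p' * u⁻¹,
    mul_mem (mul_mem (inv_mem (l d)) t) (inv_mem (l a)), by rw [mul_inv_rev, mul_inv_rev, s]; group⟩

end CF.Rs
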