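import Cfsg.Agent.Rs.L1

/-! Rank 3 actions of symplectic groups: the good case. -/

set_option autoImplicit false
set_option linter.unusedSectionVars false
open MulAction Module

namespace CF.Rs
open CF.Rq (R3 Sp Tw Oc Cj Btr Gf R4 In Pw Fl)

variable {F V : Type*} [Field F] [Fintype F] [AddCommGroup V] [Module F V]
  {B : V →ₗ[F] V →ₗ[F] F} {K : Subgroup (V ≃ₗ[F] V)} {Γ : Subgroup Fˣ} {x y : V}

namespace GN

theorem ex (hΓ : Nd Γ) : ∃ γ ∈ Γ, (γ : F) ^ 2 ≠ 1 ∧ (γ : F) ≠ 1 := by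
  obtain ⟨γ, m, n⟩ := hΓ.ex
  have : (γ : F) ^ 2 ≠ 1 := fun e => n (Units.ext (by simpa using e))
  exact ⟨γ, m, this, fun e => this (by simp [e])⟩

theorem fm (h : Sy B) (fr : FR B K Γ) (t : Ti2 B x y) : ∃ (z w : V) (a : F), z = x + y ∧ Ti2 B z w ∧
    (∀ α ∈ Γ, ∀ β ∈ Γ, ∃ g ∈ K, g z = (α : F) • z ∧ g w = (β : F) • w) ∧
    ∀ b c d : F, I2 B K x y b c d → I2 B K z w (b * (1 + a) ^ 2 + 2 * c * (1 + a) * (-a) + d * (-a) ^ 2)
      (b * (1 + a) * (-1) + c * ((1 + a) * 1 + (-a) * (-1)) + d * (-a) * 1)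
      (b * (-1) ^ 2 + 2 * c * (-1) * 1 + d * 1 ^ 2) := by
  have t1 : Ti2 B (x + y) y := by simpa using t.chg h (a := 1) (b := 1) (c := 0) (d := 1) (by simp)
  obtain ⟨a, k⟩ := fr _ _ t1
  refine ⟨x + y, y + a • (x + y), a, rfl, ?_, k, fun b c d i => I2.chg.1 ?_⟩
  · simpa [add_comm] using t1.chg h (a := 1) (b := 0) (c := a) (d := 1) (by simp)
  · convert i using 1 <;> module

theorem add (h : Sy B) (hK : K ≤ SP B) (hΓ : Nd Γ) (fr : FR B K Γ) (hx : Full B K x) (hy : Full B K y)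
    (n : x + y ≠ 0) : Full B K (x + y) := by
  classical
  by_cases xy : B x y = 0
  swap
  · simpa using hx.np h hK hy xy (a := 1) (c := 1) (.inl one_ne_zero)
  by_cases t : Ti2 B x y
  · obtain ⟨γ, m, n2, n1⟩ := ex hΓ
    obtain ⟨z, w, a, rfl, t', k, i⟩ := fm h fr t
    obtain ⟨g, hg, gz, gw⟩ := k 1 (one_mem _) γ m
    refine ⟨n, fun c => I2.fst.1 (?_ : I2 B K _ w c 0 0)⟩
    by_cases a0 : a = 0
    · exact ((i _ _ _ (I2.fst.2 (hx.2 c))).proj h hK t' hg gz gw).congr (by simp [a0]) (by simp [n1]) (by simp [n2])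
    · exact ((i _ _ _ (I2.snd.2 (hy.2 (c / a ^ 2)))).proj h hK t' hg gz gw).congr (by simp [a0]) (by simp [n1])
        (by simp [n2])
  · obtain ⟨a, b, e, k⟩ : ∃ a b : F, a • x + b • y = 0 ∧ ¬ (a = 0 ∧ b = 0) := by
      by_contra! k
      exact t ⟨xy, k⟩
    have b0 : b ≠ 0 := fun b0 => k ⟨by simpa [b0, hx.1] using e, b0⟩
    have : x + y = (1 - a / b) • x := by
      have : x + y = (1 - a / b) • x + b⁻¹ • (a • x + b • y) := by match_scalars <;> field_simp <;> ring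
      rw [this, e, smul_zero, add_zero]
    rw [this] at n ⊢
    exact hx.smul fun z => n (by rw [z, zero_smul])

theorem exf (h : Sy B) (hK : K ≤ SP B) (hΓ : Nd Γ) (fr : FR B K Γ) (t : Ti2 B x y) {c : F}
    (hi : I2 B K x y c 1 0) : ∃ w, Full B K w := by
  classical
  obtain ⟨γ, m, n2, n1⟩ := ex hΓ
  obtain ⟨a, k⟩ := fr _ _ t
  have t1 : Ti2 B x (y + a • x) := by
    simpa [add_comm] using t.chg h (a := 1) (b := 0) (c := a) (d := 1) (by simp)
  have i1 : I2 B K x (y + a • x) (c - 2 * a) 1 0 := by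
    have := (I2.chg (p := 1) (r := 0) (s := a) (t := 1) (a := c - 2 * a) (b := 1) (d := 0)).2
      (hi.congr (by ring) (by ring) (by ring))
    simpa [add_comm] using this
  generalize y + a • x = y at k t1 i1
  have i2 : I2 B K x y 0 1 0 := by
    obtain ⟨g, hg, gx, gy⟩ := k γ m γ⁻¹ (inv_mem m)
    exact (i1.proj h hK t1 hg gx gy).congr (by simp [n2]) (by simp) (by simp)
  let A : AddSubgroup F :=
    { carrier := {b | I2 B K x y 0 b 0}
      add_mem' := fun p q => (I2.add h t1.xy p q).congr (by simp) rfl (by simp)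
      zero_mem' := I2.zero x y
      neg_mem' := fun p => (I2.neg h t1.xy p).congr (by simp) rfl (by simp) }
  have i3 : ∀ b, I2 B K x y 0 (b * 1) 0 := fun b => hΓ.cl A (fun δ hδ b p => by
    obtain ⟨g, hg, gx, gy⟩ := k δ hδ 1 (one_mem _)
    exact (I2.act hK hg gx gy p).congr (by simp) (by simp [mul_comm]) (by simp)) b 1 i2
  obtain ⟨z, w, a, -, t', k, i⟩ := fm h fr t1
  obtain ⟨g, hg, gz, gw⟩ := k γ m 1 (one_mem _)
  refine ⟨w, t'.ne.2, fun c => I2.snd.1 (?_ : I2 B K z w 0 0 c)⟩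
  have := h.odd
  exact ((i _ _ _ (i3 (-c / 2))).proj h hK t' hg gz gw).congr (by simp [n2]) (by simp [n1])
    (by simp; field_simp)

end GN

theorem gn (h : Sy B) (hK : K ≤ SP B) {Γ : Subgroup Fˣ} (hΓ : Nd Γ) (fr : FR B K Γ)
    {x y : V} (t : Ti2 B x y) {c : F} (hi : I2 B K x y c 1 0) : Fin2 B K := by
  obtain ⟨w, hw⟩ := GN.exf h hK hΓ fr t hi
  let Y : Submodule F V :=
    { carrier := {v | v ≠ 0 → Full B K v}
      add_mem' := fun {a b} p q n => by
        by_cases a0 : a = 0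
        · rw [a0, zero_add] at n ⊢; exact q n
        by_cases b0 : b = 0
        · rw [b0, add_zero]; exact p a0
        exact GN.add h hK hΓ fr (p a0) (q b0) n
      zero_mem' := fun n => absurd rfl n
      smul_mem' := fun c v p n => (p (right_ne_zero_of_smul n)).smul (left_ne_zero_of_smul n) }
  by_cases e : Y = ⊤
  · exact .inl fun v => (e ▸ Submodule.mem_top : v ∈ Y)
  · exact .inr ⟨Y, fun b => hw.1 ((Submodule.eq_bot_iff Y).1 b w fun _ => hw), e,
      fun g hg v p n => (p fun z => n (by simp [z])).map hK hg⟩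

end CF.Rs
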