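import Cfsg.Agent.Rs.BR
import Cfsg.Agent.Rq.P3
import Cfsg.Agent.Rq.F

/-! Rank 3 actions of symplectic groups: transfer to the geometry, first part. -/

set_option autoImplicit false
set_option linter.unusedSectionVars false
open MulAction Module

namespace CF.Rs
open CF.Rq (R3 Sp Tw Oc Cj Btr Gf R4 In Pw Fl)

variable {F V : Type*} [Field F] [Fintype F] [AddCommGroup V] [Module F V]
  {B : V →ₗ[F] V →ₗ[F] F} {k : ℕ} {e : ℕ → V} {Ω : Type*} [MulAction (GG B) Ω]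

theorem Kw_le (ω : Ω) : Kw B ω ≤ SP B := Subgroup.map_subtype_le _

theorem mem_Kw {ω : Ω} {g : GG B} : g.1 ∈ Kw B ω ↔ g • ω = ω :=
  ⟨fun ⟨_, h1, h2⟩ => Subtype.ext h2 ▸ h1, fun k => ⟨g, k, rfl⟩⟩

theorem mem_Kw' {ω : Ω} {g : V ≃ₗ[F] V} : g ∈ Kw B ω ↔ ∃ g' : GG B, g' • ω = ω ∧ g'.1 = g :=
  Iff.rfl

theorem Hw_le (ω : Ω) : Hw B k e ω ≤ Kw B ω := Subgroup.map_mono inf_le_left

theorem mem_Hw {ω : Ω} {g : V ≃ₗ[F] V} :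
    g ∈ Hw B k e ω ↔ ∃ g' ∈ Pa B k e (3 ≤ ·), g' • ω = ω ∧ g'.1 = g :=
  ⟨fun ⟨g', h1, h2⟩ => ⟨g', h1.2, h1.1, h2⟩, fun ⟨g', h1, h2, h3⟩ => ⟨g', ⟨h2, h1⟩, h3⟩⟩

theorem In_tr {ω : Ω} {ψ φ : V →ₗ[F] V} (h1 : In (Kw B ω) ψ) (g : GG B)
    (hφ : ∀ v, φ (g.1 v) = g.1 (ψ v)) : In (Kw B (g • ω)) φ := by
  obtain ⟨_, ⟨s, hs, rfl⟩, h2⟩ := h1
  have hs' : s • ω = ω := hs
  refine ⟨(g * s * g⁻¹).1, mem_Kw.2 (by simp [mul_smul, hs']), fun v => ?_⟩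
  obtain ⟨w, rfl⟩ := g.1.surjective v
  rw [GG.mul_apply, GG.mul_apply, GG.apply_inv, hφ, ← map_add]
  exact congrArg _ (h2 w)

theorem I2.tr {ω : Ω} {x y : V} {a c d : F} (h1 : I2 B (Kw B ω) x y a c d) (g : GG B) :
    I2 B (Kw B (g • ω)) (g.1 x) (g.1 y) a c d :=
  In_tr h1 g fun v => by rw [m2_apply, m2_apply, GG.map, GG.map, map_add, map_smul, map_smul]

theorem Tv.tr {ω : Ω} (h1 : Tv B (Kw B ω)) (g : GG B) : Tv B (Kw B (g • ω)) := by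
  obtain ⟨x, c, x0, c0, h2⟩ := h1
  exact ⟨g.1 x, c, by simpa using x0, c0, I2.fst.1 ((I2.fst (y := x)).2 h2 |>.tr g)⟩

theorem Aw.one (ω : Ω) : Aw B k e ω 1 := ⟨1, Dg.one, 1, one_mem _, rfl⟩

theorem Aw.mul (h : Sy B) (b : Fb B k e) {ω : Ω} {τ τ' : ℕ → Fˣ} (h1 : Aw B k e ω τ)
    (h2 : Aw B k e ω τ') : Aw B k e ω (τ * τ') :=
  have := UT.fin h
  let ⟨t, a, c⟩ := h1
  let ⟨t', a', c'⟩ := h2
  ⟨t * t', a.mul a', Rq.Tw.mul (b.sp h) a.mem c c'⟩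

theorem Aw.inv (h : Sy B) (b : Fb B k e) {ω : Ω} {τ : ℕ → Fˣ} (h1 : Aw B k e ω τ) :
    Aw B k e ω τ⁻¹ :=
  have := UT.fin h
  let ⟨t, a, c⟩ := h1
  ⟨t⁻¹, a.inv, Rq.Tw.inv (b.sp h) a.mem c⟩

theorem Aw.congr {ω : Ω} {τ τ' : ℕ → Fˣ} (h1 : Aw B k e ω τ) (hτ : ∀ i < k, τ i = τ' i) :
    Aw B k e ω τ' :=
  let ⟨t, a, c⟩ := h1
  ⟨t, a.congr hτ, c⟩

theorem Aw.tw (b : Fb B k e) {ω : Ω} {τ : ℕ → Fˣ} (h1 : Aw B k e ω τ) {t : GG B}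
    (ht : Dg B k e t τ) : Tw (Uu B k e) ω t :=
  let ⟨_, a, c⟩ := h1
  a.eq b ht (fun _ _ => rfl) ▸ c

theorem Aw.smul (h : Sy B) (b : Fb B k e) {ω : Ω} {τ : ℕ → Fˣ} {u t : GG B} (hu : u ∈ Uu B k e)
    (ht : t ∈ Tt B k e) : Aw B k e ((u * t) • ω) τ ↔ Aw B k e ω τ :=
  have := UT.fin h
  exists_congr fun _ => and_congr_right fun a => Rq.Tw.smul (b.sp h) a.mem hu ht

theorem Aw.smulU (h : Sy B) (b : Fb B k e) {ω : Ω} {τ : ℕ → Fˣ} {u : GG B} (hu : u ∈ Uu B k e) :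
    Aw B k e (u • ω) τ ↔ Aw B k e ω τ := by
  simpa using Aw.smul h b hu (one_mem _) (ω := ω) (τ := τ)

theorem Aw.prod (h : Sy B) (b : Fb B k e) {ω : Ω} {τ : ℕ → Fˣ}
    (h1 : ∀ i < k, Aw B k e ω (d1 i (τ i))) : Aw B k e ω τ := by
  have h2 : ∀ m ≤ k, Aw B k e ω fun i => if i < m then τ i else 1 := by
    intro m
    induction m with
    | zero => exact fun _ => (Aw.one ω).congr fun i _ => by simp
    | succ m ih =>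
      refine fun hm => ((ih (by omega)).mul h b (h1 m hm)).congr fun i _ => ?_
      simp only [Pi.mul_apply, d1]
      split_ifs <;> first | omega | simp [*]
  exact (h2 k le_rfl).congr fun i hi => if_pos hi

theorem Aw.fix {ω : Ω} {τ : ℕ → Fˣ} (h1 : Aw B k e ω τ) (tf : Tf B k e ω) :
    ∃ t : GG B, Dg B k e t τ ∧ t • ω = ω :=
  let ⟨t, a, c⟩ := h1
  ⟨t, a, tf t a.mem c⟩

theorem Aw.of_fix {ω : Ω} {τ : ℕ → Fˣ} {t : GG B} (ht : Dg B k e t τ) (hω : t • ω = ω) :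
    Aw B k e ω τ := ⟨t, ht, 1, one_mem _, by rw [hω, one_smul]⟩

theorem Fb.aw_of (h : Sy B) (b : Fb B k e) {ω : Ω} {g : GG B} (hω : g • ω = ω)
    (hg : ∀ j ≤ k, g ∈ St B (Fl F e j)) :
    ∃ τ, Aw B k e ω τ ∧ ∀ i < k, co B k e i (g.1 (e i)) = τ i := by
  obtain ⟨u, hu, t, τ, ht, rfl, h1⟩ := b.bd' h hg
  exact ⟨τ, ⟨t, ht, u⁻¹, inv_mem hu, by rw [eq_inv_smul_iff, ← mul_smul, hω]⟩, h1⟩

theorem Fb.tf (h : Sy B) (b : Fb B k e) (ω : Ω) : ∃ u ∈ Uu B k e, Tf B k e (u • ω) := by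
  have := UT.fin h
  have : Fact (ringChar F).Prime := ⟨CharP.char_is_prime F _⟩
  obtain ⟨u, hu, l⟩ := (b.sp h).gl (b.pgroup h) Rq.not_dvd_pred (fun t ht => b.T_pow ht) ω
  refine ⟨u, hu, fun t ht a => l t ht ?_⟩
  rw [← Rq.Tw.smul (b.sp h) ht hu (one_mem _), mul_one]
  exact a

theorem Fb.ent_conj (b : Fb B k e) {u r : GG B} (hu : u ∈ Uu B k e) (hr : r ∈ Uu B k e) {i : ℕ}
    (hi : i + 1 < 2 * k) :
    co B k e i ((u * r * u⁻¹).1 (e (i + 1))) = co B k e i (r.1 (e (i + 1))) := by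
  have h1 := b.ent_mul (mul_mem (mul_mem hu hr) (inv_mem hu)) hu hi
  rw [inv_mul_cancel_right, b.ent_mul hu hr hi] at h1
  linear_combination -h1

theorem Gd.smul (h : Sy B) (b : Fb B k e) {i : ℕ} (hi : i < k) {ω : Ω} (hω : Gd B k e i ω)
    {u t : GG B} (hu : u ∈ Uu B k e) (ht : t ∈ Tt B k e) : Gd B k e i ((u * t) • ω) := by
  have hn := b.k3 h
  obtain ⟨r, h1, h2, h3⟩ := hω
  have h4 := (b.sp h).nU t ht r h1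
  obtain ⟨τ, hτ⟩ := b.T_dg ht
  refine ⟨u * (t * r * t⁻¹) * u⁻¹, mul_mem (mul_mem hu h4) (inv_mem hu),
    by simp [mul_smul, h2], ?_⟩
  rw [b.ent_conj hu h4 (by omega), hτ.conj b r (by omega) (by omega)]
  exact mul_ne_zero (div_ne_zero (ev_ne _ _) (ev_ne _ _)) h3

theorem Gd.smulU (h : Sy B) (b : Fb B k e) {i : ℕ} (hi : i < k) {ω : Ω} (hω : Gd B k e i ω)
    {u : GG B} (hu : u ∈ Uu B k e) : Gd B k e i (u • ω) := by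
  simpa using hω.smul h b hi hu (one_mem _)

theorem Gd.pn {i : ℕ} {ω : Ω} (hω : Gd B k e i ω) : Pn B k e i ω :=
  ⟨1, fun _ _ _ => one_mem _, by rwa [one_smul]⟩

theorem Fb.cen (h : Sy B) (b : Fb B k e) {i : ℕ} (hi : i < k) {ω : Ω} (hω : Gd B k e i ω) :
    ∃ c ∈ Uu B k e, c • ω = ω ∧ co B k e i (c.1 (e (i + 1))) ≠ 0 ∧ ∀ t τ, Dg B k e t τ →
      t • ω = ω → ev k τ i = ev k τ (i + 1) → t * c = c * t := by
  have := UT.fin h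
  have hn := b.k3 h
  have : Fact (ringChar F).Prime := ⟨CharP.char_is_prime F _⟩
  obtain ⟨r, h1, h2, h3⟩ := hω
  let S : Set (GG B) := {t | t • ω = ω ∧ ∃ τ, Dg B k e t τ ∧ ev k τ i = ev k τ (i + 1)}
  have hev : ∀ (τ τ' : ℕ → Fˣ) (j : ℕ), ev k (τ * τ') j = ev k τ j * ev k τ' j := by
    intro τ τ' j
    unfold ev; split_ifs <;> simp [mul_comm]
  have hm : ∀ {a c : GG B}, a ∈ S → c ∈ S → a * c ∈ S := by
    rintro a c ⟨a1, τ, a2, a3⟩ ⟨c1, τ', c2, c3⟩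
    exact ⟨by rw [mul_smul, c1, a1], τ * τ', a2.mul c2, by rw [hev, hev, a3, c3]⟩
  have h0 : (1 : GG B) ∈ S := ⟨one_smul _ _, 1, Dg.one, by simp [ev]⟩
  let A : Subgroup (GG B) := ⟨⟨⟨S, hm⟩, h0⟩, Rq.inv_mem_of_fin h0 hm⟩
  obtain ⟨c, c1, c2, c3, c4⟩ := (b.sp h).cen (b.pgroup h) Rq.not_dvd_pred (fun t ht => b.T_pow ht)
    ω (A := A) (fun a ha => ha.2.choose_spec.1.mem) (fun a ha => ha.1)
    (fun u => co B k e i (u.1 (e (i + 1)))) (fun u hu u' hu' => b.ent_mul hu hu' (by omega))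
    (fun a ⟨_, τ, a2, a3⟩ u _ => by
      rw [a2.conj b u (by omega) (by omega), a3, div_self (ev_ne _ _), one_mul]) h1 h2
  exact ⟨c, c1, c2, by rwa [c3], fun t τ ht hω h4 => c4 t ⟨hω, τ, ht, h4⟩⟩

theorem Fb.btr_aw (h : Sy B) (b : Fb B k e) (bt : Btr Ω (Uu B k e) (Tt B k e)) {ω : Ω}
    {τ : ℕ → Fˣ} (h1 : Aw B k e ω τ) (ω' : Ω) : Aw B k e ω' τ := by
  obtain ⟨u, hu, t, ht, rfl⟩ := bt ω ω'
  exact (Aw.smul h b hu ht).2 h1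

theorem Fb.btr_conj (h : Sy B) (b : Fb B k e) (bt : Btr Ω (Uu B k e) (Tt B k e)) {ω : Ω}
    {t n : GG B} {τ τ' : ℕ → Fˣ} (h1 : Aw B k e ω τ) (ht : Dg B k e t τ)
    (ht' : Dg B k e (n⁻¹ * t * n) τ') : Aw B k e ω τ' := by
  obtain ⟨u, hu, tf⟩ := b.tf h ω
  have h2 := tf t ht.mem (((Aw.smulU h b hu).2 h1).tw b ht)
  exact b.btr_aw h bt (Aw.of_fix (ω := n⁻¹ • u • ω) ht' (by simp [mul_smul, h2])) ω

end CF.Rs
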