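import Cfsg.Agent.Rs.AR
import Cfsg.Agent.Rs.TA
import Cfsg.Agent.Rs.WT

/-! Rank 3 actions of symplectic groups over the field with three elements: scalar tori. -/

set_option autoImplicit false
set_option linter.unusedSectionVars false
open MulAction Module

namespace CF.Rs
open CF.Rq (R3 Sp Tw Oc Cj Btr Gf R4 In Pw Fl)

variable {F V : Type*} [Field F] [Fintype F] [AddCommGroup V] [Module F V]
  {B : V →ₗ[F] V →ₗ[F] F} {K : Subgroup (V ≃ₗ[F] V)} {k : ℕ} {e : ℕ → V} {Ω : Type*}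
  [MulAction (GG B) Ω]

theorem IV.eig (h : Sy B) (b : Fb B k e) (cs : Cs B k e Ω) {ω : Ω} {s : GG B}
    (hs : s ∈ Pa B k e (· ≠ 0 + 1) ⊓ stabilizer (GG B) ω) {v : V} (hv : v ∈ Fl F e 2) (v0 : v ≠ 0) {c : F}
    (hc : s.1 v = c • v) : (∀ w ∈ Fl F e 2, s.1 w - c • w ∈ Submodule.span F {v}) ∧
      ∀ w ∈ Fl F e 3, s.1 w - c • w ∈ Fl F e 2 := by
  have k3 := b.k3 h
  obtain ⟨g, hg, g0⟩ := b.wtP h (i := 0) (by omega) hv (by simpa [Rq.Fl.zero] using v0)
  have s0 : (g⁻¹ * s * g).1 (e 0) = c • e 0 := by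
    rw [GG.mul_apply, GG.mul_apply, g0, hc, map_smul, ← g0, GG.apply_inv]
  have st : ∀ j ≤ k, g⁻¹ * s * g ∈ St B (Fl F e j) := fun j hj => by
    by_cases j1 : j = 1
    · exact h.mem_St_Fl fun i hi => by
        obtain rfl : i = 0 := by omega
        exact s0 ▸ Submodule.smul_mem _ _ (Rq.Fl.mem hi)
    · exact mul_mem (mul_mem (inv_mem hg) hs.1) hg j hj j1
  obtain ⟨τ, aw, hτ⟩ := b.aw_of h (ω := g⁻¹ • ω) (by rw [mul_smul, mul_smul, smul_inv_smul, hs.2]) st
  obtain ⟨t1, t2⟩ := cs _ _ aw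
  have t0 : (τ 0 : F) = c := by rw [← hτ 0 (by omega), s0, map_smul, b.co_e (by omega) (by omega)]; simp
  have e1 : ∀ i < 3, (g⁻¹ * s * g).1 (e i) - c • e i ∈ Fl F e i := fun i hi => by
    have := b.Fl_succ (j := i) (by omega) (St.map (st (i + 1) (by omega)) (Rq.Fl.mem i.lt_succ_self))
    rwa [hτ i (by omega), show τ i = τ 0 by interval_cases i <;> simp [t1, t2], t0] at this
  have e2 : ∀ j ≤ 2, ∀ w, g⁻¹.1 w ∈ Fl F e (j + 1) → g⁻¹.1 (s.1 w - c • w) ∈ Fl F e j := fun j hj w hw => by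
    have := Rq.Fl.ind (((g⁻¹ * s * g).1 : V →ₗ[F] V) - c • LinearMap.id) (Fl F e j)
      (fun i hi => Rq.Fl.mono (by omega) (e1 i (by omega))) hw
    rw [map_sub, map_smul]
    simpa only [LinearMap.sub_apply, LinearEquiv.coe_coe, GG.mul_apply, GG.inv_apply, LinearMap.smul_apply,
      LinearMap.id_apply] using this
  refine ⟨fun w hw => ?_, fun w hw => (inv_mem hg 2 (by omega) (by omega) _).1
    (e2 2 le_rfl w (St.map (inv_mem hg 3 k3 (by omega)) hw))⟩
  obtain ⟨a, ha⟩ := Submodule.mem_span_singleton.1 (Fl_one (F := F) (e := e) ▸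
    e2 1 (by omega) w (St.map (inv_mem hg 2 (by omega) (by omega)) hw))
  exact Submodule.mem_span_singleton.2 ⟨a, by rw [← g0, ← map_smul, ha, GG.inv_apply]⟩

theorem Fb.iv (h : Sy B) (b : Fb B k e) (h3 : Fintype.card F = 3) [Nonempty Ω]
    (bt : Btr Ω (Uu B k e) (Tt B k e)) (ng : Ng B Ω) (cs : Cs B k e Ω) : False := by
  obtain ⟨ω⟩ := ‹Nonempty Ω›
  have k3 := b.k3 h
  have z3 := f3_three h3
  have t := b.ti2 (i := 0) (j := 1) (by omega) (by omega) (by omega) (by omega)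
  have m0 : e 0 ∈ Fl F e 2 := Rq.Fl.mem (by omega)
  have m1 : e 1 ∈ Fl F e 2 := Rq.Fl.mem (by omega)
  have C := @IV.eig _ _ _ _ _ _ _ _ _ _ _ h b cs ω
  set H := Pa B k e (· ≠ 0 + 1) ⊓ stabilizer (GG B) ω
  have A : ∀ s ∈ H, s.1 (s.1 (e 0)) ≠ -e 0 := fun s hs f => by
    have m : e 2 ∈ Fl F e 3 := Rq.Fl.mem (by omega)
    have a1 := b.co_Fl le_rfl (by omega) ((C (mul_mem hs hs) m0 t.ne.1 (c := -1) (by simpa using f)).2 _ m)
    have a2 := b.co_Fl le_rfl (by omega) (St.map (hs.1 2 (by omega) (by omega))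
      (b.Fl_succ (j := 2) (by omega) (St.map (hs.1 3 k3 (by omega)) m)))
    rw [map_sub, map_smul, map_sub, map_smul] at a2
    rw [map_sub, map_smul, b.co_e (by omega) (by omega), GG.mul_apply, sub_eq_zero.1 a2] at a1
    rcases f3_cases h3 (co B k e 2 (s.1 (e 2))) with f | f | f <;> simp [f] at a1 <;>
      exact h.odd (by linear_combination a1)
  have T : ∀ v ∈ Fl F e 2, v ≠ 0 → ∃ s ∈ H, s.1 (e 0) = v := fun v hv v0 => by
    obtain ⟨g, hg, g0⟩ := b.wtP h (i := 0) (by omega) hv (by simpa [Rq.Fl.zero] using v0)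
    obtain ⟨u, hu, t, ht, f⟩ := bt ω (g⁻¹ • ω)
    obtain ⟨n, hn⟩ := h.neg
    obtain ⟨c, hc⟩ := ht 0 (by omega)
    have m : g * (u * t) ∈ H := ⟨mul_mem hg fun j hj _ => mul_mem (h.U_St hu (by omega)) (h.T_St ht (by omega)),
      show _ • ω = ω by rw [mul_smul, f, smul_inv_smul]⟩
    have : (g * (u * t)).1 (e 0) = (c : F) • v := by
      rw [GG.mul_apply, GG.mul_apply, hc, map_smul, (b.U_zero h hu).1, map_smul, g0]
    rcases f3_unit h3 c with rfl | rfl
    · exact ⟨_, m, by simpa using this⟩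
    · exact ⟨n * _, mul_mem ⟨fun j _ _ => h.mem_St fun v hv => hn v ▸ neg_mem hv, ng n hn ω⟩ m, by
        rw [GG.mul_apply, this, hn]; simp⟩
  obtain ⟨s, hs, s0⟩ := T _ m1 t.ne.2
  obtain ⟨a, c, s1⟩ := Submodule.mem_span_pair.1 (Fl_two (F := F) (e := e) ▸ St.map (hs.1 2 (by omega) (by omega)) m1)
  have li : ∀ {x y : F}, y ≠ 0 → x • e 0 + y • e 1 ≠ 0 := fun y0 f => y0 (t.li _ _ f).2
  have mv : ∀ x y : F, x • e 0 + y • e 1 ∈ Fl F e 2 := fun x y =>
    add_mem (Submodule.smul_mem _ _ m0) (Submodule.smul_mem _ _ m1)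
  rcases f3_cases h3 a with rfl | rfl | rfl
  · refine li (x := -c) one_ne_zero (s.1.map_eq_zero_iff.1 ?_)
    simp [s0, ← s1]
  · by_cases c0 : c = 0
    · obtain ⟨x, hx⟩ := Submodule.mem_span_singleton.1 ((C hs (mv 1 1) (li one_ne_zero) (c := 1)
        (by simp [s0, ← s1, c0, add_comm])).1 _ m0)
      obtain ⟨p, q⟩ := t.li (x + 1) (x - 1) (by rw [s0] at hx; linear_combination (norm := module) hx)
      exact h.odd (by linear_combination p - q)
    have c2 : c * c = 1 := by rcases f3_cases h3 c with f | f | f <;> simp_all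
    refine A _ (mul_mem hs hs) ?_
    simp only [GG.mul_apply, s0, ← s1, map_add, map_smul]
    linear_combination (norm := module) (c2 + z3) • e 0 + (c * c2 + c * z3) • e 1
  by_cases c0 : c = 0
  · exact A s hs (by simp [s0, ← s1, c0])
  have c2 : c * c = 1 := by rcases f3_cases h3 c with f | f | f <;> simp_all
  obtain ⟨g, hg, g0⟩ := T _ (mv 1 c) (li c0)
  have hn := mul_mem (mul_mem (inv_mem hg) hs) hg
  have n0 : (g⁻¹ * s * g).1 (e 0) = -c • e 0 := by
    refine g.1.injective ?_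
    rw [mul_assoc, GG.mul_apply, GG.inv_apply, GG.mul_apply, map_smul, g0, map_add, map_smul, map_smul, s0, ← s1]
    linear_combination (norm := module) (2 * c2 + z3) • e 1
  obtain ⟨x, n1⟩ := Submodule.mem_span_singleton.1 ((C hn m0 t.ne.1 n0).1 _ m1)
  replace n1 := (eq_add_of_sub_eq n1.symm)
  rcases f3_cases h3 x with rfl | rfl | rfl
  · obtain ⟨p, q, f⟩ := Submodule.mem_span_pair.1 (Fl_two (F := F) (e := e) ▸
      St.map ((inv_mem hg).1 2 (by omega) (by omega)) m0)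
    have : (g⁻¹ * s * g).1 (g⁻¹.1 (e 0)) = -c • g⁻¹.1 (e 0) := by
      rw [← f, map_add, map_smul, map_smul, n0, n1]; module
    rw [GG.mul_apply, GG.mul_apply, GG.inv_apply, s0, ← map_smul, g⁻¹.1.injective.eq_iff] at this
    exact li (x := c) one_ne_zero (by rw [this]; module)
  · refine A _ (mul_mem hn hs) ?_
    generalize g⁻¹ * s * g = n at n0 n1
    simp only [GG.mul_apply, s0, ← s1, map_add, map_smul, n0, n1]
    linear_combination (norm := module) (-2 * c2) • e 0 + (c * c2) • e 1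
  · refine A _ (mul_mem hn (mul_mem hn hs)) ?_
    generalize g⁻¹ * s * g = n at n0 n1
    simp only [GG.mul_apply, s0, ← s1, map_add, map_smul, n0, n1]
    linear_combination (norm := module) ((c ^ 2 + 5) * c2 + 2 * z3) • e 0 + (c ^ 3 * c2 + c ^ 3 * z3) • e 1

end CF.Rs
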