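import Cfsg.Agent.Rs.A2
import Cfsg.Agent.Rq.L1

/-! Calculus of `I2`, `Full`, `AN`, `Ho`. -/

set_option autoImplicit false
set_option linter.unusedSectionVars false
open MulAction Module

namespace CF.Rs
open CF.Rq (R3 Sp Tw Oc Cj Btr Gf R4 In Pw Fl)

variable {F V : Type*} [Field F] [Fintype F] [AddCommGroup V] [Module F V]
  {B : V →ₗ[F] V →ₗ[F] F} {K : Subgroup (V ≃ₗ[F] V)}

theorem E_apply (x y v : V) : E B x y v = B y v • x := rfl

theorem Pm_apply (x y v : V) : Pm B x y v = B y v • x + B x v • y := rfl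

theorem Sy.skew (h : Sy B) (x y : V) : B y x = -B x y := by
  have h1 := h.alt (x + y)
  simp only [map_add, LinearMap.add_apply, h.alt] at h1
  linear_combination h1

theorem Sy.refl (h : Sy B) {x y : V} (k : B x y = 0) : B y x = 0 := by
  rw [h.skew, k, neg_zero]

theorem GG.map (g : GG B) (x y : V) : B (g.1 x) (g.1 y) = B x y := g.2 x y

theorem GG.inv_apply (g : GG B) (v : V) : g.1 (g⁻¹.1 v) = v := by
  rw [← LinearEquiv.mul_apply, ← Subgroup.coe_mul, mul_inv_cancel]; rfl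

theorem GG.apply_inv (g : GG B) (v : V) : g⁻¹.1 (g.1 v) = v := by
  rw [← LinearEquiv.mul_apply, ← Subgroup.coe_mul, inv_mul_cancel]; rfl

theorem GG.mul_apply (g g' : GG B) (v : V) : (g * g').1 v = g.1 (g'.1 v) := rfl

theorem m2_apply (x y : V) (a b d : F) (v : V) :
    (a • E B x x + b • Pm B x y + d • E B y y) v =
      (a * B x v + b * B y v) • x + (b * B x v + d * B y v) • y := by
  simp only [LinearMap.add_apply, LinearMap.smul_apply, E_apply, Pm_apply]; module

theorem Full.smul {x : V} (hx : Full B K x) {a : F} (ha : a ≠ 0) : Full B K (a • x) := by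
  refine ⟨smul_ne_zero ha hx.1, fun c => (hx.2 (c * (a * a))).congr fun v => ?_⟩
  simp only [LinearMap.smul_apply, E_apply, map_smul, smul_smul, smul_eq_mul]
  congr 1; ring

theorem Full.map {x : V} (hK : K ≤ SP B) (hx : Full B K x) {g : V ≃ₗ[F] V} (hg : g ∈ K) :
    Full B K (g x) := by
  have hi : ∀ x y, B (g x) (g y) = B x y := hK hg
  refine ⟨by simpa using hx.1, fun c => Rq.In.conj hg (fun v => ?_) (hx.2 c)⟩
  simp only [LinearMap.smul_apply, E_apply, map_smul, hi x v]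

theorem Full.np (_h : Sy B) (hK : K ≤ SP B) {x y : V} (hx : Full B K x) (hy : Full B K y)
    (hxy : B x y ≠ 0) {a c : F} (hac : a ≠ 0 ∨ c ≠ 0) : Full B K (a • x + c • y) := by
  by_cases hc : c = 0
  · subst hc
    simpa using hx.smul (hac.resolve_right (by simp))
  obtain ⟨g, hg, e⟩ := hx.2 (a / (c * B x y))
  have h1 := (hy.smul hc).map hK hg
  rw [e] at h1
  convert h1 using 1
  simp only [LinearMap.smul_apply, E_apply, map_smul, smul_smul, smul_eq_mul]
  rw [add_comm]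
  congr 2
  field_simp

theorem Ti2.symm (h : Sy B) {x y : V} (t : Ti2 B x y) : Ti2 B y x :=
  ⟨h.refl t.xy, fun a b e => (t.li b a (by rw [add_comm, e])).symm⟩

theorem Ti2.iso (h : Sy B) {x y : V} (t : Ti2 B x y) (a b c d : F) :
    B (a • x + b • y) (c • x + d • y) = 0 := by
  simp [h.alt, t.xy, h.refl t.xy]

theorem Ti2.chg (h : Sy B) {x y : V} (t : Ti2 B x y) {a b c d : F} (hd : a * d - b * c ≠ 0) :
    Ti2 B (a • x + b • y) (c • x + d • y) := by
  refine ⟨t.iso h .., fun r s e => ?_⟩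
  have e2 : (r * a + s * c) • x + (r * b + s * d) • y = 0 := by
    rw [← e]; module
  obtain ⟨h1, h2⟩ := t.li _ _ e2
  constructor
  · apply mul_left_cancel₀ hd; linear_combination d * h1 - c * h2
  · apply mul_left_cancel₀ hd; linear_combination a * h2 - b * h1

theorem Ti2.ne {x y : V} (t : Ti2 B x y) : x ≠ 0 ∧ y ≠ 0 :=
  ⟨fun e => one_ne_zero (t.li 1 0 (by simp [e])).1, fun e => one_ne_zero (t.li 0 1 (by simp [e])).2⟩

theorem Ti2.map {x y : V} (t : Ti2 B x y) (g : GG B) : Ti2 B (g.1 x) (g.1 y) :=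
  ⟨(GG.map g x y).trans t.xy, fun a b e => t.li a b (g.1.injective (by simpa using e))⟩

theorem L1.z (h : Sy B) {x y : V} (t : B x y = 0) (a b d a' b' d' : F) (v : V) :
    (a • E B x x + b • Pm B x y + d • E B y y)
      ((a' • E B x x + b' • Pm B x y + d' • E B y y) v) = 0 := by
  rw [m2_apply, m2_apply]
  simp [h.alt, t, h.refl t]

theorem I2.add (h : Sy B) {x y : V} (t : B x y = 0) {a b d a' b' d' : F}
    (h1 : I2 B K x y a b d) (h2 : I2 B K x y a' b' d') :
    I2 B K x y (a + a') (b + b') (d + d') :=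
  (Rq.In.add (L1.z h t _ _ _ _ _ _) h1 h2).congr fun v => by
    rw [LinearMap.add_apply, m2_apply, m2_apply, m2_apply]; module

theorem I2.neg (h : Sy B) {x y : V} (t : B x y = 0) {a b d : F} (h1 : I2 B K x y a b d) :
    I2 B K x y (-a) (-b) (-d) :=
  (Rq.In.neg (L1.z h t _ _ _ _ _ _) h1).congr fun v => by
    rw [LinearMap.neg_apply, m2_apply, m2_apply]; module

theorem I2.congr {x y : V} {a b d a' b' d' : F} (h1 : I2 B K x y a b d) (ea : a = a')
    (eb : b = b') (ed : d = d') : I2 B K x y a' b' d' := by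
  subst ea eb ed; exact h1

theorem I2.sub (h : Sy B) {x y : V} (t : B x y = 0) {a b d a' b' d' : F}
    (h1 : I2 B K x y a b d) (h2 : I2 B K x y a' b' d') :
    I2 B K x y (a - a') (b - b') (d - d') :=
  (I2.add h t h1 (I2.neg h t h2)).congr (by ring) (by ring) (by ring)

theorem I2.zero (x y : V) : I2 B K x y 0 0 0 := Rq.In.zero.congr fun v => by simp

theorem I2.swap {x y : V} {a b d : F} : I2 B K x y a b d ↔ I2 B K y x d b a :=
  Rq.L1.iff fun v => by rw [m2_apply, m2_apply]; module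

theorem I2.fst {x y : V} {a : F} : I2 B K x y a 0 0 ↔ In K (a • E B x x) :=
  Rq.L1.iff fun v => by simp

theorem I2.snd {x y : V} {d : F} : I2 B K x y 0 0 d ↔ In K (d • E B y y) :=
  Rq.L1.iff fun v => by simp

theorem I2.chg {x y : V} {p r s t a b d : F} :
    I2 B K (p • x + r • y) (s • x + t • y) a b d ↔ I2 B K x y
      (a * p ^ 2 + 2 * b * p * s + d * s ^ 2) (a * p * r + b * (p * t + s * r) + d * s * t)
      (a * r ^ 2 + 2 * b * r * t + d * t ^ 2) :=
  Rq.L1.iff fun v => by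
    rw [m2_apply, m2_apply]
    simp only [map_add, map_smul, LinearMap.add_apply, LinearMap.smul_apply, smul_eq_mul]
    module

theorem I2.map (hK : K ≤ SP B) {x y : V} {g : V ≃ₗ[F] V} (hg : g ∈ K) {a b d : F}
    (h1 : I2 B K x y a b d) : I2 B K (g x) (g y) a b d := by
  have hi : ∀ x y, B (g x) (g y) = B x y := hK hg
  refine Rq.In.conj hg (fun v => ?_) h1
  rw [m2_apply, m2_apply, hi, hi, map_add, map_smul, map_smul]

theorem I2.act (hK : K ≤ SP B) {x y : V} {g : V ≃ₗ[F] V} (hg : g ∈ K) {α β : F}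
    (hx : g x = α • x) (hy : g y = β • y) {a b d : F} (h1 : I2 B K x y a b d) :
    I2 B K x y (a * α ^ 2) (b * (α * β)) (d * β ^ 2) := by
  have h2 := I2.map hK hg h1
  rw [hx, hy, show α • x = α • x + (0 : F) • y by simp, show β • y = (0 : F) • x + β • y by simp,
    I2.chg] at h2
  exact h2.congr (by simp) (by simp) (by simp)

theorem L1.eig {g : V ≃ₗ[F] V} (hi : ∀ x y, B (g x) (g y) = B x y) {x y : V} {α β : F}
    (hx : g x = α • x) (hy : g y = β • y) (v : V) :
    g (E B x y v) = (α * β) • E B x y (g v) := by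
  rw [E_apply, E_apply, map_smul, hx, ← hi y v, hy]
  simp only [map_smul, LinearMap.smul_apply, smul_eq_mul, smul_smul]
  congr 1; ring

theorem I2.proj [DecidableEq F] (h : Sy B) (hK : K ≤ SP B) {x y : V} (t : Ti2 B x y)
    {g : V ≃ₗ[F] V} (hg : g ∈ K) {α β : F} (hx : g x = α • x) (hy : g y = β • y) {a b d : F}
    (h1 : I2 B K x y a b d) : I2 B K x y (if α ^ 2 = 1 then a else 0) (if α * β = 1 then b else 0)
      (if β ^ 2 = 1 then d else 0) := by
  have hi : ∀ x y, B (g x) (g y) = B x y := hK hg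
  have hα : α ≠ 0 := fun e => t.ne.1 (g.injective (by simp [hx, e]))
  have hβ : β ≠ 0 := fun e => t.ne.2 (g.injective (by simp [hy, e]))
  have h2 := Rq.In.avg (K := K) ![a • E B x x, b • Pm B x y, d • E B y y]
    (fun i j v => by
      fin_cases i <;> fin_cases j <;> simp [E_apply, Pm_apply, h.alt, t.xy, h.refl t.xy]) hg
    ![α ^ 2, α * β, β ^ 2]
    (fun i => by fin_cases i <;> simp [hα, hβ])
    (fun i v => by
      fin_cases i
      · simp [L1.eig hi hx hx, smul_smul, mul_comm, sq]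
      · simp [Pm, L1.eig hi hx hy, L1.eig hi hy hx, smul_smul, mul_comm]
      · simp [L1.eig hi hy hy, smul_smul, mul_comm, sq])
    (by rw [Fin.sum_univ_three]; exact h1)
  refine h2.congr fun v => ?_
  simp only [Fin.sum_univ_three, Matrix.cons_val, ite_smul, zero_smul]
  congr!

theorem I2.el (h : Sy B) (hK : K ≤ SP B) {x y : V} (t : Ti2 B x y) {u : V ≃ₗ[F] V} (hu : u ∈ K)
    {s : F} (hs : s ≠ 0) (ux : u x = x) (uy : u y = y + s • x) {a b d : F}
    (h1 : I2 B K x y a b d) (h0 : a ≠ 0 ∨ b ≠ 0 ∨ d ≠ 0) : Tv B K := by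
  have st : ∀ {a b d : F}, I2 B K x y a b d → I2 B K x y (2 * b * s + d * s ^ 2) (d * s) 0 := by
    intro a b d h1
    have h2 := I2.map hK hu h1
    rw [ux, uy, show x = (1 : F) • x + (0 : F) • y by simp] at h2
    rw [show y + s • ((1 : F) • x + (0 : F) • y) = s • x + (1 : F) • y by module, I2.chg] at h2
    exact (I2.sub h t.xy h2 h1).congr (by ring) (by ring) (by ring)
  have tv : ∀ {a b d : F}, I2 B K x y a b d → a ≠ 0 → b = 0 → d = 0 → Tv B K := by
    rintro a b d h1 ha rfl rfl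
    exact ⟨x, a, t.ne.1, ha, I2.fst.1 h1⟩
  have h2 := h.odd
  by_cases hd : d = 0
  · by_cases hb : b = 0
    · exact tv h1 (by tauto) hb hd
    · exact tv (st h1) (by simp [hd, hb, hs, h2]) (by simp [hd]) rfl
  · exact tv (st (st h1)) (by simp [hd, hs, h2]) (by simp) rfl

theorem HU.tv (h : Sy B) (hK : K ≤ SP B) (hu : HU B K) {x y : V} (t : Ti2 B x y) {a b d : F}
    (h1 : I2 B K x y a b d) (h0 : a ≠ 0 ∨ b ≠ 0 ∨ d ≠ 0) : Tv B K := by
  obtain ⟨p, r, s, w, hd, u, uK, c, c0, ux, uy⟩ := hu x y t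
  set D := p * w - r * s with hD
  have ex : x = (w / D) • (p • x + r • y) + (-r / D) • (s • x + w • y) := by
    have : (w / D) * p + (-r / D) * s = 1 := by field_simp; ring
    have h2 : (w / D) * r + (-r / D) * w = 0 := by ring
    calc x = ((w / D) * p + (-r / D) * s) • x + ((w / D) * r + (-r / D) * w) • y := by
          rw [this, h2]; simp
      _ = _ := by module
  have ey : y = (-s / D) • (p • x + r • y) + (p / D) • (s • x + w • y) := by
    have : (-s / D) * r + (p / D) * w = 1 := by field_simp; ring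
    have h2 : (-s / D) * p + (p / D) * s = 0 := by ring
    calc y = ((-s / D) * p + (p / D) * s) • x + ((-s / D) * r + (p / D) * w) • y := by
          rw [this, h2]; simp
      _ = _ := by module
  have h2 := h1
  rw [ex] at h2
  nth_rewrite 3 [ey] at h2
  rw [I2.chg] at h2
  refine I2.el h hK (t.chg h hd) uK c0 ux uy h2 ?_
  by_contra hn
  push Not at hn
  obtain ⟨e1, e2, e3⟩ := hn
  field_simp at e1 e2 e3
  have hD2 : D ^ 2 ≠ 0 := pow_ne_zero _ hd
  rcases h0 with h0 | h0 | h0 <;> apply h0 <;> apply mul_left_cancel₀ hD2 <;> rw [hD]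
  · linear_combination p ^ 2 * e1 + 2 * p * s * e2 + s ^ 2 * e3
  · linear_combination p * r * e1 + (p * w + s * r) * e2 + s * w * e3
  · linear_combination r ^ 2 * e1 + 2 * r * w * e2 + w ^ 2 * e3

theorem AN.skew (h : Sy B) (hK : K ≤ SP B) {N : Submodule F V} (ti : N ≤ Pp B N)
    {ψ : V →ₗ[F] V} (h1 : AN K N ψ) (v w : V) : B (ψ v) w = B (ψ w) v := by
  obtain ⟨⟨g, hg, e⟩, hN⟩ := h1
  have h2 : B (g v) (g w) = B v w := hK hg v w
  have h3 : B (ψ v) (ψ w) = 0 := ti (hN w) _ (hN v)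
  rw [e, e] at h2
  simp only [map_add, LinearMap.add_apply, h3, h.skew (ψ w) v] at h2
  linear_combination h2

theorem AN.kill (h : Sy B) (hK : K ≤ SP B) {N : Submodule F V} (ti : N ≤ Pp B N)
    {ψ : V →ₗ[F] V} (h1 : AN K N ψ) {v : V} (hv : v ∈ Pp B N) : ψ v = 0 :=
  h.nd _ fun w => (h1.skew h hK ti v w).trans (hv _ (h1.2 w))

theorem AN.add (h : Sy B) (hK : K ≤ SP B) {N : Submodule F V} (ti : N ≤ Pp B N)
    {ψ φ : V →ₗ[F] V} (h1 : AN K N ψ) (h2 : AN K N φ) : AN K N (ψ + φ) :=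
  ⟨Rq.In.add (fun v => h1.kill h hK ti (ti (h2.2 v))) h1.1 h2.1,
    fun v => N.add_mem (h1.2 v) (h2.2 v)⟩

theorem AN.neg (h : Sy B) (hK : K ≤ SP B) {N : Submodule F V} (ti : N ≤ Pp B N)
    {ψ : V →ₗ[F] V} (h1 : AN K N ψ) : AN K N (-ψ) :=
  ⟨Rq.In.neg (fun v => h1.kill h hK ti (ti (h1.2 v))) h1.1, fun v => N.neg_mem (h1.2 v)⟩

theorem AN.congr {N : Submodule F V} {ψ φ : V →ₗ[F] V} (h1 : AN K N ψ) (e : ∀ v, ψ v = φ v) :
    AN K N φ := ⟨h1.1.congr e, fun v => e v ▸ h1.2 v⟩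

theorem AN.sub (h : Sy B) (hK : K ≤ SP B) {N : Submodule F V} (ti : N ≤ Pp B N)
    {ψ φ : V →ₗ[F] V} (h1 : AN K N ψ) (h2 : AN K N φ) : AN K N (ψ - φ) :=
  sub_eq_add_neg ψ φ ▸ h1.add h hK ti (h2.neg h hK ti)

theorem AN.conj {N : Submodule F V} {ψ : V →ₗ[F] V} (h1 : AN K N ψ) {g : V ≃ₗ[F] V}
    (hg : g ∈ K) (hN : ∀ v ∈ N, g v ∈ N) :
    AN K N ((g : V →ₗ[F] V) ∘ₗ ψ ∘ₗ (g.symm : V →ₗ[F] V)) :=
  ⟨Rq.In.conj hg (fun v => by simp) h1.1, fun v => hN _ (h1.2 _)⟩

theorem AN.act (h : Sy B) (hK : K ≤ SP B) {N : Submodule F V} (ti : N ≤ Pp B N)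
    {ψ : V →ₗ[F] V} (h1 : AN K N ψ) {c u : V} (hc : c ∈ N) (ho : Ho B K N c u) :
    AN K N (Pm B c (ψ u) - B (ψ u) u • E B c c) := by
  obtain ⟨g, hg, e⟩ := ho
  have hi : ∀ x y, B (g x) (g y) = B x y := hK hg
  have h2 := h1.conj hg fun v hv => by rw [e v hv]; exact N.add_mem hv (N.smul_mem _ hc)
  refine (h1.sub h hK ti h2).congr fun w => ?_
  have h3 : g.symm w - (w - B c w • u) ∈ Pp B N := fun n hn => by
    have h4 := hi n (g.symm w)
    rw [g.apply_symm_apply, e n hn] at h4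
    simp only [map_add, map_sub, map_smul, LinearMap.add_apply, LinearMap.smul_apply,
      smul_eq_mul, h.skew n u] at h4 ⊢
    linear_combination -h4
  have h5 := h1.kill h hK ti h3
  rw [map_sub, sub_eq_zero] at h5
  have h6 : ψ (w - B c w • u) ∈ N := h1.2 _
  simp only [LinearMap.sub_apply, LinearMap.comp_apply, LinearEquiv.coe_coe, h5, e _ h6,
    LinearMap.smul_apply, E_apply, Pm_apply]
  simp only [map_sub, map_smul, smul_eq_mul, h.skew (ψ w) u, h.skew (ψ u) u,
    h1.skew h hK ti w u]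
  module

theorem I2.an {x y : V} {a b d : F} (h1 : I2 B K x y a b d) {N : Submodule F V} (hx : x ∈ N)
    (hy : y ∈ N) : AN K N (a • E B x x + b • Pm B x y + d • E B y y) :=
  ⟨h1, fun v => by rw [m2_apply]; exact N.add_mem (N.smul_mem _ hx) (N.smul_mem _ hy)⟩

theorem Ho.mono {H : Subgroup (V ≃ₗ[F] V)} (hH : H ≤ K) {N : Submodule F V} {c u : V}
    (ho : Ho B H N c u) : Ho B K N c u :=
  let ⟨g, hg, e⟩ := ho
  ⟨g, hH hg, e⟩

end CF.Rs
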