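import Cfsg.Agent.Rs.TA

/-! A chamber that is good for all types. -/

set_option autoImplicit false
set_option linter.unusedSectionVars false
open MulAction Module

namespace CF.Rs
open CF.Rq (R3 Sp Tw Oc Cj Btr Gf R4 In Pw Fl)

variable {F V : Type*} [Field F] [Fintype F] [AddCommGroup V] [Module F V]
  {B : V →ₗ[F] V →ₗ[F] F} {k : ℕ} {e : ℕ → V} {Ω : Type*} [MulAction (GG B) Ω]

theorem MX.nrm (h : Sy B) (b : Fb B k e) {i : ℕ} (hi : i < k) {g u : GG B}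
    (hg : g ∈ Pa B k e (· ≠ i + 1)) (hu : u ∈ Uu B k e) (h0 : co B k e i (u.1 (e (i + 1))) = 0) :
    g * u * g⁻¹ ∈ Uu B k e ∧ co B k e i ((g * u * g⁻¹).1 (e (i + 1))) = 0 := by
  have k3 := b.k3 h
  obtain ⟨g0, g2⟩ := b.Pa_St hi hg
  have key : ∀ {j l : ℕ}, g ∈ St B (Fl F e j) → g ∈ St B (Fl F e l) →
      (∀ v ∈ Fl F e l, u.1 v - v ∈ Fl F e j) → ∀ v ∈ Fl F e l,
      (g * u * g⁻¹).1 v - v ∈ Fl F e j := fun a1 a2 a3 v hv => by
    have := St.map a1 (a3 _ (St.map (inv_mem a2) hv))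
    rwa [map_sub, GG.inv_apply] at this
  have h1 : ∀ v ∈ Fl F e (i + 2), u.1 v - v ∈ Fl F e i := fun v hv =>
    Rq.Fl.ind ((u.1 : V →ₗ[F] V) - LinearMap.id) _ (fun j hj => by
      by_cases h2 : j = i + 1
      · subst h2
        have h3 := b.Fl_succ (j := i) (by omega)
          (U_sub hu (j := i + 1) (by omega) (Rq.Fl.mem (i + 1).lt_succ_self))
        rw [map_sub, h0, b.co_e (by omega) (by omega), if_neg (by omega)] at h3
        simpa using h3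
      · exact Rq.Fl.mono (by omega) (U_sub hu (j := j) (by omega) (Rq.Fl.mem j.lt_succ_self))) hv
  have h2 := key g0 g2 h1
  refine ⟨b.mem_Uu_half h fun j hj => ?_, ?_⟩
  · by_cases h3 : j = i ∨ j = i + 1
    · exact Rq.Fl.mono (by omega) (h2 _ (Rq.Fl.mem (by omega)))
    · exact key (hg j hj.le (by omega)) (hg (j + 1) hj (by omega))
        (fun v hv => U_sub hu (by omega) hv) _ (Rq.Fl.mem j.lt_succ_self)
  · have h3 := b.co_Fl le_rfl (by omega) (h2 _ (Rq.Fl.mem (i + 1).lt_succ_self))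
    rwa [map_sub, b.co_e (by omega) (by omega), if_neg (by omega), sub_zero] at h3

theorem Fb.mx (h : Sy B) (b : Fb B k e) [Nonempty Ω] (hp : ∀ i < k, ∀ ω : Ω, Pn B k e i ω) :
    ∃ ω : Ω, Tf B k e ω ∧ ∀ i < k, Gd B k e i ω := by
  have := UT.fin h
  let S : Ω → Set (GG B) := fun ω => {u | u ∈ Uu B k e ∧ u • ω = ω}
  obtain ⟨_, ⟨ω, rfl⟩, hω⟩ := Set.exists_max_image (Set.range S) Set.ncard (Set.toFinite _)
    (Set.range_nonempty _)
  obtain ⟨u, hu, tf⟩ := b.tf h ω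
  refine ⟨_, tf, fun i hi => Gd.smulU h b hi ?_ hu⟩
  by_contra ng
  obtain ⟨g, hg, r, r1, r2, r3⟩ := hp i hi ω
  have h1 : ∀ s ∈ S ω, g * s * g⁻¹ ∈ Uu B k e ∧ co B k e i ((g * s * g⁻¹).1 (e (i + 1))) = 0 :=
    fun s hs => MX.nrm h b hi hg hs.1 (by_contra fun h0 => ng ⟨s, hs.1, hs.2, h0⟩)
  have h2 : (fun s => g * s * g⁻¹) '' S ω ⊂ S (g • ω) := by
    refine ⟨?_, fun h3 => ?_⟩
    · rintro _ ⟨s, hs, rfl⟩
      exact ⟨(h1 s hs).1, by simp [mul_smul, hs.2]⟩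
    · obtain ⟨s, hs, rfl⟩ := h3 (show r ∈ S (g • ω) from ⟨r1, r2⟩)
      exact r3 (h1 s hs).2
  have h3 := Set.ncard_lt_ncard h2
  rw [Set.ncard_image_of_injective _ fun a c t => by simpa using t] at h3
  exact absurd (hω _ ⟨g • ω, rfl⟩) (by omega)

end CF.Rs
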