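import Cfsg.Agent.Rs.TA
import Cfsg.Agent.Rs.WT
import Cfsg.Agent.Rq.PG

/-! Rank 3 actions of symplectic groups: a polarity without absolute points does not exist. -/

set_option autoImplicit false
set_option linter.unusedSectionVars false
open MulAction Module

namespace CF.Rs
open CF.Rq (R3 Sp Tw Oc Cj Btr Gf R4 In Pw Fl)

variable {F V : Type*} [Field F] [Fintype F] [AddCommGroup V] [Module F V]
  {B : V →ₗ[F] V →ₗ[F] F} {k : ℕ} {e : ℕ → V} {Ω : Type*} [MulAction (GG B) Ω]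

namespace PG

variable (B k e) in
/-- A homology with centre `z` and axis the kernel of `φ`. -/
structure Hl (ω : Ω) (r s : F) (z : V) (φ : V →ₗ[F] F) (d : GG B) : Prop where
  fix : d • ω = ω
  kk : d ∈ Pa B k e (3 ≤ ·)
  one : φ z = 1
  act : ∀ v ∈ Fl F e 3, d.1 v = r • v + (s * φ v) • z

variable (h : Sy B) (b : Fb B k e)
include h b

theorem out (z : V) : ∃ x ∈ Fl F e 3, x ∉ Submodule.span F {z} := by
  by_contra! l
  have := h.fd
  have l := (Submodule.finrank_mono l).trans (finrank_span_le_card ({z} : Set V))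
  rw [b.finrank_Fl (by have := b.k3 h; omega)] at l
  simp at l

theorem exists_ho {ρ : ℕ → Fˣ} (av : ∀ ω : Ω, Aw B k e ω ρ) (h1 : ρ 1 = ρ 2) (ω : Ω) {z : V} (hz : z ∈ Fl F e 3)
    (z0 : z ≠ 0) : ∃ φ d, Hl B k e ω (ρ 1) (ρ 0 - ρ 1) z φ d := by
  have k3 := b.k3 h
  obtain ⟨y, hy, yz⟩ := out h b z
  obtain ⟨g, hg, g0, -⟩ := b.wtK h hz hy z0 yz
  obtain ⟨u, hu, tf⟩ := b.tf h (g⁻¹ • ω)
  obtain ⟨t, ht, fx⟩ := (av _).fix tf
  have uK : u ∈ Pa B k e (3 ≤ ·) := fun j l _ => h.U_St hu (by omega)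
  have tK : t ∈ Pa B k e (3 ≤ ·) := fun j l _ => h.T_St ht.mem (by omega)
  have kK := mul_mem uK (inv_mem hg)
  have k0 : (u * g⁻¹)⁻¹.1 (e 0) = z := by
    rw [mul_inv_rev, inv_inv, GG.mul_apply, (b.U_zero h (inv_mem hu)).1, g0]
  rw [← mul_smul u] at fx
  generalize u * g⁻¹ = x at *
  refine ⟨co B k e 0 ∘ₗ (x.1 : V →ₗ[F] V), x⁻¹ * t * x, by rw [mul_smul, mul_smul, fx, inv_smul_smul],
    mul_mem (mul_mem (inv_mem kK) tK) kK, ?_, fun v hv => ?_⟩
  · change co B k e 0 (x.1 z) = 1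
    rw [← k0, GG.inv_apply, b.co_e (by omega) (by omega), if_pos rfl]
  have l : ∀ w ∈ Fl F e 3, t.1 w = (ρ 1 : F) • w + ((ρ 0 - ρ 1 : F) * co B k e 0 w) • e 0 := fun w hw => by
    induction hw using Submodule.span_induction with
    | mem x hx =>
      obtain ⟨i, hi : i < 3, rfl⟩ := hx
      rw [(ht i (by omega)).1, b.co_e (by omega) (by omega)]
      interval_cases i
      · rw [if_pos rfl, ← add_smul]; simp
      · simp
      · simp [h1]
    | zero => simp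
    | add x y _ _ k l => rw [map_add, k, l, map_add]; module
    | smul c x _ k => rw [map_smul, k, map_smul, smul_eq_mul]; module
  rw [GG.mul_apply, GG.mul_apply, l _ (St.map (kK 3 k3 le_rfl) hv), map_add, map_smul, map_smul, GG.apply_inv, k0]
  rfl

theorem uniq (ng : ∀ ω : Ω, ¬ Gd B k e 0 ω) {ω : Ω} {r s : F} (s0 : s ≠ 0) {z : V} (hz : z ∈ Fl F e 3)
    {φ φ' : V →ₗ[F] F} {d d' : GG B} (p : Hl B k e ω r s z φ d) (p' : Hl B k e ω r s z φ' d') {y : V}
    (hy : y ∈ Fl F e 3) (q : φ' y = 0) : φ y = 0 := by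
  by_contra l
  have k3 := b.k3 h
  have z0 : z ≠ 0 := fun e => by simpa [e] using p.one
  obtain ⟨g, hg, g0, g1⟩ := b.wtK h hz hy z0 fun m => by
    obtain ⟨a, rfl⟩ := Submodule.mem_span_singleton.1 m
    rw [map_smul, p'.one, smul_eq_mul, mul_one] at q
    simp [q] at l
  have iv : ∀ {x : GG B} {v w : V}, x.1 v = w → x⁻¹.1 w = v := fun {x v _} e => e ▸ GG.apply_inv x v
  have m0 : (g⁻¹ * (d'⁻¹ * d) * g).1 (e 0) = e 0 := by
    change g⁻¹.1 (d'⁻¹.1 (d.1 (g.1 (e 0)))) = _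
    refine iv ((iv ?_).symm)
    rw [g0, p.act z hz, p'.act z hz, p.one, p'.one]
  have dz : d'.1 z = (r + s) • z := by rw [p'.act z hz, p'.one, mul_one, add_smul]
  have rs : r + s ≠ 0 := fun e => z0 (d'.1.injective (by rw [dz, e, zero_smul, map_zero]))
  have m1 : (g⁻¹ * (d'⁻¹ * d) * g).1 (e 1) = e 1 + (s * φ y / (r + s)) • e 0 := by
    change g⁻¹.1 (d'⁻¹.1 (d.1 (g.1 (e 1)))) = _
    rw [← iv g0, ← iv g1, ← map_smul, ← map_add, iv g1, g1]
    refine congrArg _ (iv ?_)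
    rw [map_add, map_smul, dz, p.act y hy, p'.act y hy, q, smul_smul, div_mul_cancel₀ _ rs]
    simp
  have kK := mul_mem (mul_mem (inv_mem hg) (mul_mem (inv_mem p'.kk) p.kk)) hg
  have fx : (g⁻¹ * (d'⁻¹ * d) * g) • g⁻¹ • ω = g⁻¹ • ω := by
    rw [mul_smul, mul_smul, smul_inv_smul, mul_smul, p.fix, inv_smul_eq_iff.2 p'.fix.symm]
  have t0 : s * φ y / (r + s) ≠ 0 := by simp [s0, l, rs]
  generalize s * φ y / (r + s) = t at *
  generalize g⁻¹ * (d'⁻¹ * d) * g = x at *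
  have pw : ∀ m : ℕ, (x ^ m).1 (e 1) = e 1 + ((m : F) * t) • e 0 := fun m => by
    induction m with
    | zero => simp
    | succ m ih =>
      rw [pow_succ', GG.mul_apply, ih, map_add, map_smul, m0, m1]
      push_cast
      module
  refine ng (g⁻¹ • ω) ⟨_, b.pow_mem h (g := x) fun j hj => ?_, (stabilizer (GG B) _).pow_mem fx _, fun m => ?_⟩
  · rcases Nat.lt_or_ge j 3 with m | m
    · refine h.mem_St_Fl fun i hi => ?_
      have : i < 2 := by omega
      interval_cases i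
      · exact m0.symm ▸ Fl.mem hi
      · exact m1.symm ▸ add_mem (Fl.mem hi) (Submodule.smul_mem _ _ (Fl.mem (by omega)))
    · exact kK j hj m
  · rw [zero_add, pw, Rq.cast_pred, map_add, map_smul, b.co_e (by omega) (by omega), b.co_e (by omega) (by omega)] at m
    simp [t0] at m

end PG

open PG in
theorem Fb.pg (h : Sy B) (b : Fb B k e) [Nonempty Ω] {ρ : ℕ → Fˣ} (av : ∀ ω : Ω, Aw B k e ω ρ)
    (h1 : ρ 1 = ρ 2) (h0 : ρ 0 ≠ ρ 1) : ∃ ω : Ω, Gd B k e 0 ω := by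
  by_contra! ng
  obtain ⟨ω⟩ := ‹Nonempty Ω›
  have k3 := b.k3 h
  have rk := b.finrank_Fl (j := 3) (by omega)
  have s0 : (ρ 0 - ρ 1 : F) ≠ 0 := sub_ne_zero.2 fun e => h0 (Units.ext e)
  have := h.fd
  have := Module.finite_of_finite F (M := Fl F e 3)
  have := Module.nontrivial_of_finrank_eq_succ rk
  have ex : ∀ z : Fl F e 3, ∃ φ d, z ≠ 0 → Hl B k e ω (ρ 1) (ρ 0 - ρ 1) z φ d := fun z => by
    by_cases z0 : z = 0
    · exact ⟨0, 1, fun k => absurd z0 k⟩
    · obtain ⟨φ, d, k⟩ := exists_ho h b av h1 ω z.2 (by simpa using z0)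
      exact ⟨φ, d, fun _ => k⟩
  choose φ d p using ex
  refine Rq.PG.pol' (fun z => LinearMap.ker (φ z ∘ₗ (Fl F e 3).subtype)) (fun z y _ _ => ?_)
    (fun z hz k => one_ne_zero ((p z hz).one.symm.trans k)) fun z y hz hy q => ?_
  · rw [← LinearMap.ker_prod]
    exact LinearMap.ker_ne_bot_of_finrank_lt (by simp [rk])
  have pz := p z hz
  have py := p y hy
  change φ z y = 0 at q
  change φ y z = 0
  have dy : (d z).1 y = (ρ 1 : F) • y.1 := by rw [pz.act y y.2, q]; simp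
  have st := pz.kk 3 k3 le_rfl
  have iv := GG.inv_apply (d z)
  have vi := GG.apply_inv (d z)
  have p' : Hl B k e ω (ρ 1) (ρ 0 - ρ 1) y ((ρ 1 : F) • φ y ∘ₗ ((d z)⁻¹.1 : V →ₗ[F] V)) (d z * d y * (d z)⁻¹) := by
    refine ⟨by rw [mul_smul, mul_smul, inv_smul_eq_iff.2 pz.fix.symm, py.fix, pz.fix],
      mul_mem (mul_mem pz.kk py.kk) (inv_mem pz.kk), ?_, fun v hv => ?_⟩
    · have := vi y
      rw [dy, map_smul] at this
      rw [← py.one, ← congrArg (φ y) this, map_smul]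
      rfl
    · change (d z).1 ((d y).1 ((d z)⁻¹.1 v)) = _
      rw [py.act _ ((inv_mem st v).2 hv), map_add, map_smul, map_smul, iv, dy, smul_smul]
      simp only [LinearMap.smul_apply, LinearMap.comp_apply, LinearEquiv.coe_coe, smul_eq_mul]
      module
  have m : z.1 - φ y z • y.1 ∈ Fl F e 3 := sub_mem z.2 (Submodule.smul_mem _ _ y.2)
  have m0 : φ y (z.1 - φ y z • y.1) = 0 := by simp [py.one]
  have := uniq h b ng s0 y.2 py p' ((st _).2 m) (by
    change (ρ 1 : F) * φ y ((d z)⁻¹.1 ((d z).1 _)) = 0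
    rw [vi, m0, mul_zero])
  rw [pz.act _ m, map_add, map_smul, map_smul, m0] at this
  simpa [pz.one, q, s0] using this

end CF.Rs
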