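import Cfsg.Agent.Rs.PL
import Cfsg.Agent.Rs.AR
import Cfsg.Agent.Rs.TA
import Cfsg.Agent.Rs.PG
import Cfsg.Agent.Rs.BB

/-! Rank 3 actions of symplectic groups: all reflections of the torus are available. -/

set_option autoImplicit false
set_option linter.unusedSectionVars false
open MulAction Module

namespace CF.Rs
open CF.Rq (R3 Sp Tw Oc Cj Btr Gf R4 In Pw Fl)

variable {F V : Type*} [Field F] [Fintype F] [AddCommGroup V] [Module F V]
  {B : V →ₗ[F] V →ₗ[F] F} {K : Subgroup (V ≃ₗ[F] V)} {k : ℕ} {e : ℕ → V} {Ω : Type*}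
  [MulAction (GG B) Ω]

namespace PM

theorem neg (b : Fb B k e) {t : GG B} {i : ℕ} (hi : i < k) (ht : Dg B k e t (d1 i (-1))) {w : V}
    (hw : w ∈ Fl F e k) : t.1 w = w - (2 * co B k e i w) • e i := by
  refine b.eq_of fun j hj => ?_
  rw [ht.co_eq b hj, map_sub, map_smul, b.co_e hj (by omega)]
  by_cases h1 : j < k
  · rw [ev_lo _ h1, d1]
    split_ifs with h2
    · simp [h2]; ring
    · simp
  · simp [b.co_Fl (not_lt.1 h1) hj hw, show j ≠ i by omega]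

theorem three {u : V} (h0 : B u (e 0) = 0) (h1 : B u (e 1) = 0) (h2 : B u (e 2) = 0) :
    ¬ ∃ n ∈ Fl F e 3, B u n ≠ 0 := fun ⟨_, hn, k⟩ =>
  k (Rq.Fl.ind (B u) ⊥ (fun i hi => by interval_cases i <;> assumption) hn)

theorem pa (h : Sy B) {g : GG B} (hg : g ∈ Uu B k e ∨ g ∈ Tt B k e) (S : ℕ → Prop) : g ∈ Pa B k e S :=
  fun _ hj _ => hg.elim (h.U_St · (by omega)) (h.T_St · (by omega))

end PM
open PM

theorem Fb.ho (h : Sy B) (b : Fb B k e) (av : ∀ ω : Ω, Aw B k e ω (d1 0 (-1))) (ω : Ω) {z : V}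
    (hz : z ∈ Fl F e 3) (z0 : z ≠ 0) : ∃ u, B u z = -2 ∧ Ho B (Hw B k e ω) (Fl F e 3) z u := by
  have k3 := b.k3 h
  obtain ⟨y, hy, yz⟩ : ∃ y ∈ Fl F e 3, y ∉ Submodule.span F {z} := by
    by_contra! c
    have := Submodule.finrank_mono (show Fl F e 3 ≤ _ from c)
    rw [b.finrank_Fl (by omega), finrank_span_singleton z0] at this
    omega
  obtain ⟨g, hg, g0, -⟩ := b.wtK h hz hy z0 yz
  obtain ⟨u, hu, tf⟩ := b.tf h (g⁻¹ • ω)
  obtain ⟨t, ht, tω⟩ := (av _).fix tf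
  obtain ⟨w, hw⟩ := h.rep ((-2 : F) • co B k e 0 ∘ₗ ((u * g⁻¹).1 : V →ₗ[F] V))
  have hu' := pa h (.inl hu) (3 ≤ ·)
  have hw' : ∀ v, B w v = -2 * co B k e 0 (u.1 (g⁻¹.1 v)) := fun v => (hw v).symm
  refine ⟨w, ?_, _, mem_Hw.2 ⟨g * u⁻¹ * t * (u * g⁻¹), mul_mem (mul_mem (mul_mem hg (inv_mem hu'))
    (pa h (.inr ht.mem) _)) (mul_mem hu' (inv_mem hg)), ?_, rfl⟩, fun v hv => ?_⟩
  · rw [hw', ← g0, GG.apply_inv, (b.U_zero h hu).1, b.co_e (by omega) (by omega)]; simp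
  · rw [mul_smul, mul_smul, mul_smul u, tω, mul_smul]; simp
  · have m := St.map (mul_mem hu' (inv_mem hg) 3 k3 le_rfl) hv
    rw [GG.mul_apply, GG.mul_apply, PM.neg b (by omega) ht (Rq.Fl.mono k3 m), map_sub, map_smul,
      GG.mul_apply g u⁻¹ (e 0), (b.U_zero h (inv_mem hu)).1, g0, hw', ← GG.mul_apply]
    simp [sub_eq_add_neg]

theorem PM.plw (h : Sy B) (b : Fb B k e) (av : ∀ ω : Ω, Aw B k e ω (d1 0 (-1))) {ω : Ω}
    (nt : ¬ Tv B (Kw B ω)) {y : V} (hy : y ∈ Fl F e 3) (t : Ti2 B (e 0) y) {c : F}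
    (i : I2 B (Kw B ω) (e 0) y c 1 0) : ∃ u, (∃ n ∈ Fl F e 3, B u n ≠ 0) ∧ B u (e 0) = 0 ∧
      (∀ y ∈ Fl F e 3, ∀ c, Ti2 B (e 0) y → I2 B (Kw B ω) (e 0) y c 1 0 → B u y = 0) ∧
      Ho B (Hw B k e ω) (Fl F e 3) (e 0) u ∧ ∀ w ∈ Fl F e 3, ∀ u', B u w ≠ 0 → B u' w = -2 →
        Ho B (Hw B k e ω) (Fl F e 3) w u' → ∀ c ∈ Fl F e 3, B u c = 0 → B u' c = 0 := by
  have k3 := b.k3 h
  have m0 : e 0 ∈ Fl F e 3 := Rq.Fl.mem (by omega)
  obtain ⟨u, a1, a2, a3, a4⟩ := pl h (Kw_le ω) nt (Hw_le ω) (N := Fl F e 3)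
    (fun v hv w hw => b.B_Fl (by omega) hw hv) (b.finrank_Fl (by omega)) (fun z => b.ho h av ω)
    (i.an m0 hy) fun f => by
      obtain ⟨w, w1, w2⟩ := t.dual h
      simpa [w1, w2, t.ne.1] using (m2_apply ..).symm.trans (LinearMap.congr_fun f w)
  have z : ∀ y ∈ Fl F e 3, ∀ c, Ti2 B (e 0) y → I2 B (Kw B ω) (e 0) y c 1 0 →
      B u (e 0) = 0 ∧ B u y = 0 := fun y hy c t i => by
    have := a2 _ (i.an m0 hy)
    rw [m2_apply] at this
    obtain ⟨p, q⟩ := t.li _ _ this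
    have r : B (e 0) u = 0 := by simpa using q
    exact ⟨h.refl r, h.refl (by simpa [r] using p)⟩
  exact ⟨u, a1, (z y hy c t i).1, fun y hy c t i => (z y hy c t i).2, a3 _ m0 (z y hy c t i).1, a4⟩

theorem Fb.pm (h : Sy B) (b : Fb B k e) [Nonempty Ω]
    (av : ∀ i < k, ∀ ω : Ω, Aw B k e ω (d1 i (-1))) : ∃ ω : Ω, Tv B (Kw B ω) := by
  by_contra! nt
  have k3 := b.k3 h
  have n1 := neg_one_ne h.odd
  have m : ∀ i < 3, e i ∈ Fl F e 3 := fun _ => Rq.Fl.mem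
  have t1 := b.ti2 (i := 0) (j := 1) (by omega) (by omega) (by omega) (by omega)
  have t2 := b.ti2 (i := 0) (j := 2) (by omega) (by omega) (by omega) (by omega)
  have pw := fun ω : Ω => @PM.plw _ _ _ _ _ _ _ _ _ _ _ h b (av 0 (by omega)) ω (nt ω)
  have tr : ∀ {ω : Ω} {g : GG B} {y y' : V} {c : F}, g.1 (e 0) = e 0 → g.1 y = y' →
      I2 B (Kw B ω) (e 0) y' c 1 0 → I2 B (Kw B (g⁻¹ • ω)) (e 0) y c 1 0 := fun {ω g y y' c} a1 a2 i => by
    have := i.tr g⁻¹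
    rwa [← a2, GG.apply_inv, UT.inv_eig one_ne_zero (a1.trans (one_smul F _).symm), inv_one, one_smul] at this
  obtain ⟨ω₀, g0⟩ := b.pg h (av 0 (by omega)) (by simp [d1]) (by simpa [d1] using n1)
  obtain ⟨u₀, hu₀, tf₀⟩ := b.tf h ω₀
  obtain ⟨y, c, -, -, t, i⟩ := b.bb h n1 (fun i hi => av i hi _) (g0.smulU h b (by omega) hu₀) tf₀
  obtain ⟨z, tz⟩ := t.ext h
  obtain ⟨g, g1, -, g2⟩ := b.wt3 h (x := e 0) (y := z) (z := y) ⟨tz.xz, tz.xy, h.refl tz.yz, fun p q r f =>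
    have := tz.li p r q (by rw [← f]; abel); ⟨this.1, this.2.2, this.2.1⟩⟩
  have i1 := tr g1 g2 i
  generalize g⁻¹ • u₀ • ω₀ = ω₁ at i1
  obtain ⟨u, a1, a2, a3, ⟨_, hs, a4⟩, -⟩ := pw ω₁ (m 2 (by omega)) t2 i1
  obtain ⟨s, sP, sω, rfl⟩ := mem_Hw.1 hs
  have s0 : s.1 (e 0) = e 0 := by simp [a4 _ (m 0 (by omega)), a2]
  have s1 := a4 _ (m 1 (by omega))
  have G1 : Gd B k e 0 ω₁ := by
    refine ⟨_, b.pow_mem h (g := s) fun j hj => ?_, (stabilizer (GG B) ω₁).pow_mem sω _, fun f => ?_⟩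
    · by_cases j3 : 3 ≤ j
      · exact sP j hj j3
      refine h.mem_St_Fl fun l hl => a4 _ (m l (by omega)) ▸ add_mem (Rq.Fl.mem hl) ?_
      exact Submodule.smul_mem _ _ (Rq.Fl.mem (by omega))
    have pw : ∀ n : ℕ, (s ^ n).1 (e 1) = e 1 + (n * B u (e 1)) • e 0 := fun n => by
      induction n with
      | zero => simp
      | succ n ih => rw [pow_succ', GG.mul_apply, ih, map_add, map_smul, s0, s1]; push_cast; module
    rw [pw, map_add, map_smul, b.co_e (by omega) (by omega), b.co_e (by omega) (by omega),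
      Nat.cast_pred Fintype.card_pos, FiniteField.cast_card_eq_zero] at f
    exact three a2 (by simpa using f) (a3 _ (m 2 (by omega)) _ t2 i1) a1
  obtain ⟨u', hu', tf⟩ := b.tf h ω₁
  have u0 := (b.U_zero h hu').1
  have i2 := i1.tr u'
  have t3 := t2.map u'
  rw [u0] at i2 t3
  have m2 := U_Fl hu' (by omega) (m 2 (by omega))
  obtain ⟨p, q, e2⟩ := Submodule.mem_span_pair.1 (Fl_two (F := F) (e := e) ▸ U_sub hu' (by omega) (m 2 (by omega)))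
  obtain ⟨v, b1, b2, b3, -, b5⟩ := pw _ m2 t3 i2
  have b4 := b3 _ m2 _ t3 i2
  obtain ⟨d, hd, dω⟩ := (av 1 (by omega) _).fix tf
  have e3 := eq_add_of_sub_eq e2.symm
  have q0 := b5 _ (m 1 (by omega)) ((2 : F) • e (2 * k - 1 - 1))
    (fun f => three b2 f (by simpa [e3, b2, f] using b4) b1) (by simp [b.B2 (i := 1) (by omega)])
    ⟨_, mem_Hw.2 ⟨d, pa h (.inr hd.mem) _, dω, rfl⟩, fun w hw => by
      rw [PM.neg b (by omega) hd (Rq.Fl.mono k3 hw), co_lo (by omega)]; simp⟩ _ m2 b4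
  rw [e3] at q0 i2
  obtain rfl : q = 0 := by
    simpa [b.B2 (i := 1) (by omega), b.B0 (i := 2 * k - 1 - 1) (j := 0) (by omega) (by omega) (by omega),
      b.B0 (i := 2 * k - 1 - 1) (j := 2) (by omega) (by omega) (by omega), h.odd] using q0
  have i3 : I2 B (Kw B (u' • ω₁)) (e 0) (e 2) (c + 2 * p) 1 0 :=
    (I2.chg (p := 1) (r := 0) (s := p) (t := 1).1 (by simpa using i2)).congr (by ring) (by ring) (by ring)
  obtain ⟨y', c', y1, y2, t', i'⟩ := b.bb h n1 (fun i hi => av i hi _) (G1.smulU h b (by omega) hu') tf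
  obtain ⟨r, r', rfl⟩ := Submodule.mem_span_pair.1 y1
  have z1 := b.B0 (i := 1) (j := 2) (by omega) (by omega) (by omega)
  obtain ⟨g', g3, g4, g5⟩ := b.wt3 h (x := e 0) (y := r • e 1 + r' • e (2 * k - 2)) (z := e 2)
    ⟨t'.xy, t2.xy, by simp [z1, b.B0 (i := 2 * k - 2) (j := 2) (by omega) (by omega) (by omega)],
    fun p q r f => by
      have := congrArg (B (e 1)) f
      rw [map_add, map_add, map_smul, map_smul, map_smul, h.refl t1.xy, z1, map_zero] at this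
      obtain rfl : q = 0 := by simpa [y2, -map_add] using this
      simpa using t2.li p r (by simpa using f)⟩
  obtain ⟨x, c1, c2, c3, -⟩ := pw _ (m 2 (by omega)) t2 (tr g3 g5 i3)
  exact three c2 (c3 _ (m 1 (by omega)) _ t1 (tr g3 g4 i')) (c3 _ (m 2 (by omega)) _ t2 (tr g3 g5 i3)) c1

end CF.Rs
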