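import Cfsg.Agent.Rs.P4a

/-! Rank three: cuspidal linear characters do not occur. -/

set_option autoImplicit false
set_option linter.unusedSectionVars false
open MulAction Module

namespace CF.Rq
variable {G : Type*} [Group G] [Finite G] {Ω : Type*} [MulAction G Ω] {U T N : Subgroup G}

theorem R3.cu (h : R3 G Ω) (s : Sp U T N) {l : T →* ℂˣ} (hl : Oc Ω U T l) (nb : ¬ Btr Ω U T)
    {S : Subgroup G} (hU : U ≤ S) (χ : S →* ℂˣ) (x x' : S) (hx : χ x ≠ 1) (hx' : χ x' ≠ 1)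
    (hn : ∀ n ∈ N, n⁻¹ * x * n ∈ U ∨ n⁻¹ * x' * n ∈ U) (ω : Ω) :
    ∃ a : S, (a : G) • ω = ω ∧ χ a ≠ 1 := by
  by_contra! hc
  have := h.fin
  have := Fintype.ofFinite Ω
  have := h.ne
  obtain ⟨φ, h1, h2, -⟩ := P4.ex_fun χ ω hc
  have og : ∀ {f : Ω → ℂ}, (∀ u ∈ U, ∀ y, f (u • y) = f y) → Og G φ f := fun {f} hf g => by
    obtain ⟨u, hu, n, hn', u', hu', rfl⟩ := s.br g
    have sub : ∀ v ∈ U, ∑ y, φ (n • v • y) * (starRingEnd ℂ) (f y) = ∑ y, φ (n • y) * (starRingEnd ℂ) (f y) :=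
      fun v hv => by
        rw [← sum_smul_eq v fun y => φ (n • y) * (starRingEnd ℂ) (f y)]
        exact Finset.sum_congr rfl fun y _ => by rw [hf v hv]
    have z : ∀ a : S, χ a ≠ 1 → n⁻¹ * a * n ∈ U → ∑ y, φ (n • y) * (starRingEnd ℂ) (f y) = 0 := fun a a1 a2 => by
      have := sub _ a2
      simp only [mul_smul, smul_inv_smul, h2, mul_assoc, ← Finset.mul_sum] at this
      by_contra q
      exact a1 (Units.ext (mul_right_cancel₀ q (by rw [this, Units.val_one, one_mul])))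
    simp only [mul_smul, h2 ⟨u, hU hu⟩, mul_assoc, ← Finset.mul_sum]
    rw [sub u' hu', (hn n hn').elim (z x hx) (z x' hx'), mul_zero]
  obtain ⟨a, a0, a1, a2⟩ := hl.eig s
  obtain ⟨z, z0, z1, z2, oz⟩ := P4.ex_w s nb
  have o1 : ∀ u ∈ U, ∀ x : Ω, (1 : Ω → ℂ) (u • x) = (1 : Ω → ℂ) x := fun _ _ _ => rfl
  exact h.o4 (a := φ) (fun e => by simp [e] at h1) one_ne_zero z0 a0 (og o1) (og z1) (og a1) oz
    (s.orth (hl.not_cj s) o1 (by simp) a1 a2) (s.orth (hl.not_cj s) z1 z2 a1 a2)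

end CF.Rq
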