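import Cfsg.Agent.Rs.UT
import Cfsg.Agent.Rs.L2

/-! Root elements for the simple roots. -/

set_option autoImplicit false
open MulAction Module

namespace CF.Rs
open CF.Rq (R3 Sp Tw Oc Cj Btr Gf R4 In Pw Fl)

variable {F V : Type*} [Field F] [Fintype F] [AddCommGroup V] [Module F V]
  {B : V →ₗ[F] V →ₗ[F] F} {k : ℕ} {e : ℕ → V}

namespace PS2

theorem gz (b : Fb B k e) {i j : ℕ} (hi : i < 2 * k) (hj : j < 2 * k) (h : i + j + 1 ≠ 2 * k) :
    B (e i) (e j) = 0 := by rw [b.gram i hi j hj, if_neg h]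

theorem gn (b : Fb B k e) {i j : ℕ} (h : i + j + 1 = 2 * k) : B (e i) (e j) ≠ 0 := by
  rw [b.gram i (by omega) j (by omega), if_pos h]
  split_ifs <;> simp

theorem inU (h : Sy B) (b : Fb B k e) {g : GG B} {a c : ℕ} (hac : a + c + 1 < 2 * k) (s : F)
    (hg : ∀ v, g.1 v = v + s • (B (e c) v • e a + B (e a) v • e c)) : g ∈ Uu B k e := by
  rw [b.mem_Uu h]
  intro j hj
  rw [hg, add_sub_cancel_left]
  refine Submodule.smul_mem _ _ (Submodule.add_mem _ ?_ ?_)
  · by_cases h1 : c + j + 1 = 2 * k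
    · exact Submodule.smul_mem _ _ (Rq.Fl.mem (by omega))
    · rw [gz b (by omega) hj h1, zero_smul]; exact Submodule.zero_mem _
  · by_cases h1 : a + j + 1 = 2 * k
    · exact Submodule.smul_mem _ _ (Rq.Fl.mem (by omega))
    · rw [gz b (by omega) hj h1, zero_smul]; exact Submodule.zero_mem _

theorem conj {x n : GG B} {y z : V} (hx : ∀ v, x.1 v = v + (B z v • y + B y v • z)) (v : V) :
    (n⁻¹ * x * n).1 v = v + (B (n⁻¹.1 z) v • n⁻¹.1 y + B (n⁻¹.1 y) v • n⁻¹.1 z) := by
  have k1 : ∀ w, B w (n.1 v) = B (n⁻¹.1 w) v := fun w => by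
    rw [← GG.map n (n⁻¹.1 w) v, GG.inv_apply]
  rw [GG.mul_apply, GG.mul_apply, hx, map_add, map_add, map_smul, map_smul, GG.apply_inv, k1, k1]

theorem ex (h : Sy B) {y z : V} (t : B y z = 0) :
    ∃ x : GG B, ∀ v, x.1 v = v + (B z v • y + B y v • z) := by
  obtain ⟨x, hx⟩ := h.exists_i2 t 0 1 0
  refine ⟨x, fun v => ?_⟩
  rw [hx, m2_apply]
  simp

end PS2
open PS2

theorem Fb.root (h : Sy B) (b : Fb B k e) {i : ℕ} (hi : i < k) : ∃ x x' : GG B,
    x ∈ Pa B k e (· ≠ i + 1) ∧ x' ∈ Pa B k e (· ≠ i + 1) ∧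
    (∃ a : F, a ≠ 0 ∧ bk B k e i x = !![1, a; 0, 1]) ∧
    (∃ a : F, a ≠ 0 ∧ bk B k e i x' = !![1, 0; a, 1]) ∧
    ∀ n ∈ Nn B k e, n⁻¹ * x * n ∈ Uu B k e ∨ n⁻¹ * x' * n ∈ Uu B k e := by
  obtain ⟨x, hx⟩ := ex h (gz b (i := i) (j := 2 * k - 2 - i) (by omega) (by omega) (by omega))
  obtain ⟨x', hx'⟩ :=
    ex h (gz b (i := i + 1) (j := 2 * k - 1 - i) (by omega) (by omega) (by omega))
  have xU : x ∈ Uu B k e :=
    inU h b (a := i) (c := 2 * k - 2 - i) (by omega) 1 fun v => by rw [hx, one_smul]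
  have c1 := b.co_e (i := i) (j := i) (by omega) (by omega)
  have c2 := b.co_e (i := i) (j := i + 1) (by omega) (by omega)
  have c3 := b.co_e (i := i + 1) (j := i) (by omega) (by omega)
  have c4 := b.co_e (i := i + 1) (j := i + 1) (by omega) (by omega)
  rw [if_pos rfl] at c1 c4
  rw [if_neg (by omega)] at c2 c3
  refine ⟨x, x', fun j hj _ => h.U_St xU (by omega), fun j hj hj' => h.mem_St_Fl fun l hl => ?_,
    ⟨_, ?_, b.bk_U (by omega) xU⟩, ?_, fun n hn => ?_⟩
  · rw [hx']
    refine Submodule.add_mem _ (Rq.Fl.mem hl) (Submodule.add_mem _ ?_ ?_)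
    · by_cases h1 : l = i
      · exact Submodule.smul_mem _ _ (Rq.Fl.mem (by omega))
      · rw [gz b (by omega) (by omega) (by omega), zero_smul]; exact Submodule.zero_mem _
    · rw [gz b (by omega) (by omega) (by omega), zero_smul]; exact Submodule.zero_mem _
  · rw [hx, map_add, map_add, map_smul, map_smul, c1, c2]
    by_cases h1 : i + 1 = k
    · have h2 : 2 * k - 2 - i = i := by omega
      rw [h2, c1, b.gram i (by omega) (i + 1) (by omega), if_pos (by omega), if_pos (by omega)]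
      simp only [smul_eq_mul, mul_one, zero_add]
      rw [one_add_one_eq_two]; exact h.odd
    · rw [gz b (i := i) (j := i + 1) (by omega) (by omega) (by omega)]
      simpa using gn b (i := 2 * k - 2 - i) (j := i + 1) (by omega)
  · have f1 : x'.1 (e (i + 1)) = e (i + 1) := by
      rw [hx', h.alt, gz b (by omega) (by omega) (by omega)]; simp
    have g1 : B (e (2 * k - 1 - i)) (e i) = -1 := by
      rw [b.gram _ (by omega) _ (by omega), if_pos (by omega), if_neg (by omega)]
    by_cases h1 : i + 1 = k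
    · have h2 : 2 * k - 1 - i = i + 1 := by omega
      rw [h2] at g1
      refine ⟨-2, neg_ne_zero.2 h.odd, ?_⟩
      rw [bk, f1, hx', h2, g1]
      simp only [map_add, map_smul, c1, c2, c3, c4]
      congr! 3 <;> simp
      norm_num
    · refine ⟨-1, by simp, ?_⟩
      rw [bk, f1, hx', g1, gz b (i := i + 1) (j := i) (by omega) (by omega) (by omega)]
      simp [c1, c2, c3, c4]
  · obtain ⟨a, ha, α, e1⟩ := (hn i (by omega)).2
    obtain ⟨c, hc, β, e2⟩ := (hn (i + 1) (by omega)).2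
    obtain ⟨a', ha', γ, e3⟩ := (hn (2 * k - 1 - i) (by omega)).2
    obtain ⟨c', hc', δ, e4⟩ := (hn (2 * k - 2 - i) (by omega)).2
    have p1 : a + a' + 1 = 2 * k := by
      by_contra hh
      apply gn b (i := i) (j := 2 * k - 1 - i) (by omega)
      rw [← GG.map n⁻¹, e1, e3]; simp [gz b ha ha' hh]
    have p2 : c + c' + 1 = 2 * k := by
      by_contra hh
      apply gn b (i := i + 1) (j := 2 * k - 2 - i) (by omega)
      rw [← GG.map n⁻¹, e2, e4]; simp [gz b hc hc' hh]
    have p3 : a + c' + 1 ≠ 2 * k := by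
      intro hh
      have := gz b (i := i) (j := 2 * k - 2 - i) (by omega) (by omega) (by omega)
      rw [← GG.map n⁻¹, e1, e4] at this
      simp [gn b hh] at this
    rcases Nat.lt_or_gt_of_ne p3 with h1 | h1
    · left
      refine inU h b h1 (α * δ) fun v => ?_
      rw [conj hx, e1, e4]
      simp only [map_smul, LinearMap.smul_apply, smul_eq_mul, smul_add, smul_smul]
      congr 3 <;> ring
    · right
      refine inU h b (a := c) (c := a') (by omega) (β * γ) fun v => ?_
      rw [conj hx', e2, e3]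
      simp only [map_smul, LinearMap.smul_apply, smul_eq_mul, smul_add, smul_smul]
      congr 3 <;> ring

end CF.Rs
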