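import Cfsg.Agent.Rs.PS1
import Cfsg.Agent.Rs.PS2
import Cfsg.Agent.Rs.P4b
import Cfsg.Agent.Rs.BR
import Cfsg.Agent.Rs.WT

/-! Every panel contains a good chamber (`q = 3`, intransitive Borel subgroup). -/

set_option autoImplicit false
open MulAction Module

namespace CF.Rs
open CF.Rq (R3 Sp Tw Oc Cj Btr Gf R4 In Pw Fl)

variable {F V : Type*} [Field F] [Fintype F] [AddCommGroup V] [Module F V]
  {B : V →ₗ[F] V →ₗ[F] F} {k : ℕ} {e : ℕ → V} {Ω : Type*} [MulAction (GG B) Ω]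

namespace PS3

/-- the block as a homomorphism on the minimal parabolic subgroup -/
def hb (b : Fb B k e) {i : ℕ} (hi : i < k) :
    Pa B k e (· ≠ i + 1) →* Matrix (Fin 2) (Fin 2) F where
  toFun g := bk B k e i g
  map_one' := b.bk_one (by omega)
  map_mul' g g' := b.bk_mul (by omega) (b.Pa_St hi g.2).1 (b.Pa_St hi g'.2).2

theorem hb_apply (b : Fb B k e) {i : ℕ} (hi : i < k) (g : Pa B k e (· ≠ i + 1)) :
    hb b hi g = bk B k e i g := rfl

omit [Fintype F] in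
theorem fixv {N : Matrix (Fin 2) (Fin 2) F} (h : N ^ 2 = 0) :
    ∃ v : Fin 2 → F, v ≠ 0 ∧ N.mulVec v = 0 := by
  rw [Matrix.exists_mulVec_eq_zero_iff]
  have := congrArg Matrix.det h
  rw [Matrix.det_pow, Matrix.det_zero] at this
  exact pow_eq_zero_iff (two_ne_zero) |>.1 this

end PS3
open PS3

theorem Fb.pn_of (h : Sy B) (b : Fb B k e) (h3 : Fintype.card F = 3) {i : ℕ} (hi : i < k) {ω : Ω}
    {s : GG B} (hs : s ∈ Pa B k e (· ≠ i + 1)) (hω : s • ω = ω)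
    (h1 : (bk B k e i s ^ 2 - 1) ^ 2 = 0) (h2 : bk B k e i s ^ 4 ≠ 1) : Pn B k e i ω := by
  obtain ⟨w, w0, hw⟩ := fixv h1
  have c1 := b.co_e (i := i) (j := i) (by omega) (by omega)
  have c2 := b.co_e (i := i) (j := i + 1) (by omega) (by omega)
  have c3 := b.co_e (i := i + 1) (j := i) (by omega) (by omega)
  have c4 := b.co_e (i := i + 1) (j := i + 1) (by omega) (by omega)
  rw [if_pos rfl] at c1 c4
  rw [if_neg (by omega)] at c2 c3
  obtain ⟨g, hg, ge⟩ := b.wtP h hi (v := w 0 • e i + w 1 • e (i + 1))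
    (Submodule.add_mem _ (Submodule.smul_mem _ _ (Rq.Fl.mem (by omega)))
      (Submodule.smul_mem _ _ (Rq.Fl.mem (by omega)))) fun hv => by
    rw [b.mem_Fl (by omega)] at hv
    have k1 := hv i le_rfl (by omega)
    have k2 := hv (i + 1) (by omega) (by omega)
    simp only [map_add, map_smul, c1, c2, c3, c4, smul_eq_mul] at k1 k2
    apply w0
    funext j
    fin_cases j
    · simpa using k1
    · simpa using k2
  set φ := hb b hi with hφ
  let g' : Pa B k e (· ≠ i + 1) := ⟨g, hg⟩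
  let s' : Pa B k e (· ≠ i + 1) := ⟨s, hs⟩
  have gw : (φ g').mulVec (Pi.single 0 1) = w := by
    funext j
    rw [hφ, hb_apply]
    fin_cases j <;> simp [g', bk, ge, c1, c2, c3, c4, Matrix.mulVec, dotProduct]
  have sw : (φ (s' ^ 2)).mulVec w = w := by
    rw [Matrix.sub_mulVec, Matrix.one_mulVec, sub_eq_zero] at hw
    rw [map_pow]; exact hw
  have tw : (φ (g'⁻¹ * s' ^ 2 * g')).mulVec (Pi.single 0 1) = Pi.single 0 1 := by
    rw [map_mul, map_mul, ← Matrix.mulVec_mulVec, ← Matrix.mulVec_mulVec, gw, sw, ← gw,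
      Matrix.mulVec_mulVec, ← map_mul, inv_mul_cancel, map_one, Matrix.one_mulVec]
  set t := g'⁻¹ * s' ^ 2 * g' with ht
  have t0 : co B k e (i + 1) (t.1.1 (e i)) = 0 := by
    have := congrFun tw 1
    rw [hφ, hb_apply] at this
    simpa [bk, Matrix.mulVec, dotProduct] using this
  have tS : ∀ j ≤ k, t.1 ∈ St B (Fl F e j) := fun j hj => by
    by_cases hj' : j = i + 1
    · subst hj'
      refine h.mem_St_Fl fun l hl => ?_
      by_cases hl' : l = i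
      · subst hl'
        have := b.Fl_succ (j := l + 1) (by omega)
          (((b.Pa_St hi t.2).2 (e l)).2 (Rq.Fl.mem (by omega)))
        rwa [t0, zero_smul, sub_zero] at this
      · exact Rq.Fl.mono (Nat.le_succ i) (((b.Pa_St hi t.2).1 (e l)).2 (Rq.Fl.mem (by omega)))
    · exact t.2 j hj hj'
  have hu := b.pow_mem h tS
  rw [h3] at hu
  have e4 : t ^ 2 = g'⁻¹ * s' ^ 4 * g' := by
    rw [ht, pow_two, show (4 : ℕ) = 2 + 2 from rfl, pow_add]
    simp only [mul_assoc, mul_inv_cancel_left]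
  have e5 : t.1 ^ (3 - 1) = g⁻¹ * s ^ 4 * g := congrArg Subtype.val e4
  refine ⟨g⁻¹, (Pa B k e (· ≠ i + 1)).inv_mem hg, _, hu, ?_, fun h0 => h2 ?_⟩
  · rw [e5, mul_smul, smul_inv_smul, mul_smul]
    congr 1
    exact (stabilizer (GG B) ω).pow_mem hω 4
  · have k1 := b.bk_U (i := i) (by omega) hu
    rw [h0, ← Matrix.one_fin_two] at k1
    have k2 : φ (t ^ 2) = 1 := k1
    have k3 : s' ^ 4 = g' * t ^ 2 * g'⁻¹ := by rw [e4]; group
    have k4 : φ (s' ^ 4) = 1 := by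
      rw [k3, map_mul, map_mul, k2, mul_one, ← map_mul, mul_inv_cancel, map_one]
    rw [map_pow] at k4
    exact k4

theorem Fb.ps3 (h : Sy B) (b : Fb B k e) (h3 : Fintype.card F = 3) (r : R3 (GG B) Ω)
    {l : Tt B k e →* ℂˣ} (hl : Oc Ω (Uu B k e) (Tt B k e) l)
    (nb : ¬ Btr Ω (Uu B k e) (Tt B k e)) {i : ℕ} (hi : i < k) (ω : Ω) : Pn B k e i ω := by
  have := h.finG
  obtain ⟨χ, χm, χr, χn⟩ := sl3_char h3
  obtain ⟨x, x', hx, hx', ⟨a, a0, ha⟩, ⟨a', a0', ha'⟩, hn⟩ := b.root h hi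
  let S : Subgroup (GG B) :=
    (Matrix.detMonoidHom.comp (hb b hi)).ker.map (Pa B k e (· ≠ i + 1)).subtype
  have mS : ∀ g : GG B, g ∈ S ↔ g ∈ Pa B k e (· ≠ i + 1) ∧ (bk B k e i g).det = 1 := fun g =>
    ⟨fun ⟨g', hg, e1⟩ => by subst e1; exact ⟨g'.2, hg⟩, fun hg => ⟨⟨g, hg.1⟩, hg.2, rfl⟩⟩
  let χ' : S →* ℂˣ := MonoidHom.mk' (fun g => χ (bk B k e i g)) fun g g' => by
    obtain ⟨g1, g2⟩ := (mS _).1 g.2
    obtain ⟨g3, g4⟩ := (mS _).1 g'.2
    rw [← χm _ _ g2 g4]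
    exact congrArg χ (b.bk_mul (by omega) (b.Pa_St hi g1).1 (b.Pa_St hi g3).2)
  have hU : Uu B k e ≤ S := fun u hu => (mS _).2
    ⟨fun j hj _ => h.U_St hu (by omega), by rw [b.bk_U (by omega) hu]; simp⟩
  obtain ⟨s, hs, hχ⟩ := r.cu (b.sp h) hl nb hU χ' ⟨x, (mS _).2 ⟨hx, by rw [ha]; simp⟩⟩
    ⟨x', (mS _).2 ⟨hx', by rw [ha']; simp⟩⟩
    (by change χ (bk B k e i x) ≠ 1; rw [ha]; exact (χr a a0).1)
    (by change χ (bk B k e i x') ≠ 1; rw [ha']; exact (χr a' a0').2) hn ω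
  obtain ⟨s1, s2⟩ := (mS _).1 s.2
  obtain ⟨k1, k2⟩ := χn _ s2 hχ
  exact b.pn_of h h3 hi s1 hs k1 k2

end CF.Rs
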