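import Cfsg.Agent.Rs.AR
import Cfsg.Agent.Rs.TA

/-! Rank 3 actions of symplectic groups over the field with three elements: separating tori. -/

set_option autoImplicit false
set_option linter.unusedSectionVars false
open MulAction Module

namespace CF.Rs
open CF.Rq (R3 Sp Tw Oc Cj Btr Gf R4 In Pw Fl)

variable {F V : Type*} [Field F] [Fintype F] [AddCommGroup V] [Module F V]
  {B : V →ₗ[F] V →ₗ[F] F} {K : Subgroup (V ≃ₗ[F] V)} {k : ℕ} {e : ℕ → V} {Ω : Type*}
  [MulAction (GG B) Ω]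

namespace PT

/-- the entries of the symmetric form of `ψ` -/
def en (B : V →ₗ[F] V →ₗ[F] F) (k : ℕ) (e : ℕ → V) (ψ : V →ₗ[F] V) (a c : ℕ) : F :=
  B (ψ (e (2 * k - 1 - a))) (e (2 * k - 1 - c))

theorem ti (b : Fb B k e) : Fl F e k ≤ Pp B (Fl F e k) := (b.Pp_Fl (by omega)).ge

theorem cj (g : GG B) (ψ : V →ₗ[F] V) (v w : V) :
    B (((g.1 : V →ₗ[F] V) ∘ₗ ψ ∘ₗ (g.1.symm : V →ₗ[F] V)) v) w = B (ψ (g⁻¹.1 v)) (g⁻¹.1 w) := by
  rw [← g.map _ (g⁻¹.1 w), GG.inv_apply]; rfl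

theorem dg (h : Sy B) (b : Fb B k e) (hK : K ≤ SP B) {ψ : V →ₗ[F] V} (an : AN K (Fl F e k) ψ)
    (off : ∀ a < k, ∀ c < k, a ≠ c → en B k e ψ a c = 0) (v : V) :
    ψ v = ∑ a ∈ Finset.range k, (en B k e ψ a a * B (e a) v) • e a := by
  have : ψ = ∑ a ∈ Finset.range k, en B k e ψ a a • E B (e a) (e a) := b.ext fun i hi => by
    simp only [LinearMap.sum_apply, LinearMap.smul_apply, E_apply]
    by_cases h1 : i < k
    · rw [an.kill h hK (ti b) (ti b (Rq.Fl.mem h1)), Finset.sum_eq_zero fun a ha => ?_]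
      simp [b.B0 (i := a) (j := i) (by simp at ha; omega) hi (by simp at ha; omega)]
    obtain ⟨a, ha, rfl⟩ : ∃ a < k, i = 2 * k - 1 - a := ⟨2 * k - 1 - i, by omega, by omega⟩
    rw [Finset.sum_eq_single a (fun c hc ne => by
      simp [b.B0 (i := c) (j := 2 * k - 1 - a) (by simp at hc; omega) hi (by simp at hc; omega)]) (by simp [ha]),
      b.B1 ha, one_smul]
    refine b.eq_of fun j hj => ?_
    rw [map_smul, b.co_e hj (by omega)]
    by_cases h2 : j < k
    · rw [co_lo h2, ← h.skew]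
      split_ifs with f
      · simp [f, en]
      · simpa [en] using off a ha j h2 (Ne.symm f)
    · simp [b.co_Fl (not_lt.1 h2) hj (an.2 _), show j ≠ a by omega]
  conv_lhs => rw [this]
  simp only [LinearMap.sum_apply, LinearMap.smul_apply, E_apply, smul_smul]

variable (h : Sy B) (b : Fb B k e) (h3 : Fintype.card F = 3) {ω : Ω} (tf : Tf B k e ω) (sp : Sep B k e ω)
include h b h3 tf sp

theorem kill {φ : V →ₗ[F] V} (an : AN (Kw B ω) (Fl F e k) φ) : ∃ ψ, AN (Kw B ω) (Fl F e k) ψ ∧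
    (∀ a < k, en B k e ψ a a = en B k e φ a a) ∧ ∀ a < k, ∀ c < k, a ≠ c → en B k e ψ a c = 0 := by
  have key : ∀ S : Finset (ℕ × ℕ), ∃ ψ, AN (Kw B ω) (Fl F e k) ψ ∧
      (∀ a < k, en B k e ψ a a = en B k e φ a a) ∧
      ∀ p ∈ S, p.1 < k → p.2 < k → p.1 ≠ p.2 → en B k e ψ p.1 p.2 = 0 := fun S => by
    induction S using Finset.induction_on with
    | empty => exact ⟨φ, an, fun _ _ => rfl, by simp⟩
    | insert p S _ ih =>
      obtain ⟨ψ, a1, a2, a3⟩ := ih
      by_cases hp : p.1 < k ∧ p.2 < k ∧ p.1 ≠ p.2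
      swap
      · exact ⟨ψ, a1, a2, Finset.forall_mem_insert .. |>.2 ⟨fun x y z => absurd ⟨x, y, z⟩ hp, a3⟩⟩
      obtain ⟨τ, aw, ne⟩ := sp _ hp.1 _ hp.2.1 hp.2.2
      obtain ⟨t, ht, tω⟩ := aw.fix tf
      have E : ∀ a < k, ∀ c < k, en B k e (-(ψ + (t.1 : V →ₗ[F] V) ∘ₗ ψ ∘ₗ (t.1.symm : V →ₗ[F] V))) a c =
          -(1 + τ a * τ c) * en B k e ψ a c := fun a ha c hc => by
        simp only [en, LinearMap.neg_apply, LinearMap.add_apply, map_neg, map_add, cj, (ht.inv a ha).2,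
          (ht.inv c hc).2, map_smul, LinearMap.smul_apply, smul_eq_mul, Pi.inv_apply, Units.val_inv_eq_inv_val, inv_inv]
        ring
      refine ⟨_, (a1.add h (Kw_le ω) (ti b) (a1.conj (mem_Kw.2 tω) fun v => St.map (h.T_St ht.mem (by omega)))).neg
        h (Kw_le ω) (ti b), fun a ha => ?_, Finset.forall_mem_insert .. |>.2 ⟨fun x y _ => ?_, fun q hq x y z => ?_⟩⟩
      · rw [E a ha a ha, a2 a ha]
        rcases f3_unit h3 (τ a) with f | f <;> simp only [f, Units.val_one, Units.val_neg] <;>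
          linear_combination -en B k e φ a a * f3_three h3
      · rw [E _ x _ y]
        rcases f3_unit h3 (τ p.1) with f | f <;> rcases f3_unit h3 (τ p.2) with f' | f' <;> simp_all
      · rw [E _ x _ y, a3 q hq x y z, mul_zero]
  obtain ⟨ψ, a1, a2, a3⟩ := key (Finset.range k ×ˢ Finset.range k)
  exact ⟨ψ, a1, a2, fun a ha c hc => a3 (a, c) (by simp [ha, hc]) ha hc⟩

theorem step {j : ℕ} (hj : j + 1 < k) (g : Gd B k e j ω) {φ : V →ₗ[F] V} (an : AN (Kw B ω) (Fl F e k) φ)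
    (z : ∀ a, j + 1 < a → a < k → en B k e φ a a = 0) (n : en B k e φ (j + 1) (j + 1) ≠ 0) :
    ∃ ψ, AN (Kw B ω) (Fl F e k) ψ ∧ (∀ a, j < a → a < k → en B k e ψ a a = 0) ∧ en B k e ψ j j ≠ 0 := by
  obtain ⟨ψ, a1, a2, a3⟩ := kill h b h3 tf sp an
  obtain ⟨u, hu, uω, s0⟩ := g
  have E : ∀ a < k, en B k e ((u.1 : V →ₗ[F] V) ∘ₗ ψ ∘ₗ (u.1.symm : V →ₗ[F] V) - ψ) a a =
      ∑ c ∈ Finset.range k, en B k e φ c c * co B k e a (u.1 (e c)) ^ 2 - en B k e φ a a := fun a ha => by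
    rw [← a2 a ha, en, LinearMap.sub_apply, map_sub, LinearMap.sub_apply, cj, dg h b (Kw_le ω) a1 a3, map_sum,
      LinearMap.sum_apply]
    refine congrArg (· - _) (Finset.sum_congr rfl fun c hc => ?_)
    rw [map_smul, LinearMap.smul_apply, a2 c (by simpa using hc), ← u.map, GG.inv_apply, co_lo ha, ← h.skew, smul_eq_mul]
    ring
  refine ⟨_, (a1.conj (mem_Kw.2 uω) fun v => U_Fl hu (by omega)).sub h (Kw_le ω) (ti b) a1, fun a ja ha => ?_, ?_⟩
  · rw [E a ha, Finset.sum_eq_single a (fun c hc ne => ?_) (by simp [ha]), b.U_tri hu (by omega) le_rfl]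
    · simp
    · by_cases f : c ≤ a
      · simp [b.U_tri hu (show a < 2 * k by omega) f, ne.symm]
      · simp [z c (by omega) (by simpa using hc)]
  · rw [E j (by omega), Finset.sum_eq_add j (j + 1) (by omega) (fun c hc ne => ?_) (by simp; omega) (by simp; omega),
      b.U_tri hu (by omega) le_rfl]
    · simp [n, s0]
    · by_cases f : c ≤ j
      · simp [b.U_tri hu (show j < 2 * k by omega) f, ne.1.symm]
      · simp [z c (by omega) (by simpa using hc)]

end PT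
open PT

theorem Fb.pt (h : Sy B) (b : Fb B k e) (h3 : Fintype.card F = 3) {ω : Ω} (tf : Tf B k e ω)
    (hg : ∀ i < k, Gd B k e i ω) (sp : Sep B k e ω) : Tv B (Kw B ω) := by
  have k3 := b.k3 h
  have iv : ∀ x : Fˣ, (x : F)⁻¹ = x := fun x => by rcases f3_unit h3 x with rfl | rfl <;> simp
  have main : ∀ d j, j + d + 1 = k → ∃ ψ, AN (Kw B ω) (Fl F e k) ψ ∧
      (∀ a, j < a → a < k → en B k e ψ a a = 0) ∧ en B k e ψ j j ≠ 0 := fun d => by
    induction d with
    | succ d ih =>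
      intro j hj
      obtain ⟨ψ, a1, a2, a3⟩ := ih (j + 1) (by omega)
      exact step h b h3 tf sp (by omega) (hg j (by omega)) a1 a2 a3
    | zero =>
      intro j hj
      obtain ⟨c, hc, cω, c0, cm⟩ := b.cen h (i := j) (by omega) (hg j (by omega))
      refine ⟨(c.1 : V →ₗ[F] V) - LinearMap.id, ⟨⟨c.1, mem_Kw.2 cω, fun v => by simp⟩, fun v => ?_⟩,
        fun a _ _ => by omega, fun f => c0 ?_⟩
      · refine Rq.Fl.ind _ _ (fun i hi => (b.mem_Fl (by omega)).2 fun l kl hl => ?_) (b.Fl_top v)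
        rw [LinearMap.sub_apply, map_sub, LinearMap.id_apply, b.co_e hl hi, sub_eq_zero, LinearEquiv.coe_coe]
        by_cases f : i ≤ l
        · exact b.U_tri hc hl f
        obtain ⟨τ, aw, ne⟩ := sp (2 * k - 1 - l) (by omega) (2 * k - 1 - i) (by omega) (by omega)
        obtain ⟨t, ht, tω⟩ := aw.fix tf
        rw [if_neg (by omega), ht.comm b (cm t τ ht tω ?_) hl hi]
        · rw [ev_ge _ kl, ev_ge _ (by omega), iv, iv]
          exact fun f => ne (Units.ext f)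
        · rw [ev_lo _ (by omega), ev_ge _ (by omega), iv, show 2 * k - 1 - (j + 1) = j by omega]
      · rw [co_lo (by omega), ← h.skew, show j + 1 = 2 * k - 1 - j by omega]
        simpa [en, h.alt] using f
  obtain ⟨φ, a1, a2, a3⟩ := main (k - 1) 0 (by omega)
  obtain ⟨ψ, b1, b2, b3⟩ := kill h b h3 tf sp a1
  refine ⟨e 0, _, b.ne (by omega), a3, b1.1.congr fun v => ?_⟩
  rw [dg h b (Kw_le ω) b1 b3, Finset.sum_eq_single 0 (fun c hc ne => ?_) (by simp; omega), b2 0 (by omega), mul_smul]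
  · rfl
  · simp [b2 c (by simpa using hc), a2 c (by omega) (by simpa using hc)]

end CF.Rs
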