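import Cfsg.Agent.Rs.L2
import Cfsg.Agent.Rq.R1

/-! Reducible maximal subgroups with at most three double cosets. -/

set_option autoImplicit false
set_option linter.unusedSectionVars false
open MulAction Module

namespace CF.Rs
open CF.Rq (R3 Sp Tw Oc Cj Btr Gf R4 In Pw Fl)
open CF.Rq.R1 (not_r4)

namespace R1

variable {F V : Type*} [Field F] [AddCommGroup V] [Module F V]
  {B : V →ₗ[F] V →ₗ[F] F} {Y : Submodule F V} {g g' : GG B}

/-- the vectors of `Y` that stay in `Y` -/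
def D (Y : Submodule F V) (g : GG B) : Submodule F V := Y ⊓ Y.comap (g.1 : V →ₗ[F] V)

theorem mem_D {v : V} : v ∈ D Y g ↔ v ∈ Y ∧ g.1 v ∈ Y := Iff.rfl

theorem map (h : Rq.R1.Rl (St B Y) g g') : ∃ k : GG B, ∀ v, v ∈ D Y g' ↔ k.1 v ∈ D Y g := by
  obtain ⟨k, hk, k', hk', rfl⟩ := h
  exact ⟨k', fun v => and_congr (hk' v).symm (hk _)⟩

theorem of_lt [FiniteDimensional F V] (h : D Y g' < D Y g) : ¬ Rq.R1.Rl (St B Y) g g' := fun r => by
  obtain ⟨k, hk⟩ := map r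
  have : D Y g = (D Y g').map (k.1 : V →ₗ[F] V) := by
    ext v
    obtain ⟨v, rfl⟩ := k.1.surjective v
    rw [← hk]
    exact (Submodule.mem_map_equiv _).trans (by simp) |>.symm
  have h1 := Submodule.finrank_lt_finrank_of_lt h
  rw [this, LinearEquiv.finrank_map_eq] at h1
  exact h1.false

theorem of_mem [FiniteDimensional F V] (h : ∀ v ∈ Y, g'.1 v ∈ Y → g.1 v ∈ Y) {v : V} (h1 : v ∈ Y)
    (h2 : g.1 v ∈ Y) (h3 : g'.1 v ∉ Y) : ¬ Rq.R1.Rl (St B Y) g g' :=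
  of_lt (SetLike.lt_iff_le_and_exists.2 ⟨fun v hv => mem_D.2 ⟨hv.1, h v hv.1 hv.2⟩, v,
    mem_D.2 ⟨h1, h2⟩, fun h => h3 (mem_D.1 h).2⟩)

theorem of_perp (h : ∀ y ∈ Y, ∀ v ∈ Y, B y (g.1 v) = 0) {y : V} (hy : y ∈ Y)
    (h1 : B y (g'.1 y) ≠ 0) : ¬ Rq.R1.Rl (St B Y) g g' := by
  rintro ⟨k, hk, k', hk', rfl⟩
  obtain ⟨u, hu⟩ := k.1.surjective y
  refine h1 ?_
  show B y (k.1 (g.1 (k'.1 y))) = 0
  rw [show B y = B (k.1 u) by rw [hu], k.2]
  exact h u ((hk u).1 (hu ▸ hy)) _ ((hk' y).2 hy)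

theorem of_rad {y : V} (hy : y ∈ Y) (y0 : y ≠ 0) (h : ∀ v ∈ Y, B y (g.1 v) = 0)
    (h' : ∀ y ∈ Y, (∀ v ∈ Y, B y (g'.1 v) = 0) → y = 0) : ¬ Rq.R1.Rl (St B Y) g g' := by
  rintro ⟨k, hk, k', hk', rfl⟩
  exact y0 (k.1.map_eq_zero_iff.1 (h' _ ((hk y).2 hy) fun v hv =>
    (k.2 y (g.1 (k'.1 v))).trans (h _ ((hk' v).2 hv))))

variable [Fintype F] (h : Sy B)
include h

theorem hyp (nd : Y ⊓ Pp B Y = ⊥) (hY : Y ≠ ⊥) : ∃ a ∈ Y, ∃ b ∈ Y, B a b = 1 := by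
  obtain ⟨a, ha, a0⟩ := (Submodule.ne_bot_iff Y).1 hY
  refine ⟨a, ha, by_contra fun hn => ?_⟩
  refine a0 ((Submodule.eq_bot_iff _).1 nd a ⟨ha, fun y hy => h.refl (by_contra fun h0 => ?_)⟩)
  exact hn ⟨_, Y.smul_mem (B a y)⁻¹ hy, by rw [map_smul]; exact inv_mul_cancel₀ h0⟩

end R1

open R1

variable {F V : Type*} [Field F] [Fintype F] [AddCommGroup V] [Module F V]
  {B : V →ₗ[F] V →ₗ[F] F} {K : Subgroup (V ≃ₗ[F] V)}

theorem red1 (h : Sy B) {Y : Submodule F V} (ti : Y ≤ Pp B Y) (hY : 2 ≤ finrank F Y) :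
    ¬ R4 (St B Y) := by
  have := h.fd
  obtain ⟨z, li, z1, z2, z0⟩ : ∃ z : Fin 3 → V, LinearIndependent F z ∧ z 1 ∈ Y ∧ z 2 ∈ Y ∧
      z 0 ∈ Pp B Y := by
    rcases hY.eq_or_lt with e | e
    · obtain ⟨z, li⟩ := exists_linearIndependent_of_le_finrank hY
      obtain ⟨x, x1, x3⟩ := h.new Y (by have := h.dim; omega)
      refine ⟨Fin.cons x (Y.subtype ∘ z), (li.map' _ Y.ker_subtype).finCons fun hx => x1 ?_,
        (z 0).2, (z 1).2, x3⟩
      exact Submodule.span_le.2 (by rintro _ ⟨i, rfl⟩; exact (z i).2) hx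
    · obtain ⟨z, li⟩ := exists_linearIndependent_of_le_finrank (n := 3) e
      exact ⟨_, li.map' _ Y.ker_subtype, (z 1).2, (z 2).2, ti (z 0).2⟩
  have p : ∀ i, ∀ v ∈ Y, B (z i) v = 0 := fun i v hv => by
    fin_cases i
    exacts [h.refl (z0 v hv), ti hv _ z1, ti hv _ z2]
  obtain ⟨f, fr⟩ := h.wp.exists_hypFrame z li (fun _ => rfl) fun i j => by
    fin_cases j
    · fin_cases i
      exacts [h.alt _, z0 _ z1, z0 _ z2]
    exacts [p i _ z1, p i _ z2]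
  have zf := fr.ef
  have ff := fr.ff
  have fz : ∀ i j, B (f i) (z j) = if j = i then -1 else 0 := fun i j => by
    rw [h.skew, zf]; split_ifs <;> simp
  choose t ht using fun i => h.exists_tv (f i) 1
  simp only [one_smul, E_apply] at ht
  have m1 : ∀ v ∈ Y, (t 1).1 v ∈ Y ↔ B (f 1) v = 0 := fun v hv => by
    refine ⟨fun e => ?_, fun e => by simpa [ht, e] using hv⟩
    simpa [ht, p 1 v hv, zf] using p 1 _ e
  have m2 : ∀ v ∈ Y, (t 1 * t 2).1 v ∈ Y ↔ B (f 1) v = 0 ∧ B (f 2) v = 0 := fun v hv => by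
    refine ⟨fun e => ⟨?_, ?_⟩, fun e => by simpa [ht, e] using hv⟩
    · simpa [ht, p 1 v hv, zf, ff] using p 1 _ e
    · simpa [ht, p 2 v hv, zf, ff] using p 2 _ e
  have r1 : ¬ Rq.R1.Rl (St B Y) 1 (t 1) := of_mem (fun v hv _ => hv) z1 z1 (by simp [m1 _ z1, fz])
  have r2 : ¬ Rq.R1.Rl (St B Y) 1 (t 1 * t 2) := of_mem (fun v hv _ => hv) z1 z1 (by
    rw [m2 _ z1]; simp [fz])
  have r3 : ¬ Rq.R1.Rl (St B Y) (t 1) (t 1 * t 2) :=
    of_mem (fun v hv e => (m1 v hv).2 ((m2 v hv).1 e).1) z2 (by simp [m1 _ z2, fz]) (by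
      rw [m2 _ z2]; simp [fz])
  by_cases hz : z 0 ∈ Y
  · have m3 : ∀ v ∈ Y, (t 1 * t 2 * t 0).1 v ∈ Y →
        (B (f 1) v = 0 ∧ B (f 2) v = 0) ∧ B (f 0) v = 0 := fun v hv e => by
      refine ⟨⟨?_, ?_⟩, ?_⟩
      · simpa [ht, p 1 v hv, zf, ff] using p 1 _ e
      · simpa [ht, p 2 v hv, zf, ff] using p 2 _ e
      · simpa [ht, p 0 v hv, zf, ff] using p 0 _ e
    have m4 : (t 1 * t 2 * t 0).1 (z 0) ∉ Y := fun e => by simpa [fz] using (m3 _ hz e).2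
    exact not_r4 r1 r2 (of_mem (fun v hv _ => hv) hz hz m4) r3
      (of_mem (fun v hv e => (m1 v hv).2 (m3 v hv e).1.1) hz (by simp [m1 _ hz, fz]) m4)
      (of_mem (fun v hv e => (m2 v hv).2 (m3 v hv e).1) hz (by rw [m2 _ hz]; simp [fz]) m4)
  · obtain ⟨g, hg⟩ := h.exists_i2 (x := z 0) (y := f 1) (by simp [zf]) 0 1 0
    have m3 : ∀ v ∈ Y, g.1 v = v + B (f 1) v • z 0 := fun v hv => by
      rw [hg, m2_apply]; simp [p 0 v hv]
    have m4 : ∀ y ∈ Y, ∀ v ∈ Y, B y (g.1 v) = 0 := fun y hy v hv => by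
      simp [m3 v hv, ti hv y hy, z0 y hy]
    refine not_r4 r1 r2 (of_mem (g' := g) (fun v hv _ => hv) z1 z1 fun e => hz ?_) r3
      (fun r => of_perp m4 z1 ?_ r.symm) fun r => of_perp m4 z1 ?_ r.symm
    · simpa [m3 _ z1, fz, Y.add_mem_iff_right z1] using e
    · simp [ht, p 1 _ z1, zf, fz]
    · simp [ht, p 1 _ z1, zf, fz]

theorem red2 (h : Sy B) {Y : Submodule F V} (nd : Y ⊓ Pp B Y = ⊥) (h0 : Y ≠ ⊥) (h1 : Y ≠ ⊤) :
    ¬ R4 (St B Y) := by
  have := h.fd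
  obtain ⟨a, ha, a', ha', aa'⟩ := hyp h nd h0
  obtain ⟨b, hb, b', hb', bb'⟩ := hyp h (Y := Pp B Y) (by rw [h.Pp_Pp, inf_comm, nd]) fun e => h1 (by
    have := h.finrank_Pp Y
    rw [e, finrank_bot, zero_add] at this
    exact Submodule.eq_top_of_finrank_eq this)
  have a'a : B a' a = -1 := by rw [h.skew, aa']
  have b'b : B b' b = -1 := by rw [h.skew, bb']
  have p : ∀ v ∈ Y, B b v = 0 ∧ B b' v = 0 ∧ B v b = 0 ∧ B v b' = 0 := fun v hv =>
    ⟨h.refl (hb v hv), h.refl (hb' v hv), hb v hv, hb' v hv⟩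
  have pa := p a ha
  have pa' := p a' ha'
  choose t ht using h.exists_i2 (x := a + b) (y := a' - b') (by simp [aa', bb', pa, pa']) 1 0
  simp only [m2_apply, one_mul, zero_mul, add_zero, zero_add] at ht
  have m : ∀ c, ∀ v ∈ Y, (t c).1 v ∈ Y ↔ B a v = 0 ∧ c * B a' v = 0 := fun c v hv => by
    refine ⟨fun e => ⟨?_, ?_⟩, fun e => by simpa [ht, e, p v hv] using hv⟩
    · simpa [ht, p v hv, pa, pa', b'b, h.alt] using (p _ e).2.1
    · simpa [ht, p v hv, pa, pa', bb', h.alt] using (p _ e).1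
  have k : ∀ c, ∀ y ∈ Y, ∀ v ∈ Y, B y ((t c).1 v) = B (y + B y a • a + (c * B y a') • a') v :=
    fun c y hy v hv => by simp [ht, p v hv, p y hy]; ring
  refine not_r4 (a := 1) (b := t 0) (c := t (-1)) (d := t 1) (of_mem (fun v hv _ => hv) ha' ha' ?_)
    (of_mem (fun v hv _ => hv) ha' ha' ?_) (of_mem (fun v hv _ => hv) ha' ha' ?_)
    (of_mem (fun v hv e => ?_) ha ?_ ?_) (of_mem (fun v hv e => ?_) ha ?_ ?_)
    (of_rad (add_mem ha ha') (fun e => ?_) (fun v hv => ?_) fun y hy e => ?_)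
  iterate 3 simp [m _ _ ha', aa']
  iterate 2
    · simp [m _ v hv, ((m _ v hv).1 e).1]
    · simp [m _ _ ha, h.alt]
    · simp [m _ _ ha, a'a]
  · simpa [h.alt, aa'] using congrArg (B a) e
  · rw [k _ _ (add_mem ha ha') v hv]; simp [h.alt, aa', a'a]
  · have z : y + B y a • a + (1 * B y a') • a' = 0 := (Submodule.eq_bot_iff _).1 nd _
      ⟨add_mem (add_mem hy (Y.smul_mem _ ha)) (Y.smul_mem _ ha'), fun v hv =>
        h.refl (by rw [← k _ y hy v hv, e v hv])⟩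
    have e1 := congrArg (B a) z
    have e2 := congrArg (B a') z
    simp only [map_add, map_smul, smul_eq_mul, h.alt, aa', a'a, map_zero, h.skew y] at e1 e2
    have e3 : B y a = 0 := (mul_eq_zero.1 (by linear_combination -e1 - e2)).resolve_left h.odd
    have e4 : B y a' = 0 := by linear_combination e1 + e3
    simpa [e3, e4] using z

theorem red4 (h : Sy B) {x : V} (x0 : x ≠ 0) :
    (St B (Submodule.span F {x})).index * (Fintype.card F - 1) + 1 = Nat.card V := by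
  have := h.finV
  have le : stabilizer (GG B) x ≤ St B (Submodule.span F {x}) := fun g hg v => by
    have hg : g.1 x = x := hg
    simp only [Submodule.mem_span_singleton]
    refine exists_congr fun a => ?_
    rw [← g.1.injective.eq_iff (a := a • x) (b := v), map_smul, hg]
  have h1 : orbit (GG B) x = Set.univ \ {0} := by
    ext v
    constructor
    · rintro ⟨g, rfl⟩
      exact ⟨trivial, fun e => x0 (g.1.map_eq_zero_iff.1 e)⟩
    · exact fun hv => h.tr x0 hv.2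
  have h2 : orbit (St B (Submodule.span F {x})) x = Set.range fun c : Fˣ => (c : F) • x := by
    ext v
    constructor
    · rintro ⟨g, rfl⟩
      obtain ⟨c, hc⟩ := Submodule.mem_span_singleton.1
        ((g.2 x).2 (Submodule.mem_span_singleton_self x))
      refine ⟨Units.mk0 c ?_, hc⟩
      rintro rfl
      exact x0 (g.1.1.map_eq_zero_iff.1 (by rw [← hc, zero_smul]))
    · rintro ⟨c, rfl⟩
      obtain ⟨g, hg⟩ := h.tr x0 (smul_ne_zero c.ne_zero x0)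
      refine ⟨⟨g, fun v => ?_⟩, hg⟩
      simp only [Submodule.mem_span_singleton]
      constructor
      · rintro ⟨a, ha⟩
        exact ⟨a / c, g.1.injective (by
          rw [map_smul, hg, smul_smul, div_mul_cancel₀ _ c.ne_zero, ha])⟩
      · rintro ⟨a, rfl⟩
        exact ⟨a * c, by rw [map_smul, hg, smul_smul]⟩
  have h3 := Subgroup.relIndex_mul_index le
  have h4 : (stabilizer (GG B) x).relIndex (St B (Submodule.span F {x})) = Fintype.card F - 1 := by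
    classical
    rw [← Fintype.card_units, ← Nat.card_eq_fintype_card, ← Nat.card_range_of_injective
      (f := fun c : Fˣ => (c : F) • x) (fun a b e => Units.ext (smul_left_injective F x0 e)), ← h2,
      Nat.card_coe_set_eq, ← index_stabilizer]
    rfl
  rw [h4, index_stabilizer, h1, mul_comm] at h3
  rw [h3, Set.ncard_sdiff_singleton_add_one (by simp), Set.ncard_univ]

theorem red0 (h : Sy B) {H : Subgroup (GG B)} (hH : IsCoatom H) (r4 : R4 H)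
    {Y : Submodule F V} (h0 : Y ≠ ⊥) (h1 : Y ≠ ⊤) (hY : ∀ k ∈ H, ∀ v ∈ Y, k.1 v ∈ Y) :
    ∃ x, x ≠ 0 ∧ H = St B (Submodule.span F {x}) := by
  have := h.fd
  have st : ∀ {Z : Submodule F V}, (∀ k ∈ H, ∀ v ∈ Z, k.1 v ∈ Z) → H ≤ St B Z :=
    fun hZ k hk v => ⟨fun e => by simpa using hZ _ (inv_mem hk) _ e, hZ k hk v⟩
  have r : ∀ {Z : Submodule F V}, (∀ k ∈ H, ∀ v ∈ Z, k.1 v ∈ Z) → R4 (St B Z) := fun hZ g => by
    obtain ⟨i, j, e, k, hk, k', hk', e'⟩ := r4 g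
    exact ⟨i, j, e, k, st hZ hk, k', st hZ hk', e'⟩
  have hP : ∀ k ∈ H, ∀ v ∈ Pp B Y, k.1 v ∈ Pp B Y := fun k hk v hv y hy => by
    rw [← hv _ (hY _ (inv_mem hk) y hy), ← k.2 _ v]
    simp
  have one : ∀ Z : Submodule F V, Z ≠ ⊥ → ¬ 2 ≤ finrank F Z → ∃ x, x ≠ 0 ∧ Z = Submodule.span F {x} :=
    fun Z z0 z2 => by
      obtain ⟨x, hx, x0⟩ := (Submodule.ne_bot_iff Z).1 z0
      refine ⟨x, x0, (Submodule.eq_of_le_of_finrank_le ((Submodule.span_singleton_le_iff_mem _ _).2 hx)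
        ?_).symm⟩
      rw [finrank_span_singleton x0]; omega
  by_cases nd : Y ⊓ Pp B Y = ⊥
  · exact (red2 h nd h0 h1 (r hY)).elim
  have hR : ∀ k ∈ H, ∀ v ∈ Y ⊓ Pp B Y, k.1 v ∈ Y ⊓ Pp B Y := fun k hk v hv =>
    ⟨hY k hk v hv.1, hP k hk v hv.2⟩
  have ti : Y ⊓ Pp B Y ≤ Pp B (Y ⊓ Pp B Y) := fun v hv y hy => hv.2 y hy.1
  obtain ⟨x, x0, e⟩ := one _ nd fun e => red1 h ti e (r hR)
  rw [e] at hR ti
  have m := Submodule.mem_span_singleton_self (R := F) x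
  refine ⟨x, x0, ((hH.le_iff.1 (st hR)).resolve_left fun t => ?_).symm⟩
  obtain ⟨f, xf⟩ := h.partner x0
  obtain ⟨g, hg⟩ := h.tr (y := f) x0 (by rintro rfl; simp at xf)
  have := ti (((t ▸ Subgroup.mem_top g : g ∈ St B _) x).2 m) x m
  rw [hg, xf] at this
  exact one_ne_zero this

end CF.Rs
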