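import Cfsg.Agent.Rq.P2
import Cfsg.Agent.Rq.P3

/-! Rank three: commuting Hecke operators. -/

set_option autoImplicit false
set_option linter.unusedSectionVars false
open MulAction Module

namespace CF.Rq
variable {G : Type*} [Group G] [Finite G] {Ω : Type*} [MulAction G Ω] {U T N : Subgroup G}

namespace P4

/-- the function induced by a character on an orbit -/
theorem ex_fun {S : Subgroup G} (χ : S →* ℂˣ) (ω : Ω) (h : ∀ a : S, (a : G) • ω = ω → χ a = 1) :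
    ∃ φ : Ω → ℂ, φ ω = 1 ∧ (∀ (a : S) (y : Ω), φ ((a : G) • y) = χ a * φ y) ∧
      ∀ y, (¬ ∃ a ∈ S, a • ω = y) → φ y = 0 := by
  classical
  let φ : Ω → ℂ := fun y => if hy : ∃ a : S, (a : G) • ω = y then χ hy.choose else 0
  have val : ∀ a : S, φ ((a : G) • ω) = χ a := fun a => by
    have hy : ∃ b : S, (b : G) • ω = (a : G) • ω := ⟨a, rfl⟩
    have := h (a⁻¹ * hy.choose) (by
      rw [Subgroup.coe_mul, mul_smul, hy.choose_spec, Subgroup.coe_inv, inv_smul_smul])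
    rw [map_mul, map_inv, inv_mul_eq_one] at this
    simp only [φ, dif_pos hy, this]
  have val0 : ∀ y, (¬ ∃ a : S, (a : G) • ω = y) → φ y = 0 := fun y hy => dif_neg hy
  refine ⟨φ, by simpa using val 1, fun a y => ?_, fun y hy => val0 y fun ⟨a, e⟩ => hy ⟨a, a.2, e⟩⟩
  by_cases hy : ∃ b : S, (b : G) • ω = y
  · obtain ⟨b, rfl⟩ := hy
    rw [← mul_smul, ← Subgroup.coe_mul, val, val, map_mul, Units.val_mul]
  · rw [val0 y hy, val0, mul_zero]
    rintro ⟨b, e⟩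
    exact hy ⟨a⁻¹ * b, by rw [Subgroup.coe_mul, mul_smul, e, Subgroup.coe_inv, inv_smul_smul]⟩

/-- an invariant function of sum zero -/
theorem ex_w [Fintype Ω] (s : Sp U T N) (nb : ¬ Btr Ω U T) : ∃ z : Ω → ℂ, z ≠ 0 ∧
    (∀ u ∈ U, ∀ x : Ω, z (u • x) = z x) ∧
    (∀ (t : T) (x : Ω), z ((t : G) • x) = (1 : T →* ℂˣ) t * z x) ∧ Og G (1 : Ω → ℂ) z := by
  classical
  simp only [Btr, not_forall] at nb
  obtain ⟨ω, ω', hc⟩ := nb
  let P : Ω → Prop := fun x => ∃ u ∈ U, ∃ t ∈ T, (u * t) • ω = x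
  have P1 : ∀ u ∈ U, ∀ x, P x → P (u • x) := by
    rintro u hu x ⟨u', hu', t, ht, rfl⟩
    exact ⟨u * u', U.mul_mem hu hu', t, ht, by simp [mul_smul]⟩
  have P2 : ∀ t ∈ T, ∀ x, P x → P (t • x) := by
    rintro t ht x ⟨u', hu', t', ht', rfl⟩
    exact ⟨_, s.nU t ht u' hu', t * t', T.mul_mem ht ht', by simp [mul_smul]⟩
  let k : ℕ := (Finset.univ.filter P).card
  have k0 : k ≠ 0 := Finset.card_ne_zero.mpr
    ⟨ω, Finset.mem_filter.mpr ⟨Finset.mem_univ _, 1, U.one_mem, 1, T.one_mem, by simp⟩⟩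
  let z : Ω → ℂ := fun x => (if P x then (Fintype.card Ω : ℂ) else 0) - k
  have zi : ∀ (g : G), (∀ x, P x → P (g • x)) → (∀ x, P x → P (g⁻¹ • x)) → ∀ x, z (g • x) = z x :=
    fun g h1 h2 x => by
      have : P (g • x) ↔ P x := ⟨fun hx => by simpa using h2 _ hx, h1 x⟩
      simp only [z, this]
  refine ⟨z, fun e => ?_, fun u hu => zi u (P1 u hu) (P1 _ (U.inv_mem hu)), fun t x => by
    rw [zi t (P2 t t.2) (P2 _ (T.inv_mem t.2))]; simp, Og.symm fun g => ?_⟩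
  · have := congrFun e ω'
    simp only [z, if_neg hc, P] at this
    exact k0 (by simpa using this)
  · simp only [Pi.one_apply, map_one, mul_one]
    rw [sum_smul_eq g z]
    simp only [z, Finset.sum_sub_distrib, Finset.sum_ite, Finset.sum_const, k]
    simp [mul_comm]

/-- a commuting family of Hecke operators -/
structure Hk [Fintype Ω] (A : G → (Ω → ℂ) →ₗ[ℂ] (Ω → ℂ)) (W : Submodule ℂ (Ω → ℂ)) (c : ℂ) : Prop where
  c0 : c ≠ 0
  mem : ∀ g, ∀ f ∈ W, A g f ∈ W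
  ip : ∀ g, ∀ f ∈ W, ∀ w ∈ W, ipr w (A g f) = c * ∑ x, f (g • x) * (starRingEnd ℂ) (w x)
  comm : ∀ g g', ∀ f ∈ W, A g (A g' f) = A g' (A g f)

variable [Fintype Ω] {A : G → (Ω → ℂ) →ₗ[ℂ] (Ω → ℂ)} {W : Submodule ℂ (Ω → ℂ)} {c : ℂ}

theorem Hk.og (h : Hk A W c) {v w : Ω → ℂ} (hv : v ∈ W) (hw : w ∈ W) (e : ∀ g, ∃ d : ℂ, A g v = d • v)
    (k : ipr w v = 0) : Og G v w := fun g => by
  obtain ⟨d, hd⟩ := e g
  have := h.ip g v hv w hw
  rw [hd, map_smul, k, smul_zero] at this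
  exact (mul_eq_zero.mp this.symm).resolve_left h.c0

theorem Hk.ex (h : Hk A W c) {k : ℕ} (a : Fin k → Ω → ℂ) (ha : ∀ i, a i ∈ W)
    (ea : ∀ i g, ∃ d : ℂ, A g (a i) = d • a i) (hk : k < finrank ℂ W) :
    ∃ v ∈ W, v ≠ 0 ∧ (∀ g, ∃ d : ℂ, A g v = d • v) ∧ ∀ i, Og G v (a i) := by
  let ψ : (Ω → ℂ) →ₗ[ℂ] (Fin k → ℂ) := LinearMap.pi fun i => ipr (a i)
  have m : ∀ {f}, f ∈ LinearMap.ker ψ ↔ ∀ i, ipr (a i) f = 0 := funext_iff
  obtain ⟨w, hw, w0⟩ := Submodule.exists_mem_ne_zero_of_ne_bot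
    (LinearMap.ker_ne_bot_of_finrank_lt (f := ψ ∘ₗ W.subtype) (by simpa using hk))
  obtain ⟨v, hv, v0, ev⟩ := common_eig A (W ⊓ LinearMap.ker ψ)
    (fun e => w0 (Subtype.ext ((Submodule.eq_bot_iff _).mp e w ⟨w.2, hw⟩)))
    (fun g f hf => ⟨h.mem g f hf.1, m.2 fun i => by
      rw [h.ip g f hf.1 _ (ha i), (h.og (ha i) hf.1 (ea i) (by
        have := congrArg (starRingEnd ℂ) (m.1 hf.2 i)
        simpa [ipr, mul_comm] using this)).symm g, mul_zero]⟩)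
    fun g g' f hf => h.comm g g' f hf.1
  exact ⟨v, hv.1, v0, ev, fun i => h.og hv.1 (ha i) ev (m.1 hv.2 i)⟩

theorem Hk.fam (h : Hk A W c) (k : ℕ) (hk : k ≤ finrank ℂ W) : ∃ a : Fin k → Ω → ℂ,
    (∀ i, a i ∈ W ∧ a i ≠ 0 ∧ ∀ g, ∃ d : ℂ, A g (a i) = d • a i) ∧ ∀ i j, i ≠ j → Og G (a i) (a j) := by
  induction k with
  | zero => exact ⟨Fin.elim0, fun i => i.elim0, fun i => i.elim0⟩
  | succ k ih =>
    obtain ⟨a, h1, h2⟩ := ih (by omega)
    obtain ⟨v, v1, v2, v3, v4⟩ := h.ex a (fun i => (h1 i).1) (fun i => (h1 i).2.2) hk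
    refine ⟨Fin.cons v a, Fin.cases ⟨v1, v2, v3⟩ h1, fun i j => ?_⟩
    induction i using Fin.cases <;> induction j using Fin.cases
    exacts [fun e => absurd rfl e, fun _ => v4 _, fun _ => (v4 _).symm, fun e => h2 _ _ fun q => e (congrArg Fin.succ q)]

theorem le_rank {k : ℕ} (f : Fin k → Ω → ℂ) (x : Fin k → Ω) (hf : ∀ i, f i ∈ W) (h1 : ∀ i, f i (x i) = 1)
    (h0 : ∀ i j, i ≠ j → f i (x j) = 0) : k ≤ finrank ℂ W := by
  have li : LinearIndependent ℂ fun i => (⟨f i, hf i⟩ : W) := by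
    rw [Fintype.linearIndependent_iff]
    intro d hd j
    have := congrFun (congrArg Subtype.val hd) (x j)
    simp only [AddSubmonoidClass.coe_finsetSum, SetLike.val_smul, Finset.sum_apply, Pi.smul_apply, smul_eq_mul,
      ZeroMemClass.coe_zero, Pi.zero_apply] at this
    rwa [Finset.sum_eq_single j (fun i _ e => by rw [h0 i j e, mul_zero]) (by simp), h1, mul_one] at this
  simpa using li.fintype_card_le_finrank

end P4

theorem R3.three_orb (h : R3 G Ω) {P : Subgroup G} (hP : Gf P) (x : Fin 4 → Ω) :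
    ∃ i j, i ≠ j ∧ ∃ p ∈ P, p • x i = x j := by
  by_contra hn
  have := h.fin
  have := Fintype.ofFinite Ω
  have := Fintype.ofFinite P
  have H : P4.Hk (hk P Ω) (inv P Ω) (Fintype.card P) := ⟨Nat.cast_ne_zero.mpr Fintype.card_ne_zero,
    fun g f _ => hk_mem g f, fun g f _ _ hw => hk_ip g f hw, fun g g' _ hf => hk_comm hP g g' hf⟩
  choose φ h1 h2 h3 using fun i => P4.ex_fun (1 : P →* ℂˣ) (x i) fun _ _ => rfl
  obtain ⟨a, k1, k2⟩ := H.fam 4 (P4.le_rank φ x (fun i p hp y => by simpa using h2 i ⟨p, hp⟩ y) h1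
    fun i j e => h3 i _ fun k => hn ⟨i, j, e, k⟩)
  exact h.o3 a (fun i => (k1 i).2.1) k2

theorem Btr.all (s : Sp U T N) (bt : Btr Ω U T) {ω : Ω} {t : G} (ht : t ∈ T) (h : Tw U ω t)
    (ω' : Ω) : Tw U ω' t := by
  obtain ⟨u, hu, r, hr, rfl⟩ := bt ω ω'
  exact (Tw.smul s ht hu hr).2 h

end CF.Rq
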