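import Cfsg.Agent.Rs.GF
import Cfsg.Agent.Rs.TA
import Cfsg.Agent.Rs.P4a

/-! Rank 3 actions of symplectic groups: transfer to the geometry, second part. -/

set_option autoImplicit false
open MulAction Module

namespace CF.Rs
open CF.Rq (R3 Sp Tw Oc Cj Btr Gf R4 In Pw Fl)

variable {F V : Type*} [Field F] [Fintype F] [AddCommGroup V] [Module F V]
  {B : V →ₗ[F] V →ₗ[F] F} {k : ℕ} {e : ℕ → V} {Ω : Type*} [MulAction (GG B) Ω]

theorem Fb.fr (h : Sy B) (b : Fb B k e) {Γ : Subgroup Fˣ}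
    (av : ∀ ω : Ω, ∀ α ∈ Γ, ∀ β ∈ Γ, ∃ τ, Aw B k e ω τ ∧ τ 0 = α ∧ τ 1 = β) (ω : Ω) :
    FR B (Kw B ω) Γ := fun x y t => by
  have := b.k3 h
  obtain ⟨g, k0, k1⟩ := b.wt2 h t
  obtain ⟨u, hu, tf⟩ := b.tf h (g⁻¹ • ω)
  obtain ⟨u0, u1⟩ := b.U_zero h (inv_mem hu)
  refine ⟨co B k e 0 (u⁻¹.1 (e 1)), fun α hα β hβ => ?_⟩
  obtain ⟨τ, a, rfl, rfl⟩ := av (u • g⁻¹ • ω) α hα β hβ
  obtain ⟨d, d1, d2⟩ := a.fix tf
  have d3 : ∀ i < k, (g * u⁻¹ * d * (u * g⁻¹)).1 (g.1 (u⁻¹.1 (e i))) = (τ i : F) • g.1 (u⁻¹.1 (e i)) := fun i hi => by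
    simp only [GG.mul_apply, GG.apply_inv, GG.inv_apply, (d1 i hi).1, map_smul]
  refine ⟨_, (mem_Kw (g := g * u⁻¹ * d * (u * g⁻¹))).2 ?_, ?_, ?_⟩
  · rw [mul_smul, mul_smul, mul_smul u, d2, mul_smul, inv_smul_smul, smul_inv_smul]
  · have := d3 0 (by omega)
    rwa [u0, k0] at this
  · have := d3 1 (by omega)
    rwa [u1, map_add g.1, map_smul g.1, k0, k1] at this

theorem TB.ln (h : Sy B) (b : Fb B k e) {x y : V} (t : Ti2 B x y) :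
    ∃ g : GG B, ∀ v, g.1 v ∈ Submodule.span F {x, y} ↔ v ∈ Fl F e 2 := by
  obtain ⟨g, h1, h2⟩ := b.wt2 h t
  refine ⟨g, fun v => ?_⟩
  simp only [Fl_two, Submodule.mem_span_pair]
  refine ⟨fun ⟨r, s, k⟩ => ⟨r, s, g.1.injective ?_⟩, fun ⟨r, s, k⟩ => ⟨r, s, ?_⟩⟩ <;> simp [← k, h1, h2]

theorem Fb.threeL (h : Sy B) (b : Fb B k e) (r : R3 (GG B) Ω) (ω : Ω) : ThreeL B (Kw B ω) := fun x y t => by
  have := h.finG
  choose g hg using fun i => TB.ln h b (t i)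
  obtain ⟨i, j, ne, p, hp, c⟩ := r.three_orb (b.gf h) fun i => (g i)⁻¹ • ω
  exact ⟨i, j, ne, (g j * p * (g i)⁻¹).1, mem_Kw.2 (by rw [mul_smul, mul_smul, c, smul_inv_smul]), fun v => by
    rw [GG.mul_apply, GG.mul_apply, hg, hp, ← hg, GG.inv_apply]⟩

theorem Fb.hu (h : Sy B) (b : Fb B k e) (hg : ∀ ω : Ω, Pn B k e 0 ω) (ω : Ω) :
    HU B (Kw B ω) := fun x y t => by
  have := b.k3 h
  obtain ⟨g, k0, k1⟩ := b.wt2 h t
  obtain ⟨g', s, u, hu, h1, h2⟩ := hg (g⁻¹ • ω)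
  have s2 := inv_mem (s 2 (by omega) (by omega))
  obtain ⟨u0, u1⟩ := b.U_zero h hu
  obtain ⟨p, q, e0⟩ := Submodule.mem_span_pair.1 (Fl_two (F := F) (e := e) ▸ St.map s2 (Rq.Fl.mem (by decide : 0 < 2)))
  obtain ⟨r, s, e1⟩ := Submodule.mem_span_pair.1 (Fl_two (F := F) (e := e) ▸ St.map s2 (Rq.Fl.mem (by decide : 1 < 2)))
  have ti := (b.ti2 (i := 0) (j := 1) (by omega) (by omega) (by omega) (by omega)).map g'⁻¹
  have m0 : p • x + q • y = g.1 (g'⁻¹.1 (e 0)) := by rw [← e0, map_add, map_smul, map_smul, k0, k1]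
  have m1 : r • x + s • y = g.1 (g'⁻¹.1 (e 1)) := by rw [← e1, map_add, map_smul, map_smul, k0, k1]
  have c : ∀ v, (g * g'⁻¹ * u * (g' * g⁻¹)).1 (g.1 (g'⁻¹.1 v)) = g.1 (g'⁻¹.1 (u.1 v)) := fun v => by
    simp only [GG.mul_apply, GG.apply_inv, GG.inv_apply]
  refine ⟨p, q, r, s, fun z => ?_, (g * g'⁻¹ * u * (g' * g⁻¹)).1,
    mem_Kw.2 (by rw [mul_smul, mul_smul, mul_smul g', h1, mul_smul, inv_smul_smul, smul_inv_smul]), _, h2, ?_, ?_⟩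
  · have a1 := ti.li s (-q) (by rw [← e0, ← e1]; linear_combination (norm := module) z • e 0)
    have a2 := ti.li r (-p) (by rw [← e0, ← e1]; linear_combination (norm := module) -(z • e 1))
    exact ti.ne.1 (by rw [← e0, neg_eq_zero.1 a1.2, neg_eq_zero.1 a2.2]; simp)
  · rw [m0, c, u0]
  · rw [m1, c, m0, ← map_smul, ← map_smul, ← map_add, ← map_add, ← u1]

theorem Fb.av_pow (h : Sy B) (b : Fb B k e) {m : ℕ} {ω : Ω}
    (hm : ∀ t ∈ Tt B k e, Tw (Uu B k e) ω (t ^ m)) {τ : ℕ → Fˣ} (hτ : ∀ i < k, τ i ∈ Pw F m) :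
    Aw B k e ω τ := by
  choose! σ hσ using hτ
  obtain ⟨t, ht⟩ := b.exists_dg h σ
  exact ⟨_, (ht.pow m).congr hσ, hm t ht.mem⟩

theorem Fb.rf (h : Sy B) (b : Fb B k e) {ω : Ω} {i : ℕ} (hi : i < k)
    (av : Aw B k e ω (d1 i (-1))) : ∃ (ω' : Ω) (x f : V), Rf B (Kw B ω') x f := by
  obtain ⟨u, hu, tf⟩ := b.tf h ω
  obtain ⟨t, ht, fx⟩ := ((Aw.smulU h b hu).2 av).fix tf
  refine ⟨_, e i, e (2 * k - 1 - i), b.B1 hi, t.1, mem_Kw.2 fx, fun v => ?_⟩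
  have := LinearMap.congr_fun (b.ext (f := (t.1 : V →ₗ[F] V))
    (g := LinearMap.id + (2 : F) • E B (e i) (e (2 * k - 1 - i)) - (2 : F) • E B (e (2 * k - 1 - i)) (e i))
    fun j hj => ?_) v
  · rw [h.skew (e (2 * k - 1 - i)) v]
    simpa [E_apply, smul_smul, sub_eq_add_neg] using this
  · simp only [LinearEquiv.coe_coe, LinearMap.sub_apply, LinearMap.add_apply, LinearMap.smul_apply, E_apply,
      LinearMap.id_apply, ht.on_e hj]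
    by_cases j1 : j = i
    · rw [j1, ev_lo _ hi, b.B2 hi, h.alt, d1, if_pos rfl]; simp; module
    by_cases j2 : j = 2 * k - 1 - i
    · rw [j2, ev_hi _ hi, b.B1 hi, h.alt, d1, if_pos rfl]; simp; module
    rw [b.B0 (by omega) hj (by omega), b.B0 (by omega) hj (by omega), ev, d1, d1, if_neg j1,
      if_neg (by omega : ¬ 2 * k - 1 - j = i)]
    simp

end CF.Rs
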