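import Cfsg.Agent.Rs.AR

/-! Two by two matrices over the field with three elements. -/

set_option autoImplicit false
open MulAction Module

namespace CF.Rs

variable {F : Type*} [Field F] [Fintype F]

namespace PS1

abbrev M3 : Type := Matrix (Fin 2) (Fin 2) (ZMod 3)

def f (a b c d : ZMod 3) : ZMod 3 := (a + d) * c - b * d * (c ^ 2 - 1)

theorem ex (h3 : Fintype.card F = 3) : Nonempty (F ≃+* ZMod 3) :=
  have := Fact.mk Nat.prime_three
  ⟨(ZMod.ringEquivOfPrime F Nat.prime_three h3).symm⟩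

theorem f_mul (M N : M3) (h : M.det = 1) (k : N.det = 1) :
    f ((M * N) 0 0) ((M * N) 0 1) ((M * N) 1 0) ((M * N) 1 1) =
      f (M 0 0) (M 0 1) (M 1 0) (M 1 1) + f (N 0 0) (N 0 1) (N 1 0) (N 1 1) := by
  simp only [Matrix.det_fin_two, Matrix.mul_apply, Fin.sum_univ_two] at h k ⊢
  generalize M 0 0 = a, M 0 1 = b, M 1 0 = c, M 1 1 = d, N 0 0 = a', N 0 1 = b', N 1 0 = c', N 1 1 = d' at h k ⊢
  revert a b c d a' b' c' d'
  decide +kernel

theorem fin (a b c d : ZMod 3) : (a * d - b * c = 1 → (f a b c d ≠ 0 →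
    ((!![a, b; c, d] : M3) ^ 2 - 1) ^ 2 = 0 ∧ (!![a, b; c, d] : M3) ^ 4 ≠ 1) ∧ (!![a, b; c, d] : M3) ^ 12 = 1) ∧
    (a * d - b * c = -1 → (!![a, b; c, d] : M3) ^ 4 = 1 → (!![a, b; c, d] : M3) ^ 2 = 1) := by
  revert a b c d
  decide +kernel

theorem fin' (M : M3) : (M.det = 1 → (f (M 0 0) (M 0 1) (M 1 0) (M 1 1) ≠ 0 → (M ^ 2 - 1) ^ 2 = 0 ∧ M ^ 4 ≠ 1) ∧
    M ^ 12 = 1) ∧ (M.det = -1 → M ^ 4 = 1 → M ^ 2 = 1) := by
  have := fin (M 0 0) (M 0 1) (M 1 0) (M 1 1)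
  rwa [← Matrix.eta_fin_two M, ← Matrix.det_fin_two] at this

theorem det_map (e : F ≃+* ZMod 3) (M : Matrix (Fin 2) (Fin 2) F) : (e.mapMatrix M).det = e M.det :=
  (e.toRingHom.map_det M).symm

end PS1
open PS1

theorem sl3_char (h3 : Fintype.card F = 3) : ∃ χ : Matrix (Fin 2) (Fin 2) F → ℂˣ,
    (∀ M M', M.det = 1 → M'.det = 1 → χ (M * M') = χ M * χ M') ∧
    (∀ a : F, a ≠ 0 → χ !![1, a; 0, 1] ≠ 1 ∧ χ !![1, 0; a, 1] ≠ 1) ∧
    ∀ M, M.det = 1 → χ M ≠ 1 → (M ^ 2 - 1) ^ 2 = 0 ∧ M ^ 4 ≠ 1 := by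
  obtain ⟨e⟩ := ex h3
  obtain ⟨ζ, hζ⟩ := HasEnoughRootsOfUnity.exists_primitiveRoot ℂ 3
  have h := hζ.isUnit_unit (by decide)
  let ψ := AddChar.zmodChar 3 h.pow_eq_one
  have hψ : ∀ x, ψ x = 1 ↔ x = 0 := fun x => ⟨fun k => by
    rw [AddChar.zmodChar_apply, h.pow_eq_one_iff_dvd] at k
    revert x; decide, fun k => k ▸ ψ.map_zero_eq_one⟩
  let g := fun M : M3 => f (M 0 0) (M 0 1) (M 1 0) (M 1 1)
  refine ⟨fun M => ψ (g (e.mapMatrix M)), fun M N h k => ?_, fun a h => ?_, fun M h k => ?_⟩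
  · simp only [map_mul, g]
    rw [f_mul _ _ (by rw [det_map, h, map_one]) (by rw [det_map, k, map_one]), ψ.map_add_eq_mul]
  · have := e.injective.ne h
    rw [map_zero] at this
    simp only [Ne, hψ, g, RingEquiv.mapMatrix_apply, Matrix.map_apply, Matrix.of_apply, Matrix.cons_val', Matrix.cons_val_zero,
      Matrix.cons_val_one, Matrix.cons_val_fin_one, map_one, map_zero]
    generalize e a = b at this
    revert b; decide
  · obtain ⟨h1, h2⟩ := ((fin' (e.mapMatrix M)).1 (by rw [det_map, h, map_one])).1 (mt (hψ _).2 k)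
    exact ⟨e.mapMatrix.injective (by simpa only [map_pow, map_sub, map_one, map_zero] using h1),
      fun k => h2 (by rw [← map_pow, k, map_one])⟩

theorem sl3_four (h3 : Fintype.card F = 3) {M : Matrix (Fin 2) (Fin 2) F} (h1 : M.det = 1) :
    M ^ 12 = 1 := by
  obtain ⟨e⟩ := ex h3
  exact e.mapMatrix.injective (by
    rw [map_pow, map_one]; exact ((fin' (e.mapMatrix M)).1 (by rw [det_map, h1, map_one])).2)

theorem gl3_two (h3 : Fintype.card F = 3) {M : Matrix (Fin 2) (Fin 2) F} (h1 : M.det = -1)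
    (h4 : M ^ 4 = 1) : M ^ 2 = 1 := by
  obtain ⟨e⟩ := ex h3
  exact e.mapMatrix.injective (by
    rw [map_pow, map_one]
    exact (fin' (e.mapMatrix M)).2 (by rw [det_map, h1, map_neg, map_one]) (by rw [← map_pow, h4, map_one]))

end CF.Rs
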