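import Cfsg.Agent.Rs.TA
import Cfsg.Agent.Rs.WT
import Cfsg.Agent.Rs.AR
import Cfsg.Agent.Rs.PS1

/-! Involutions in the point stabilisers, `k = 3`. -/

set_option autoImplicit false
set_option linter.unusedSectionVars false
open MulAction Module

namespace CF.Rs
open CF.Rq (R3 Sp Tw Oc Cj Btr Gf R4 In Pw Fl)

variable {F V : Type*} [Field F] [Fintype F] [AddCommGroup V] [Module F V]
  {B : V →ₗ[F] V →ₗ[F] F} {k : ℕ} {e : ℕ → V} {Ω : Type*} [MulAction (GG B) Ω]

theorem Fb.ui (h : Sy B) (b : Fb B 3 e) (cs : Cs B 3 e Ω) : Ui B Ω := by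
  intro ω s hs ss
  by_contra hn
  push Not at hn
  obtain ⟨s1, v, hv⟩ := hn
  obtain ⟨w, hw⟩ : ∃ w, s.1 w ≠ w := by
    by_contra hw
    push Not at hw
    exact s1 (Subtype.ext (LinearEquiv.ext hw))
  have s2 : ∀ v, s.1 (s.1 v) = v := fun v => by rw [← GG.mul_apply, ss]; rfl
  have h2 := h.odd
  -- eigenvectors
  have pl : ∀ v, s.1 (v + s.1 v) = (1 : F) • (v + s.1 v) := fun v => by
    rw [map_add, s2, one_smul, add_comm]
  have mi : ∀ v, s.1 (v - s.1 v) = (-1 : F) • (v - s.1 v) := fun v => by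
    rw [map_sub, s2]; module
  set x := v + s.1 v with hx
  set y := w - s.1 w with hy
  have x0 : x ≠ 0 := fun t => hv (eq_neg_of_add_eq_zero_right t)
  have y0 : y ≠ 0 := fun t => hw (sub_eq_zero.1 t).symm
  have sx : s.1 x = (1 : F) • x := pl v
  have sy : s.1 y = (-1 : F) • y := mi w
  have t : Ti2 B x y := ⟨by
      have := GG.map s x y
      rw [sx, sy] at this
      simp only [map_smul, LinearMap.smul_apply, smul_eq_mul] at this
      exact (mul_eq_zero.1 (by linear_combination -this : 2 * B x y = 0)).resolve_left h2,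
    fun a c hac => by
      have h3 := congrArg s.1 hac
      rw [map_add, map_smul, map_smul, sx, sy, map_zero] at h3
      have h4 : (2 * a) • x = 0 := by linear_combination (norm := module) hac + h3
      have h5 : (2 * c) • y = 0 := by linear_combination (norm := module) hac - h3
      exact ⟨by simpa [h2, x0] using h4, by simpa [h2, y0] using h5⟩⟩
  obtain ⟨z, c, t3, sz⟩ : ∃ z, ∃ c : F, Ti3 B x y z ∧ s.1 z = c • z := by
    obtain ⟨z, t3⟩ := t.ext h
    have a1 : B x (s.1 z) = 0 := by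
      have := GG.map s x z; rwa [sx, one_smul, t3.xz] at this
    have a2 : B y (s.1 z) = 0 := by
      have := GG.map s y z; rw [sy, t3.yz] at this; simpa using this
    have key : ∀ u, B x u = 0 → B y u = 0 → u ∉ Submodule.span F {x, y} → Ti3 B x y u :=
      fun u b1 b2 b3 => ⟨t.xy, b1, b2, fun p q r hp => by
        have r0 : r = 0 := by_contra fun r0 => b3 (Submodule.mem_span_pair.2 ⟨-p / r, -q / r, by
          apply smul_right_injective V r0
          simp only [smul_add, smul_smul, mul_div_cancel₀ _ r0]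
          linear_combination (norm := module) -hp⟩)
        obtain ⟨p0, q0⟩ := t.li p q (by simpa [r0] using hp)
        exact ⟨p0, q0, r0⟩⟩
    by_cases m : z + s.1 z ∈ Submodule.span F {x, y}
    · refine ⟨_, _, key _ (by simp [a1, t3.xz]) (by simp [a2, t3.yz]) fun m' => ?_, mi z⟩
      obtain ⟨p, q, hp⟩ := Submodule.mem_span_pair.1 (add_mem m m')
      exact h2 (neg_eq_zero.1 (t3.li p q (-2) (by linear_combination (norm := module) hp)).2.2)
    · exact ⟨_, _, key _ (by simp [a1, t3.xz]) (by simp [a2, t3.yz]) m, pl z⟩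
  obtain ⟨g, g0, g1, g2⟩ := b.wt3 h t3
  have ev : ∀ {i : ℕ} {u : V} {c : F}, g.1 (e i) = u → s.1 u = c • u →
      (g⁻¹ * s * g).1 (e i) = c • e i := fun a1 a2 => by
    rw [GG.mul_apply, GG.mul_apply, a1, a2, map_smul, ← a1, GG.apply_inv]
  obtain ⟨τ, a1, a2⟩ := b.aw_of h (ω := g⁻¹ • ω) (g := g⁻¹ * s * g) (by simp [mul_smul, hs])
    fun j hj => h.mem_St_Fl fun i hi => by
      obtain rfl | rfl | rfl : i = 0 ∨ i = 1 ∨ i = 2 := by omega
      · rw [ev g0 sx]; exact Submodule.smul_mem _ _ (Rq.Fl.mem hi)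
      · rw [ev g1 sy]; exact Submodule.smul_mem _ _ (Rq.Fl.mem hi)
      · rw [ev g2 sz]; exact Submodule.smul_mem _ _ (Rq.Fl.mem hi)
  have b0 := a2 0 (by omega)
  have b1 := a2 1 (by omega)
  rw [ev g0 sx, map_smul, b.co_e (by omega) (by omega), (cs _ τ a1).1, ← b1, ev g1 sy, map_smul,
    b.co_e (by omega) (by omega)] at b0
  exact h2 (by simp only [if_true, smul_eq_mul] at b0; linear_combination b0)

theorem TG1.bk_neg (b : Fb B k e) {i : ℕ} (hi : i + 2 ≤ 2 * k) {s : GG B} (hs : ∀ v, s.1 v = -v) :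
    bk B k e i s = -1 := by
  have h0 : i < 2 * k := by omega
  have h1 : i + 1 < 2 * k := by omega
  ext a c
  fin_cases a <;> fin_cases c <;>
    simp [bk, hs, b.co_e h0 h0, b.co_e h0 h1, b.co_e h1 h0, b.co_e h1 h1]

theorem Fb.eta_stab (h : Sy B) (b : Fb B 3 e) (h3 : Fintype.card F = 3) (ui : Ui B Ω) {ω : Ω}
    {p : GG B} (hp : p ∈ St B (Fl F e 2)) (hω : p • ω = ω) : (bk B 3 e 0 p).det = 1 := by
  have := h.finG
  have h2 := h.odd
  have z0 : ∀ g : GG B, g ∈ St B (Fl F e 0) := fun g => h.mem_St_Fl fun i hi => by omega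
  have n1 : (-1 : Matrix (Fin 2) (Fin 2) F) ≠ 1 := fun t =>
    h2 (by have := congrFun (congrFun t 0) 0; simp at this; linear_combination -this)
  by_contra hn
  have d1 : (bk B 3 e 0 p).det = -1 := by
    have h4 := congrArg Matrix.det (b.bk_mul (i := 0) (by omega) (z0 p) (inv_mem hp))
    rw [mul_inv_cancel, b.bk_one (by omega), Matrix.det_one, Matrix.det_mul] at h4
    rcases f3_cases h3 (bk B 3 e 0 p).det with t | t | t
    · simp [t] at h4
    · exact absurd t hn
    · exact t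
  obtain ⟨a, m, hm, ho⟩ := Nat.exists_eq_two_pow_mul_odd (orderOf_pos p).ne'
  set s := p ^ m with hs
  have s2 : s ∈ St B (Fl F e 2) := Subgroup.pow_mem _ hp m
  have s4 : s ∈ St B (Fl F e (2 + 2)) := b.St_rev (i := 2) (by omega) s2
  have sω : ∀ n : ℕ, s ^ n • ω = ω := fun n =>
    Subgroup.pow_mem _ (Subgroup.pow_mem (stabilizer (GG B) ω) hω m) n
  have d2 : (bk B 3 e 0 s).det = -1 := by
    rw [hs, b.bk_pow (by omega) (z0 p) hp, Matrix.det_pow, d1, hm.neg_one_pow]
  have sa : s ^ 2 ^ a = 1 := by rw [hs, ← pow_mul, mul_comm, ← ho, pow_orderOf_eq_one]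
  have m4 : bk B 3 e 2 s ^ 4 = 1 := by
    have h4 := sl3_four h3 (b.bk_det h (i := 2) rfl s2)
    have h5 : bk B 3 e 2 s ^ 2 ^ a = 1 := by
      rw [← b.bk_pow (by omega) s2 s4, sa, b.bk_one (by omega)]
    have h6 := pow_gcd_eq_one.2 ⟨h4, h5⟩
    have h7 : Nat.gcd 12 (2 ^ a) ∣ 4 :=
      Nat.Coprime.dvd_of_dvd_mul_left (k := Nat.gcd 12 (2 ^ a)) (n := 4) (m := 3)
        (Nat.Coprime.coprime_dvd_left (Nat.gcd_dvd_right _ _)
          (Nat.Coprime.pow_left _ (by norm_num))) (Nat.gcd_dvd_left _ _)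
    obtain ⟨c, hc⟩ := h7
    rw [hc, pow_mul, h6, one_pow]
  have dn : ∀ j : ℕ, s ^ 2 ^ (j + 2) = 1 → s ^ 4 = 1 := by
    intro j
    induction j with
    | zero => exact id
    | succ j ih =>
      intro t
      rcases ui ω _ (sω (2 ^ (j + 2))) (by rw [← pow_add, ← two_mul, ← pow_succ', t]) with r | r
      · exact ih r
      · have h4 := TG1.bk_neg b (i := 2) (by omega) r
        rw [b.bk_pow (by omega) s2 s4, pow_add, mul_comm, pow_mul] at h4
        norm_num [m4] at h4
        exact absurd h4.symm n1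
  have f4 : s ^ 4 = 1 := dn a (by rw [pow_add, pow_mul, sa, one_pow])
  have m2 := gl3_two h3 d2 (by rw [← b.bk_pow (by omega) (z0 s) s2, f4, b.bk_one (by omega)])
  rw [← b.bk_pow (by omega) (z0 s) s2] at m2
  rcases ui ω _ (sω 2) (by rw [← pow_add, f4]) with r | r
  · rcases ui ω s (by simpa using sω 1) (by rw [← sq, r]) with r | r
    · rw [r, b.bk_one (by omega), Matrix.det_one] at d2
      exact h2 (by linear_combination d2)
    · rw [TG1.bk_neg b (by omega) r, Matrix.det_neg] at d2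
      exact h2 (by simp at d2; linear_combination d2)
  · exact n1 ((TG1.bk_neg b (by omega) r).symm.trans m2)

end CF.Rs
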