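import Cfsg.Agent.Rs.P4a

/-! Rank three: a twisted Hecke algebra of dimension at most three is commutative. -/

set_option autoImplicit false
set_option linter.unusedSectionVars false
open MulAction Module Matrix

namespace CF.Rq
variable {G : Type*} [Group G] [Finite G] {Ω : Type*} [MulAction G Ω] {U T N : Subgroup G}

namespace P4
variable [Fintype Ω] [DecidableEq Ω]

theorem comm3 {A B : Matrix Ω Ω ℂ} {e : Matrix Ω Ω ℂ} (eA : e * A = A * e) (eB : e * B = B * e)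
    (h : (A * B - B * A)ᴴ ∈ Submodule.span ℂ {e, A, B}) : A * B = B * A := by
  have k : ∀ D ∈ Submodule.span ℂ {e, A, B}, trace ((A * B - B * A) * D) = 0 := fun D hD => by
    induction hD using Submodule.span_induction with
    | mem D hD =>
      rw [Matrix.sub_mul, trace_sub, sub_eq_zero]
      rcases hD with rfl | rfl | rfl
      · rw [Matrix.mul_assoc, trace_mul_comm, Matrix.mul_assoc, eA, Matrix.mul_assoc]
      · rw [trace_mul_comm (B * D), Matrix.mul_assoc]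
      · rw [Matrix.mul_assoc D, trace_mul_comm D, Matrix.mul_assoc]
    | zero => simp
    | add _ _ _ _ a b => rw [Matrix.mul_add, trace_add, a, b, add_zero]
    | smul _ _ _ a => rw [Matrix.mul_smul, trace_smul, a, smul_zero]
  open ComplexOrder in exact sub_eq_zero.1 (trace_mul_conjTranspose_self_eq_zero_iff.1 (k _ h))

theorem comm_span {R : Type*} [Ring R] [Algebra ℂ R] {s : Set R} (h : ∀ a ∈ s, ∀ b ∈ s, Commute a b) {a b : R}
    (ha : a ∈ Submodule.span ℂ s) (hb : b ∈ Submodule.span ℂ s) : Commute a b := by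
  induction ha, hb using Submodule.span_induction₂ with
  | mem_mem _ _ a b => exact h _ a _ b
  | zero_left => exact Commute.zero_left _
  | zero_right => exact Commute.zero_right _
  | add_left _ _ _ _ _ _ a b => exact a.add_left b
  | add_right _ _ _ _ _ _ a b => exact a.add_right b
  | smul_left _ _ _ _ _ a => exact a.smul_left _
  | smul_right _ _ _ _ _ a => exact a.smul_right _

/-- permutation matrices -/
def pm (Ω : Type*) [MulAction G Ω] [DecidableEq Ω] (g : G) : Matrix Ω Ω ℂ := fun x y => if g • x = y then 1 else 0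

theorem pm_vec (g : G) (f : Ω → ℂ) (x : Ω) : (pm Ω g *ᵥ f) x = f (g • x) := by
  simp [pm, mulVec, dotProduct]

theorem pm_mul (g h : G) : pm Ω g * pm Ω h = pm Ω (h * g) := by
  ext x y
  exact (pm_vec g (fun j => pm Ω h j y) x).trans (by simp only [pm, mul_smul])

theorem pm_star (g : G) : (pm Ω g)ᴴ = pm Ω g⁻¹ := by
  ext x y
  simp only [pm, conjTranspose_apply, inv_smul_eq_iff, eq_comm (a := x)]
  split_ifs <;> simp

variable {P : Subgroup G} [Fintype P] (η : P →* ℂˣ)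

/-- the idempotent of `η`, up to a scalar -/
noncomputable def id' (Ω : Type*) [MulAction G Ω] [DecidableEq Ω] : Matrix Ω Ω ℂ :=
  ∑ p : P, (η p⁻¹ : ℂ) • pm Ω (p : G)

theorem id_pm (p : P) : id' η Ω * pm Ω (p : G) = (η p : ℂ) • id' η Ω := by
  simp only [id', Finset.sum_mul, Finset.smul_sum, smul_mul_assoc, pm_mul, smul_smul]
  refine Fintype.sum_equiv (Equiv.mulLeft p) _ _ fun q => ?_
  simp [mul_comm]

theorem pm_id (p : P) : pm Ω (p : G) * id' η Ω = (η p : ℂ) • id' η Ω := by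
  simp only [id', Finset.mul_sum, Finset.smul_sum, mul_smul_comm, pm_mul, smul_smul]
  refine Fintype.sum_equiv (Equiv.mulRight p) _ _ fun q => ?_
  simp

theorem conj_inv (p : P) : star (η p⁻¹ : ℂ) = η p := by
  have := char_conj η p⁻¹
  rw [map_inv η, Units.val_inv_eq_inv_val, mul_inv_eq_one₀ (Units.ne_zero _)] at this
  rw [map_inv η, Units.val_inv_eq_inv_val]
  exact this

theorem id_star : (id' η Ω)ᴴ = id' η Ω := by
  simp only [id', conjTranspose_sum, conjTranspose_smul, pm_star, conj_inv]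
  exact Fintype.sum_equiv (Equiv.inv P) _ _ fun q => by simp

theorem id_id : id' η Ω * id' η Ω = (Fintype.card P : ℂ) • id' η Ω := by
  nth_rewrite 1 [id']
  simp [Finset.sum_mul, pm_id, smul_smul, Nat.cast_smul_eq_nsmul]

/-- the Hecke operators -/
noncomputable def hm (Ω : Type*) [MulAction G Ω] [Fintype Ω] [DecidableEq Ω] (g : G) : Matrix Ω Ω ℂ :=
  id' η Ω * pm Ω g * id' η Ω

theorem hm_star (g : G) : (hm η Ω g)ᴴ = hm η Ω g⁻¹ := by
  simp only [hm, conjTranspose_mul, id_star, pm_star, Matrix.mul_assoc]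

theorem hm_dc (p p' : P) (g : G) : hm η Ω (p * g * p') = (η p * η p' : ℂ) • hm η Ω g := by
  simp only [hm, ← pm_mul, Matrix.mul_assoc, pm_id]
  rw [← Matrix.mul_assoc, id_pm]
  simp only [mul_smul_comm, smul_mul_assoc, smul_smul]

theorem hm_mul (g g' : G) :
    hm η Ω g * hm η Ω g' = (Fintype.card P : ℂ) • ∑ p : P, (η p⁻¹ : ℂ) • hm η Ω (g' * p * g) := by
  have : hm η Ω g * hm η Ω g' = id' η Ω * pm Ω g * (id' η Ω * id' η Ω) * pm Ω g' * id' η Ω := by
    simp only [hm, Matrix.mul_assoc]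
  rw [this, id_id]
  nth_rewrite 2 [id']
  simp only [hm, ← pm_mul, mul_smul_comm, smul_mul_assoc, Finset.mul_sum, Finset.sum_mul, Matrix.mul_assoc]

theorem hm_one (g : G) : hm η Ω 1 * hm η Ω g = hm η Ω g * hm η Ω 1 := by
  simp only [hm_mul, one_mul, mul_one]
  congr 1
  refine Finset.sum_congr rfl fun p _ => ?_
  have a := hm_dc (Ω := Ω) η 1 p g
  have b := hm_dc (Ω := Ω) η p 1 g
  simp only [OneMemClass.coe_one, one_mul, mul_one, map_one, Units.val_one] at a b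
  rw [a, b]

theorem hm_comm {g₁ g₂ : G} (hd : ∀ g : G, g ∈ P ∨ (∃ p ∈ P, ∃ p' ∈ P, g = p * g₁ * p') ∨
      (∃ p ∈ P, ∃ p' ∈ P, g = p * g₂ * p') ∨ ∃ p p' : P, (p : G) * g = g * p' ∧ η p ≠ η p') (g g' : G) :
    Commute (hm η Ω g) (hm η Ω g') := by
  have m : ∀ g, hm η Ω g ∈ Submodule.span ℂ {hm η Ω 1, hm η Ω g₁, hm η Ω g₂} := fun g => by
    rcases hd g with a | ⟨p, a, p', b, rfl⟩ | ⟨p, a, p', b, rfl⟩ | ⟨p, p', a, b⟩
    · have := hm_dc (Ω := Ω) η ⟨g, a⟩ 1 1
      simp only [OneMemClass.coe_one, mul_one] at this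
      exact this ▸ Submodule.smul_mem _ _ (Submodule.subset_span (by simp))
    · exact hm_dc (Ω := Ω) η ⟨p, a⟩ ⟨p', b⟩ g₁ ▸ Submodule.smul_mem _ _ (Submodule.subset_span (by simp))
    · exact hm_dc (Ω := Ω) η ⟨p, a⟩ ⟨p', b⟩ g₂ ▸ Submodule.smul_mem _ _ (Submodule.subset_span (by simp))
    · have c := hm_dc (Ω := Ω) η 1 p' g
      have d := hm_dc (Ω := Ω) η p 1 g
      simp only [OneMemClass.coe_one, one_mul, mul_one, map_one, Units.val_one] at c d
      rw [a, c, ← sub_eq_zero, ← sub_smul, smul_eq_zero, sub_eq_zero] at d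
      rw [d.resolve_left fun e => b (Units.ext e.symm)]
      exact zero_mem _
  have mm : ∀ g g', hm η Ω g * hm η Ω g' ∈ Submodule.span ℂ {hm η Ω 1, hm η Ω g₁, hm η Ω g₂} := fun g g' =>
    hm_mul (Ω := Ω) η g g' ▸ Submodule.smul_mem _ _ (sum_mem fun p _ => Submodule.smul_mem _ _ (m _))
  have c : Commute (hm η Ω g₁) (hm η Ω g₂) := comm3 (hm_one η g₁) (hm_one η g₂) (by
    simp only [conjTranspose_sub, conjTranspose_mul, hm_star]
    exact sub_mem (mm _ _) (mm _ _))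
  refine comm_span (fun a ha b hb => ?_) (m g) (m g')
  rcases ha with rfl | rfl | rfl <;> rcases hb with rfl | rfl | rfl
  exacts [.refl _, hm_one η _, hm_one η _, (hm_one η _).symm, .refl _, c, (hm_one η _).symm, c.symm, .refl _]

/-- the `η`-eigenfunctions -/
def eig (Ω : Type*) [MulAction G Ω] : Submodule ℂ (Ω → ℂ) where
  carrier := {f | ∀ (p : P) (x : Ω), f ((p : G) • x) = η p * f x}
  add_mem' {a b} ha hb p x := by simp [ha p, hb p, mul_add]
  zero_mem' _ _ := by simp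
  smul_mem' c f hf p x := by simp [hf p, mul_left_comm]

theorem id_vec (f : Ω → ℂ) (x : Ω) : (id' η Ω *ᵥ f) x = ∑ p : P, (η p⁻¹ : ℂ) * f ((p : G) • x) := by
  simp only [id', sum_mulVec, smul_mulVec, Finset.sum_apply, Pi.smul_apply, pm_vec, smul_eq_mul]

theorem id_eig {f : Ω → ℂ} (hf : f ∈ eig η Ω) : id' η Ω *ᵥ f = (Fintype.card P : ℂ) • f := by
  funext x
  simp [id_vec, hf _ x]

theorem hk_hm (hc : ∀ g g' : G, Commute (hm η Ω g) (hm η Ω g')) :
    Hk (fun g : G => (hm η Ω g).mulVecLin) (eig η Ω) (Fintype.card P * Fintype.card P) := by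
  have c0 : (Fintype.card P : ℂ) ≠ 0 := Nat.cast_ne_zero.mpr Fintype.card_ne_zero
  refine ⟨mul_ne_zero c0 c0, fun g f _ p x => ?_, fun g f hf w hw => ?_, fun g g' f _ => ?_⟩
  · simp only [mulVecLin_apply]
    rw [← pm_vec (p : G) (hm η Ω g *ᵥ f), mulVec_mulVec, hm, ← Matrix.mul_assoc, ← Matrix.mul_assoc, pm_id]
    simp only [smul_mul_assoc, smul_mulVec, Pi.smul_apply, smul_eq_mul]
  · have e : ∀ u : Ω → ℂ, ipr w (id' η Ω *ᵥ u) = Fintype.card P * ipr w u := fun u => by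
      have a : ∀ u : Ω → ℂ, ipr w u = star w ⬝ᵥ u := fun u => dotProduct_comm _ _
      rw [a, a, dotProduct_mulVec, ← id_star, ← star_mulVec, id_eig η hw]
      simp
    simp only [mulVecLin_apply, hm, ← mulVec_mulVec, e, id_eig η hf, mulVec_smul, map_smul, smul_eq_mul, mul_assoc]
    simp only [ipr, LinearMap.coe_mk, AddHom.coe_mk, pm_vec]
  · simp only [mulVecLin_apply, mulVec_mulVec, (hc g g').eq]

end P4

theorem R3.tg (h : R3 G Ω) (s : Sp U T N) (nb : ¬ Btr Ω U T) {P : Subgroup G} (hU : U ≤ P)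
    (hT : T ≤ P) (η : P →* ℂˣ) (e1 : ∀ p : P, (p : G) ∈ U → η p = 1)
    (e2 : ∃ p : P, (p : G) ∈ T ∧ η p ≠ 1) (g₁ g₂ : G)
    (hd : ∀ g : G, g ∈ P ∨ (∃ p ∈ P, ∃ p' ∈ P, g = p * g₁ * p') ∨
      (∃ p ∈ P, ∃ p' ∈ P, g = p * g₂ * p') ∨ ∃ p p' : P, (p : G) * g = g * p' ∧ η p ≠ η p')
    (hs : ∀ (ω : Ω) (p : P), (p : G) • ω = ω → η p = 1) (ω ω' : Ω) : ∃ p ∈ P, p • ω = ω' := by
  classical
  by_contra hn
  have := h.fin
  have := Fintype.ofFinite Ω
  have := Fintype.ofFinite P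
  have := h.ne
  choose φ h1 h2 h3 using fun y => P4.ex_fun η y (hs y)
  obtain ⟨a, k1, k2⟩ := (P4.hk_hm η (P4.hm_comm (Ω := Ω) η hd)).fam 2 (P4.le_rank (fun i => φ (![ω, ω'] i)) ![ω, ω']
    (fun i => h2 _) (fun i => h1 _) fun i j e => h3 _ _ fun ⟨p, hp, q⟩ => by
      fin_cases i <;> fin_cases j
      exacts [e rfl, hn ⟨p, hp, q⟩, hn ⟨p⁻¹, P.inv_mem hp, inv_smul_eq_iff.2 q.symm⟩, e rfl])
  let l : T →* ℂˣ := η.comp (Subgroup.inclusion hT)
  have nc : ¬ Cj T N 1 l := fun hc => by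
    obtain ⟨p, hp, e⟩ := e2
    exact e (DFunLike.congr_fun (orderOf_eq_one_iff.mp ((hc.order s).symm.trans orderOf_one)) ⟨p, hp⟩)
  have a1 : ∀ i, ∀ u ∈ U, ∀ x, a i (u • x) = a i x := fun i u hu x => by
    simpa [e1 ⟨u, hU hu⟩ hu] using (k1 i).1 ⟨u, hU hu⟩ x
  have a2 : ∀ i (t : T) (x : Ω), a i ((t : G) • x) = l t * a i x := fun i t => (k1 i).1 ⟨t, hT t.2⟩
  obtain ⟨z, z0, z1, z2, oz⟩ := P4.ex_w s nb
  have o := fun i => s.orth (v := (1 : Ω → ℂ)) nc (fun _ _ _ => rfl) (by simp) (a1 i) (a2 i)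
  exact h.o4 one_ne_zero z0 (k1 0).2.1 (k1 1).2.1 oz (o 0) (o 1) (s.orth nc z1 z2 (a1 0) (a2 0))
    (s.orth nc z1 z2 (a1 1) (a2 1)) (k2 0 1 (by decide))

end CF.Rq
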