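import Cfsg.Agent.Rs.GF
import Cfsg.Agent.Rs.AR
import Cfsg.Agent.Rs.P4c
import Cfsg.Agent.Rs.TG1

/-! Rank 3 actions of symplectic groups: the line stabiliser of `Sp₆(3)` is transitive. -/

set_option autoImplicit false
open MulAction Module

namespace CF.Rs
open CF.Rq (R3 Sp Tw Oc Cj Btr Gf R4 In Pw Fl)
open GF (R)

variable {F V : Type*} [Field F] [Fintype F] [AddCommGroup V] [Module F V]
  {B : V →ₗ[F] V →ₗ[F] F} {k : ℕ} {e : ℕ → V} {Ω : Type*} [MulAction (GG B) Ω]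

namespace TG2

theorem dm (h : Sy B) (b : Fb B k e) (p : GG B) {p' : GG B} (hp' : p' ∈ St B (Fl F e 2)) :
    (bk B k e 0 (p * p')).det = (bk B k e 0 p).det * (bk B k e 0 p').det := by
  have := b.k3 h
  rw [b.bk_mul (by omega) (h.mem_St_Fl fun i hi => absurd hi (by omega)) hp', Matrix.det_mul]

theorem dU (h : Sy B) (b : Fb B k e) {u : GG B} (hu : u ∈ Uu B k e) : (bk B k e 0 u).det = 1 := by
  have := b.k3 h
  rw [b.bk_U (by omega) hu]; simp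

theorem dd (h : Sy B) (b : Fb B k e) {t : GG B} {x y : F} (h0 : t.1 (e 0) = x • e 0) (h1 : t.1 (e 1) = y • e 1) :
    (bk B k e 0 t).det = x * y := by
  have := b.k3 h
  simp (disch := omega) [bk, h0, h1, b.co_e]

theorem cj {n t : GG B} {i a : ℕ} {x : F} (r : R e n i a) (ht : t.1 (e a) = x • e a) :
    (n⁻¹ * t * n).1 (e i) = x • e i := by
  obtain ⟨c, p⟩ := r
  rw [GG.mul_apply, GG.mul_apply, p, map_smul, ht, smul_comm, ← p, map_smul, GG.apply_inv]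

end TG2
open TG2

theorem Fb.dcs (h : Sy B) (b : Fb B 3 e) (h3 : Fintype.card F = 3) : ∃ g₁ g₂ : GG B, ∀ g : GG B,
    g ∈ St B (Fl F e 2) ∨ (∃ p ∈ St B (Fl F e 2), ∃ p' ∈ St B (Fl F e 2), g = p * g₁ * p') ∨
      (∃ p ∈ St B (Fl F e 2), ∃ p' ∈ St B (Fl F e 2), g = p * g₂ * p') ∨
      ∃ p ∈ St B (Fl F e 2), ∃ p' ∈ St B (Fl F e 2), p * g = g * p' ∧
        (bk B 3 e 0 p).det ≠ (bk B 3 e 0 p').det := by
  have _ := h3
  obtain ⟨g₁, -, r1⟩ := b.mon h (fun i => if i = 1 then 4 else if i = 4 then 1 else i) (by decide) (by decide)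
    (by decide)
  obtain ⟨g₂, -, r2⟩ := b.mon h (fun i => if i = 2 ∨ i = 3 then i else 5 - i) (by decide) (by decide) (by decide)
  obtain ⟨s, -, r3⟩ := b.mon h (fun i => if i = 0 then 1 else if i = 1 then 0 else if i = 4 then 5 else
    if i = 5 then 4 else i) (by decide) (by decide) (by decide)
  have a0 : R e g₁ 0 0 := r1 0 (by decide)
  have a1 : R e g₁ 1 4 := r1 1 (by decide)
  have b0 : R e g₂ 0 5 := r2 0 (by decide)
  have b1 : R e g₂ 1 4 := r2 1 (by decide)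
  have s0 : R e s 0 1 := r3 0 (by decide)
  have s4 : R e s 4 5 := r3 4 (by decide)
  have sP : s ∈ St B (Fl F e 2) := s0.mem h (r3 1 (by decide) : R e s 1 0) (by decide) (by decide)
  refine ⟨g₁, g₂, fun g => ?_⟩
  obtain ⟨u, hu, n, hn, u', hu', rfl⟩ := (b.sp h).br g
  have l : Uu B 3 e ≤ St B (Fl F e 2) := fun _ hu => h.U_St hu (by omega)
  obtain ⟨i, hi, j, hj, a, c, z1, z2⟩ := GF.two h b hn
  by_cases m : i = 2 ∨ i = 3 ∨ j = 2 ∨ j = 3
  · obtain ⟨t, ht⟩ := b.exists_dg h (d1 2 (-1))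
    have tP := h.T_St ht.mem (j := 2) (by omega)
    have nP := h.T_St ((b.sp h).nT n hn t ht.mem) (j := 2) (by omega)
    refine .inr (.inr (.inr ⟨u * t * u⁻¹, mul_mem (mul_mem (l hu) tP) (inv_mem (l hu)), u'⁻¹ * (n⁻¹ * t * n) * u',
      mul_mem (mul_mem (inv_mem (l hu')) nP) (l hu'), by group, ?_⟩))
    rw [dm h b _ (inv_mem (l hu)), dm h b _ tP, dm h b _ (l hu'), dm h b _ nP, dU h b hu, dU h b (inv_mem hu),
      dU h b hu', dU h b (inv_mem hu'), dd h b (ht 0 (by decide)).1 (ht 1 (by decide)).1,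
      dd h b (cj a (ht.on_e hi)) (cj c (ht.on_e hj))]
    have : ev 3 (d1 2 (-1 : Fˣ)) i * ev 3 (d1 2 (-1 : Fˣ)) j = -1 := by
      interval_cases i <;> interval_cases j <;> first | omega | simp [ev, d1]
    rw [this]
    simpa [d1, ← add_eq_zero_iff_eq_neg, one_add_one_eq_two] using h.odd
  have key : ∀ {m : GG B} {p q : ℕ}, R e m 0 p → R e m 1 q → (i = p ∧ j = q ∨ i = q ∧ j = p) →
      m⁻¹ * n * u' ∈ St B (Fl F e 2) := fun m0 m1 o => mul_mem (by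
    rcases o with ⟨rfl, rfl⟩ | ⟨rfl, rfl⟩
    · exact (m0.inv.mul a).mem h (m1.inv.mul c) (by decide) (by decide)
    · exact (m1.inv.mul a).mem h (m0.inv.mul c) (by decide) (by decide)) (l hu')
  rcases (by omega : i < 2 ∧ j < 2 ∨ (i = 0 ∧ j = 4 ∨ i = 4 ∧ j = 0) ∨ (i = 1 ∧ j = 5 ∨ i = 5 ∧ j = 1) ∨
    (i = 5 ∧ j = 4 ∨ i = 4 ∧ j = 5)) with o | o | o | o
  · exact .inl (mul_mem (mul_mem (l hu) (a.mem h c o.1 o.2)) (l hu'))
  · exact .inr (.inl ⟨u, l hu, _, key a0 a1 o, by group⟩)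
  · exact .inr (.inl ⟨u * s, mul_mem (l hu) sP, _, key (s0.mul a0) (s4.mul a1) o, by group⟩)
  · exact .inr (.inr (.inl ⟨u, l hu, _, key b0 b1 o, by group⟩))

theorem Fb.ltr (h : Sy B) (b : Fb B 3 e) (h3 : Fintype.card F = 3) (r : R3 (GG B) Ω)
    (nb : ¬ Btr Ω (Uu B 3 e) (Tt B 3 e)) (ui : Ui B Ω) (ω ω' : Ω) :
    ∃ p ∈ St B (Fl F e 2), p • ω = ω' := by
  have := h.finG
  obtain ⟨ι, hι⟩ := ex_unit_char (F := F)
  obtain ⟨g₁, g₂, hd⟩ := b.dcs h h3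
  let δ : St B (Fl F e 2) →* F :=
    { toFun p := (bk B 3 e 0 p).det
      map_one' := dU h b (one_mem _)
      map_mul' p p' := dm h b p p'.2 }
  have ne : ∀ p p', δ p ≠ δ p' → ι.comp δ.toHomUnits p ≠ ι.comp δ.toHomUnits p' := fun p p' m c =>
    m (congrArg Units.val (hι c))
  have on : ∀ p, δ p = 1 → ι.comp δ.toHomUnits p = 1 := fun p m => by
    rw [MonoidHom.comp_apply, show δ.toHomUnits p = 1 from Units.ext m, map_one]
  obtain ⟨t, ht⟩ := b.exists_dg h (d1 0 (-1))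
  refine r.tg (b.sp h) nb (fun _ hu => h.U_St hu (by omega)) (fun _ ht => h.T_St ht (by omega))
    (ι.comp δ.toHomUnits) (fun p hp => on p (dU h b hp)) ⟨⟨t, h.T_St ht.mem (by omega)⟩, ht.mem, ?_⟩ g₁ g₂
    (fun g => (hd g).imp_right (.imp_right (.imp_right fun ⟨p, hp, p', hp', c, m⟩ =>
      ⟨⟨p, hp⟩, ⟨p', hp'⟩, c, ne _ _ m⟩))) (fun ω p c => on p (b.eta_stab h h3 ui p.2 c)) ω ω'
  rw [← map_one (ι.comp δ.toHomUnits)]
  refine ne _ _ ?_
  rw [map_one]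
  change (bk B 3 e 0 t).det ≠ 1
  rw [dd h b (ht 0 (by decide)).1 (ht 1 (by decide)).1]
  simpa [d1, neg_eq_iff_add_eq_zero, one_add_one_eq_two] using h.odd

end CF.Rs
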