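import Cfsg.Agent.Rs.WT

/-! Rank 3 actions of symplectic groups: the number of totally isotropic lines. -/

set_option autoImplicit false
set_option linter.unusedSectionVars false
open MulAction Module

namespace CF.Rs
open CF.Rq (R3 Sp Tw Oc Cj Btr Gf R4 In Pw Fl)

variable {F V : Type*} [Field F] [Fintype F] [AddCommGroup V] [Module F V]
  {B : V →ₗ[F] V →ₗ[F] F} {k : ℕ} {e : ℕ → V} {Ω : Type*} [MulAction (GG B) Ω]

theorem TG3.orb (h : Sy B) (b : Fb B k e) {H : Subgroup (GG B)} {x : V} {i j : ℕ} (hij : i ≤ j) (hj : j ≤ 2 * k)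
    (h1 : ∀ g ∈ H, g ∈ St B (Fl F e i) ∧ g ∈ St B (Fl F e j)) (h2 : x ∈ Fl F e j) (h3 : x ∉ Fl F e i)
    (h4 : ∀ v ∈ Fl F e j, v ∉ Fl F e i → ∃ g ∈ H, g.1 x = v) :
    (stabilizer (GG B) x).relIndex H = Fintype.card F ^ j - Fintype.card F ^ i := by
  have := h.finV
  have := h.fd
  have c : ∀ j ≤ 2 * k, (Fl F e j : Set V).ncard = Fintype.card F ^ j := fun j hj => by
    rw [← Nat.card_coe_set_eq, SetLike.coe_sort_coe, Module.natCard_eq_pow_finrank (K := F), b.finrank_Fl hj,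
      Nat.card_eq_fintype_card]
  rw [← c j hj, ← c i (by omega), ← Set.ncard_diff (Fl.mono hij)]
  refine (index_stabilizer H x).trans (congrArg _ (Set.ext fun v => ⟨?_, fun ⟨a, c⟩ => ?_⟩))
  · rintro ⟨g, rfl⟩
    exact ⟨St.map (h1 _ g.2).2 h2, fun l => h3 (((h1 _ g.2).1 x).1 l)⟩
  · obtain ⟨g, hg, l⟩ := h4 v a c
    exact ⟨⟨g, hg⟩, l⟩

open TG3 in
theorem Fb.idx (h : Sy B) (b : Fb B 3 e) (h3 : Fintype.card F = 3) :
    8 ∣ (St B (Fl F e 2)).index := by
  have s0 : ∀ g : GG B, g ∈ St B (Fl F e 0) := fun g => h.mem_St_Fl fun i hi => by omega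
  have s1 : ∀ g ∈ stabilizer (GG B) (e 0), g ∈ St B (Fl F e 1) := fun g hg => h.mem_St_Fl fun i hi => by
    obtain rfl : i = 0 := by omega
    exact (show g.1 (e 0) = e 0 from hg).symm ▸ Fl.mem hi
  have t : ∀ v ∈ Fl F e 5, v ∉ Fl F e 1 → ∃ g : GG B, g.1 (e 0) = e 0 ∧ g.1 (e 1) = v := fun v a c =>
    b.wt2 h ⟨b.B_Fl (i := 1) (j := 5) le_rfl (Fl.mem one_pos) a, fun p q l => by
      obtain rfl : q = 0 := by_contra fun q0 => c (by
        rw [← Submodule.smul_mem_iff _ q0, eq_neg_of_add_eq_zero_right l]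
        exact neg_mem (Submodule.smul_mem _ _ (Fl.mem one_pos)))
      simpa [b.ne (i := 0) (by omega)] using l⟩
  have a1 := orb h b (H := ⊤) (i := 0) (j := 6) (by omega) le_rfl (fun g _ => ⟨s0 g, b.St_rev (i := 0) rfl (s0 g)⟩)
    (b.Fl_top (e 0)) (b.e_not (by omega)) fun v _ c => by
      simpa using h.tr (b.ne (i := 0) (by omega)) fun l : v = 0 => c (l ▸ zero_mem _)
  have a2 := orb h b (H := stabilizer (GG B) (e 0)) (i := 1) (j := 5) (by omega) (by omega)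
    (fun g hg => ⟨s1 g hg, b.St_rev (i := 1) rfl (s1 g hg)⟩) (Fl.mem (by omega)) (b.e_not (by omega)) t
  have a3 := orb h b (H := St B (Fl F e 2)) (i := 0) (j := 2) (by omega) (by omega) (fun g hg => ⟨s0 g, hg⟩)
    (Fl.mem two_pos) (b.e_not (by omega)) fun v a c =>
      let ⟨g, hg, l⟩ := b.wtP h (i := 0) (by omega) a c; ⟨g, hg 2 (by omega) (by omega), l⟩
  have a4 := orb h b (H := stabilizer (GG B) (e 0) ⊓ St B (Fl F e 2)) (i := 1) (j := 2) (by omega) (by omega)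
    (fun g hg => ⟨s1 g hg.1, hg.2⟩) (Fl.mem one_lt_two) (b.e_not (by omega)) fun v a c => by
      obtain ⟨g, g0, g1⟩ := t v (Fl.mono (by omega) a) c
      refine ⟨g, ⟨g0, h.mem_St_Fl fun i hi => ?_⟩, g1⟩
      interval_cases i
      exacts [g0.symm ▸ Fl.mem two_pos, g1.symm ▸ a]
  have l : stabilizer (GG B) (e 1) ⊓ stabilizer (GG B) (e 0) ≤ St B (Fl F e 2) := fun g hg =>
    h.mem_St_Fl fun i hi => by
      interval_cases i
      exacts [(show g.1 (e 0) = e 0 from hg.2).symm ▸ Fl.mem two_pos,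
        (show g.1 (e 1) = e 1 from hg.1).symm ▸ Fl.mem one_lt_two]
  have m1 := Subgroup.relIndex_mul_index l
  have m2 := Subgroup.relIndex_mul_index
    (inf_le_right : stabilizer (GG B) (e 1) ⊓ stabilizer (GG B) (e 0) ≤ _)
  rw [← Subgroup.relIndex_inf_mul_relIndex, a3, a4, h3] at m1
  rw [Subgroup.inf_relIndex_right, ← Subgroup.relIndex_top_right (stabilizer _ (e 0)), a1, a2, h3] at m2
  omega

end CF.Rs
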