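import Cfsg.Agent.Rs.TA
import Cfsg.Agent.Rs.L2
import Cfsg.Agent.Rs.TG3

/-! The final count for `q = 3`, `k = 3`. -/

set_option autoImplicit false
set_option linter.unusedSectionVars false
open MulAction Module

namespace CF.Rs
open CF.Rq (R3 Sp Tw Oc Cj Btr Gf R4 In Pw Fl)

variable {F V : Type*} [Field F] [Fintype F] [AddCommGroup V] [Module F V]
  {B : V →ₗ[F] V →ₗ[F] F} {k : ℕ} {e : ℕ → V} {Ω : Type*} [MulAction (GG B) Ω]

theorem TG4.free {Q X : Type*} [Group Q] [Finite Q] [Finite X] [MulAction Q X]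
    (hf : ∀ (g : Q) (x : X), g • x = x → g = 1) : Nat.card Q ∣ Nat.card X := by
  have h1 : ∀ x : X, stabilizer Q x = ⊥ := fun x =>
    (Subgroup.eq_bot_iff_forall _).2 fun g hg => hf g x hg
  rw [Nat.card_congr (selfEquivOrbitsQuotientProd h1), Nat.card_prod]
  exact Dvd.intro_left _ rfl

theorem Fb.cnt (h : Sy B) (b : Fb B 3 e) (h3 : Fintype.card F = 3) [Nonempty Ω]
    (ng : Ng B Ω) (ui : Ui B Ω)
    (tr : ∀ ω ω' : Ω, ∃ p ∈ St B (Fl F e 2), p • ω = ω') : False := by
  have := h.finG
  have := h.finV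
  have := h.fd
  obtain ⟨ω⟩ := ‹Nonempty Ω›
  set K := stabilizer (GG B) ω
  set P := St B (Fl F e 2)
  obtain ⟨z, hz⟩ := h.neg
  have e0 := b.ne (i := 0) (by omega)
  have nv : ∀ {v : V}, -v = v → v = 0 := fun {v} hv => by
    have h1 : (2 : F) • v = 0 := by rw [two_smul]; nth_rewrite 1 [← hv]; simp
    exact (smul_eq_zero.1 h1).resolve_left h.odd
  -- the index
  have h1 : P.relIndex K = P.index := by
    refine Nat.card_congr (Equiv.ofBijective (Quotient.map' Subtype.val fun a c t => ?_) ⟨?_, ?_⟩)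
    · rw [QuotientGroup.leftRel_apply] at t ⊢
      exact t
    · refine fun a c => Quotient.inductionOn₂' a c fun a c t => Quotient.sound' ?_
      have t2 := Quotient.exact' t
      rw [QuotientGroup.leftRel_apply] at t2 ⊢
      exact t2
    · refine fun a => Quotient.inductionOn' a fun g => ?_
      obtain ⟨p, hp, t⟩ := tr ω (g⁻¹ • ω)
      refine ⟨Quotient.mk'' ⟨g * p, by rw [mem_stabilizer_iff, mul_smul, t, smul_inv_smul]⟩,
        Quotient.sound' ?_⟩
      rw [QuotientGroup.leftRel_apply]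
      simpa using hp
  have h2 : 2 ∣ Nat.card (P.subgroupOf K) := by
    let z' : P.subgroupOf K := ⟨⟨z, ng z hz ω⟩, h.mem_St (g := z) fun v hv => by
      rw [hz]; exact neg_mem hv⟩
    have h4 : orderOf z' = 2 := orderOf_eq_prime
      (Subtype.ext (Subtype.ext (Subtype.ext (LinearEquiv.ext fun v => by
        simp [z', sq, hz])))) fun t => e0 (nv (by
          have := congrArg (fun g : P.subgroupOf K => g.1.1.1 (e 0)) t
          simpa [z', hz] using this))
    exact h4 ▸ orderOf_dvd_natCard z'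
  have h4 : 2 ^ 4 ∣ Nat.card K := by
    rw [← (P.subgroupOf K).index_mul_card]
    exact Nat.mul_dvd_mul (h1 ▸ b.idx h h3 : 8 ∣ P.relIndex K) h2
  have : Fact (Nat.Prime 2) := ⟨Nat.prime_two⟩
  obtain ⟨Q, hQ⟩ := Sylow.exists_subgroup_card_pow_prime 2 h4
  let _ : MulAction Q {v : V // v ≠ 0} :=
    { smul := fun g v => ⟨g.1.1.1 v.1, by simpa using v.2⟩
      one_smul := fun _ => rfl
      mul_smul := fun _ _ _ => rfl }
  have h5 := TG4.free (Q := Q) (X := {v : V // v ≠ 0}) fun g x hx => by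
    by_contra g1
    have h6 : 2 ∣ orderOf g := by
      obtain ⟨j, -, hj⟩ := (Nat.dvd_prime_pow Nat.prime_two).1 (hQ ▸ orderOf_dvd_natCard g)
      rcases j with _ | j
      · exact absurd (orderOf_eq_one_iff.1 hj) g1
      · exact hj ▸ dvd_pow_self 2 j.succ_ne_zero
    have h7 := orderOf_pow_orderOf_div (orderOf_pos g).ne' h6
    set s := g ^ (orderOf g / 2)
    have h8 : s • x = x := Subgroup.pow_mem (stabilizer Q x) hx _
    have h9 : s * s = 1 := by rw [← sq, ← h7, pow_orderOf_eq_one]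
    rcases ui ω s.1.1 s.1.2 (congrArg (fun g : Q => g.1.1) h9) with t | t
    · have : s = 1 := Subtype.ext (Subtype.ext t)
      simp [this] at h7
    · exact x.2 (nv ((t x.1).symm.trans (congrArg Subtype.val h8)))
  have h6 : Nat.card {v : V // v ≠ 0} = 728 := by
    classical
    have := Fintype.ofFinite V
    rw [Nat.card_eq_fintype_card, Fintype.card_subtype_compl, Fintype.card_subtype_eq,
      Module.card_eq_pow_finrank (K := F), h3, b.dim]
    norm_num
  rw [hQ, h6] at h5
  norm_num at h5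

end CF.Rs
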