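import Cfsg.Agent.Rs.L2
import Cfsg.Agent.Rs.AR
import Cfsg.Agent.Rs.TB
import Cfsg.Agent.Rs.PG
import Cfsg.Agent.Rs.P4a

/-! Rank 3 actions of symplectic groups over the field with three elements: even tori. -/

set_option autoImplicit false
set_option linter.unusedSectionVars false
open MulAction Module

namespace CF.Rs
open CF.Rq (R3 Sp Tw Oc Cj Btr Gf R4 In Pw Fl)

variable {F V : Type*} [Field F] [Fintype F] [AddCommGroup V] [Module F V]
  {B : V →ₗ[F] V →ₗ[F] F} {K : Subgroup (V ≃ₗ[F] V)} {k : ℕ} {e : ℕ → V} {Ω : Type*}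
  [MulAction (GG B) Ω]

theorem TR.ev2 {a c i : ℕ} (ha : a < k) (hc : c < k) (ac : a ≠ c) (hi : i < 2 * k) :
    ev k (d1 a (-1 : Fˣ) * d1 c (-1)) i =
      if i = a ∨ i = c ∨ i = 2 * k - 1 - a ∨ i = 2 * k - 1 - c then -1 else 1 := by
  simp only [ev, d1, Pi.mul_apply]
  split_ifs <;> first | omega | simp

theorem Fb.tr1 (h : Sy B) (b : Fb B k e) (k4 : 4 ≤ k) {ω : Ω}
    (av : ∀ a < k, ∀ c < k, Aw B k e ω (d1 a (-1) * d1 c (-1))) (hω : Gd B k e 0 ω)
    (tf : Tf B k e ω) : ∃ v : GG B, v • ω = ω ∧ Ql B (e 0) (e 2) v ∧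
      v.1 (e (2 * k - 1)) - e (2 * k - 1) ∈ Submodule.span F {e 0, e 1, e (2 * k - 2)} ∧
      B (e 1) (v.1 (e (2 * k - 1)) - e (2 * k - 1)) ≠ 0 := by
  obtain ⟨c, hc, cω, a0, cm⟩ := b.cen h (by omega) hω
  obtain ⟨s, hs, sω⟩ := (av 0 (by omega) 1 (by omega)).fix tf
  obtain ⟨t, ht, tω⟩ := (av 0 (by omega) 2 (by omega)).fix tf
  have ev1 := fun i => TR.ev2 (F := F) (k := k) (a := 0) (c := 1) (i := i) (by omega) (by omega) (by omega)
  have ev2 := fun i => TR.ev2 (F := F) (k := k) (a := 0) (c := 2) (i := i) (by omega) (by omega) (by omega)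
  have n1 : (1 : F) ≠ -1 := fun f => h.odd (by linear_combination f)
  have sc : Commute s c := cm s _ hs sω (by simp [ev1 0 (by omega), ev1 1 (by omega)])
  have st : Commute s t := (hs.mul ht).eq b (ht.mul hs) fun _ _ => by rw [mul_comm]
  obtain ⟨c0, c1⟩ := b.U_zero h hc
  have c2 : c.1 (e 2) = e 2 := b.eq_of fun i hi => by
    by_cases i2 : 2 ≤ i
    · rw [b.U_tri hc hi i2, b.co_e hi (by omega)]
    rw [hs.comm b sc hi (by omega), b.co_e hi (by omega), if_neg (by omega)]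
    rw [ev1 i hi, ev1 2 (by omega), if_pos (by omega), if_neg (by omega)]
    exact n1.symm
  have ci : ∀ {x}, c.1 x = x → c⁻¹.1 x = x := fun f => by rw [← f, GG.apply_inv, f]
  have te : ∀ i < 3, t.1 (e i) = (if i = 1 then 1 else -1 : F) • e i := fun i hi => by
    rw [ht.on_e (by omega), ev2 i (by omega)]; congr 1; split_ifs <;> first | omega | rfl
  have ti : ∀ i < 3, t⁻¹.1 (e i) = (if i = 1 then 1 else -1 : F) • e i := fun i hi => by
    rw [UT.inv_eig (by split_ifs <;> simp) (te i hi)]; split_ifs <;> simp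
  have tw : ∀ w, B (e 0) w = 0 → B (e 2) w = 0 →
      t.1 w = w + ((-2 * co B k e 0 w) • e 0 + (-2 * co B k e 2 w) • e 2) := fun w w0 w2 =>
    b.eq_of fun i hi => by
      simp only [ht.co_eq b hi, ev2 i hi, map_add, map_smul, b.co_e hi (show 0 < 2 * k by omega),
        b.co_e hi (show 2 < 2 * k by omega), smul_eq_mul]
      by_cases i0 : i = 0
      · simp [i0]; ring
      by_cases i2 : i = 2
      · simp [i2]; ring
      split_ifs with f <;> simp
      obtain rfl | rfl : i = 2 * k - 1 - 0 ∨ i = 2 * k - 1 - 2 := by omega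
      · simp only [co_hi (show 0 < k by omega), w0, neg_zero]
      · simp only [co_hi (show 2 < k by omega), w2, neg_zero]
  have v0 : (c⁻¹ * t * c * t⁻¹).1 (e 0) = e 0 := by
    simp only [GG.mul_apply, ti 0 (by omega), te 0 (by omega), map_smul, c0, ci c0]; simp
  have v1 : (c⁻¹ * t * c * t⁻¹).1 (e 1) = e 1 - (2 * co B k e 0 (c.1 (e 1))) • e 0 := by
    refine c.1.injective ?_
    rw [mul_assoc, mul_assoc, GG.mul_apply, GG.inv_apply, map_sub, map_smul, c0, GG.mul_apply, GG.mul_apply, ti 1 (by omega),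
      if_pos rfl, one_smul]
    generalize co B k e 0 (c.1 (e 1)) = a at c1
    simp only [c1, map_add, map_smul, te 0 (by omega), te 1 (by omega)]
    simp; module
  have v2 : (c⁻¹ * t * c * t⁻¹).1 (e 2) = e 2 := by
    simp only [GG.mul_apply, ti 2 (by omega), te 2 (by omega), map_smul, c2, ci c2]; simp
  have sv : Commute s (c⁻¹ * t * c * t⁻¹) := ((sc.inv_right.mul_right st).mul_right sc).mul_right st.inv_right
  have vω : (c⁻¹ * t * c * t⁻¹) • ω = ω := by
    rw [mul_smul, mul_smul, mul_smul, inv_smul_eq_iff.2 tω.symm, cω, tω, inv_smul_eq_iff.2 cω.symm]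
  have vq : ∀ w, B (e 0) w = 0 → B (e 2) w = 0 →
      (c⁻¹ * t * c * t⁻¹).1 w - w ∈ Submodule.span F {e 0, e 2} := fun w w0 w2 => by
    obtain ⟨w, rfl⟩ := t.1.surjective w
    have p0 : B (e 0) w = 0 := by simpa [te, w0] using (t.map (e 0) w).symm
    have p2 : B (e 2) w = 0 := by simpa [te, w2] using (t.map (e 2) w).symm
    rw [GG.mul_apply, GG.apply_inv, GG.mul_apply, GG.mul_apply, tw w p0 p2,
      tw (c.1 w) (by rw [← c0, c.map, p0]) (by rw [← c2, c.map, p2]), map_add, GG.apply_inv, map_add, map_smul,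
      map_smul, ci c0, ci c2, add_sub_add_left_eq_sub]
    exact sub_mem (Submodule.mem_span_pair.2 ⟨_, _, rfl⟩) (Submodule.mem_span_pair.2 ⟨_, _, rfl⟩)
  generalize c⁻¹ * t * c * t⁻¹ = v at *
  have f0 : B (e 0) (v.1 (e (2 * k - 1))) = 1 := by rw [← v0, v.map]; exact b.B1 (i := 0) (by omega)
  have f1 := b.B0 (i := 1) (j := 2 * k - 1) (by omega) (by omega) (by omega)
  refine ⟨v, vω, ⟨v0, v2, vq⟩, Submodule.mem_span_triple.2 ⟨co B k e 0 (v.1 (e (2 * k - 1))),
    co B k e 1 (v.1 (e (2 * k - 1))), co B k e (2 * k - 2) (v.1 (e (2 * k - 1))), b.eq_of fun i hi => ?_⟩, fun f => ?_⟩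
  · simp only [map_add, map_sub, map_smul, b.co_e hi (show 0 < 2 * k by omega), b.co_e hi (show 1 < 2 * k by omega),
      b.co_e hi (show 2 * k - 2 < 2 * k by omega), b.co_e hi (show 2 * k - 1 < 2 * k by omega), smul_eq_mul]
    split_ifs with i0 i1 i2 <;> try omega
    iterate 3 subst i; simp
    · subst i
      have := (co_hi (k := k) (i := 0) (by omega) _).trans f0
      simp [show co B k e (2 * k - 1) _ = 1 from this]
    · rw [hs.comm b sv hi (by omega)]; · simp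
      rw [ev1 i hi, ev1 _ (by omega), if_neg (by omega), if_pos (by omega)]
      exact n1
  · have := v.map (e 1) (e (2 * k - 1))
    rw [map_sub, f1, sub_zero] at f
    simp [v1, f, f0, f1, h.odd, a0] at this

theorem Ql.tv (h : Sy B) (hK : K ≤ SP B) (hu : HU B K) {x y f : V} (t : Ti2 B x y) {v w : GG B}
    (hv : v.1 ∈ K) (hw : w.1 ∈ K) (qv : Ql B x y v) (qw : Ql B x y w)
    (hf : B (v.1 f - f) (w.1 f - f) ≠ 0) : Tv B K := by
  have fx : ∀ {g : GG B}, Ql B x y g → ∀ l ∈ Submodule.span F {x, y}, g.1 l = l := fun q l hl => by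
    obtain ⟨a, c, rfl⟩ := Submodule.mem_span_pair.1 hl
    simp [q.fx, q.fy]
  have pp : ∀ {g : GG B}, Ql B x y g → ∀ u ∈ Pp B (Submodule.span F {x, y}),
      g.1 u - u ∈ Submodule.span F {x, y} := fun q u hu =>
    q.pp u (L2.mem_span.1 hu x (by simp)) (L2.mem_span.1 hu y (by simp))
  have mm : ∀ {g : GG B}, Ql B x y g → g.1 f - f ∈ Pp B (Submodule.span F {x, y}) := fun {g} q l hl => by
    rw [map_sub, ← g.map l f, fx q l hl, sub_self]
  have z1 : ∀ u ∈ Pp B (Submodule.span F {x, y}), (v⁻¹ * w⁻¹ * v * w).1 u = u := fun u hu => by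
    have a1 := fx qv _ (pp qw u hu)
    have a2 := fx qw _ (pp qv u hu)
    rw [map_sub] at a1 a2
    rw [GG.mul_apply, GG.mul_apply, GG.mul_apply, show v.1 (w.1 u) = w.1 (v.1 u) by
      linear_combination (norm := module) a1 - a2, GG.apply_inv, GG.apply_inv]
  have an : AN K (Submodule.span F {x, y}) (((v⁻¹ * w⁻¹ * v * w).1 : V →ₗ[F] V) - LinearMap.id) :=
    ⟨⟨(v⁻¹ * w⁻¹ * v * w).1, mul_mem (mul_mem (mul_mem (inv_mem hv) (inv_mem hw)) hv) hw, fun p => by simp⟩,
    fun p => h.Pp_Pp (Submodule.span F {x, y}) ▸ fun u hu => by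
      rw [LinearMap.sub_apply, map_sub, LinearMap.id_apply, ← (v⁻¹ * w⁻¹ * v * w).map u p, z1 u hu]
      exact sub_self _⟩
  obtain ⟨a, c, d, e⟩ := an.i2 h hK t
  refine hu.tv h hK t (a := a) (b := c) (d := d) (e ▸ an.1 :) (by_contra fun n => hf ?_)
  push Not at n
  have z := LinearMap.congr_fun e f
  simp only [n, zero_smul, add_zero, LinearMap.zero_apply, LinearMap.sub_apply, sub_eq_zero] at z
  have z' : v.1 (w.1 f) = w.1 (v.1 f) := by
    have := congrArg (fun p => w.1 (v.1 p)) z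
    simpa only [LinearEquiv.coe_coe, GG.mul_apply, GG.inv_apply, LinearMap.id_apply] using this
  have a1 := mm qv _ (pp qv _ (mm qw))
  have a2 := mm qw _ (pp qw _ (mm qv))
  have a3 := v.map (w.1 f - f) f
  have a4 := w.map (v.1 f - f) f
  have a5 := h.skew (v.1 f - f) (w.1 f - f)
  simp only [map_sub, LinearMap.sub_apply, z', h.alt] at a1 a2 a3 a4 a5 ⊢
  have a6 := h.skew (v.1 f) f
  have a7 := h.skew (w.1 f) f
  refine (mul_eq_zero.1 ?_).resolve_left h.odd
  linear_combination a1 - a2 - a3 + a4 + a5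

theorem Fb.tr3 (h : Sy B) (b : Fb B k e) (h3 : Fintype.card F = 3) [Nonempty Ω]
    (bt : Btr Ω (Uu B k e) (Tt B k e)) (k4 : 4 ≤ k)
    (av : ∀ a < k, ∀ c < k, ∀ ω : Ω, Aw B k e ω (d1 a (-1) * d1 c (-1))) :
    ∃ ω : Ω, Tv B (Kw B ω) := by
  obtain ⟨ω₀, g0⟩ := b.pg h (av 0 (by omega) 3 (by omega)) (by simp [d1]) (by simpa [d1] using neg_one_ne h.odd)
  have gd : ∀ ω : Ω, Gd B k e 0 ω := fun ω => by
    obtain ⟨u, hu, t, ht, rfl⟩ := bt ω₀ ω
    exact g0.smul h b (by omega) hu ht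
  obtain ⟨u, -, tf⟩ := b.tf h ω₀
  generalize u • ω₀ = ω at tf
  obtain ⟨v, vω, qv, m1, n1⟩ := b.tr1 h k4 (fun a ha c hc => av a ha c hc ω) (gd ω) tf
  obtain ⟨a, s, r, m⟩ := Submodule.mem_span_triple.1 m1
  have := h.finG
  have r0 : r ≠ 0 := fun f => n1 (by simp [← m, f, h.alt, b.B0 (i := 1) (j := 0) (by omega) (by omega) (by omega)])
  obtain ⟨g, hg⟩ := h.exists_tv ((s - 1) • e 1 + r • e (2 * k - 1 - 1)) (-r⁻¹)
  simp only [LinearMap.smul_apply, E_apply] at hg
  have gf : ∀ i < 2 * k, i ≠ 1 → i ≠ 2 * k - 2 → g.1 (e i) = e i := fun i hi i1 i2 => by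
    simp [hg, b.B0 (i := 1) (j := i) (by omega) hi (by omega), b.B0 (i := 2 * k - 1 - 1) (j := i) (by omega) hi (by omega)]
  have g1 : g.1 (e 1) = s • e 1 + r • e (2 * k - 2) := by
    simp only [hg, map_add, map_smul, LinearMap.add_apply, LinearMap.smul_apply, h.alt, b.B2 (i := 1) (by omega),
      smul_smul, smul_eq_mul]
    rw [show -r⁻¹ * ((s - 1) * 0 + r * -1) = 1 by field_simp; ring, show 2 * k - 1 - 1 = 2 * k - 2 by omega]
    module
  have tf' : Tf B k e (g⁻¹ • ω) := fun t ht tw => by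
    obtain ⟨τ, hτ⟩ := b.T_dg ht
    have c : Commute t g := Subtype.ext (LinearEquiv.ext fun p => by
      obtain ⟨p1, p2⟩ := hτ 1 (by omega)
      have := t.map ((s - 1) • e 1 + r • e (2 * k - 1 - 1)) p
      change t.1 (g.1 p) = g.1 (t.1 p)
      rw [hg, hg, map_add, map_smul, map_smul, ← this, map_add, map_smul, map_smul, p1, p2]
      rcases f3_unit h3 (τ 1) with f | f <;> simp [f] <;> module)
    rw [← mul_smul, c.inv_right.eq, mul_smul, tf t ht (bt.all (b.sp h) ht tw ω)]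
  obtain ⟨w, wω, qw, -, n2⟩ := b.tr1 h k4 (fun a ha c hc => av a ha c hc _) (gd _) tf'
  have g0 := gf 0 (by omega) (by omega) (by omega)
  have g2 := gf 2 (by omega) (by omega) (by omega)
  have gi : ∀ {x}, g.1 x = x → g⁻¹.1 x = x := fun f => by rw [← f, GG.apply_inv, f]
  have gl := gf (2 * k - 1) (by omega) (by omega) (by omega)
  refine ⟨ω, Ql.tv h (Kw_le ω) (b.hu h (fun ω => (gd ω).pn) ω) (f := e (2 * k - 1))
    (b.ti2 (by omega) (by omega) (by omega) (by omega)) (mem_Kw.2 vω) (mem_Kw (g := g * w * g⁻¹).2 ?_) qv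
    ⟨?_, ?_, fun p p0 p2 => ?_⟩ ?_⟩
  · rw [mul_smul, mul_smul, wω, smul_inv_smul]
  · rw [GG.mul_apply, GG.mul_apply, gi g0, qw.fx, g0]
  · rw [GG.mul_apply, GG.mul_apply, gi g2, qw.fy, g2]
  · obtain ⟨p, rfl⟩ := g.1.surjective p
    obtain ⟨c, d, f⟩ := Submodule.mem_span_pair.1 (qw.pp p (by rw [← g.map, g0, p0]) (by rw [← g.map, g2, p2]))
    rw [GG.mul_apply, GG.mul_apply, GG.apply_inv, ← map_sub, ← f]
    exact Submodule.mem_span_pair.2 ⟨c, d, by simp [g0, g2]⟩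
  · rw [GG.mul_apply, GG.mul_apply, gi gl, ← m, add_assoc, ← g1, ← g0, ← map_smul, ← map_add]
    nth_rewrite 2 [← gl]
    rw [← map_sub, g.map, map_add, map_smul, LinearMap.add_apply, LinearMap.smul_apply, map_sub (B (e 0)),
      ← w.map (e 0) (e _), qw.fx]
    simpa using n2

end CF.Rs
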