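import Cfsg.Agent.Rs.TA
import Cfsg.Agent.Rs.WT
import Cfsg.Agent.Rs.AR

/-! The case of a non-separating torus, `q = 3`. -/

set_option autoImplicit false
set_option linter.unusedSectionVars false
open MulAction Module

namespace CF.Rs
open CF.Rq (R3 Sp Tw Oc Cj Btr Gf R4 In Pw Fl)

variable {F V : Type*} [Field F] [Fintype F] [AddCommGroup V] [Module F V]
  {B : V →ₗ[F] V →ₗ[F] F} {k : ℕ} {e : ℕ → V} {Ω : Type*} [MulAction (GG B) Ω]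

theorem Fb.w2 (h : Sy B) (b : Fb B k e) (h3 : Fintype.card F = 3) (r : R3 (GG B) Ω)
    (nb : ¬ Btr Ω (Uu B k e) (Tt B k e)) {ω₀ : Ω} (ns : ¬ Sep B k e ω₀)
    (nd : ∀ i < k, ∀ ω : Ω, ¬ Aw B k e ω (d1 i (-1))) : k = 3 ∧ Cs B k e Ω := by
  have := h.finG
  have k3 := b.k3 h
  have sp := b.sp h
  have n1 := neg_one_ne h.odd
  obtain ⟨ι, hι⟩ := ex_unit_char (F := F)
  obtain ⟨c, hc⟩ := b.ex_tc
  have sq : ∀ x : Fˣ, x * x = 1 := fun x => by rcases f3_unit h3 x with rfl | rfl <;> simp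
  have iv : ∀ x : Fˣ, x⁻¹ = x := fun x => inv_eq_of_mul_eq_one_left (sq x)
  choose d hd using fun i => b.exists_dg h (d1 i (-1 : Fˣ))
  have cd : ∀ i, ∀ j < k, c j ⟨d i, (hd i).mem⟩ = if j = i then -1 else 1 :=
    fun i j hj => hc ⟨d i, (hd i).mem⟩ _ (hd i) j hj
  have aw : ∀ (ω : Ω) (t : Tt B k e), Tw (Uu B k e) ω t.1 → Aw B k e ω fun i => c i t := by
    intro ω t ht
    obtain ⟨τ, hτ⟩ := b.T_dg t.2
    exact ⟨t.1, hτ.congr fun i hi => (hc t τ hτ i hi).symm, ht⟩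
  obtain ⟨a₀, ha₀, c₀, hc₀, ac₀, h0⟩ : ∃ a < k, ∃ c < k, a ≠ c ∧ ∀ τ, Aw B k e ω₀ τ → τ a = τ c := by
    unfold Sep at ns
    push Not at ns
    exact ns
  have o0 : Oc Ω (Uu B k e) (Tt B k e) (ι.comp (c a₀ * c c₀)) :=
    ⟨fun t => n1 (hι (by
      simpa [cd a₀ a₀ ha₀, cd a₀ c₀ hc₀, ac₀.symm] using DFunLike.congr_fun t ⟨d a₀, (hd a₀).mem⟩)),
      ω₀, fun t ht => by simp [h0 _ (aw ω₀ t ht), sq]⟩
  -- all occurring characters have weight two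
  have wt : ∀ l, Oc Ω (Uu B k e) (Tt B k e) l → ∃ a < k, ∃ a' < k, a ≠ a' ∧
      ∀ t, l t = ι (c a t * c a' t) := fun l hl => by
    obtain ⟨n, hn, h1⟩ : Cj (Tt B k e) (Nn B k e) (ι.comp (c a₀ * c c₀)) l :=
      by_contra fun hn => nb (r.btr sp o0 hl hn)
    obtain ⟨π, s, p1, p2, -, p4⟩ := b.nperm hn
    refine ⟨π a₀, (p1 _ ha₀).1, π c₀, (p1 _ hc₀).1, fun t => ac₀ (p2 _ ha₀ _ hc₀ t), fun t => ?_⟩
    obtain ⟨τ, hτ⟩ := b.T_dg t.2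
    have h2 := p4 _ _ hτ
    have h4 : ∀ i < k, c i ⟨_, h2.mem⟩ = c (π i) t := fun i hi => by
      rw [hc ⟨_, h2.mem⟩ _ h2 i hi, hc t τ hτ _ (p1 i hi).1]
      rcases (p1 i hi).2 with t | t <;> simp [t, iv]
    rw [h1 ⟨_, h2.mem⟩ t rfl]
    simp [h4 _ ha₀, h4 _ hc₀]
  -- no three places
  have no3 : ∀ l, Oc Ω (Uu B k e) (Tt B k e) l → ∀ i j m, i ≠ j → i ≠ m → j ≠ m →
      l ⟨d i, (hd i).mem⟩ ≠ 1 → l ⟨d j, (hd j).mem⟩ ≠ 1 → l ⟨d m, (hd m).mem⟩ ≠ 1 → False := by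
    intro l hl i j m h1 h2 h4 li lj lm
    obtain ⟨a, ha, a', ha', -, h5⟩ := wt l hl
    have h6 : ∀ i, l ⟨d i, (hd i).mem⟩ ≠ 1 → a = i ∨ a' = i := fun i hi => by
      by_contra hn
      push Not at hn
      exact hi (by simp [h5, cd i a ha, cd i a' ha', hn.1, hn.2])
    have := h6 i li
    have := h6 j lj
    have := h6 m lm
    omega
  have i1 : ι (-1) ≠ 1 := fun t => n1 (hι (by simpa using t))
  -- four different places never have trivial product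
  have four : ∀ (ω : Ω) (i j m p : ℕ), i < k → j < k → m < k → p < k → i ≠ j → i ≠ m → i ≠ p →
      j ≠ m → j ≠ p → m ≠ p → ¬ ∀ τ, Aw B k e ω τ → τ i = τ j ∧ τ m = τ p := by
    intro ω i j m p hi hj hm hp a1 a2 a3 a4 a5 a6 h1
    have v : ∀ x, x = i ∨ x = j ∨ x = m → (ι.comp (c i * c j * (c m * c p))) ⟨d x, (hd x).mem⟩ ≠ 1 := by
      rintro x (rfl | rfl | rfl) <;>
        simpa [cd _ _ hi, cd _ _ hj, cd _ _ hm, cd _ _ hp, a1, a2, a3, a4, a5, a6, a1.symm, a2.symm,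
          a3.symm, a4.symm, a5.symm, a6.symm] using i1
    exact no3 _ ⟨fun t => v i (by simp) (by simp [t]), ω, fun t ht => by
      simp [(h1 _ (aw ω t ht)).1, (h1 _ (aw ω t ht)).2, sq]⟩ i j m a1 a2 a4 (v _ (by simp))
      (v _ (by simp)) (v _ (by simp))
  have pr : ∀ (ω : Ω), ∀ i < k, ∃ j < k, i ≠ j ∧ ∀ τ, Aw B k e ω τ → τ i = τ j := by
    intro ω i hi
    obtain ⟨l, l1, l2⟩ := sp.sep ω (t := ⟨d i, (hd i).mem⟩) fun t => nd i hi ω ⟨_, hd i, t⟩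
    obtain ⟨a, ha, a', ha', aa, h5⟩ := wt l ⟨fun t => l2 (by simp [t]), ω, l1⟩
    have h6 : ∀ τ, Aw B k e ω τ → τ a = τ a' := by
      rintro τ ⟨t, t1, t2⟩
      have h7 := l1 ⟨t, t1.mem⟩ t2
      rw [h5, hc _ τ t1 a ha, hc _ τ t1 a' ha', ← map_one ι] at h7
      rw [eq_inv_of_mul_eq_one_left (hι h7), iv]
    by_cases h7 : a = i
    · exact ⟨a', ha', h7 ▸ aa, h7 ▸ h6⟩
    by_cases h8 : a' = i
    · exact ⟨a, ha, h8 ▸ aa.symm, fun τ t => h8 ▸ (h6 τ t).symm⟩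
    exact absurd (by simp [h5, cd i a ha, cd i a' ha', h7, h8]) l2
  have all : ∀ (ω : Ω), ∀ i < k, ∀ τ, Aw B k e ω τ → τ i = τ 0 := by
    intro ω i hi
    obtain ⟨j, hj, j0, h1⟩ := pr ω 0 (by omega)
    by_cases a1 : i = 0
    · exact fun _ _ => a1 ▸ rfl
    by_cases a2 : i = j
    · exact fun τ t => a2 ▸ (h1 τ t).symm
    obtain ⟨m, hm, im, h2⟩ := pr ω i hi
    by_cases a3 : m = 0
    · exact a3 ▸ h2
    by_cases a4 : m = j
    · exact fun τ t => (h2 τ t).trans (a4 ▸ (h1 τ t).symm)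
    exact absurd (fun τ t => ⟨h1 τ t, h2 τ t⟩) (four ω 0 j i m (by omega) hj hi hm j0 (Ne.symm a1)
      (Ne.symm a3) (Ne.symm a2) (Ne.symm a4) im)
  refine ⟨by_contra fun k4 => four ω₀ 0 1 2 3 (by omega) (by omega) (by omega) (by omega) (by omega)
    (by omega) (by omega) (by omega) (by omega) (by omega) fun τ t => ⟨(all _ 1 (by omega) τ t).symm,
      (all _ 2 (by omega) τ t).trans (all _ 3 (by omega) τ t).symm⟩, fun ω τ t =>
    ⟨(all _ 1 (by omega) τ t).symm, (all _ 1 (by omega) τ t).trans (all _ 2 (by omega) τ t).symm⟩⟩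

end CF.Rs
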