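import Cfsg.Agent.Rs.L2
import Cfsg.Agent.Rs.AR

/-! Symplectic groups over the field with three elements: no reflection in a hyperbolic line. -/

set_option autoImplicit false
set_option linter.unusedSectionVars false
open MulAction Module

namespace CF.Rs
open CF.Rq (R3 Sp Tw Oc Cj Btr Gf R4 In Pw Fl)

variable {F V : Type*} [Field F] [Fintype F] [AddCommGroup V] [Module F V]
  {B : V →ₗ[F] V →ₗ[F] F} {K : Subgroup (V ≃ₗ[F] V)} {x y f f' : V}

namespace X1

theorem map (hK : K ≤ SP B) (r : Rf B K x f) {g : V ≃ₗ[F] V} (hg : g ∈ K) : Rf B K (g x) (g f) := by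
  obtain ⟨e, d, hd, k⟩ := r
  refine ⟨(hK hg x f).trans e, g * d * g⁻¹, mul_mem (mul_mem hg hd) (inv_mem hg), fun v => ?_⟩
  obtain ⟨v, rfl⟩ := g.surjective v
  rw [hK hg, hK hg]
  simp [k]

theorem chg (h : Sy B) (r : Rf B K x f) {a b c d : F} (e : a * d - b * c = 1) :
    Rf B K (a • x + b • f) (c • x + d • f) := by
  obtain ⟨e1, g, hg, k⟩ := r
  refine ⟨by simp [h.alt, e1, h.skew x f]; linear_combination e, g, hg, fun v => ?_⟩
  rw [k]
  simp only [map_add, map_smul, LinearMap.add_apply, LinearMap.smul_apply, smul_eq_mul]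
  rw [h.skew x v, h.skew v f]
  match_scalars
  · rfl
  · linear_combination (2 * B v f) * e
  · linear_combination (2 * B x v) * e

theorem uq (h : Sy B) (hK : K ≤ SP B) (hu : HU B K) (nt : ¬ Tv B K) (r : Rf B K x f) (r' : Rf B K x f') :
    ∃ c : F, f' = f + c • x := by
  by_contra! n
  obtain ⟨e, d, hd, k⟩ := r
  obtain ⟨e', d', hd', k'⟩ := r'
  have x0 : x ≠ 0 := fun z => by simp [z] at e
  have t : Ti2 B x (f' - f) := ⟨by simp [e, e'], fun a b z => by
    have b0 : b = 0 := by_contra fun b0 => n (-a / b) (by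
      have : f' - f = b⁻¹ • (a • x + b • (f' - f)) + (-a / b) • x := by match_scalars <;> field_simp <;> ring
      rw [z, smul_zero, zero_add] at this
      rw [← this]; abel)
    exact ⟨by simpa [b0, x0] using z, b0⟩⟩
  refine nt (hu.tv h hK t (a := 4 * B f' f) (b := -2) (d := 0) ⟨d * d', mul_mem hd hd', fun v => ?_⟩
    (.inr (.inl (neg_ne_zero.2 h.odd))))
  rw [LinearEquiv.mul_apply, k', k, m2_apply]
  simp only [map_sub, map_smul, LinearMap.sub_apply, LinearMap.smul_apply, smul_eq_mul, h.alt, e, e', h.skew v f,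
    h.skew v f']
  module

variable (K x y) in
/-- a matrix induced on the line -/
def Mt (p q r s : F) : Prop := ∃ g ∈ K, g x = p • x + q • y ∧ g y = r • x + s • y

theorem Mt.mul {p q r s p' q' r' s' : F} (m : Mt K x y p q r s) (m' : Mt K x y p' q' r' s') :
    Mt K x y (p' * p + q' * r) (p' * q + q' * s) (r' * p + s' * r) (r' * q + s' * s) := by
  obtain ⟨g, hg, a, b⟩ := m
  obtain ⟨g', hg', a', b'⟩ := m'
  refine ⟨g * g', mul_mem hg hg', ?_, ?_⟩ <;>
    simp only [LinearEquiv.mul_apply, a', b', map_add, map_smul, a, b] <;> module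

theorem Mt.congr {p q r s p' q' r' s' : F} (m : Mt K x y p q r s) (e1 : p = p') (e2 : q = q') (e3 : r = r')
    (e4 : s = s') : Mt K x y p' q' r' s' := by subst e1 e2 e3 e4; exact m

theorem el (h : Sy B) (h3 : Fintype.card F = 3) (hK : K ≤ SP B) (hu : HU B K) (nt : ¬ Tv B K) (r : Rf B K x f)
    (y0 : y ≠ 0) (xy : B x y = 0) (fy : B f y = 0) : ∃ u ∈ K, u y = y ∧ u x = x + y := by
  have e3 := f3_three h3
  have t : Ti2 B x y := ⟨xy, fun a b z => by
    have a0 : a = 0 := by simpa [r.1, h.refl fy] using congrArg (B · f) z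
    exact ⟨a0, by simpa [a0, y0] using z⟩⟩
  have no : ∀ c : F, c ≠ 0 → ¬ Mt K x y 1 0 c 1 := fun c c0 ⟨g, hg, a, b⟩ => by
    rw [one_smul, zero_smul, add_zero] at a
    obtain ⟨s, e⟩ := uq h hK hu nt r (a ▸ map hK r hg)
    have := hK hg f y
    rw [e, b] at this
    simp [fy, xy, h.alt, h.skew x f, r.1, c0] at this
  have md : Mt K x y (-1) 0 0 1 := by
    obtain ⟨e, d, hd, k⟩ := r
    refine ⟨d, hd, ?_, ?_⟩ <;> rw [k] <;> simp only [e, h.alt, xy, h.refl fy] <;> module
  suffices Mt K x y 1 1 0 1 by
    obtain ⟨g, hg, a, b⟩ := this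
    exact ⟨g, hg, by simpa using b, by simpa using a⟩
  obtain ⟨a, b, c, d, n, u, m, s, s0, e1, e2⟩ := hu x y t
  have mu : Mt K x y (1 - s / (a * d - b * c) * b * a) (-(s / (a * d - b * c) * b * b))
      (s / (a * d - b * c) * a * a) (1 + s / (a * d - b * c) * a * b) := by
    refine ⟨u, m, ?_, ?_⟩
    · have : x = (a * d - b * c)⁻¹ • (d • (a • x + b • y) - b • (c • x + d • y)) := by
        match_scalars <;> field_simp <;> ring
      conv_lhs => rw [this, map_smul, map_sub, map_smul, map_smul, e1, e2]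
      match_scalars <;> field_simp <;> ring
    · have : y = (a * d - b * c)⁻¹ • (a • (c • x + d • y) - c • (a • x + b • y)) := by
        match_scalars <;> field_simp <;> ring
      conv_lhs => rw [this, map_smul, map_sub, map_smul, map_smul, e1, e2]
      match_scalars <;> field_simp <;> ring
  have s1 := div_ne_zero s0 n
  generalize s / (a * d - b * c) = s at mu s1
  have k1 := fun c c0 e1 e2 e3 e4 => no c c0 (mu.congr e1 e2 e3 e4)
  have k2 : ∀ s p : F, s = 1 ∨ s = -1 → p = 1 ∨ p = -1 → ¬ Mt K x y (1 - p) (-s) s (1 + p) := by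
    rintro s p (rfl | rfl) (rfl | rfl) mu
    · exact no (-1) (by simp) ((((((mu.mul md).mul mu).mul md).mul mu).mul mu).congr
        (by linear_combination (-2) * e3) (by linear_combination (-4) * e3) (by linear_combination 3 * e3)
        (by linear_combination 6 * e3))
    · exact no (-1) (by simp) ((((((mu.mul mu).mul md).mul mu).mul md).mul mu).congr
        (by linear_combination 6 * e3) (by linear_combination (-4) * e3) (by linear_combination 3 * e3)
        (by linear_combination (-2) * e3))
    · exact no 1 (by simp) ((((((mu.mul md).mul mu).mul md).mul mu).mul mu).congr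
        (by linear_combination (-2) * e3) (by linear_combination 4 * e3) (by linear_combination (-3) * e3)
        (by linear_combination 6 * e3))
    · exact no 1 (by simp) ((((((mu.mul mu).mul md).mul mu).mul md).mul mu).congr
        (by linear_combination 6 * e3) (by linear_combination 4 * e3) (by linear_combination (-3) * e3)
        (by linear_combination (-2) * e3))
  rcases f3_cases h3 a with rfl | rfl | rfl <;> rcases f3_cases h3 b with rfl | rfl | rfl <;>
    rcases f3_cases h3 s with rfl | rfl | rfl <;> first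
    | exact absurd rfl s1
    | exact absurd (by ring1) n
    | exact mu.congr (by ring1) (by ring1) (by ring1) (by ring1)
    | exact (mu.mul mu).congr (by ring1) (by linear_combination (-1) * e3) (by ring1) (by ring1)
    | exact (k1 _ (by simp) (by ring1) (by ring1) rfl (by ring1)).elim
    | exact (k2 _ _ (.inl rfl) (.inl rfl) (mu.congr (by ring1) (by ring1) (by ring1) (by ring1))).elim
    | exact (k2 _ _ (.inl rfl) (.inr rfl) (mu.congr (by ring1) (by ring1) (by ring1) (by ring1))).elim
    | exact (k2 _ _ (.inr rfl) (.inl rfl) (mu.congr (by ring1) (by ring1) (by ring1) (by ring1))).elim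
    | exact (k2 _ _ (.inr rfl) (.inr rfl) (mu.congr (by ring1) (by ring1) (by ring1) (by ring1))).elim

end X1

open X1 in
theorem x1 (h : Sy B) (h3 : Fintype.card F = 3) (hK : K ≤ SP B) (hu : HU B K) {x f : V}
    (rf : Rf B K x f) : Tv B K := by
  by_contra nt
  obtain ⟨z, y, zy, xz, fz, xy, fy⟩ := h.ex_perp x f
  have y0 : y ≠ 0 := fun e => by simp [e] at zy
  obtain ⟨u, hu0, -, e⟩ := el h h3 hK hu nt rf (y := z) (fun e => by simp [e] at zy) xz fz
  have r1 := map hK rf hu0
  rw [e] at r1
  have r2 := chg h r1 (a := B y (u f)) (b := 1) (c := -1) (d := 0) (by ring)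
  obtain ⟨g, rg⟩ : ∃ g, Rf B K y g := by
    by_cases k : y - (B y (u f) • (x + z) + (1 : F) • u f) = 0
    · rw [sub_eq_zero] at k
      rw [← k] at r2
      exact ⟨_, r2⟩
    · have a1 : B (x + z) (y - (B y (u f) • (x + z) + (1 : F) • u f)) = 0 := by
        rw [map_sub, map_add (B (x + z)), map_smul, map_smul, h.alt, r1.1]; simp [xy, zy]
      have a2 : B (u f) (y - (B y (u f) • (x + z) + (1 : F) • u f)) = 0 := by
        rw [map_sub, map_add (B (u f)), map_smul, map_smul, h.alt, h.skew (x + z), r1.1, h.skew y]; simp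
      obtain ⟨w, hw, -, e⟩ := el h h3 hK hu nt r2 k (by
        rw [map_add B, map_smul, map_smul, LinearMap.add_apply, LinearMap.smul_apply, LinearMap.smul_apply, a1, a2]
        simp) (by
        rw [map_add B, map_smul, map_smul, LinearMap.add_apply, LinearMap.smul_apply, LinearMap.smul_apply, a1, a2]
        simp)
      have := map hK r2 hw
      rw [e, add_sub_cancel] at this
      exact ⟨_, this⟩
  have xg : B x g = 0 := by
    obtain ⟨e, d, hd, k⟩ := rf
    have dy : d y = y := by simp [k, xy, h.refl fy]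
    obtain ⟨c, a⟩ := uq h hK hu nt rg (dy ▸ map hK rg hd)
    have := congrArg (B x) a
    rw [k] at this
    simpa [h.alt, e, xy, h.odd] using this
  obtain ⟨w, hw, wy, wx⟩ := el h h3 hK hu nt rf y0 xy fy
  obtain ⟨c, a⟩ := uq h hK hu nt rg (wy ▸ map hK rg hw)
  have := hK hw x g
  rw [wx, a] at this
  simp [xg, xy, h.alt, rg.1] at this

end CF.Rs
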