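import Cfsg.Agent.Rs.GN
import Cfsg.Agent.Rs.CO2
import Cfsg.Agent.Rs.X1
import Cfsg.Agent.Rs.R0
import Cfsg.Agent.Rs.TB
import Cfsg.Agent.Rs.PM
import Cfsg.Agent.Rs.EX
import Cfsg.Agent.Rs.BT
import Cfsg.Agent.Rs.IV
import Cfsg.Agent.Rs.TR
import Cfsg.Agent.Rs.PS3
import Cfsg.Agent.Rs.MX
import Cfsg.Agent.Rs.PT
import Cfsg.Agent.Rs.W2
import Cfsg.Agent.Rs.TG1
import Cfsg.Agent.Rs.TG2
import Cfsg.Agent.Rs.TG4

/-! Rank 3 actions of symplectic groups in odd characteristic: the main theorem. -/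

set_option autoImplicit false
set_option linter.unusedSectionVars false
open MulAction Module

namespace CF.Rs
open CF.Rq (R3 Sp Tw Oc Cj Btr Gf R4 In Pw Fl)

variable {F V : Type*} [Field F] [Fintype F] [AddCommGroup V] [Module F V]
  {B : V →ₗ[F] V →ₗ[F] F} {k : ℕ} {e : ℕ → V} {Ω : Type*} [MulAction (GG B) Ω]


/-! ## Main -/
theorem Mn.fin (h : Sy B) (r : R3 (GG B) Ω) (pr : IsPreprimitive (GG B) Ω)
    (fa : ∀ g : GG B, (∀ ω : Ω, g • ω = ω) → g ∈ Subgroup.center (GG B)) (ω : Ω)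
    (hω : Fin2 B (Kw B ω)) : Nat.card Ω * (Fintype.card F - 1) + 1 = Nat.card V := by
  have := h.finG
  have := r.tr
  have := r.fin
  rcases hω with hf | ⟨Y, h0, h1, hY⟩
  · exfalso
    obtain ⟨x, y, hxy, -⟩ := h.ex_perp 0 0
    have x0 : x ≠ 0 := by rintro rfl; simp at hxy
    obtain ⟨s, hs⟩ := h.exists_tv x 1
    obtain ⟨t, ht⟩ := h.exists_tv y 1
    have hz := fa s fun ω' => by
      obtain ⟨g, rfl⟩ := exists_smul_eq (GG B) ω ω'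
      obtain ⟨k, hk, e⟩ := (hf (g⁻¹.1 x) (by simpa using x0)).2 1
      have h2 : k = (g⁻¹ * s * g).1 := by
        ext v
        have h3 : B (g⁻¹.1 x) v = B x (g.1 v) := by rw [← GG.map g, GG.inv_apply]
        rw [e, GG.mul_apply, GG.mul_apply, hs, map_add, GG.apply_inv]
        simp only [LinearMap.smul_apply, E_apply, map_smul, h3]
      rw [h2, mem_Kw, mul_smul, mul_smul, inv_smul_eq_iff] at hk
      exact hk
    have h5 := congrArg (fun g : GG B => B x (g.1 y)) (Subgroup.mem_center_iff.1 hz t)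
    have hyx : B y x = -1 := by rw [h.skew, hxy]
    simp [GG.mul_apply, hs, ht, E_apply, h.alt, hxy, hyx] at h5
  · have : Nontrivial Ω := by
      obtain ⟨ω₀, h3⟩ := r.rk
      by_contra hn
      rw [not_nontrivial_iff_subsingleton] at hn
      have := Finite.card_le_one_iff_subsingleton.2
        (inferInstance : Subsingleton (orbitRel.Quotient (stabilizer (GG B) ω₀) Ω))
      omega
    obtain ⟨x, x0, e⟩ := red0 h (IsPreprimitive.isCoatom_stabilizer_of_isPreprimitive _ ω)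
      (r.r4 ω) h0 h1 fun k hk v hv => hY k.1 (mem_Kw.2 hk) v hv
    rw [← red4 h x0, ← e, index_stabilizer_of_transitive]

theorem Mn.caseN (h : Sy B) (b : Fb B k e) [Nonempty Ω] {Γ : Subgroup Fˣ} (nd : Nd Γ)
    (fr : ∀ ω : Ω, ∀ α ∈ Γ, ∀ β ∈ Γ, ∃ τ, Aw B k e ω τ ∧ τ 0 = α ∧ τ 1 = β) {γ : Fˣ} (hγ : γ ≠ 1)
    (av : ∀ i < k, ∀ ω : Ω, Aw B k e ω (d1 i γ)) : ∃ ω : Ω, Fin2 B (Kw B ω) := by
  have k3 := b.k3 h
  obtain ⟨ω, hω⟩ := b.pg h (av 0 (by omega)) (by simp [d1]) (by simpa [d1] using hγ)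
  obtain ⟨u, hu, tf⟩ := b.tf h ω
  obtain ⟨y, c, -, -, t, hi⟩ := b.bb h hγ (fun i hi => av i hi _) (hω.smulU h b (by omega) hu) tf
  exact ⟨_, gn h (Kw_le _) nd (b.fr h fr _) t hi⟩

theorem Mn.d1_mem {Γ : Subgroup Fˣ} {γ : Fˣ} (hγ : γ ∈ Γ) (i j : ℕ) : d1 i γ j ∈ Γ := by
  unfold d1; split_ifs
  exacts [hγ, Γ.one_mem]

theorem Mn.caseP (h : Sy B) (b : Fb B k e) (r : R3 (GG B) Ω) (hp : (Fintype.card F).Prime)
    (tv : ∃ ω : Ω, Tv B (Kw B ω)) : ∃ ω : Ω, Fin2 B (Kw B ω) :=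
  let ⟨ω, hω⟩ := tv
  ⟨ω, co_fin h (Kw_le _) hp hω (b.threeL h r ω)⟩

theorem Mn.small (h : Sy B) (b : Fb B k e) (r : R3 (GG B) Ω) (h3 : Fintype.card F ≠ 3) {p : ℕ}
    (hp : p.Prime) (h5 : p ≤ 5) (hm : ∀ ω : Ω, ∀ t ∈ Tt B k e, Tw (Uu B k e) ω (t ^ p)) :
    ∃ ω : Ω, Fin2 B (Kw B ω) := by
  have := h.finG
  have := r.ne
  rcases nd_pow h.odd h3 hp h5 with nd | ⟨hq, hn⟩
  · obtain ⟨γ, hγ, h1⟩ := nd.ex
    refine Mn.caseN h b nd (fun ω α hα β hβ => ⟨d1 0 α * d1 1 β, b.av_pow h (hm ω) fun i _ =>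
      (Pw F p).mul_mem (Mn.d1_mem hα _ _) (Mn.d1_mem hβ _ _), by simp [d1], by simp [d1]⟩)
      (γ := γ) (by rintro rfl; simp at h1) fun i _ ω => b.av_pow h (hm ω) fun j _ =>
        Mn.d1_mem hγ _ _
  · exact Mn.caseP h b r hq (b.pm h fun i _ ω => b.av_pow h (hm ω) fun j _ => Mn.d1_mem hn _ _)

theorem Mn.big (h : Sy B) (b : Fb B k e) (r : R3 (GG B) Ω) (h3 : Fintype.card F ≠ 3) :
    ∃ ω : Ω, Fin2 B (Kw B ω) := by
  have := h.finG
  have := r.ne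
  by_cases bt : Btr Ω (Uu B k e) (Tt B k e)
  · exact Mn.small h b r h3 Nat.prime_two (by omega) (b.ex2 h r bt)
  rcases r.out (b.sp h) with h1 | ⟨-, p, hp, -, h1⟩
  · exact Mn.small h b r h3 Nat.prime_two (by omega) fun ω t ht =>
      h1 ω _ (Subgroup.pow_mem _ ht _)
  have hm := h1.resolve_right bt
  by_cases h5 : p ≤ 5
  · exact Mn.small h b r h3 hp h5 hm
  have h7 : 7 ≤ p := by
    by_contra h6
    obtain rfl : p = 6 := by omega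
    exact absurd hp (by decide)
  refine Mn.caseN h b (nd_top h.odd h3) (fun ω α _ β _ => b.wl h r bt hp h7 hm ω α β)
    (neg_one_ne h.odd) fun i _ ω => b.av_pow h (hm ω) fun j _ => Mn.d1_mem (Γ := Pw F p) ⟨-1, ?_⟩ _ _
  exact (hp.odd_of_ne_two (by omega)).neg_one_pow

theorem Mn.three (h : Sy B) (b : Fb B k e) (r : R3 (GG B) Ω) (h3 : Fintype.card F = 3)
    (ng : Ng B Ω) : ∃ ω : Ω, Tv B (Kw B ω) := by
  have := h.finG
  have := r.ne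
  have k3 := b.k3 h
  by_cases bt : Btr Ω (Uu B k e) (Tt B k e)
  · rcases b.bt3 h h3 bt ng with h1 | ⟨k4, h1⟩ | cs
    · exact b.pm h h1
    · exact b.tr3 h h3 bt k4 h1
    · exact (b.iv h h3 bt ng cs).elim
  rcases r.out (b.sp h) with h1 | ⟨⟨l, hl⟩, -⟩
  · refine b.pm h fun i _ ω => ?_
    obtain ⟨t, ht⟩ := b.exists_dg h (d1 i (-1))
    exact ⟨t, ht, h1 ω t ht.mem⟩
  have pn := fun i hi ω => b.ps3 h h3 r hl bt (i := i) hi ω
  obtain ⟨ω, tf, hg⟩ := b.mx h pn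
  by_cases sp : Sep B k e ω
  · exact ⟨ω, b.pt h h3 tf hg sp⟩
  by_contra nt
  obtain ⟨rfl, cs⟩ := b.w2 h h3 r bt sp fun i hi ω' av => by
    obtain ⟨ω'', x, f, rf⟩ := b.rf h hi av
    exact nt ⟨ω'', x1 h h3 (Kw_le _) (b.hu h (pn 0 (by omega)) _) rf⟩
  have ui := b.ui h cs
  exact b.cnt h h3 ng ui (b.ltr h h3 r bt ui)

theorem main (h : Sy B) (b : Fb B k e) (r : R3 (GG B) Ω) (pr : IsPreprimitive (GG B) Ω)
    (fa : ∀ g : GG B, (∀ ω : Ω, g • ω = ω) → g ∈ Subgroup.center (GG B)) (ng : Ng B Ω) :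
    Nat.card Ω * (Fintype.card F - 1) + 1 = Nat.card V := by
  obtain ⟨ω, hω⟩ : ∃ ω : Ω, Fin2 B (Kw B ω) := by
    by_cases h3 : Fintype.card F = 3
    · exact Mn.caseP h b r (h3 ▸ Nat.prime_three) (Mn.three h b r h3 ng)
    · exact Mn.big h b r h3
  exact Mn.fin h r pr fa ω hω

end CF.Rs
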