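import Cfsg.Agent.Rs.L1
import Cfsg.Agent.Rq.PG

/-! Rank 3 actions of symplectic groups: the plane lemma. -/

set_option autoImplicit false
open MulAction Module

namespace CF.Rs
open CF.Rq (R3 Sp Tw Oc Cj Btr Gf R4 In Pw Fl)

variable {F V : Type*} [Field F] [Fintype F] [AddCommGroup V] [Module F V]
  {B : V →ₗ[F] V →ₗ[F] F} {K : Subgroup (V ≃ₗ[F] V)}

namespace PL

variable {H : Subgroup (V ≃ₗ[F] V)} {N : Submodule F V} {c c' c'' u u' u'' w x y z n p : V}
  {ψ φ : V →ₗ[F] V}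

omit [Fintype F] in
theorem comp (h : Ho B H N c u) (h' : Ho B H N c' u') (hc : c' ∈ N)
    (e : ∀ v ∈ N, B u'' v • c'' = B u' v • c' + B u v • c + (B u' v * B u c') • c) :
    Ho B H N c'' u'' := by
  obtain ⟨g, hg, k⟩ := h
  obtain ⟨g', hg', k'⟩ := h'
  refine ⟨g * g', H.mul_mem hg hg', fun v hv => ?_⟩
  rw [LinearEquiv.mul_apply, k' v hv, map_add, map_smul, k v hv, k _ hc, e v hv]
  module

omit [Fintype F] in
theorem iv {g : V ≃ₗ[F] V} (k : ∀ v ∈ N, g v = v + B u v • z) (hz : z ∈ N) {s : F}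
    (e : s * (1 + B u z) = -1) {v : V} (hv : v ∈ N) : g⁻¹ v = v + (s * B u v) • z := by
  refine g.injective ((g.apply_symm_apply v).trans ?_)
  rw [k _ (add_mem hv (N.smul_mem _ hz)), map_add, map_smul, smul_eq_mul, add_assoc, ← add_smul]
  have : s * B u v + (B u v + s * B u v * B u z) = 0 := by linear_combination B u v * e
  rw [this, zero_smul, add_zero]

omit [Fintype F] in
theorem neg (h : Ho B H N z u) (hz : z ∈ N) (e : B u z = 0) : Ho B H N z (-u) := by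
  obtain ⟨g, hg, k⟩ := h
  exact ⟨g⁻¹, H.inv_mem hg, fun v hv => by rw [iv k hz (s := -1) (by simp [e]) hv]; simp⟩

omit [Fintype F] in
theorem cnj (h : Ho B H N z u) (h' : Ho B H N y w) (hz : z ∈ N) (hy : y ∈ N) {s : F}
    (e : s * (1 + B u z) = -1) : Ho B H N (y + B u y • z) (w + (s * B w z) • u) := by
  obtain ⟨g, hg, k⟩ := h
  obtain ⟨g', hg', k'⟩ := h'
  refine ⟨g * g' * g⁻¹, H.mul_mem (H.mul_mem hg hg') (H.inv_mem hg), fun v hv => ?_⟩
  have e2 := iv k hz e hv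
  rw [LinearEquiv.mul_apply, LinearEquiv.mul_apply, k' _ (e2 ▸ add_mem hv (N.smul_mem _ hz)), map_add,
    map_smul, k y hy, show g (g⁻¹ v) = v from g.apply_symm_apply v, e2]
  simp only [map_add, map_smul, LinearMap.add_apply, LinearMap.smul_apply, smul_eq_mul]
  module

omit [Fintype F] in
theorem an (h : AN K N ψ) (e : ∀ v, ψ v = φ v) : AN K N φ := by
  rwa [← LinearMap.ext e]

/-- the standing hypotheses -/
structure Cx (B : V →ₗ[F] V →ₗ[F] F) (K H : Subgroup (V ≃ₗ[F] V)) (N : Submodule F V)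
    (ψ : V →ₗ[F] V) : Prop where
  sy : Sy B
  hK : K ≤ SP B
  nt : ¬ Tv B K
  hH : H ≤ K
  ti : N ≤ Pp B N
  h3 : finrank F N = 3
  ho : ∀ z ∈ N, z ≠ 0 → ∃ u, B u z = -2 ∧ Ho B H N z u
  h1 : AN K N ψ
  h0 : ψ ≠ 0

/-- an elation -/
structure El (B : V →ₗ[F] V →ₗ[F] F) (H : Subgroup (V ≃ₗ[F] V)) (N : Submodule F V) (c u : V) :
    Prop where
  mem : c ∈ N
  ne : c ≠ 0
  z : B u c = 0
  ex : ∃ n ∈ N, B u n ≠ 0
  ho : Ho B H N c u

namespace Cx
variable (h : Cx B K H N ψ)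
include h

omit [Fintype F] in
theorem sq (hx : x ≠ 0) {a : F} (k : AN K N φ) (e : ∀ v, φ v = (a * B x v) • x) : a = 0 :=
  by_contra fun ha => h.nt ⟨x, a, hx, ha, (an k (φ := a • E B x x) fun v => by
    rw [e, mul_smul]; rfl).1⟩

theorem act (k : AN K N φ) (hc : c ∈ N) (o : Ho B H N c u) :
    AN K N (Pm B c (φ u) - B (φ u) u • E B c c) := k.act h.sy h.hK h.ti hc (o.mono h.hH)

theorem e0 (k : AN K N φ) (l : El B H N c u) : B (φ u) u = 0 := by
  have c0 := h.sy.refl l.z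
  refine (mul_eq_zero.1 (h.sq l.ne (a := 2 * B (φ u) u) (h.act (h.act k l.mem l.ho) l.mem l.ho)
    fun v => ?_)).resolve_left h.sy.odd
  simp only [LinearMap.sub_apply, LinearMap.smul_apply, Pm_apply, E_apply, c0, map_add, map_smul,
    map_sub, LinearMap.add_apply, smul_eq_mul, zero_smul, mul_zero, smul_zero, add_zero, sub_zero]
  module

theorem e1 (k : AN K N φ) (l : El B H N c u) : AN K N (Pm B c (φ u)) := by
  simpa [h.e0 k l] using h.act k l.mem l.ho

theorem e2 (k : AN K N φ) (l : El B H N c u) {a : F} (e : φ u = a • c) : φ u = 0 := by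
  have := h.sq l.ne (a := 2 * a) (h.e1 k l) fun v => by
    rw [e, Pm_apply, map_smul, LinearMap.smul_apply, smul_eq_mul]; module
  rw [e, (mul_eq_zero.1 this).resolve_left h.sy.odd, zero_smul]

omit [Fintype F] in
theorem lin (hc : c ∈ N) (c0 : c ≠ 0) (c1 : B u c = 0) (c2 : B u' c = 0) (hp : p ∈ N) (hn : n ∈ N)
    (d : B u p * B u' n - B u n * B u' p ≠ 0) (hx : x ∈ N) (x1 : B u x = 0) (x2 : B u' x = 0) :
    ∃ a : F, x = a • c := by
  have := Module.finite_of_finrank_eq_succ h.h3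
  have nl : ¬ LinearIndependent F (![⟨x, hx⟩, ⟨c, hc⟩, ⟨p, hp⟩, ⟨n, hn⟩] : Fin 4 → N) := fun l => by
    have := l.fintype_card_le_finrank
    simp [h.h3] at this
  obtain ⟨g, e, i, hi⟩ := Fintype.not_linearIndependent_iff.1 nl
  have e' : g 0 • x + g 1 • c + g 2 • p + g 3 • n = 0 := by
    simpa [Fin.sum_univ_four] using congrArg Subtype.val e
  have f1 := congrArg (B u) e'
  have f2 := congrArg (B u') e'
  simp only [map_add, map_smul, x1, x2, c1, c2, smul_eq_mul, mul_zero, zero_add, map_zero] at f1 f2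
  have g2 : g 2 = 0 := (mul_eq_zero.1 (by linear_combination B u' n * f1 - B u n * f2)).resolve_right d
  have g3 : g 3 = 0 := (mul_eq_zero.1 (by linear_combination B u p * f2 - B u' p * f1)).resolve_right d
  rw [g2, g3, zero_smul, zero_smul, add_zero, add_zero] at e'
  have g0 : g 0 ≠ 0 := fun g0 => by
    rw [g0, zero_smul, zero_add, smul_eq_zero, or_iff_left c0] at e'
    fin_cases i <;> contradiction
  refine ⟨-((g 0)⁻¹ * g 1), ?_⟩
  rw [← one_smul F x, ← inv_mul_cancel₀ g0, mul_smul, eq_neg_of_add_eq_zero_left e']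
  module

theorem rng (c0 : c ≠ 0) (k : ∀ v, ∃ a : F, ψ v = a • c) : False := by
  obtain ⟨f, hf⟩ : ∃ f, B c f = 1 := by
    obtain ⟨f, hf⟩ := not_forall.1 (mt (h.sy.nd c) c0)
    exact ⟨(B c f)⁻¹ • f, by simp [hf]⟩
  obtain ⟨a, ha⟩ := k f
  have e : ∀ v, ψ v = (a * B c v) • c := fun v => by
    obtain ⟨b, hb⟩ := k v
    have := h.h1.skew h.sy h.hK h.ti v f
    rw [ha, hb, map_smul, map_smul, LinearMap.smul_apply, LinearMap.smul_apply, hf, smul_eq_mul,
      mul_one] at this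
    rw [hb, this, smul_eq_mul]
  exact h.h0 (LinearMap.ext fun v => by rw [e, h.sq c0 h.h1 e]; simp)

theorem rng' (hc : c ∈ N) (c0 : c ≠ 0) (c1 : B u c = 0) (c2 : B u' c = 0) (hp : p ∈ N) (hn : n ∈ N)
    (d : B u p * B u' n - B u n * B u' p ≠ 0) (e : ψ u = 0) (e' : ψ u' = 0) : False :=
  h.rng c0 fun v => h.lin hc c0 c1 c2 hp hn d (h.h1.2 v)
    (h.sy.refl (by rw [h.h1.skew h.sy h.hK h.ti, e]; simp))
    (h.sy.refl (by rw [h.h1.skew h.sy h.hK h.ti, e']; simp))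

theorem one (l : El B H N c u) (l' : El B H N c u') (hn : n ∈ N) (k : B u n = 0) : B u' n = 0 := by
  by_contra k'
  obtain ⟨p, hp, p0⟩ := l.ex
  have d : B u p * B u' n - B u n * B u' p ≠ 0 := by simp [k, k', p0]
  have l'' : El B H N c (u + u') := ⟨l.mem, l.ne, by simp [l.z, l'.z], ⟨n, hn, by simp [k, k']⟩,
    comp l.ho l'.ho l.mem fun v _ => by simp [l.z, add_smul, add_comm]⟩
  have s := h.h1.skew h.sy h.hK h.ti u' u
  have e := h.e0 h.h1 l''
  have a1 := h.e0 h.h1 l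
  have a2 := h.e0 h.h1 l'
  simp only [map_add, LinearMap.add_apply, a1, a2, s, zero_add, add_zero, ← two_mul] at e
  have e' := (mul_eq_zero.1 e).resolve_left h.sy.odd
  obtain ⟨a, ha⟩ := h.lin l.mem l.ne l.z l'.z hp hn d (h.h1.2 u) (h.sy.refl a1) (h.sy.refl e')
  obtain ⟨b, hb⟩ := h.lin l.mem l.ne l.z l'.z hp hn d (h.h1.2 u') (h.sy.refl (s.trans e')) (h.sy.refl a2)
  exact h.rng' l.mem l.ne l.z l'.z hp hn d (h.e2 h.h1 l ha) (h.e2 h.h1 l' hb)

omit [Fintype F] in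
theorem exo (u u' : V) : ∃ o ∈ N, o ≠ 0 ∧ B u o = 0 ∧ B u' o = 0 := by
  have := Module.finite_of_finrank_eq_succ h.h3
  obtain ⟨o, ho, o0⟩ := (Submodule.ne_bot_iff _).1 (LinearMap.ker_ne_bot_of_finrank_lt
    (f := (B u ∘ₗ N.subtype).prod (B u' ∘ₗ N.subtype)) (by simp [h.h3]))
  exact ⟨o, o.2, by simpa using o0, by simpa using ho⟩

theorem exe : ∃ c u, El B H N c u := by
  by_contra! ne
  have := Module.finite_of_finrank_eq_succ h.h3
  have := Module.finite_of_finite F (M := N)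
  have := Module.nontrivial_of_finrank_eq_succ h.h3
  have ex : ∀ z : N, ∃ u, z ≠ 0 → B u z = -2 ∧ Ho B H N z u := fun z => by
    by_cases z0 : z = 0
    · exact ⟨0, fun k => absurd z0 k⟩
    · obtain ⟨u, k⟩ := h.ho z z.2 (by simpa using z0)
      exact ⟨u, fun _ => k⟩
  choose a k using ex
  have n2 : (-2 : F) ≠ 0 := neg_ne_zero.2 h.sy.odd
  refine Rq.PG.pol' (fun z => LinearMap.ker (B (a z) ∘ₗ N.subtype)) (fun z y _ _ => ?_)
    (fun z hz e => n2 ((k z hz).1.symm.trans e)) fun z y hz hy e => ?_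
  · obtain ⟨o, ho, o0, e1, e2⟩ := h.exo (a z) (a y)
    exact (Submodule.ne_bot_iff _).2 ⟨⟨o, ho⟩, ⟨e1, e2⟩, by simpa using o0⟩
  change B (a z) y = 0 at e
  change B (a y) z = 0
  obtain ⟨z1, z2⟩ := k z hz
  obtain ⟨y1, y2⟩ := k y hy
  have c := cnj z2 y2 z.2 y.2 (s := 1) (by rw [z1]; ring)
  rw [e, zero_smul, add_zero, one_mul] at c
  by_contra e'
  refine ne y (B (a y) z • a z) ⟨y.2, by simpa using hy, by simp [e], ⟨z, z.2, by simp [e', z1, h.sy.odd]⟩,
    comp c y2 y.2 fun v _ => ?_⟩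
  simp only [map_add, map_smul, LinearMap.add_apply, LinearMap.smul_apply, smul_eq_mul, e, y1]
  module

theorem two1 (l : El B H N z u) (l' : El B H N y w) (e : B w z = 0) : B u y = 0 := by
  by_contra s
  obtain ⟨n, hn, n0⟩ := l'.ex
  have c := cnj l.ho l'.ho l.mem l'.mem (s := -1) (by simp [l.z])
  rw [e, mul_zero, zero_smul, add_zero] at c
  refine s (h.one (u := B u y • w) ⟨l.mem, l.ne, by simp [e], ⟨n, hn, by simp [s, n0]⟩,
    comp c (neg l'.ho l'.mem l'.z) l'.mem fun v _ => ?_⟩ l l'.mem (by simp [l'.z]))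
  simp only [map_neg, map_smul, LinearMap.neg_apply, LinearMap.smul_apply, smul_eq_mul, l'.z]
  module

theorem bz (l : El B H N z u) (l' : El B H N y w) (e : B w z ≠ 0) (k : AN K N φ) :
    B (φ u) w = 0 := by
  have := h.e0 (h.e1 k l) l'
  rw [Pm_apply, map_add, map_smul, map_smul, LinearMap.add_apply, LinearMap.smul_apply,
    LinearMap.smul_apply, smul_eq_mul, smul_eq_mul, mul_comm, ← two_mul, h.sy.skew w z] at this
  simpa [h.sy.odd, e] using this

theorem two2 (l : El B H N z u) (l' : El B H N y w) (e : B w z ≠ 0) (s : B u y ≠ 0) {o : V}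
    (ho : o ∈ N) (o0 : o ≠ 0) (o1 : B u o = 0) (o2 : B w o = 0) {r : F} (r0 : r ≠ 0)
    (k : AN K N (r • Pm B z o)) : False := by
  have zo : o + z ≠ 0 := fun f => e (by simpa [o2] using congrArg (B w) f)
  have m := add_mem ho l.mem
  obtain ⟨u', a1, a2⟩ := h.ho _ m zo
  have k1 := h.e1 k l'
  have sk := h.sy.skew
  have b1 := h.bz l l' e (h.act k1 m a2)
  simp only [LinearMap.sub_apply, LinearMap.smul_apply, Pm_apply, E_apply, map_add, map_smul, map_sub,
    LinearMap.add_apply, smul_eq_mul, sk u, sk w, sk u', o1, o2, l.z, l'.z, h.sy.alt,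
    h.ti ho _ l.mem, h.ti ho _ l'.mem, h.ti l.mem _ ho, h.ti l'.mem _ ho] at b1
  have b2 : B u' o = 0 := by
    have : r * B w z * B w z * B u y * B u' o = 0 := by linear_combination b1
    simpa [r0, e, s] using this
  have b3 : B u' z = -2 := by simpa [b2] using a1
  have k2 := (h.act k m a2).add h.sy h.hK h.ti
    ((k.add h.sy h.hK h.ti k).neg h.sy h.hK h.ti)
  have := h.sq o0 (a := 2 * 2 * r) k2 fun v => by
    simp only [LinearMap.sub_apply, LinearMap.smul_apply, Pm_apply, E_apply, map_add, map_smul,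
      LinearMap.add_apply, LinearMap.neg_apply, smul_eq_mul, sk u', b2, b3]
    module
  simp [r0, h.sy.odd] at this

theorem two (l : El B H N z u) (l' : El B H N y w) : B u y = 0 := by
  by_contra s
  have e : B w z ≠ 0 := fun e => s (h.two1 l l' e)
  obtain ⟨o, ho, o0, o1, o2⟩ := h.exo u w
  have d : B u y * B w z - B u z * B w y ≠ 0 := by simp [l.z, s, e]
  obtain ⟨a, ha⟩ := h.lin ho o0 o1 o2 l'.mem l.mem d (h.h1.2 u) (h.sy.refl (h.e0 h.h1 l))
    (h.sy.refl (h.bz l l' e h.h1))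
  obtain ⟨b, hb⟩ := h.lin ho o0 o1 o2 l'.mem l.mem d (h.h1.2 w) (h.sy.refl (h.bz l' l s h.h1))
    (h.sy.refl (h.e0 h.h1 l'))
  have pm : ∀ (x : V) (t : F) v, Pm B x (t • o) v = (t • Pm B x o) v := fun x t v => by
    simp only [Pm_apply, map_smul, LinearMap.smul_apply, smul_eq_mul]; module
  by_cases a0 : a = 0
  · by_cases b0 : b = 0
    · exact h.rng' ho o0 o1 o2 l'.mem l.mem d (by simp [ha, a0]) (by simp [hb, b0])
    · exact h.two2 l' l s e ho o0 o2 o1 b0 (an (hb ▸ h.e1 h.h1 l') (pm _ _))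
  · exact h.two2 l l' e s ho o0 o1 o2 a0 (an (ha ▸ h.e1 h.h1 l) (pm _ _))

theorem three (l : El B H N z u) (hw : w ∈ N) (w0 : B u w ≠ 0) (a1 : B u' w = -2)
    (a2 : Ho B H N w u') (hc : c ∈ N) (c0 : B u c = 0) : B u' c = 0 := by
  have l' : El B H N (z + B u' z • w) (u + (1 * B u w) • u') :=
    ⟨add_mem l.mem (N.smul_mem _ hw), fun f => by
      have := congrArg (B u) f
      simp only [map_add, map_smul, l.z, smul_eq_mul, map_zero, zero_add, mul_eq_zero, w0, or_false] at this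
      exact l.ne (by simpa [this] using f),
    by simp only [map_add, map_smul, LinearMap.add_apply, LinearMap.smul_apply, smul_eq_mul, l.z, a1]; ring,
    ⟨w, hw, by
      simp only [map_add, map_smul, LinearMap.add_apply, LinearMap.smul_apply, smul_eq_mul, a1]
      exact fun f => w0 (by linear_combination -f)⟩,
    cnj a2 l.ho hw l.mem (by rw [a1]; ring)⟩
  have t := h.two l l'
  simp only [map_add, map_smul, l.z, smul_eq_mul, zero_add, mul_eq_zero, w0, or_false] at t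
  rw [t, zero_smul, add_zero] at l'
  simpa [c0, w0] using h.one l l' hc c0

end Cx
end PL

open PL in
theorem pl (h : Sy B) (hK : K ≤ SP B) (nt : ¬ Tv B K) {H : Subgroup (V ≃ₗ[F] V)} (hH : H ≤ K)
    {N : Submodule F V} (ti : N ≤ Pp B N) (h3 : finrank F N = 3)
    (ho : ∀ z ∈ N, z ≠ 0 → ∃ u, B u z = -2 ∧ Ho B H N z u) {ψ : V →ₗ[F] V} (h1 : AN K N ψ)
    (h0 : ψ ≠ 0) : ∃ u, (∃ n ∈ N, B u n ≠ 0) ∧ (∀ φ, AN K N φ → φ u = 0) ∧
      (∀ c ∈ N, B u c = 0 → Ho B H N c u) ∧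
      ∀ w ∈ N, ∀ u', B u w ≠ 0 → B u' w = -2 → Ho B H N w u' → ∀ c ∈ N, B u c = 0 → B u' c = 0 := by
  have X : Cx B K H N ψ := ⟨h, hK, nt, hH, ti, h3, ho, h1, h0⟩
  obtain ⟨z, u1, l⟩ := X.exe
  obtain ⟨w0, hw, w1⟩ := l.ex
  obtain ⟨u, a1, a2⟩ := ho w0 hw fun f => w1 (by simp [f])
  have dec : ∀ {u' w : V}, w ∈ N → B u1 w ≠ 0 → B u' w = -2 → Ho B H N w u' → ∀ v ∈ N,
      B u' v * B u1 w = -2 * B u1 v := fun {u' w} hw w1 a1 a2 v hv => by
    have := X.three l hw w1 a1 a2 (c := B u1 w • v - B u1 v • w)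
      (sub_mem (N.smul_mem _ hv) (N.smul_mem _ hw)) (by simp [mul_comm])
    simp only [map_sub, map_smul, smul_eq_mul, a1] at this
    linear_combination this
  have n2 : (-2 : F) ≠ 0 := neg_ne_zero.2 h.odd
  have ker : ∀ v ∈ N, B u v = 0 ↔ B u1 v = 0 := fun v hv => by
    have := dec hw w1 a1 a2 v hv
    exact ⟨fun f => by simpa [f, h.odd] using this, fun f => by simpa [f, w1] using this⟩
  have ex : ∃ n ∈ N, B u n ≠ 0 := ⟨w0, hw, a1 ▸ n2⟩
  have el : ∀ c ∈ N, B u c = 0 → Ho B H N c u := fun c hc c0 => by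
    have m := add_mem hw hc
    have e : B u1 (w0 + c) = B u1 w0 := by simp [(ker c hc).1 c0]
    obtain ⟨u', b1, b2⟩ := ho _ m fun f => w1 (by simp [← e, f])
    refine comp a2 b2 m fun v hv => ?_
    have : B u' v = B u v := mul_right_cancel₀ w1 (by
      rw [dec hw w1 a1 a2 v hv, ← dec m (e ▸ w1) b1 b2 v hv, e])
    rw [this, map_add, a1, c0]
    module
  refine ⟨u, ex, fun φ k => by_contra fun f => ?_, el, fun w hw u' b0 b1 b2 c hc c0 =>
    X.three l hw (mt (ker w hw).2 b0) b1 b2 hc ((ker c hc).1 c0)⟩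
  have z0 := (ker z l.mem).2 l.z
  have c0 := h.refl (X.e0 k ⟨l.mem, l.ne, z0, ex, el z l.mem z0⟩)
  exact f (X.e2 k ⟨k.2 u, f, c0, ex, el _ (k.2 u) c0⟩ (one_smul F _).symm)

end CF.Rs
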