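import Cfsg.Agent.Rs.L1

/-! Basic facts on the symplectic frame, first part. -/

set_option autoImplicit false
set_option linter.unusedSectionVars false
open MulAction Module

namespace CF.Rs
open CF.Rq (R3 Sp Tw Oc Cj Btr Gf R4 In Pw Fl)

variable {F V : Type*} [Field F] [Fintype F] [AddCommGroup V] [Module F V]
  {B : V →ₗ[F] V →ₗ[F] F} {k : ℕ} {e : ℕ → V}

theorem UT.fin (h : Sy B) : Finite (GG B) := by
  have := h.fd
  have : Finite V := Module.finite_of_finite F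
  have : Finite (V ≃ₗ[F] V) :=
    Finite.of_injective (fun g : V ≃ₗ[F] V => (g : V → V)) DFunLike.coe_injective
  infer_instance

theorem Fb.k3 (h : Sy B) (b : Fb B k e) : 3 ≤ k := by
  have h1 := h.dim
  rw [b.dim] at h1
  omega

theorem co_lo {i : ℕ} (hi : i < k) (v : V) : co B k e i v = -B (e (2 * k - 1 - i)) v := by
  simp [co, hi]

theorem co_ge {i : ℕ} (hi : k ≤ i) (v : V) : co B k e i v = B (e (2 * k - 1 - i)) v := by
  simp [co, not_lt.2 hi]

theorem co_hi {i : ℕ} (hi : i < k) (v : V) : co B k e (2 * k - 1 - i) v = B (e i) v := by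
  rw [co_ge (by omega), show 2 * k - 1 - (2 * k - 1 - i) = i by omega]

theorem co_eq_zero {i : ℕ} {v : V} : co B k e i v = 0 ↔ B (e (2 * k - 1 - i)) v = 0 := by
  by_cases hi : i < k
  · rw [co_lo hi, neg_eq_zero]
  · rw [co_ge (by omega)]

theorem Fb.co_e (b : Fb B k e) {i j : ℕ} (hi : i < 2 * k) (hj : j < 2 * k) :
    co B k e i (e j) = if i = j then 1 else 0 := by
  by_cases h1 : i < k
  · rw [co_lo h1, b.gram _ (by omega) _ hj]
    by_cases h2 : i = j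
    · rw [if_pos (by omega), if_neg (by omega), if_pos h2, neg_neg]
    · rw [if_neg (by omega), if_neg h2, neg_zero]
  · rw [co_ge (by omega), b.gram _ (by omega) _ hj]
    by_cases h2 : i = j
    · rw [if_pos (by omega), if_pos (by omega), if_pos h2]
    · rw [if_neg (by omega), if_neg h2]

theorem Fb.ext (b : Fb B k e) {M : Type*} [AddCommGroup M] [Module F M] {f g : V →ₗ[F] M}
    (hf : ∀ i < 2 * k, f (e i) = g (e i)) : f = g := by
  refine LinearMap.ext_on b.span ?_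
  rintro _ ⟨i, hi, rfl⟩
  exact hf i hi

theorem Fb.ext' (b : Fb B k e) {g g' : GG B} (hf : ∀ i < 2 * k, g.1 (e i) = g'.1 (e i)) :
    g = g' :=
  Subtype.ext (LinearEquiv.toLinearMap_injective (b.ext hf))

theorem Fb.sum (b : Fb B k e) (v : V) :
    v = ∑ i ∈ Finset.range (2 * k), co B k e i v • e i := by
  have : (LinearMap.id : V →ₗ[F] V) =
      ∑ i ∈ Finset.range (2 * k), (co B k e i).smulRight (e i) := by
    refine b.ext fun j hj => ?_
    rw [LinearMap.sum_apply, Finset.sum_eq_single j]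
    · simp [b.co_e hj hj]
    · intro i hi hij
      simp [b.co_e (Finset.mem_range.1 hi) hj, hij]
    · simp [hj]
  simpa [LinearMap.sum_apply] using LinearMap.congr_fun this v

theorem Fb.eq_of (b : Fb B k e) {v w : V} (hc : ∀ i < 2 * k, co B k e i v = co B k e i w) :
    v = w := by
  rw [b.sum v]
  conv_rhs => rw [b.sum w]
  exact Finset.sum_congr rfl fun i hi => by rw [hc i (Finset.mem_range.1 hi)]

theorem Fb.ne (b : Fb B k e) {i : ℕ} (hi : i < 2 * k) : e i ≠ 0 := fun h0 => by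
  have := b.co_e hi hi
  rw [h0] at this
  simp at this

theorem Fb.li (b : Fb B k e) {r : ℕ} (hr : r ≤ 2 * k) :
    LinearIndependent F fun i : Fin r => e i := by
  rw [Fintype.linearIndependent_iff]
  intro g hg j
  have := congrArg (co B k e j) hg
  have hj : ∀ i : Fin r, (i : ℕ) < 2 * k := fun i => i.2.trans_le hr
  rw [map_sum, map_zero, Finset.sum_eq_single j] at this
  · simpa [b.co_e (hj j) (hj j)] using this
  · intro i _ hij
    simp [b.co_e (hj j) (hj i), Fin.val_inj, Ne.symm hij]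
  · simp

theorem Fb.basis (b : Fb B k e) : ∃ c : Basis (Fin (2 * k)) F V, ∀ i, c i = e i := by
  refine ⟨Basis.mk (b.li le_rfl) ?_, fun i => Basis.mk_apply _ _ i⟩
  rw [← b.span]
  refine Submodule.span_mono ?_
  rintro _ ⟨i, hi, rfl⟩
  exact ⟨⟨i, hi⟩, rfl⟩

theorem Fb.B0 (b : Fb B k e) {i j : ℕ} (hi : i < 2 * k) (hj : j < 2 * k)
    (h2 : i + j + 1 ≠ 2 * k) : B (e i) (e j) = 0 := by rw [b.gram i hi j hj, if_neg h2]

theorem Fb.B1 (b : Fb B k e) {i : ℕ} (hi : i < k) : B (e i) (e (2 * k - 1 - i)) = 1 := by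
  rw [b.gram i (by omega) _ (by omega), if_pos (by omega), if_pos (by omega)]

theorem Fb.B2 (b : Fb B k e) {i : ℕ} (hi : i < k) : B (e (2 * k - 1 - i)) (e i) = -1 := by
  rw [b.gram _ (by omega) _ (by omega), if_pos (by omega), if_neg (by omega)]

theorem Fb.ti2 (b : Fb B k e) {i j : ℕ} (hi : i < 2 * k) (hj : j < 2 * k) (h1 : i ≠ j)
    (h2 : i + j + 1 ≠ 2 * k) : Ti2 B (e i) (e j) := by
  refine ⟨b.B0 hi hj h2, fun a c hac => ⟨?_, ?_⟩⟩
  · simpa [b.co_e hi hi, b.co_e hi hj, h1] using congrArg (co B k e i) hac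
  · simpa [b.co_e hj hj, b.co_e hj hi, h1.symm] using congrArg (co B k e j) hac

theorem Fb.mem_Fl (b : Fb B k e) {j : ℕ} (hj : j ≤ 2 * k) {v : V} :
    v ∈ Fl F e j ↔ ∀ i, j ≤ i → i < 2 * k → co B k e i v = 0 := by
  constructor
  · intro hv i h1 h2
    refine (Submodule.mem_bot F).1 (Rq.Fl.ind (co B k e i) ⊥ (fun l hl => ?_) hv)
    rw [b.co_e h2 (by omega), if_neg (by omega)]
    exact Submodule.zero_mem _
  · intro hv
    rw [b.sum v]
    refine Submodule.sum_mem _ fun i hi => ?_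
    by_cases h1 : i < j
    · exact Submodule.smul_mem _ _ (Rq.Fl.mem h1)
    · rw [hv i (by omega) (Finset.mem_range.1 hi), zero_smul]
      exact Submodule.zero_mem _

theorem Fb.co_Fl (b : Fb B k e) {i j : ℕ} (hj : j ≤ i) (hi : i < 2 * k) {v : V}
    (hv : v ∈ Fl F e j) : co B k e i v = 0 := (b.mem_Fl (by omega)).1 hv i hj hi

theorem Fb.Fl_top (b : Fb B k e) (v : V) : v ∈ Fl F e (2 * k) := by
  rw [Fl, b.span]; trivial

theorem Fb.Fl_succ (b : Fb B k e) {j : ℕ} (hj : j < 2 * k) {v : V} (hv : v ∈ Fl F e (j + 1)) :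
    v - co B k e j v • e j ∈ Fl F e j := by
  rw [b.mem_Fl hj.le]
  intro i h1 h2
  rw [map_sub, map_smul, b.co_e h2 hj]
  split_ifs with h3
  · subst h3; simp
  · rw [b.co_Fl (by omega) h2 hv]; simp

theorem Fb.e_not (b : Fb B k e) {i : ℕ} (hi : i < 2 * k) : e i ∉ Fl F e i := fun h1 => by
  simpa [b.co_e hi hi] using b.co_Fl le_rfl hi h1

theorem Fb.B_Fl (b : Fb B k e) {i j : ℕ} (hij : i + j ≤ 2 * k) {v w : V} (hv : v ∈ Fl F e i)
    (hw : w ∈ Fl F e j) : B v w = 0 := by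
  refine (Submodule.mem_bot F).1 (Rq.Fl.ind (B v) ⊥ (fun c hc => ?_) hw)
  refine Rq.Fl.ind (B.flip (e c)) ⊥ (fun a ha => ?_) hv
  exact (Submodule.mem_bot F).2 (b.B0 (by omega) (by omega) (by omega))

theorem Fb.Pp_Fl (b : Fb B k e) {i j : ℕ} (hij : i + j = 2 * k) :
    Pp B (Fl F e i) = Fl F e j := by
  ext v
  refine ⟨fun hv => (b.mem_Fl (by omega)).2 fun l h1 h2 => ?_, fun hv y hy => b.B_Fl hij.le hy hv⟩
  exact co_eq_zero.2 (hv _ (Rq.Fl.mem (by omega)))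

theorem Fb.finrank_Fl (b : Fb B k e) {j : ℕ} (hj : j ≤ 2 * k) : finrank F (Fl F e j) = j := by
  have h1 : Fl F e j = Submodule.span F (Set.range fun i : Fin j => e i) := by
    rw [Fl]; congr 1; ext v
    exact ⟨fun ⟨i, hi, h⟩ => ⟨⟨i, hi⟩, h⟩, fun ⟨i, h⟩ => ⟨i, i.2, h⟩⟩
  rw [h1, finrank_span_eq_card (b.li hj), Fintype.card_fin]

theorem Fl_one : Fl F e 1 = Submodule.span F {e 0} := by
  rw [Fl]; congr 1; ext v
  simp

theorem Fl_two : Fl F e 2 = Submodule.span F {e 0, e 1} := by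
  rw [Fl]; congr 1; ext v
  simp only [Set.mem_image, Set.mem_Iio, Set.mem_insert_iff, Set.mem_singleton_iff]
  constructor
  · rintro ⟨i, hi, rfl⟩
    interval_cases i <;> simp
  · rintro (rfl | rfl)
    exacts [⟨0, by omega, rfl⟩, ⟨1, by omega, rfl⟩]

theorem Fl_three : Fl F e 3 = Submodule.span F {e 0, e 1, e 2} := by
  rw [Fl]; congr 1; ext v
  simp only [Set.mem_image, Set.mem_Iio, Set.mem_insert_iff, Set.mem_singleton_iff]
  constructor
  · rintro ⟨i, hi, rfl⟩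
    interval_cases i <;> simp
  · rintro (rfl | rfl | rfl)
    exacts [⟨0, by omega, rfl⟩, ⟨1, by omega, rfl⟩, ⟨2, by omega, rfl⟩]

theorem Sy.mem_St (h : Sy B) {Y : Submodule F V} {g : GG B} (hg : ∀ v ∈ Y, g.1 v ∈ Y) :
    g ∈ St B Y := by
  have := UT.fin h
  have hi := Rq.inv_mem_of_fin (S := {g : GG B | ∀ v ∈ Y, g.1 v ∈ Y})
    (fun v hv => hv) (fun {a c} ha hc v hv => ha _ (hc v hv)) hg
  exact fun v => ⟨fun hv => GG.apply_inv g v ▸ hi _ hv, hg v⟩

theorem Sy.mem_St_Fl (h : Sy B) {g : GG B} {j : ℕ} (hg : ∀ i < j, g.1 (e i) ∈ Fl F e j) :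
    g ∈ St B (Fl F e j) :=
  h.mem_St fun _ hv => Rq.Fl.ind (g.1 : V →ₗ[F] V) _ hg hv

theorem St.map {Y : Submodule F V} {g : GG B} (hg : g ∈ St B Y) {v : V} (hv : v ∈ Y) :
    g.1 v ∈ Y := (hg v).2 hv

theorem St_Pp {Y : Submodule F V} {g : GG B} (hg : g ∈ St B Y) : g ∈ St B (Pp B Y) := by
  intro v
  constructor
  · intro hv y hy
    rw [← GG.map g]
    exact hv _ (St.map hg hy)
  · intro hv y hy
    rw [← GG.inv_apply g y, GG.map]
    exact hv _ (St.map ((St B Y).inv_mem hg) hy)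

theorem Fb.St_rev (b : Fb B k e) {i j : ℕ} (hij : i + j = 2 * k) {g : GG B}
    (hg : g ∈ St B (Fl F e i)) : g ∈ St B (Fl F e j) := b.Pp_Fl hij ▸ St_Pp hg

theorem Fb.St_all (b : Fb B k e) {g : GG B} (hg : ∀ j ≤ k, g ∈ St B (Fl F e j)) {j : ℕ}
    (hj : j ≤ 2 * k) : g ∈ St B (Fl F e j) := by
  by_cases h1 : j ≤ k
  · exact hg j h1
  · exact b.St_rev (i := 2 * k - j) (by omega) (hg _ (by omega))

theorem mem_Pa {S : ℕ → Prop} {g : GG B} :
    g ∈ Pa B k e S ↔ ∀ j ≤ k, S j → g ∈ St B (Fl F e j) := Iff.rfl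

theorem UT.step {g : GG B} {n : ℕ} (hg : ∀ j < n, g.1 (e j) - e j ∈ Fl F e j) {j : ℕ} (hj : j < n)
    {v : V} (hv : v ∈ Fl F e (j + 1)) : g.1 v - v ∈ Fl F e j :=
  Rq.Fl.ind ((g.1 : V →ₗ[F] V) - LinearMap.id) _
    (fun i hi => Rq.Fl.mono (by omega) (hg i (by omega))) hv

theorem Fb.mem_Uu (h : Sy B) (_b : Fb B k e) {g : GG B} :
    g ∈ Uu B k e ↔ ∀ j < 2 * k, g.1 (e j) - e j ∈ Fl F e j := by
  have := UT.fin h
  refine ⟨fun hg j hj => (hg j hj _ (Rq.Fl.mem j.lt_succ_self)).1, fun hg j hj v hv =>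
    ⟨UT.step hg hj hv, UT.step ?_ hj hv⟩⟩
  refine Rq.inv_mem_of_fin (S := {g : GG B | ∀ j < 2 * k, g.1 (e j) - e j ∈ Fl F e j})
    (fun j _ => by simp) (fun {a c} ha hc j hj => ?_) hg
  have h1 := hc j hj
  have h2 : c.1 (e j) ∈ Fl F e (j + 1) := by
    simpa using Submodule.add_mem _ (Rq.Fl.mono (Nat.le_succ j) h1) (Rq.Fl.mem j.lt_succ_self)
  simpa using Submodule.add_mem _ (UT.step ha hj h2) h1

theorem Fb.mem_Uu_half (h : Sy B) (b : Fb B k e) {g : GG B}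
    (hg : ∀ j < k, g.1 (e j) - e j ∈ Fl F e j) : g ∈ Uu B k e := by
  have hs : ∀ j ≤ k, g ∈ St B (Fl F e j) := fun j hj => h.mem_St_Fl fun i hi => by
    simpa using Submodule.add_mem _ (Rq.Fl.mono hi.le (hg i (by omega))) (Rq.Fl.mem hi)
  rw [b.mem_Uu h]
  intro j hj
  by_cases h1 : j < k
  · exact hg j h1
  have h2 : g.1 (e j) ∈ Fl F e (j + 1) := St.map (b.St_all hs hj) (Rq.Fl.mem j.lt_succ_self)
  have h3 := b.Fl_succ hj h2
  have h4 : co B k e j (g.1 (e j)) = 1 := by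
    have h5 := GG.map g (e (2 * k - 1 - j)) (e j)
    have h6 := b.B_Fl (by omega) (hg (2 * k - 1 - j) (by omega)) h2
    rw [map_sub, LinearMap.sub_apply, h5, ← co_ge (k := k) (by omega), ← co_ge (k := k) (by omega),
      b.co_e hj hj, if_pos rfl] at h6
    linear_combination -h6
  rwa [h4, one_smul] at h3

theorem Fb.mem_Nn (h : Sy B) (_b : Fb B k e) {g : GG B} :
    g ∈ Nn B k e ↔ ∀ j < 2 * k, ∃ i < 2 * k, ∃ c : Fˣ, g.1 (e j) = (c : F) • e i := by
  have := UT.fin h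
  refine ⟨fun hg j hj => (hg j hj).1, fun hg j hj => ⟨hg j hj, ?_⟩⟩
  refine Rq.inv_mem_of_fin
    (S := {g : GG B | ∀ j < 2 * k, ∃ i < 2 * k, ∃ c : Fˣ, g.1 (e j) = (c : F) • e i})
    (fun j hj => ⟨j, hj, 1, by simp⟩) (fun {a c} ha hc j hj => ?_) hg j hj
  obtain ⟨i, hi, r, hr⟩ := hc j hj
  obtain ⟨l, hl, d, hd⟩ := ha i hi
  exact ⟨l, hl, r * d, by simp [hr, hd, smul_smul]⟩

theorem U_Fl {u : GG B} (hu : u ∈ Uu B k e) {j : ℕ} (hj : j ≤ 2 * k) {v : V}
    (hv : v ∈ Fl F e j) : u.1 v ∈ Fl F e j := by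
  refine Rq.Fl.ind (u.1 : V →ₗ[F] V) _ (fun i hi => ?_) hv
  have := (hu i (by omega) _ (Rq.Fl.mem i.lt_succ_self)).1
  simpa using Submodule.add_mem _ (Rq.Fl.mono hi.le this) (Rq.Fl.mem hi)

theorem U_sub {u : GG B} (hu : u ∈ Uu B k e) {j : ℕ} (hj : j < 2 * k) {v : V}
    (hv : v ∈ Fl F e (j + 1)) : u.1 v - v ∈ Fl F e j := (hu j hj v hv).1

theorem Sy.U_St (h : Sy B) {u : GG B} (hu : u ∈ Uu B k e) {j : ℕ} (hj : j ≤ 2 * k) :
    u ∈ St B (Fl F e j) := h.mem_St fun _ hv => U_Fl hu hj hv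

theorem Sy.T_St (h : Sy B) {t : GG B} (ht : t ∈ Tt B k e) {j : ℕ} (hj : j ≤ 2 * k) :
    t ∈ St B (Fl F e j) := h.mem_St_Fl fun i hi => by
  obtain ⟨c, hc⟩ := ht i (by omega)
  rw [hc]
  exact Submodule.smul_mem _ _ (Rq.Fl.mem hi)

theorem Fb.U_tri (b : Fb B k e) {u : GG B} (hu : u ∈ Uu B k e) {i j : ℕ} (hi : i < 2 * k)
    (hij : j ≤ i) : co B k e i (u.1 (e j)) = if i = j then 1 else 0 := by
  have h1 := b.co_Fl hij hi (U_sub hu (by omega) (Rq.Fl.mem j.lt_succ_self))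
  rw [map_sub, sub_eq_zero] at h1
  rw [h1, b.co_e hi (by omega)]

theorem Fb.U_co (b : Fb B k e) {u : GG B} (hu : u ∈ Uu B k e) {i : ℕ} (hi : i < 2 * k) {v : V}
    (hv : v ∈ Fl F e (i + 1)) : co B k e i (u.1 v) = co B k e i v := by
  have h1 := b.co_Fl le_rfl hi (U_sub hu hi hv)
  rwa [map_sub, sub_eq_zero] at h1

theorem Fb.U_zero (h : Sy B) (b : Fb B k e) {u : GG B} (hu : u ∈ Uu B k e) :
    u.1 (e 0) = e 0 ∧ u.1 (e 1) = e 1 + co B k e 0 (u.1 (e 1)) • e 0 := by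
  have h6 := b.k3 h
  rw [b.mem_Uu h] at hu
  constructor
  · simpa [Rq.Fl.zero, sub_eq_zero] using hu 0 (by omega)
  · have h1 := b.Fl_succ (j := 0) (by omega) (hu 1 (by omega))
    have h2 := b.co_e (i := 0) (j := 1) (by omega) (by omega)
    rw [Rq.Fl.zero, Submodule.mem_bot, map_sub, h2] at h1
    simp only [zero_ne_one, if_false, sub_zero] at h1
    rw [← sub_eq_zero, ← h1]; abel

theorem Fb.ent_mul (b : Fb B k e) {u u' : GG B} (hu : u ∈ Uu B k e) (hu' : u' ∈ Uu B k e)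
    {i : ℕ} (hi : i + 1 < 2 * k) : co B k e i ((u * u').1 (e (i + 1))) =
      co B k e i (u.1 (e (i + 1))) + co B k e i (u'.1 (e (i + 1))) := by
  have h1 := b.U_co hu (by omega) (U_sub hu' hi (Rq.Fl.mem (i + 1).lt_succ_self))
  rw [map_sub, map_sub, map_sub, b.co_e (by omega) hi, if_neg (by omega)] at h1
  rw [GG.mul_apply]
  linear_combination h1

theorem Fb.pgroup (h : Sy B) (b : Fb B k e) : IsPGroup (ringChar F) (Uu B k e) := by
  rintro ⟨u, hu⟩
  have hp : (ringChar F).Prime := CharP.char_is_prime F _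
  have : Fact (ringChar F).Prime := ⟨hp⟩
  have := h.fd
  have : Nontrivial V := ⟨⟨e 0, 0, b.ne (by have := b.k3 h; omega)⟩⟩
  have : CharP (Module.End F V) (ringChar F) :=
    charP_of_injective_algebraMap (algebraMap F (Module.End F V)).injective _
  set x : Module.End F V := (u.1 : V →ₗ[F] V) - 1 with hx
  have h1 : ∀ j ≤ 2 * k, ∀ v ∈ Fl F e j, (x ^ j) v = 0 := by
    intro j
    induction j with
    | zero => intro _ v hv; simpa [Rq.Fl.zero] using hv
    | succ j ih =>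
      intro hj v hv
      rw [pow_succ, Module.End.mul_apply]
      exact ih (by omega) _ (hu j (by omega) v hv).1
  have h2 : x ^ (2 * k) = 0 := LinearMap.ext fun v => h1 _ le_rfl v (b.Fl_top v)
  refine ⟨2 * k, Subtype.ext (Subtype.ext (LinearEquiv.toLinearMap_injective ?_))⟩
  have h3 : (u.1 : Module.End F V) = x + 1 := by rw [hx]; abel
  have h4 : x ^ ringChar F ^ (2 * k) = 0 := by
    obtain ⟨l, hl⟩ := Nat.exists_eq_add_of_le (Nat.lt_pow_self hp.one_lt (n := 2 * k)).le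
    rw [hl, pow_add, h2, zero_mul]
  have h5 : (u.1 : Module.End F V) ^ ringChar F ^ (2 * k) = 1 := by
    rw [h3, add_pow_char_pow_of_commute _ _ (Commute.one_right x), h4, one_pow, zero_add]
  have h6 : ∀ m : ℕ, ((u.1 ^ m : V ≃ₗ[F] V) : Module.End F V) = (u.1 : Module.End F V) ^ m := by
    intro m
    induction m with
    | zero => rfl
    | succ m ih => rw [pow_succ, pow_succ, LinearEquiv.coe_toLinearMap_mul, ih]
  simpa [h6, Module.End.one_eq_id] using h5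

end CF.Rs
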