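import Cfsg.Agent.Rs.A2
import Cfsg.Agent.Geom.Groups

/-! The standard symplectic space has a basis with antidiagonal Gram matrix. -/

set_option autoImplicit false
open MulAction Module

namespace CF.Rs

theorem exists_std {F : Type*} [Field F] [Fintype F] (k : ℕ) (hk : 3 ≤ k) (h2 : (2 : F) ≠ 0) :
    ∃ (B : (Fin k ⊕ Fin k → F) →ₗ[F] (Fin k ⊕ Fin k → F) →ₗ[F] F) (e : ℕ → Fin k ⊕ Fin k → F),
      Sy B ∧ Fb B k e ∧ Nonempty (GG B ≃* Matrix.symplecticGroup (Fin k) F) := by
  have dim : finrank F (Fin k ⊕ Fin k → F) = 2 * k := by simp [two_mul]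
  let e : ℕ → Fin k ⊕ Fin k → F := fun i =>
    Sum.elim (fun j => if j.1 = 2 * k - 1 - i then 1 else 0) fun j => if j.1 = i then 1 else 0
  have s : ∀ a b : ℕ, ∑ l : Fin k, (if l.1 = a then (1 : F) else 0) * (if l.1 = b then 1 else 0) =
      if a < k ∧ a = b then 1 else 0 := fun a b => by
    split_ifs with h
    · rw [Finset.sum_eq_single ⟨a, h.1⟩ (fun l _ hl => by rw [if_neg fun c => hl (Fin.ext c), zero_mul]) (by simp)]
      simp [h.2]
    · refine Finset.sum_eq_zero fun l _ => ?_
      have := l.2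
      split_ifs <;> first | omega | simp
  refine ⟨Geom.sympBilin k F, e, ⟨h2, Geom.sympBilin_isAlt k, (Geom.sympBilin_nondegenerate k).1, inferInstance,
    by omega⟩, ⟨fun i hi j hj => ?_, ?_, dim⟩,
    ⟨(MulEquiv.subgroupCongr (show SP _ = _ from Subgroup.ext fun g => Geom.mem_SpG.symm)).trans
      (Geom.spEquiv k F).symm⟩⟩
  · rw [Geom.sympBilin_apply, Geom.sympForm_eq_sum, Finset.sum_sub_distrib]
    simp only [e, Sum.elim_inl, Sum.elim_inr, s]
    split_ifs <;> first | omega | simp
  · rw [eq_top_iff, ← (Pi.basisFun F _).span_eq]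
    refine Submodule.span_mono ?_
    rintro _ ⟨x | x, rfl⟩ <;> have := x.2
    · refine ⟨2 * k - 1 - x, by simp; omega, funext fun y => ?_⟩
      rcases y with y | y <;> have := y.2 <;> simp [e, Pi.single_apply, Fin.ext_iff] <;> first | omega | congr 2; omega
    · refine ⟨x, by simp; omega, funext fun y => ?_⟩
      rcases y with y | y <;> have := y.2 <;> simp [e, Pi.single_apply, Fin.ext_iff]; omega

end CF.Rs
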